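import Mathlib

/-!
# Changing the generators of a presentation
-/

set_option autoImplicit false

namespace Cfsg.Agent.Lib.BoundedPres

universe u v w

/-- A group has a presentation with at most `m` relations. -/
def HasPres (G : Type u) [Group G] (m : ℕ) : Prop :=
  ∃ (d : ℕ) (rels : Finset (FreeGroup (Fin d))), rels.card ≤ m ∧
    Nonempty (PresentedGroup (↑rels : Set (FreeGroup (Fin d))) ≃* G)

theorem HasPres.congr {G : Type u} [Group G] {H : Type v} [Group H] {m : ℕ} (h : HasPres G m) (e : G ≃* H) :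
    HasPres H m := by
  obtain ⟨d, R, hR, ⟨f⟩⟩ := h
  exact ⟨d, R, hR, ⟨f.trans e⟩⟩

theorem HasPres.mono {G : Type u} [Group G] {m m' : ℕ} (h : HasPres G m) (hm : m ≤ m') : HasPres G m' := by
  obtain ⟨d, R, hR, e⟩ := h
  exact ⟨d, R, hR.trans hm, e⟩

theorem HasPres.mk' {G : Type u} [Group G] {m d : ℕ} (rels : Finset (FreeGroup (Fin d))) (hm : rels.card ≤ m)
    (e : PresentedGroup (↑rels : Set (FreeGroup (Fin d))) ≃* G) : HasPres G m :=
  ⟨d, rels, hm, ⟨e⟩⟩

theorem lift_lift {α β : Type*} {H : Type*} [Group H] (f : β → H) (w : α → FreeGroup β) (x : FreeGroup α) :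
    FreeGroup.lift f (FreeGroup.lift w x) = FreeGroup.lift (fun a => FreeGroup.lift f (w a)) x :=
  DFunLike.congr_fun (FreeGroup.ext_hom ((FreeGroup.lift f).comp (FreeGroup.lift w))
    (FreeGroup.lift fun a => FreeGroup.lift f (w a)) fun a => by simp) x

theorem lift_map' {α β : Type*} {H : Type*} [Group H] (f : β → H) (φ : α → β) (x : FreeGroup α) :
    FreeGroup.lift f (FreeGroup.map φ x) = FreeGroup.lift (f ∘ φ) x :=
  DFunLike.congr_fun (FreeGroup.ext_hom ((FreeGroup.lift f).comp (FreeGroup.map φ)) (FreeGroup.lift (f ∘ φ))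
    fun a => by simp) x

theorem lift_mk {α : Type*} (R : Set (FreeGroup α)) (x : FreeGroup α) :
    FreeGroup.lift (PresentedGroup.of (rels := R)) x = PresentedGroup.mk R x :=
  DFunLike.congr_fun (FreeGroup.ext_hom (FreeGroup.lift (PresentedGroup.of (rels := R))) (PresentedGroup.mk R)
    fun a => by simp [PresentedGroup.of]) x

/-- A presentation with `m` relations gives one with `m + 2` relations on any generating pair. -/
theorem HasPres.two_gen {G : Type u} [Group G] {m : ℕ} (h : HasPres G m) (a b : G)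
    (hab : Subgroup.closure ({a, b} : Set G) = ⊤) :
    ∃ rels : Finset (FreeGroup (Fin 2)), rels.card ≤ m + 2 ∧
      ∃ e : PresentedGroup (↑rels : Set (FreeGroup (Fin 2))) ≃* G,
        e (PresentedGroup.of 0) = a ∧ e (PresentedGroup.of 1) = b := by
  classical
  obtain ⟨d, R, hR, ⟨e⟩⟩ := h
  let f : Fin 2 → G := ![a, b]
  have hf : Function.Surjective (FreeGroup.lift f) := by
    rw [← MonoidHom.range_eq_top, eq_top_iff, ← hab, Subgroup.closure_le]
    rintro x (rfl | rfl)
    · exact ⟨FreeGroup.of 0, by simp [f]⟩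
    · exact ⟨FreeGroup.of 1, by simp [f]⟩
  choose w hw using fun i : Fin d => hf (e (PresentedGroup.of i))
  choose W hW using fun g : G => PresentedGroup.mk_surjective (↑R : Set (FreeGroup (Fin d))) (e.symm g)
  let rels : Finset (FreeGroup (Fin 2)) := R.image (FreeGroup.lift w) ∪
    {FreeGroup.of 0 * (FreeGroup.lift w (W a))⁻¹, FreeGroup.of 1 * (FreeGroup.lift w (W b))⁻¹}
  have key : ∀ x, FreeGroup.lift f (FreeGroup.lift w x) = e (PresentedGroup.mk (↑R : Set (FreeGroup (Fin d))) x) := by
    intro x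
    rw [lift_lift]
    exact DFunLike.congr_fun (FreeGroup.ext_hom (FreeGroup.lift fun i => FreeGroup.lift f (w i))
      (e.toMonoidHom.comp (PresentedGroup.mk _)) fun i => by simp [hw, PresentedGroup.of]) x
  have hrels : ∀ r ∈ (↑rels : Set (FreeGroup (Fin 2))), FreeGroup.lift f r = 1 := by
    intro r hr
    simp only [rels, Finset.coe_union, Set.mem_union, Finset.coe_image, Set.mem_image, Finset.mem_coe, Finset.mem_insert,
      Finset.mem_singleton] at hr
    rcases hr with ⟨r', hr', rfl⟩ | rfl | rfl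
    · rw [key, PresentedGroup.one_of_mem (Finset.mem_coe.2 hr'), map_one]
    · rw [map_mul, map_inv, key, hW, MulEquiv.apply_symm_apply]; simp [f]
    · rw [map_mul, map_inv, key, hW, MulEquiv.apply_symm_apply]; simp [f]
  let φ := PresentedGroup.toGroup hrels
  have hθ : ∀ r ∈ (↑R : Set (FreeGroup (Fin d))),
      FreeGroup.lift (fun i => PresentedGroup.mk (↑rels : Set (FreeGroup (Fin 2))) (w i)) r = 1 := by
    intro r hr
    have h1 : FreeGroup.lift (fun i => PresentedGroup.mk (↑rels : Set (FreeGroup (Fin 2))) (w i)) r =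
        PresentedGroup.mk (↑rels : Set (FreeGroup (Fin 2))) (FreeGroup.lift w r) := by
      rw [← lift_mk, lift_lift]
      simp only [lift_mk]
    rw [h1]
    exact PresentedGroup.one_of_mem (Finset.mem_coe.2 (Finset.mem_union_left _ (Finset.mem_image_of_mem _ hr)))
  let θ := PresentedGroup.toGroup hθ
  have hθmk : ∀ x, θ (PresentedGroup.mk _ x) = PresentedGroup.mk (↑rels : Set (FreeGroup (Fin 2))) (FreeGroup.lift w x) := by
    intro x
    exact DFunLike.congr_fun (FreeGroup.ext_hom (θ.comp (PresentedGroup.mk _))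
      ((PresentedGroup.mk (↑rels : Set (FreeGroup (Fin 2)))).comp (FreeGroup.lift w)) fun i => by
        simp only [MonoidHom.comp_apply, FreeGroup.lift_apply_of]
        exact PresentedGroup.toGroup.of hθ) x
  have hφθ : ∀ y, φ (θ y) = e y := by
    intro y
    obtain ⟨x, rfl⟩ := PresentedGroup.mk_surjective _ y
    rw [hθmk, ← key]
    rfl
  have hsurj : Function.Surjective θ := by
    rw [← MonoidHom.range_eq_top, eq_top_iff, ← PresentedGroup.closure_range_of, Subgroup.closure_le]
    rintro _ ⟨i, rfl⟩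
    fin_cases i
    · refine ⟨PresentedGroup.mk _ (W a), ?_⟩
      rw [hθmk]
      refine (PresentedGroup.mk_eq_mk_of_mul_inv_mem (Finset.mem_coe.2 ?_)).symm
      exact Finset.mem_union_right _ (Finset.mem_insert_self _ _)
    · refine ⟨PresentedGroup.mk _ (W b), ?_⟩
      rw [hθmk]
      refine (PresentedGroup.mk_eq_mk_of_mul_inv_mem (Finset.mem_coe.2 ?_)).symm
      exact Finset.mem_union_right _ (Finset.mem_insert_of_mem (Finset.mem_singleton_self _))
  have hbij : Function.Bijective φ := by
    refine ⟨?_, fun g => ⟨θ (e.symm g), by rw [hφθ, MulEquiv.apply_symm_apply]⟩⟩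
    rw [← MonoidHom.ker_eq_bot_iff, eq_bot_iff]
    intro x hx
    obtain ⟨y, rfl⟩ := hsurj x
    rw [MonoidHom.mem_ker, hφθ, MulEquiv.map_eq_one_iff] at hx
    rw [Subgroup.mem_bot, hx, map_one]
  refine ⟨rels, (Finset.card_union_le _ _).trans (Nat.add_le_add (Finset.card_image_le.trans hR) Finset.card_le_two),
    MulEquiv.ofBijective φ hbij, ?_, ?_⟩
  · exact PresentedGroup.toGroup.of hrels
  · exact PresentedGroup.toGroup.of hrels

/-- A presentation of a quotient by the normal closure of one further element. -/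
theorem HasPres.quotient {G : Type u} [Group G] {Q : Type v} [Group Q] {m : ℕ} (h : HasPres G m) (π : G →* Q)
    (hπ : Function.Surjective π) (z : G) (hker : π.ker = Subgroup.normalClosure {z}) : HasPres Q (m + 1) := by
  classical
  obtain ⟨d, R, hR, ⟨e⟩⟩ := h
  obtain ⟨W, hW⟩ := PresentedGroup.mk_surjective (↑R : Set (FreeGroup (Fin d))) (e.symm z)
  let f : Fin d → Q := fun i => π (e (PresentedGroup.of i))
  have key : FreeGroup.lift f = π.comp (e.toMonoidHom.comp (PresentedGroup.mk _)) :=
    FreeGroup.ext_hom _ _ fun a => by simp [f, PresentedGroup.of]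
  have hz : z ∈ π.ker := hker ▸ Subgroup.subset_normalClosure rfl
  have hrels : ∀ r ∈ (↑(insert W R) : Set (FreeGroup (Fin d))), FreeGroup.lift f r = 1 := by
    intro r hr
    rw [key]
    rcases Finset.mem_insert.1 (Finset.mem_coe.1 hr) with rfl | hr
    · simp [hW, MonoidHom.mem_ker.1 hz]
    · simp [PresentedGroup.one_of_mem (Finset.mem_coe.2 hr)]
  let φ := PresentedGroup.toGroup hrels
  let n : PresentedGroup (↑R : Set (FreeGroup (Fin d))) →* PresentedGroup (↑(insert W R) : Set (FreeGroup (Fin d))) :=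
    QuotientGroup.map _ _ (MonoidHom.id _) (Subgroup.normalClosure_mono (by rw [Finset.coe_insert]; exact Set.subset_insert _ _))
  have hn : ∀ x, n (PresentedGroup.mk _ x) = PresentedGroup.mk _ x := fun x => rfl
  have hφn : ∀ y, φ (n y) = π (e y) := fun y => by
    obtain ⟨x, rfl⟩ := PresentedGroup.mk_surjective _ y
    rw [hn]
    exact DFunLike.congr_fun key x
  have hker' : π.ker ≤ (n.comp e.symm.toMonoidHom).ker := by
    rw [hker]
    refine Subgroup.normalClosure_le_normal (Set.singleton_subset_iff.2 ?_)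
    show n (e.symm z) = 1
    rw [← hW, hn]
    exact PresentedGroup.one_of_mem (Finset.mem_coe.2 (Finset.mem_insert_self _ _))
  refine ⟨d, insert W R, (Finset.card_insert_le _ _).trans (Nat.succ_le_succ hR), ⟨MulEquiv.ofBijective φ ⟨?_, ?_⟩⟩⟩
  · rw [← MonoidHom.ker_eq_bot_iff, eq_bot_iff]
    intro x hx
    obtain ⟨x, rfl⟩ := PresentedGroup.mk_surjective _ x
    rw [← hn, MonoidHom.mem_ker, hφn] at hx
    rw [Subgroup.mem_bot, ← hn]
    have := hker' hx
    rwa [MonoidHom.mem_ker, MonoidHom.comp_apply, MulEquiv.coe_toMonoidHom, MulEquiv.symm_apply_apply] at this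
  · intro q
    obtain ⟨g, rfl⟩ := hπ q
    exact ⟨n (e.symm g), by rw [hφn, MulEquiv.apply_symm_apply]⟩

end Cfsg.Agent.Lib.BoundedPres
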