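import Cfsg.Agent.Lib.BoundedPres.Star
import Cfsg.Agent.Lib.BoundedPres.Tietze

/-!
# The even permutations of a subset
-/

set_option autoImplicit false

namespace Cfsg.Agent.Lib.BoundedPres

open Equiv Equiv.Perm

variable {α : Type*} [Fintype α] [DecidableEq α]

/-- The even permutations supported on `X`. -/
def AltOn (X : Finset α) : Subgroup (Perm α) where
  carrier := {σ | Perm.sign σ = 1 ∧ ∀ x, x ∉ X → σ x = x}
  one_mem' := ⟨map_one _, fun _ _ => rfl⟩
  mul_mem' := fun {a b} ha hb => ⟨by rw [map_mul, ha.1, hb.1, one_mul], fun x hx => by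
    rw [Perm.mul_apply, hb.2 x hx, ha.2 x hx]⟩
  inv_mem' := fun {a} ha => ⟨by rw [map_inv, ha.1, inv_one], fun x hx => by
    conv_lhs => rw [← ha.2 x hx]
    exact a.symm_apply_apply x⟩

theorem mem_altOn {X : Finset α} {σ : Perm α} :
    σ ∈ AltOn X ↔ Perm.sign σ = 1 ∧ ∀ x, x ∉ X → σ x = x := Iff.rfl

theorem altOn_mono {X Y : Finset α} (h : X ⊆ Y) : AltOn X ≤ AltOn Y :=
  fun _ hσ => ⟨hσ.1, fun x hx => hσ.2 x fun hx' => hx (h hx')⟩

theorem altOn_univ : AltOn (Finset.univ : Finset α) = alternatingGroup α := by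
  ext σ
  rw [mem_altOn, mem_alternatingGroup]
  exact ⟨fun h => h.1, fun h => ⟨h, fun x hx => absurd (Finset.mem_univ x) hx⟩⟩

theorem altOn_le_alternating (X : Finset α) : AltOn X ≤ alternatingGroup α :=
  fun _ hσ => mem_alternatingGroup.2 hσ.1

theorem apply_mem {X : Finset α} {σ : Perm α} (hσ : σ ∈ AltOn X) {x : α} (hx : x ∈ X) : σ x ∈ X := by
  by_contra h
  exact h (by rwa [σ.injective (hσ.2 (σ x) h)])

/-- The even permutations of the subtype. -/
noncomputable def altOnEquiv (X : Finset α) : alternatingGroup {x // x ∈ X} ≃* AltOn X :=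
  MulEquiv.ofBijective
    ((Perm.ofSubtype.comp (alternatingGroup {x // x ∈ X}).subtype).codRestrict (AltOn X) fun σ =>
      ⟨by rw [MonoidHom.comp_apply, Subgroup.coe_subtype, sign_ofSubtype]; exact mem_alternatingGroup.1 σ.2,
        fun x hx => Perm.ofSubtype_apply_of_not_mem _ hx⟩)
    ⟨fun a b e => Subtype.ext (Perm.ofSubtype_injective (congrArg Subtype.val e)), fun σ => by
      obtain ⟨hs, hf⟩ := σ.2
      have h1 : ∀ x, (σ : Perm α) x ∈ X ↔ x ∈ X := fun x => by
        refine ⟨fun h => ?_, apply_mem σ.2⟩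
        by_contra hx
        rw [hf x hx] at h
        exact hx h
      have h2 : ∀ x, (σ : Perm α) x ≠ x → x ∈ X := fun x hx => by_contra fun h => hx (hf x h)
      refine ⟨⟨(σ : Perm α).subtypePerm h1, mem_alternatingGroup.2 ?_⟩, Subtype.ext ?_⟩
      · exact (by convert sign_subtypePerm (σ : Perm α) h1 h2 : _ = Perm.sign (σ : Perm α)).trans hs
      · exact Perm.ofSubtype_subtypePerm h1 h2⟩

theorem two_mul_card_altOn {X : Finset α} (hX : 2 ≤ X.card) : 2 * Nat.card (AltOn X) = X.card.factorial := by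
  haveI : Nontrivial {x // x ∈ X} := Fintype.one_lt_card_iff_nontrivial.1 (by rw [Fintype.card_coe]; omega)
  rw [← Nat.card_congr (altOnEquiv X).toEquiv, two_mul_nat_card_alternatingGroup, Nat.card_perm,
    Nat.card_eq_fintype_card, Fintype.card_coe]

/-- Products with one fixed swap generate all even permutations. -/
theorem alternating_le_of_pairs {S : Set (Perm α)} (hS : ∀ s ∈ S, s.IsSwap) (hgen : Subgroup.closure S = ⊤)
    {s0 : Perm α} (hs0 : s0 ∈ S) {H : Subgroup (Perm α)} (hH : ∀ s ∈ S, s * s0 ∈ H) :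
    alternatingGroup α ≤ H ⊓ alternatingGroup α := by
  have hinv : ∀ s ∈ S, s⁻¹ = s := fun s hs => by
    obtain ⟨a, b, _, rfl⟩ := hS s hs
    exact swap_inv a b
  have hH' : ∀ s ∈ S, s0 * s ∈ H := fun s hs => by
    have := inv_mem (hH s hs)
    rwa [_root_.mul_inv_rev, hinv s hs, hinv s0 hs0] at this
  have hsq : s0 * s0 = 1 := by
    conv_lhs => arg 1; rw [← hinv s0 hs0]
    exact inv_mul_cancel s0
  have hall : ∀ σ : Perm α, (σ ∈ H ⊓ alternatingGroup α) ∨ (s0 * σ ∈ H ⊓ alternatingGroup α) := by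
    intro σ
    have hA : ∀ s ∈ S, ∀ s' ∈ S, s * s' ∈ alternatingGroup α := fun s hs s' hs' =>
      mem_alternatingGroup.2 (by rw [map_mul, (hS s hs).sign_eq, (hS s' hs').sign_eq]; rfl)
    have hσ : σ ∈ Subgroup.closure S := hgen ▸ Subgroup.mem_top σ
    induction hσ using Subgroup.closure_induction_left with
    | one => exact Or.inl (one_mem _)
    | mul_left s hs y _ ih =>
      rcases ih with h | h
      · refine Or.inr ?_
        rw [← mul_assoc]
        exact mul_mem ⟨hH' s hs, hA s0 hs0 s hs⟩ h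
      · refine Or.inl ?_
        rw [show s * y = (s * s0) * (s0 * y) by rw [mul_assoc, ← mul_assoc s0, hsq, one_mul]]
        exact mul_mem ⟨hH s hs, hA s hs s0 hs0⟩ h
    | inv_mul_cancel s hs y _ ih =>
      rw [hinv s hs]
      rcases ih with h | h
      · refine Or.inr ?_
        rw [← mul_assoc]
        exact mul_mem ⟨hH' s hs, hA s0 hs0 s hs⟩ h
      · refine Or.inl ?_
        rw [show s * y = (s * s0) * (s0 * y) by rw [mul_assoc, ← mul_assoc s0, hsq, one_mul]]
        exact mul_mem ⟨hH s hs, hA s hs s0 hs0⟩ h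
  intro σ hσ
  rcases hall σ with h | h
  · exact h
  · have h2 := mem_alternatingGroup.1 h.2
    rw [map_mul, mem_alternatingGroup.1 hσ, mul_one, (hS s0 hs0).sign_eq] at h2
    exact absurd h2 (by decide)

omit [Fintype α] in
theorem swap_star_mem {o : α} {H : Subgroup (Perm α)} (h : ∀ i, i ≠ o → swap o i ∈ H) (a b : α) : swap a b ∈ H := by
  rcases eq_or_ne a b with rfl | hab
  · rw [swap_self]; exact one_mem H
  rcases eq_or_ne a o with rfl | ha
  · exact h b hab.symm
  rcases eq_or_ne b o with rfl | hb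
  · rw [swap_comm]; exact h a ha
  have e : swap o a * swap o b * swap o a = swap a b := by
    ext x
    simp only [Perm.mul_apply, swap_apply_def]
    split_ifs <;> simp_all
  rw [← e]
  exact mul_mem (mul_mem (h a ha) (h b hb)) (h a ha)

theorem closure_star (o : α) : Subgroup.closure {σ : Perm α | ∃ i, i ≠ o ∧ σ = swap o i} = ⊤ := by
  rw [eq_top_iff, ← Perm.closure_isSwap, Subgroup.closure_le]
  rintro _ ⟨a, b, _, rfl⟩
  exact swap_star_mem (H := Subgroup.closure {σ : Perm α | ∃ i, i ≠ o ∧ σ = swap o i}) (o := o)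
    (fun i hi => Subgroup.subset_closure (show swap o i ∈ {σ : Perm α | ∃ j, j ≠ o ∧ σ = swap o j} from ⟨i, hi, rfl⟩)) a b

/-- The three-cycle `(o₁ o₂ i)`. -/
def cyc (o1 o2 i : α) : Perm α := swap o1 i * swap o1 o2

omit [Fintype α] in
theorem cyc_rel {o1 o2 : α} (ho : o1 ≠ o2) {i j : α} (hi1 : i ≠ o1) (hi2 : i ≠ o2) (hj1 : j ≠ o1) (hj2 : j ≠ o2) :
    cyc o1 o2 i ^ 3 = 1 ∧ (i ≠ j → (cyc o1 o2 i * cyc o1 o2 j) ^ 2 = 1) := by
  have happ : ∀ {k : α}, k ≠ o1 → k ≠ o2 → cyc o1 o2 k o1 = o2 ∧ cyc o1 o2 k o2 = k ∧ cyc o1 o2 k k = o1 ∧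
      ∀ x, x ≠ o1 → x ≠ o2 → x ≠ k → cyc o1 o2 k x = x := fun {k} hk1 hk2 =>
    ⟨by simp [cyc, swap_apply_of_ne_of_ne ho.symm hk2.symm], by simp [cyc], by simp [cyc, swap_apply_of_ne_of_ne hk1 hk2],
      fun x h1 h2 h3 => by simp [cyc, swap_apply_of_ne_of_ne h1 h2, swap_apply_of_ne_of_ne h1 h3]⟩
  obtain ⟨a1, a2, a3, a4⟩ := happ hi1 hi2
  refine ⟨?_, fun hij => ?_⟩
  · ext x
    simp only [pow_succ, pow_zero, one_mul, Perm.mul_apply, Perm.one_apply]
    by_cases h1 : x = o1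
    · subst h1; rw [a1, a2, a3]
    by_cases h2 : x = o2
    · subst h2; rw [a2, a3, a1]
    by_cases h3 : x = i
    · subst h3; rw [a3, a1, a2]
    rw [a4 x h1 h2 h3, a4 x h1 h2 h3, a4 x h1 h2 h3]
  · obtain ⟨b1, b2, b3, b4⟩ := happ hj1 hj2
    have aj := a4 j hj1 hj2 hij.symm
    have bi := b4 i hi1 hi2 hij
    ext x
    simp only [pow_two, Perm.mul_apply, Perm.one_apply]
    by_cases h1 : x = o1
    · subst h1; rw [b1, a2, bi, a3]
    by_cases h2 : x = o2
    · subst h2; rw [b2, aj, b3, a1]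
    by_cases h3 : x = i
    · subst h3; rw [bi, a3, b1, a2]
    by_cases h4 : x = j
    · subst h4; rw [b3, a1, b2, aj]
    rw [b4 x h1 h2 h4, a4 x h1 h2 h3, b4 x h1 h2 h4, a4 x h1 h2 h3]

theorem cyc_sign {o1 o2 i : α} (ho : o1 ≠ o2) (hi : i ≠ o1) : Perm.sign (cyc o1 o2 i) = 1 := by
  rw [cyc, map_mul, sign_swap hi.symm, sign_swap ho]
  rfl

theorem cyc_mem {X : Finset α} {o1 o2 i : α} (ho : o1 ≠ o2) (hi : i ≠ o1) (h1 : o1 ∈ X) (h2 : o2 ∈ X) (hX : i ∈ X) :
    cyc o1 o2 i ∈ AltOn X :=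
  ⟨cyc_sign ho hi, fun x hx => by
    have hxi : x ≠ i := fun e => hx (e ▸ hX)
    have hx1 : x ≠ o1 := fun e => hx (e ▸ h1)
    have hx2 : x ≠ o2 := fun e => hx (e ▸ h2)
    rw [cyc, Perm.mul_apply, swap_apply_of_ne_of_ne hx1 hx2, swap_apply_of_ne_of_ne hx1 hxi]⟩

omit [Fintype α] in
theorem conj_cyc (g : Perm α) (o1 o2 i : α) : g * cyc o1 o2 i * g⁻¹ = cyc (g o1) (g o2) (g i) := by
  simp only [cyc, swap_apply_apply]
  group

/-- The star of three-cycles generates. -/
theorem alternating_le_of_cyc {o1 o2 : α} (ho : o1 ≠ o2) {H : Subgroup (Perm α)}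
    (h : ∀ i, i ≠ o1 → i ≠ o2 → cyc o1 o2 i ∈ H) : alternatingGroup α ≤ H := by
  refine le_trans (alternating_le_of_pairs (S := {σ : Perm α | ∃ i, i ≠ o1 ∧ σ = swap o1 i}) ?_ (closure_star o1)
    (s0 := swap o1 o2) ⟨o2, ho.symm, rfl⟩ (H := H) ?_) inf_le_left
  · rintro _ ⟨i, hi, rfl⟩
    exact ⟨o1, i, hi.symm, rfl⟩
  · rintro _ ⟨i, hi, rfl⟩
    rcases eq_or_ne i o2 with rfl | hi2
    · rw [swap_mul_self]; exact one_mem H
    · exact h i hi hi2

theorem altOn_le_of_cyc {X : Finset α} {o1 o2 : α} (h1 : o1 ∈ X) (h2 : o2 ∈ X) (ho : o1 ≠ o2)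
    {H : Subgroup (Perm α)} (h : ∀ i ∈ X, i ≠ o1 → i ≠ o2 → cyc o1 o2 i ∈ H) : AltOn X ≤ H := by
  have hh : alternatingGroup {x // x ∈ X} ≤ H.comap Perm.ofSubtype := by
    refine alternating_le_of_cyc (o1 := (⟨o1, h1⟩ : {x // x ∈ X})) (o2 := ⟨o2, h2⟩) (fun e => ho (congrArg Subtype.val e))
      fun i hi hi2 => ?_
    rw [Subgroup.mem_comap, cyc, map_mul, ofSubtype_swap_eq, ofSubtype_swap_eq]
    exact h i i.2 (fun e => hi (Subtype.ext e)) (fun e => hi2 (Subtype.ext e))
  intro σ hσ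
  obtain ⟨τ, hτ⟩ := (altOnEquiv X).surjective ⟨σ, hσ⟩
  have := hh τ.2
  rw [Subgroup.mem_comap] at this
  have e : Perm.ofSubtype (τ : Perm {x // x ∈ X}) = σ := congrArg Subtype.val hτ
  rw [← e]
  exact this

/-! ### Two generators -/

theorem exists_two_gen_odd {m : ℕ} (hm : 1 ≤ m) :
    ∃ a b : Perm (Fin (2 * m + 1)), a ∈ alternatingGroup _ ∧ b ∈ alternatingGroup _ ∧
      alternatingGroup _ ≤ Subgroup.closure {a, b} := by
  set k := 2 * m
  let c := finRotate (k + 1)
  let s : Fin k → Perm (Fin (k + 1)) := fun i => swap i.castSucc i.succ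
  have hk : 2 ≤ k := by omega
  let i0 : Fin k := ⟨0, by omega⟩
  let i1 : Fin k := ⟨1, by omega⟩
  refine ⟨s i0 * s i1, c, ?_, ?_, ?_⟩
  · rw [mem_alternatingGroup, map_mul, sign_swap i0.castSucc_lt_succ.ne, sign_swap i1.castSucc_lt_succ.ne]
    rfl
  · rw [mem_alternatingGroup, sign_finRotate]
    exact Even.neg_one_pow ⟨m, by omega⟩
  set H := Subgroup.closure ({s i0 * s i1, c} : Set (Perm (Fin (k + 1))))
  have hcH : c ∈ H := Subgroup.subset_closure (by simp)
  have hcs : ∀ (i : ℕ) (hi : i + 1 < k), c * s ⟨i, by omega⟩ * c⁻¹ = s ⟨i + 1, hi⟩ := by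
    intro i hi
    show c * swap _ _ * c⁻¹ = _
    rw [← swap_apply_apply]
    congr 1 <;> ext <;> simp [c, finRotate_succ_apply, Fin.val_add_one, Fin.ext_iff] <;> omega
  have hcons : ∀ (i : ℕ) (hi : i + 1 < k), s ⟨i, by omega⟩ * s ⟨i + 1, hi⟩ ∈ H := by
    intro i
    induction i with
    | zero => intro hi; exact Subgroup.subset_closure (Set.mem_insert _ _)
    | succ i ih =>
      intro hi
      have := mul_mem (mul_mem hcH (ih (by omega))) (inv_mem hcH)
      rw [← hcs i (by omega), ← hcs (i + 1) hi]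
      convert this using 1
      group
  have hswap : ∀ i, (s i)⁻¹ = s i := fun i => swap_inv _ _
  refine le_trans (alternating_le_of_pairs (S := Set.range s) ?_ ?_ (s0 := s i0) ⟨i0, rfl⟩ (H := H) ?_) inf_le_left
  · rintro _ ⟨i, rfl⟩
    exact ⟨_, _, i.castSucc_lt_succ.ne, rfl⟩
  · rw [eq_top_iff]
    intro σ _
    have hσ : σ ∈ Submonoid.closure (Set.range fun i : Fin k => swap i.castSucc i.succ) := by
      rw [Perm.mclosure_swap_castSucc_succ]; trivial
    exact Subgroup.le_closure_toSubmonoid _ hσ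
  · rintro _ ⟨⟨i, hi⟩, rfl⟩
    induction i with
    | zero =>
      show s i0 * s i0 ∈ H
      rw [swap_mul_self]; exact one_mem H
    | succ i ih =>
      have h1 := inv_mem (hcons i hi)
      rw [_root_.mul_inv_rev, hswap, hswap] at h1
      have := mul_mem h1 (ih (by omega))
      rwa [mul_assoc, ← mul_assoc (s ⟨i, _⟩) (s ⟨i, _⟩), swap_mul_self, one_mul] at this

theorem exists_two_gen_even {m : ℕ} (hm : 1 ≤ m) :
    ∃ a b : Perm (Fin (2 * m + 2)), a ∈ alternatingGroup _ ∧ b ∈ alternatingGroup _ ∧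
      alternatingGroup _ ≤ Subgroup.closure {a, b} := by
  set k := 2 * m + 1
  let e : Fin k ↪ Fin (k + 1) := Fin.succEmb k
  let c : Perm (Fin (k + 1)) := (finRotate k).viaEmbedding e
  let s : Fin k → Perm (Fin (k + 1)) := fun i => swap 0 i.succ
  let i0 : Fin k := ⟨0, by omega⟩
  let i1 : Fin k := ⟨1, by omega⟩
  have hce : ∀ i : Fin k, c i.succ = (finRotate k i).succ := fun i => Perm.viaEmbedding_apply _ e i
  have hc0 : c 0 = 0 := Perm.viaEmbedding_apply_of_notMem _ e _ (by rintro ⟨i, hi⟩; exact Fin.succ_ne_zero i hi)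
  refine ⟨s i1 * s i0, c, ?_, ?_, ?_⟩
  · rw [mem_alternatingGroup, map_mul, sign_swap (Fin.succ_ne_zero i0).symm, sign_swap (Fin.succ_ne_zero i1).symm]
    rfl
  · rw [mem_alternatingGroup, show Perm.sign c = Perm.sign (finRotate k) from by
        convert sign_extendDomain (finRotate k) (Equiv.ofInjective e.1 e.2)
        simp only [c, viaEmbedding]
        congr, sign_finRotate]
    exact Even.neg_one_pow ⟨m, by omega⟩
  set H := Subgroup.closure ({s i1 * s i0, c} : Set (Perm (Fin (k + 1))))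
  have hcH : c ∈ H := Subgroup.subset_closure (by simp)
  have hcs : ∀ (i : ℕ) (hi : i + 1 < k), c * s ⟨i, by omega⟩ * c⁻¹ = s ⟨i + 1, hi⟩ := by
    intro i hi
    show c * swap _ _ * c⁻¹ = swap _ _
    rw [← swap_apply_apply, hc0, hce]
    congr 2
    have : finRotate k ⟨i, by omega⟩ = ⟨i + 1, hi⟩ := by
      ext
      simp [k, finRotate_succ_apply, Fin.val_add_one, Fin.ext_iff]
      omega
    rw [this]
  have hcons : ∀ (i : ℕ) (hi : i + 1 < k), s ⟨i + 1, hi⟩ * s ⟨i, by omega⟩ ∈ H := by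
    intro i
    induction i with
    | zero => intro hi; exact Subgroup.subset_closure (Set.mem_insert _ _)
    | succ i ih =>
      intro hi
      have := mul_mem (mul_mem hcH (ih (by omega))) (inv_mem hcH)
      rw [← hcs i (by omega), ← hcs (i + 1) hi]
      convert this using 1
      group
  refine le_trans (alternating_le_of_pairs (S := Set.range s) ?_ ?_ (s0 := s i0) ⟨i0, rfl⟩ (H := H) ?_) inf_le_left
  · rintro _ ⟨i, rfl⟩
    exact ⟨_, _, (Fin.succ_ne_zero i).symm, rfl⟩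
  · rw [eq_top_iff, ← closure_star (0 : Fin (k + 1)), Subgroup.closure_le]
    rintro _ ⟨i, hi, rfl⟩
    exact Subgroup.subset_closure ⟨i.pred hi, by simp [s]⟩
  · rintro _ ⟨⟨i, hi⟩, rfl⟩
    induction i with
    | zero =>
      show s i0 * s i0 ∈ H
      rw [swap_mul_self]; exact one_mem H
    | succ i ih =>
      have := mul_mem (hcons i hi) (ih (by omega))
      rwa [mul_assoc, ← mul_assoc (s ⟨i, _⟩) (s ⟨i, _⟩), swap_mul_self, one_mul] at this

theorem alternating_two_gen (n : ℕ) :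
    ∃ a b : alternatingGroup (Fin n), Subgroup.closure ({a, b} : Set (alternatingGroup (Fin n))) = ⊤ := by
  have lift : ∀ {n : ℕ}, (∃ a b : Perm (Fin n), a ∈ alternatingGroup _ ∧ b ∈ alternatingGroup _ ∧
      alternatingGroup _ ≤ Subgroup.closure {a, b}) →
      ∃ a b : alternatingGroup (Fin n), Subgroup.closure ({a, b} : Set (alternatingGroup (Fin n))) = ⊤ := by
    rintro n ⟨a, b, ha, hb, h⟩
    refine ⟨⟨a, ha⟩, ⟨b, hb⟩, Subgroup.map_injective (alternatingGroup (Fin n)).subtype_injective ?_⟩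
    rw [MonoidHom.map_closure, ← MonoidHom.range_eq_map, Subgroup.range_subtype, Set.image_pair]
    exact le_antisymm ((Subgroup.closure_le _).2 (by rintro x (rfl | rfl) <;> assumption)) h
  rcases Nat.lt_or_ge n 3 with hn | hn
  · refine ⟨1, 1, eq_top_iff.2 fun x _ => ?_⟩
    haveI : Subsingleton (alternatingGroup (Fin n)) := by
      rw [← Fintype.card_le_one_iff_subsingleton]
      interval_cases n <;> decide
    rw [Subsingleton.elim x 1]
    exact one_mem _
  · rcases Nat.even_or_odd n with ⟨m, hm⟩ | ⟨m, hm⟩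
    · obtain ⟨m', rfl⟩ : ∃ m', n = 2 * m' + 2 := ⟨m - 1, by omega⟩
      exact lift (exists_two_gen_even (by omega))
    · subst hm
      exact lift (exists_two_gen_odd (by omega))

theorem HasPres.altOn {n m : ℕ} (h : HasPres (alternatingGroup (Fin n)) m) {X : Finset α} (hX : X.card = n) :
    HasPres (AltOn X) m :=
  h.congr ((Equiv.altCongrHom ((Finset.equivFinOfCardEq hX).symm)).trans (altOnEquiv X))

theorem altOn_two_gen (X : Finset α) : ∃ a b : AltOn X, Subgroup.closure ({a, b} : Set (AltOn X)) = ⊤ := by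
  obtain ⟨a, b, h⟩ := alternating_two_gen X.card
  let e := (Equiv.altCongrHom X.equivFin.symm).trans (altOnEquiv X)
  refine ⟨e a, e b, ?_⟩
  rw [show ({e a, e b} : Set (AltOn X)) = e.toMonoidHom '' {a, b} from (Set.image_pair _ _ _).symm,
    ← MonoidHom.map_closure, h]
  exact Subgroup.map_top_of_surjective _ e.surjective

end Cfsg.Agent.Lib.BoundedPres
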