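import Cfsg.Agent.Lib.BoundedPres.Alt

/-!
# Five relations on two generators for the alternating group on `p + 2` points
-/

set_option autoImplicit false

namespace Cfsg.Agent.Lib.BoundedPres

open Equiv Equiv.Perm

universe u

/-- A presentation on `d` generators with at most `m` relations. -/
def HasPresD (G : Type u) [Group G] (d m : ℕ) : Prop :=
  ∃ rels : Finset (FreeGroup (Fin d)), rels.card ≤ m ∧
    Nonempty (PresentedGroup (↑rels : Set (FreeGroup (Fin d))) ≃* G)

/-- A presentation of the alternating group with a three-cycle among the generators. -/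
def AltPres (α : Type u) [Fintype α] [DecidableEq α] (d m : ℕ) : Prop :=
  ∃ rels : Finset (FreeGroup (Fin d)), rels.card ≤ m ∧
    ∃ (e : PresentedGroup (↑rels : Set (FreeGroup (Fin d))) ≃* alternatingGroup α) (k : Fin d) (o1 o2 i : α),
      o1 ≠ o2 ∧ i ≠ o1 ∧ i ≠ o2 ∧ (e (PresentedGroup.of k) : Perm α) = cyc o1 o2 i

namespace AltBase

variable (p : ℕ) [Fact p.Prime]

/-- The affine line and two further points. -/
abbrev Pt := ZMod p ⊕ Fin 2

/-- Translation. -/
def ta (t : ZMod p) : Perm (Pt p) := Equiv.sumCongr (Equiv.addLeft t) (Equiv.refl _)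

variable {p}

theorem ta_mul (s t : ZMod p) : ta p (s + t) = ta p s * ta p t := by
  ext (x | x) <;> simp [ta, add_assoc]

theorem ta_sign (hp : p ≠ 2) (t : ZMod p) : Perm.sign (ta p t) = 1 := by
  have hpow : ∀ k : ℕ, ta p t ^ k = ta p (k * t) := by
    intro k
    induction k with
    | zero => ext (x | x) <;> simp [ta]
    | succ k ih => rw [pow_succ, ih, Nat.cast_succ, add_mul, one_mul, ta_mul]
  have h1 : ta p t ^ p = 1 := by
    rw [hpow, ZMod.natCast_self, zero_mul]
    ext (x | x) <;> simp [ta]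
  have h2 := congrArg Perm.sign h1
  rw [map_pow, map_one] at h2
  rcases Int.units_eq_one_or (Perm.sign (ta p t)) with e | e
  · exact e
  · rw [e, Odd.neg_one_pow ((Fact.out : p.Prime).odd_of_ne_two hp)] at h2
    exact absurd h2 (by decide)

variable (p) in
/-- Multiplication by a primitive root, exchanging the two further points. -/
def mb (r : (ZMod p)ˣ) : Perm (Pt p) := Equiv.sumCongr (Units.mulLeft r) (swap 0 1)

theorem sign_mb (hp : p ≠ 2) (r : (ZMod p)ˣ) (hr : orderOf r = p - 1) : Perm.sign (mb p r) = 1 := by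
  have hodd := (Fact.out : p.Prime).odd_of_ne_two hp
  have hcyc : (Units.mulLeft r : Perm (ZMod p)).IsCycle := by
    refine ⟨1, ?_, fun y hy => ?_⟩
    · intro e
      have : r = 1 := Units.ext (by simpa using e)
      rw [this, orderOf_one] at hr
      have := (Fact.out : p.Prime).two_le
      obtain ⟨k, hk⟩ := hodd
      omega
    · have hy0 : y ≠ 0 := fun e => hy (by simp [e])
      have htop : Subgroup.zpowers r = ⊤ := by
        refine Subgroup.eq_top_of_card_eq _ ?_
        rw [Nat.card_zpowers, hr, Nat.card_eq_fintype_card, ZMod.card_units]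
      obtain ⟨j, hj⟩ := Subgroup.mem_zpowers_iff.1 (htop ▸ Subgroup.mem_top (Units.mk0 y hy0))
      refine ⟨j, ?_⟩
      let φ : (ZMod p)ˣ →* Perm (ZMod p) := MulAction.toPermHom (ZMod p)ˣ (ZMod p)
      have e : φ r = Units.mulLeft r := by ext x; rfl
      rw [← e, ← map_zpow, hj]
      show (Units.mk0 y hy0 : ZMod p) * 1 = y
      rw [mul_one, Units.val_mk0]
  have hsupp : (Units.mulLeft r : Perm (ZMod p)).support = Finset.univ.erase 0 := by
    ext x
    simp only [Perm.mem_support, Finset.mem_erase, Finset.mem_univ, and_true, Units.mulLeft_apply]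
    constructor
    · intro h e; exact h (by rw [e, mul_zero])
    · intro hx e
      have h1 : (r : ZMod p) = 1 := mul_right_cancel₀ hx (by rw [one_mul]; exact e)
      have : r = 1 := Units.ext h1
      rw [this, orderOf_one] at hr
      obtain ⟨k, hk⟩ := hodd
      have := (Fact.out : p.Prime).two_le
      omega
  rw [mb, sign_sumCongr, sign_swap (by decide : (0 : Fin 2) ≠ 1), hcyc.sign, hsupp,
    Finset.card_erase_of_mem (Finset.mem_univ _), Finset.card_univ, ZMod.card]
  obtain ⟨k, hk⟩ := hodd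
  rw [hk, show 2 * k + 1 - 1 = 2 * k by omega, pow_mul, neg_one_sq, one_pow]
  rfl

/-- The star point. -/
def star (i : ZMod p) : Perm (Pt p) := cyc (Sum.inr 0) (Sum.inr 1) (Sum.inl i)

theorem main (hp : p ≠ 2) (hp3 : p ≠ 3) : AltPres (Fin (p + 2)) 2 5 := by
  classical
  obtain ⟨r, hr0⟩ := IsCyclic.exists_generator (α := (ZMod p)ˣ)
  have hr : orderOf r = p - 1 := by
    rw [orderOf_eq_card_of_forall_mem_zpowers hr0, Nat.card_eq_fintype_card, ZMod.card_units]
  have hp5 : 5 ≤ p := by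
    have := (Fact.out : p.Prime).two_le
    have : p ≠ 4 := fun e => by have := (Fact.out : p.Prime); rw [e] at this; norm_num at this
    omega
  have hr1 : (r : ZMod p) ≠ 1 := fun e => by
    have : r = 1 := Units.ext e
    rw [this, orderOf_one] at hr
    omega
  set s : ZMod p := (1 - (r : ZMod p))⁻¹ with hs
  have hs0 : s ≠ 0 := inv_ne_zero (sub_ne_zero.2 (Ne.symm hr1))
  have hrs : (r : ZMod p) * s = s - 1 := by
    have h : (1 - (r : ZMod p)) * s = 1 := mul_inv_cancel₀ (sub_ne_zero.2 (Ne.symm hr1))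
    linear_combination -h
  have hsval : (s - 1).val = s.val - 1 := by
    haveI : Fact (1 < p) := ⟨by omega⟩
    have h1 : 1 ≤ s.val := Nat.one_le_iff_ne_zero.2 fun e => hs0 ((ZMod.val_eq_zero s).1 e)
    rw [ZMod.val_sub (by rw [ZMod.val_one]; exact h1), ZMod.val_one]
  have ho : (Sum.inr 0 : Pt p) ≠ Sum.inr 1 := by simp
  let z0 : alternatingGroup (Pt p) := ⟨star 0, mem_alternatingGroup.2 (cyc_sign ho (by simp))⟩
  let a0 : alternatingGroup (Pt p) := ⟨ta p 1, mem_alternatingGroup.2 (ta_sign hp 1)⟩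
  let b0 : alternatingGroup (Pt p) := ⟨mb p r, mem_alternatingGroup.2 (sign_mb hp r hr)⟩
  let f : Fin 2 → alternatingGroup (Pt p) := ![a0, z0]
  let a : FreeGroup (Fin 2) := FreeGroup.of 0
  let z : FreeGroup (Fin 2) := FreeGroup.of 1
  let Aw : ZMod p → FreeGroup (Fin 2) := fun t => a ^ t.val
  have htapow : ∀ k : ℕ, ta p 1 ^ k = ta p (k : ZMod p) := by
    intro k
    induction k with
    | zero => ext (x | x) <;> simp [ta]
    | succ k ih => rw [pow_succ, ih, Nat.cast_succ, ta_mul]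
  have hAw : ∀ t, (FreeGroup.lift f (Aw t) : Perm (Pt p)) = ta p t := fun t => by
    simp only [Aw, a, map_pow, FreeGroup.lift_apply_of]
    show ta p 1 ^ t.val = _
    rw [htapow, ZMod.natCast_zmod_val]
  let Xw : ZMod p → FreeGroup (Fin 2) := fun i => Aw i * z * (Aw i)⁻¹
  let cA : ZMod p → alternatingGroup (Pt p) := fun i => ⟨star i, mem_alternatingGroup.2 (cyc_sign ho (by simp))⟩
  have hXw : ∀ i, FreeGroup.lift f (Xw i) = cA i := fun i => by
    refine Subtype.ext ?_
    simp only [Xw, map_mul, map_inv, Subgroup.coe_mul, Subgroup.coe_inv, hAw]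
    show ta p i * star 0 * (ta p i)⁻¹ = star i
    rw [star, conj_cyc]
    simp [ta, star]
  have hgenA : Subgroup.closure (Set.range cA) = ⊤ := by
    refine Subgroup.map_injective (alternatingGroup (Pt p)).subtype_injective ?_
    rw [← MonoidHom.range_eq_map, Subgroup.range_subtype]
    refine le_antisymm ?_ (alternating_le_of_cyc ho fun i hi1 hi2 => ?_)
    · rintro _ ⟨σ, _, rfl⟩
      exact σ.2
    · obtain i | q := i
      · exact ⟨cA i, Subgroup.subset_closure ⟨i, rfl⟩, rfl⟩
      · fin_cases q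
        · exact absurd rfl hi1
        · exact absurd rfl hi2
  have hsurj : Function.Surjective (FreeGroup.lift cA) := by
    rw [← MonoidHom.range_eq_top, eq_top_iff, ← hgenA, Subgroup.closure_le]
    rintro _ ⟨i, rfl⟩
    exact ⟨FreeGroup.of i, by simp⟩
  obtain ⟨word, hword⟩ := hsurj b0
  let b : FreeGroup (Fin 2) := FreeGroup.lift Xw word
  have hb : FreeGroup.lift f b = b0 := by
    rw [lift_lift]
    simp only [hXw, hword]
  let rels : Finset (FreeGroup (Fin 2)) :=
    {a ^ p * (b ^ (p - 1))⁻¹, b * a ^ s.val * b⁻¹ * (a ^ (s - 1).val)⁻¹, z ^ 3, b * z * b⁻¹ * z, (z * (a * z * a⁻¹)) ^ 2}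
  have hcard : rels.card ≤ 5 := Finset.card_le_five
  have hrels : ∀ w ∈ (↑rels : Set (FreeGroup (Fin 2))), FreeGroup.lift f w = 1 := by
    intro w hw
    simp only [rels, Finset.coe_insert, Finset.coe_singleton, Set.mem_insert_iff, Set.mem_singleton_iff] at hw
    rcases hw with rfl | rfl | rfl | rfl | rfl <;>
      simp only [map_mul, map_inv, map_pow, hb, a, z, FreeGroup.lift_apply_of] <;> refine Subtype.ext ?_
    · show ta p 1 ^ p * (mb p r ^ (p - 1))⁻¹ = 1
      have h1 : mb p r ^ (p - 1) = 1 := by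
        have hm : ∀ k : ℕ, mb p r ^ k = Equiv.sumCongr (Units.mulLeft (r ^ k)) (swap (0 : Fin 2) 1 ^ k) := by
          intro k
          induction k with
          | zero => ext (x | x) <;> simp
          | succ k ih => rw [pow_succ, ih]; ext (x | x) <;> simp [mb, pow_succ, mul_assoc]
        obtain ⟨j, hj⟩ : Even (p - 1) := by
          obtain ⟨j, hj⟩ := (Fact.out : p.Prime).odd_of_ne_two hp
          exact ⟨j, by omega⟩
        rw [hm, ← hr, pow_orderOf_eq_one, hr, hj, ← two_mul, pow_mul, show swap (0 : Fin 2) 1 ^ 2 = 1 by decide, one_pow]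
        ext (x | x) <;> simp
      rw [htapow, ZMod.natCast_self, h1, inv_one, mul_one]
      ext (x | x) <;> simp [ta]
    · show mb p r * ta p 1 ^ s.val * (mb p r)⁻¹ * (ta p 1 ^ (s - 1).val)⁻¹ = 1
      rw [htapow, htapow, ZMod.natCast_zmod_val, ZMod.natCast_zmod_val, mul_inv_eq_one, mul_inv_eq_iff_eq_mul]
      ext (x | x) <;> simp [mb, ta, mul_add, hrs]
    · exact (cyc_rel ho (i := Sum.inl (0 : ZMod p)) (j := Sum.inl 0) (by simp) (by simp) (by simp) (by simp)).1
    · show mb p r * star 0 * (mb p r)⁻¹ * star 0 = 1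
      rw [star, conj_cyc]
      ext (x | x) <;> simp [mb, cyc, Perm.mul_apply, swap_apply_def] <;> split_ifs <;> simp_all
    · show (star 0 * (ta p 1 * star 0 * (ta p 1)⁻¹)) ^ 2 = 1
      rw [star, conj_cyc]
      refine (cyc_rel ho (i := Sum.inl (0 : ZMod p)) (by simp) (by simp) (by simp [ta]) (by simp [ta])).2 ?_
      simp [ta]
  set P := PresentedGroup (↑rels : Set (FreeGroup (Fin 2)))
  let mk := PresentedGroup.mk (↑rels : Set (FreeGroup (Fin 2)))
  have hone : ∀ w ∈ rels, mk w = 1 := fun w hw => PresentedGroup.one_of_mem (Finset.mem_coe.2 hw)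
  obtain ⟨A, hA⟩ : ∃ A : P, A = mk a := ⟨_, rfl⟩
  obtain ⟨B, hB⟩ : ∃ B : P, B = mk b := ⟨_, rfl⟩
  obtain ⟨Z, hZ⟩ : ∃ Z : P, Z = mk z := ⟨_, rfl⟩
  have r1 : A ^ p = B ^ (p - 1) := by
    have h := hone _ (show a ^ p * (b ^ (p - 1))⁻¹ ∈ rels by simp [rels])
    rwa [map_mul, map_inv, map_pow, map_pow, mul_inv_eq_one, ← hA, ← hB] at h
  have r2 : B * A ^ s.val * B⁻¹ = A ^ (s - 1).val := by
    have h := hone _ (show b * a ^ s.val * b⁻¹ * (a ^ (s - 1).val)⁻¹ ∈ rels by simp [rels])
    rwa [map_mul, map_inv, map_mul, map_mul, map_inv, map_pow, map_pow, mul_inv_eq_one, ← hA, ← hB] at h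
  have r3 : Z ^ 3 = 1 := by
    have h := hone _ (show z ^ 3 ∈ rels by simp [rels])
    rwa [map_pow, ← hZ] at h
  have r4 : B * Z * B⁻¹ = Z⁻¹ := by
    have h := hone _ (show b * z * b⁻¹ * z ∈ rels by simp [rels])
    rw [map_mul, map_mul, map_mul, map_inv, ← hZ, ← hB] at h
    exact mul_eq_one_iff_eq_inv.1 h
  have r5 : (Z * (A * Z * A⁻¹)) ^ 2 = 1 := by
    have h := hone _ (show (z * (a * z * a⁻¹)) ^ 2 ∈ rels by simp [rels])
    rwa [map_pow, map_mul, map_mul, map_mul, map_inv, ← hA, ← hZ] at h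
  have hAp : A ^ p = 1 := by
    have hc : B * (A ^ p) * B⁻¹ = A ^ p := by
      rw [r1, mul_inv_eq_iff_eq_mul, ← pow_succ', pow_succ]
    have h1 : (A ^ p) ^ s.val = (A ^ p) ^ (s.val - 1) := by
      have h := congrArg (· ^ p) r2
      simp only [conj_pow, hsval] at h
      rw [← pow_mul, ← pow_mul, mul_comm, mul_comm (s.val - 1), pow_mul, pow_mul] at h
      rw [← h, ← conj_pow, hc]
    have hs1 : 1 ≤ s.val := Nat.one_le_iff_ne_zero.2 fun e => hs0 ((ZMod.val_eq_zero s).1 e)
    conv_lhs at h1 => rw [show s.val = s.val - 1 + 1 by omega, pow_succ]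
    exact mul_eq_left.1 h1
  let AA : ZMod p → P := fun t => A ^ t.val
  have hmod : ∀ n : ℕ, A ^ n = AA (n : ZMod p) := fun n => by
    show A ^ n = A ^ (n : ZMod p).val
    rw [ZMod.val_natCast]
    exact pow_eq_pow_mod n hAp
  have hAAadd : ∀ t t', AA (t + t') = AA t * AA t' := fun t t' => by
    show _ = A ^ t.val * A ^ t'.val
    rw [← pow_add, hmod, Nat.cast_add, ZMod.natCast_zmod_val, ZMod.natCast_zmod_val]
  have hBA : ∀ t, B * AA t * B⁻¹ = AA ((r : ZMod p) * t) := fun t => by
    have h : B * AA s * B⁻¹ = AA ((r : ZMod p) * s) := by rw [hrs]; exact r2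
    have e : ∀ k : ℕ, ∀ u, AA u ^ k = AA ((k : ZMod p) * u) := by
      intro k u
      show (A ^ u.val) ^ k = _
      rw [← pow_mul, hmod, Nat.cast_mul, ZMod.natCast_zmod_val, mul_comm]
    have h2 := congrArg (· ^ (t / s).val) h
    simp only [conj_pow, e, ZMod.natCast_zmod_val] at h2
    rwa [div_mul_cancel₀ _ hs0, mul_left_comm, div_mul_cancel₀ _ hs0] at h2
  let x : ZMod p → P := fun i => AA i * Z * (AA i)⁻¹
  have hxmk : ∀ i, x i = mk (Xw i) := fun i => by
    simp only [x, AA, Xw, Aw, map_mul, map_inv, map_pow, ← hA, ← hZ]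
  have hAx : ∀ t i, AA t * x i * (AA t)⁻¹ = x (t + i) := fun t i => by simp only [x, hAAadd]; group
  have hBx : ∀ i, B * x i * B⁻¹ = (x ((r : ZMod p) * i))⁻¹ := fun i => by
    simp only [x, ← hBA]
    calc B * (AA i * Z * (AA i)⁻¹) * B⁻¹ = (B * AA i * B⁻¹) * (B * Z * B⁻¹) * (B * AA i * B⁻¹)⁻¹ := by group
      _ = _ := by rw [r4]; group
  have hA1 : AA 1 = A := by
    show A ^ (1 : ZMod p).val = A
    haveI : Fact (1 < p) := ⟨by omega⟩
    rw [ZMod.val_one, pow_one]
  have hA0 : AA 0 = 1 := by show A ^ (0 : ZMod p).val = 1; rw [ZMod.val_zero, pow_zero]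
  have hx0 : x 0 = Z := by simp [x, hA0]
  have hflip : ∀ u v : P, (u⁻¹ * v⁻¹) ^ 2 = 1 → (u * v) ^ 2 = 1 := fun u v h => by
    have h1 : (v * u) ^ 2 = 1 := by rw [show v * u = (u⁻¹ * v⁻¹)⁻¹ by group, inv_pow, h, inv_one]
    rw [show u * v = u * (v * u) * u⁻¹ by group, conj_pow, h1, mul_one, mul_inv_cancel]
  have hsq0 : ∀ j : ℕ, (x 0 * x ((r : ZMod p) ^ j)) ^ 2 = 1 := by
    intro j
    induction j with
    | zero =>
      rw [pow_zero, hx0, show x 1 = A * Z * A⁻¹ by simp only [x, hA1]]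
      exact r5
    | succ j ih =>
      have h := congrArg (fun w => B * w * B⁻¹) ih
      simp only [mul_one, mul_inv_cancel, ← conj_pow, ← conj_mul, hBx, mul_zero, ← pow_succ'] at h
      exact hflip _ _ h
  have hstar : StarRel x := by
    refine ⟨fun i => by simp only [x]; rw [conj_pow, r3, mul_one, mul_inv_cancel], fun i j hij => ?_⟩
    obtain ⟨k, hk⟩ := Subgroup.mem_zpowers_iff.1 (hr0 (Units.mk0 (j - i) (sub_ne_zero.2 hij.symm)))
    have hkn : ∃ n : ℕ, r ^ n = Units.mk0 (j - i) (sub_ne_zero.2 hij.symm) := by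
      obtain ⟨n, hn⟩ := (mem_powers_iff_mem_zpowers).2 (Subgroup.mem_zpowers_iff.2 ⟨k, hk⟩)
      exact ⟨n, hn⟩
    obtain ⟨n, hn⟩ := hkn
    have h := congrArg (fun w => AA i * w * (AA i)⁻¹) (hsq0 n)
    simp only [mul_one, mul_inv_cancel, ← conj_pow, ← conj_mul, hAx, add_zero] at h
    rwa [← Units.val_pow_eq_pow_val, hn, Units.val_mk0, add_sub_cancel] at h
  have hgen : Subgroup.closure (Set.range x) = ⊤ := by
    set N := Subgroup.closure (Set.range x)
    have hBN : B ∈ N := by
      have h2 : mk (FreeGroup.lift Xw word) = FreeGroup.lift x word :=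
        DFunLike.congr_fun (FreeGroup.ext_hom (mk.comp (FreeGroup.lift Xw)) (FreeGroup.lift x) fun i => by
          simp [hxmk]) word
      rw [hB, h2]
      exact (le_of_eq FreeGroup.range_lift_eq_closure) ⟨word, rfl⟩
    have hnorm : AA s * B⁻¹ * (AA s)⁻¹ ∈ N := by
      have : N ≤ N.comap (MulAut.conj (AA s)).toMonoidHom := (Subgroup.closure_le _).2 (by
        rintro _ ⟨i, rfl⟩
        show AA s * x i * (AA s)⁻¹ ∈ N
        rw [hAx]
        exact Subgroup.subset_closure ⟨_, rfl⟩)
      exact this (inv_mem hBN)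
    have hAN : AA 1 ∈ N := by
      have h1 : B * (AA s * B⁻¹ * (AA s)⁻¹) = AA (-1) := by
        calc B * (AA s * B⁻¹ * (AA s)⁻¹) = (B * AA s * B⁻¹) * (AA s)⁻¹ := by group
          _ = _ := by
            rw [hBA, hrs, mul_inv_eq_iff_eq_mul, ← hAAadd]
            congr 1
            ring
      have h2 := inv_mem (mul_mem hBN hnorm)
      rwa [h1, inv_eq_of_mul_eq_one_right (show AA (-1) * AA 1 = 1 by rw [← hAAadd, neg_add_cancel, hA0])] at h2
    rw [eq_top_iff, ← PresentedGroup.closure_range_of, Subgroup.closure_le]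
    rintro _ ⟨k, rfl⟩
    fin_cases k
    · show mk a ∈ N
      rw [← hA, ← hA1]
      exact hAN
    · show mk z ∈ N
      rw [← hZ, ← hx0]
      exact Subgroup.subset_closure ⟨0, rfl⟩
  obtain ⟨hfin, hle⟩ := hstar.card_le hgen
  let ψ := PresentedGroup.toGroup hrels
  have hψ : Function.Surjective ψ := by
    intro w
    obtain ⟨w, rfl⟩ := hsurj w
    refine ⟨mk (FreeGroup.lift Xw w), ?_⟩
    show FreeGroup.lift f (FreeGroup.lift Xw w) = _
    rw [lift_lift]
    simp only [hXw]
  have hcardP : Fintype.card (Pt p) = p + 2 := by rw [Fintype.card_sum, Fintype.card_fin, ZMod.card]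
  have hbij : Function.Bijective ψ := hψ.bijective_of_nat_card_le (by
    haveI : Nontrivial (Pt p) := Fintype.one_lt_card_iff_nontrivial.1 (by omega)
    have h1 := two_mul_nat_card_alternatingGroup (α := Pt p)
    rw [Nat.card_perm, Nat.card_eq_fintype_card (α := Pt p), hcardP] at h1
    rw [ZMod.card] at hle
    change 2 * Nat.card (PresentedGroup (↑rels : Set (FreeGroup (Fin 2)))) ≤ _ at hle
    omega)
  let eq := Fintype.equivFinOfCardEq hcardP
  refine ⟨rels, hcard, (MulEquiv.ofBijective ψ hbij).trans (Equiv.altCongrHom eq), 1,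
    eq (Sum.inr 0), eq (Sum.inr 1), eq (Sum.inl 0), by simp, by simp, by simp, ?_⟩
  rw [MulEquiv.trans_apply, MulEquiv.ofBijective_apply, show ψ (PresentedGroup.of 1) = z0 from PresentedGroup.toGroup.of hrels]
  ext x
  obtain ⟨y, rfl⟩ := eq.surjective x
  simp [z0, star, cyc, Equiv.altCongrHom, Perm.mul_apply, swap_apply_def, apply_ite eq, Equiv.symm_apply_eq]

end AltBase

end Cfsg.Agent.Lib.BoundedPres
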