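import Cfsg.Agent.Lib.BoundedPres.AltBase

/-!
# Sixteen relations on four generators for every alternating group
-/

set_option autoImplicit false

namespace Cfsg.Agent.Lib.BoundedPres

open Equiv Equiv.Perm

universe u

/-- A presentation of the even permutations of a subset, with a three-cycle among the generators. -/
def AltOnPres {α : Type u} [Fintype α] [DecidableEq α] (X : Finset α) (d m : ℕ) : Prop :=
  ∃ rels : Finset (FreeGroup (Fin d)), rels.card ≤ m ∧
    ∃ (e : PresentedGroup (↑rels : Set (FreeGroup (Fin d))) ≃* AltOn X) (k : Fin d) (o1 o2 i : α),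
      o1 ≠ o2 ∧ i ≠ o1 ∧ i ≠ o2 ∧ (e (PresentedGroup.of k) : Perm α) = cyc o1 o2 i

theorem AltPres.congr {α β : Type*} [Fintype α] [DecidableEq α] [Fintype β] [DecidableEq β] {d m : ℕ}
    (h : AltPres α d m) (eq : α ≃ β) : AltPres β d m := by
  obtain ⟨R, hR, e, k, o1, o2, i, h1, h2, h3, hc⟩ := h
  refine ⟨R, hR, e.trans (Equiv.altCongrHom eq), k, eq o1, eq o2, eq i, eq.injective.ne h1, eq.injective.ne h2,
    eq.injective.ne h3, ?_⟩
  ext x
  obtain ⟨y, rfl⟩ := eq.surjective x
  simp [Equiv.altCongrHom, hc, cyc, Perm.mul_apply, swap_apply_def, apply_ite eq, Equiv.symm_apply_eq]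

theorem AltPres.altOn {α β : Type*} [Fintype α] [DecidableEq α] [Fintype β] [DecidableEq β] {d m : ℕ}
    (h : AltPres α d m) {X : Finset β} (eq : α ≃ {x // x ∈ X}) : AltOnPres X d m := by
  obtain ⟨R, hR, e, k, o1, o2, i, h1, h2, h3, hc⟩ := h.congr eq
  refine ⟨R, hR, e.trans (altOnEquiv X), k, o1, o2, i, fun h => h1 (Subtype.ext h), fun h => h2 (Subtype.ext h),
    fun h => h3 (Subtype.ext h), ?_⟩
  show Perm.ofSubtype ((e (PresentedGroup.of k) : alternatingGroup {x // x ∈ X}) : Perm {x // x ∈ X}) = _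
  rw [hc, cyc, map_mul, ofSubtype_swap_eq, ofSubtype_swap_eq]
  rfl

/-- One more generator, killed by one more relation. -/
theorem exists_pad {G : Type*} [Group G] {d : ℕ} (R : Finset (FreeGroup (Fin d)))
    (e : PresentedGroup (↑R : Set (FreeGroup (Fin d))) ≃* G) :
    ∃ R' : Finset (FreeGroup (Fin (d + 1))), R'.card ≤ R.card + 1 ∧
      ∃ e' : PresentedGroup (↑R' : Set (FreeGroup (Fin (d + 1)))) ≃* G,
        ∀ k : Fin d, e' (PresentedGroup.of k.castSucc) = e (PresentedGroup.of k) := by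
  classical
  let R' : Finset (FreeGroup (Fin (d + 1))) := insert (FreeGroup.of (Fin.last d)) (R.image (FreeGroup.map Fin.castSucc))
  let f : Fin (d + 1) → G := Fin.snoc (fun k => e (PresentedGroup.of k)) 1
  have hl : ∀ x, FreeGroup.lift f (FreeGroup.map Fin.castSucc x) = e (PresentedGroup.mk _ x) := fun x => by
    rw [lift_map']
    exact DFunLike.congr_fun (FreeGroup.ext_hom (FreeGroup.lift (f ∘ Fin.castSucc))
      (e.toMonoidHom.comp (PresentedGroup.mk _)) fun a => by simp [f, PresentedGroup.of]) x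
  have hrels : ∀ r ∈ (↑R' : Set (FreeGroup (Fin (d + 1)))), FreeGroup.lift f r = 1 := by
    intro r hr
    rcases Finset.mem_insert.1 (Finset.mem_coe.1 hr) with rfl | hr
    · simp [f]
    · obtain ⟨x, hx, rfl⟩ := Finset.mem_image.1 hr
      rw [hl, PresentedGroup.one_of_mem (Finset.mem_coe.2 hx), map_one]
  have hθ : ∀ r ∈ (↑R : Set (FreeGroup (Fin d))),
      FreeGroup.lift (PresentedGroup.of (rels := (↑R' : Set (FreeGroup (Fin (d + 1))))) ∘ Fin.castSucc) r = 1 := by
    intro r hr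
    rw [← lift_map', lift_mk]
    exact PresentedGroup.one_of_mem (Finset.mem_coe.2 (Finset.mem_insert_of_mem (Finset.mem_image_of_mem _ (Finset.mem_coe.1 hr))))
  let θ := (PresentedGroup.toGroup hθ).comp e.symm.toMonoidHom
  let φ := PresentedGroup.toGroup hrels
  have hφk : ∀ k : Fin d, φ (PresentedGroup.of k.castSucc) = e (PresentedGroup.of k) := fun k => by
    rw [show φ (PresentedGroup.of k.castSucc) = f k.castSucc from PresentedGroup.toGroup.of hrels]
    simp [f]
  have h1 : θ.comp φ = MonoidHom.id _ := PresentedGroup.ext fun k => by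
    show θ (φ (PresentedGroup.of k)) = PresentedGroup.of k
    induction k using Fin.lastCases with
    | last =>
      rw [show φ (PresentedGroup.of (Fin.last d)) = f (Fin.last d) from PresentedGroup.toGroup.of hrels]
      simp only [f, Fin.snoc_last, map_one]
      exact (PresentedGroup.one_of_mem (Finset.mem_coe.2 (Finset.mem_insert_self _ _))).symm
    | cast k =>
      rw [hφk]
      show PresentedGroup.toGroup hθ (e.symm (e _)) = _
      rw [MulEquiv.symm_apply_apply]
      exact PresentedGroup.toGroup.of hθ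
  have h2 : φ.comp θ = MonoidHom.id G := by
    have h3 : (φ.comp θ).comp e.toMonoidHom = e.toMonoidHom := PresentedGroup.ext fun k => by
      show φ (PresentedGroup.toGroup hθ (e.symm (e (PresentedGroup.of k)))) = e (PresentedGroup.of k)
      rw [MulEquiv.symm_apply_apply, show PresentedGroup.toGroup hθ (PresentedGroup.of k) = PresentedGroup.of k.castSucc
        from PresentedGroup.toGroup.of hθ, hφk]
    ext g
    obtain ⟨y, rfl⟩ := e.surjective g
    exact DFunLike.congr_fun h3 y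
  exact ⟨R', (Finset.card_insert_le _ _).trans (Nat.succ_le_succ Finset.card_image_le),
    MulEquiv.ofBijective φ ⟨Function.LeftInverse.injective (g := θ) (fun x => DFunLike.congr_fun h1 x),
      Function.RightInverse.surjective (g := θ) (fun x => DFunLike.congr_fun h2 x)⟩, hφk⟩

theorem AltPres.pad {α : Type*} [Fintype α] [DecidableEq α] {d m : ℕ} (h : AltPres α d m) :
    AltPres α (d + 1) (m + 1) := by
  obtain ⟨R, hR, e, k, o1, o2, i, h1, h2, h3, hc⟩ := h
  obtain ⟨R', hR', e', he'⟩ := exists_pad R e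
  exact ⟨R', hR'.trans (by omega), e', k.castSucc, o1, o2, i, h1, h2, h3, by rw [he', hc]⟩

section glue

variable {α : Type u} [Fintype α] [DecidableEq α]

/-- Two overlapping alternating groups. -/
theorem glueFew (A B : Finset α) (hAB : ∀ x, x ∈ A ∨ x ∈ B) (h4 : 4 ≤ (A ∩ B).card)
    (hiA : (A \ B).Nonempty) (hjB : (B \ A).Nonempty) {dA dB : ℕ}
    (hA : AltOnPres A dA 5) (hB : AltOnPres B dB 5) : AltPres α (dA + dB) 16 := by
  classical
  obtain ⟨RA, hRA, eA, kA, z1, z2, z3, hz12, hz31, hz32, hzc⟩ := hA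
  obtain ⟨RB, hRB, eB, -⟩ := hB
  obtain ⟨LA, hLA⟩ : ∃ L, (A \ B).card = L + 1 := ⟨(A \ B).card - 1, by have := hiA.card_pos; omega⟩
  obtain ⟨LB, hLB⟩ : ∃ L, (B \ A).card = L + 1 := ⟨(B \ A).card - 1, by have := hjB.card_pos; omega⟩
  let ea : Fin (LA + 1) ↪ α := ((A \ B).equivFinOfCardEq hLA).symm.toEmbedding.trans (Function.Embedding.subtype _)
  let eb : Fin (LB + 1) ↪ α := ((B \ A).equivFinOfCardEq hLB).symm.toEmbedding.trans (Function.Embedding.subtype _)
  have hea : ∀ i, ea i ∈ A \ B := fun i => (((A \ B).equivFinOfCardEq hLA).symm i).2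
  have heb : ∀ i, eb i ∈ B \ A := fun i => (((B \ A).equivFinOfCardEq hLB).symm i).2
  have hea' : ∀ x ∈ A \ B, ∃ i, ea i = x := fun x hx => ⟨(A \ B).equivFinOfCardEq hLA ⟨x, hx⟩, by simp [ea]⟩
  have heb' : ∀ x ∈ B \ A, ∃ i, eb i = x := fun x hx => ⟨(B \ A).equivFinOfCardEq hLB ⟨x, hx⟩, by simp [eb]⟩
  obtain ⟨i0, hi0', hi0⟩ : ∃ i, i = ea 0 ∧ i ∈ A \ B := ⟨_, rfl, hea 0⟩
  obtain ⟨j0, hj0', hj0⟩ : ∃ i, i = eb 0 ∧ i ∈ B \ A := ⟨_, rfl, heb 0⟩
  let emb : Fin 4 → α := fun i => ((A ∩ B).equivFin.symm (Fin.castLE h4 i)).1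
  have hemb : Function.Injective emb := fun a b e =>
    Fin.castLE_injective h4 ((A ∩ B).equivFin.symm.injective (Subtype.ext e))
  have hmem : ∀ i, emb i ∈ A ∧ emb i ∈ B := fun i =>
    Finset.mem_inter.1 ((A ∩ B).equivFin.symm (Fin.castLE h4 i)).2
  obtain ⟨o1, ho1⟩ : ∃ o, o = emb 0 := ⟨_, rfl⟩
  obtain ⟨o2, ho2⟩ : ∃ o, o = emb 1 := ⟨_, rfl⟩
  obtain ⟨o3, ho3⟩ : ∃ o, o = emb 2 := ⟨_, rfl⟩
  obtain ⟨o4, ho4⟩ : ∃ o, o = emb 3 := ⟨_, rfl⟩
  have h12 : o1 ≠ o2 := by rw [ho1, ho2]; exact hemb.ne (by decide)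
  have h13 : o1 ≠ o3 := by rw [ho1, ho3]; exact hemb.ne (by decide)
  have h14 : o1 ≠ o4 := by rw [ho1, ho4]; exact hemb.ne (by decide)
  have h23 : o2 ≠ o3 := by rw [ho2, ho3]; exact hemb.ne (by decide)
  have h24 : o2 ≠ o4 := by rw [ho2, ho4]; exact hemb.ne (by decide)
  have h34 : o3 ≠ o4 := by rw [ho3, ho4]; exact hemb.ne (by decide)
  have m1 := ho1 ▸ hmem 0
  have m2 := ho2 ▸ hmem 1
  have m3 := ho3 ▸ hmem 2
  have m4 := ho4 ▸ hmem 3
  obtain ⟨hi0A, hi0B⟩ := Finset.mem_sdiff.1 hi0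
  obtain ⟨hj0B, hj0A⟩ := Finset.mem_sdiff.1 hj0
  have hne : ∀ {x y : α}, x ∉ B → y ∈ B → x ≠ y := fun hx hy e => hx (e ▸ hy)
  have hne' : ∀ {x y : α}, x ∉ A → y ∈ A → x ≠ y := fun hx hy e => hx (e ▸ hy)
  -- the two rotations
  have rot : ∀ (X Y : Finset α) (L : ℕ) (e : Fin (L + 1) ↪ α), (∀ i, e i ∈ X) → (∀ i, e i ∉ Y) → o3 ∈ X → o4 ∈ X →
      o3 ∈ Y → o4 ∈ Y → o1 ∈ Y → o2 ∈ Y →
      ∃ u : Perm α, u = (finRotate (L + 1)).viaEmbedding e * swap o3 o4 ^ L ∧ u ∈ AltOn X ∧ u o1 = o1 ∧ u o2 = o2 ∧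
        (∀ i, u (e i) = e (finRotate (L + 1) i)) ∧ (∀ x, x ≠ o3 → x ≠ o4 → x ∉ Set.range e → u x = x) := by
    intro X Y L e hX hY m3X m4X m3Y m4Y m1Y m2Y
    have hfix : ∀ x, x ≠ o3 → x ≠ o4 → (swap o3 o4 ^ L) x = x := by
      have key : ∀ (k : ℕ) x, x ≠ o3 → x ≠ o4 → (swap o3 o4 ^ k) x = x := fun k x h3 h4 => by
        induction k with
        | zero => rfl
        | succ k ih => rw [pow_succ, Perm.mul_apply, swap_apply_of_ne_of_ne h3 h4]; exact ih
      exact key L
    have hne : ∀ {y}, y ∈ Y → ∀ i, e i ≠ y := fun hy i h => hY i (h ▸ hy)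
    refine ⟨_, rfl, ⟨?_, fun x hx => ?_⟩, ?_, ?_, fun i => ?_, fun x h3 h4 hr => ?_⟩
    · rw [map_mul, map_pow, sign_swap h34, show Perm.sign ((finRotate (L + 1)).viaEmbedding e) = Perm.sign (finRotate (L + 1)) from by
        convert sign_extendDomain (finRotate (L + 1)) (Equiv.ofInjective e.1 e.2)
        simp only [viaEmbedding]
        congr, sign_finRotate, Nat.add_sub_cancel, ← mul_pow]
      simp
    · rw [Perm.mul_apply, hfix x (fun h => hx (h ▸ m3X)) (fun h => hx (h ▸ m4X))]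
      exact viaEmbedding_apply_of_notMem _ e _ (by rintro ⟨i, rfl⟩; exact hx (hX i))
    · rw [Perm.mul_apply, hfix _ h13 h14]
      exact viaEmbedding_apply_of_notMem _ e _ (by rintro ⟨i, hi⟩; exact hne m1Y i hi)
    · rw [Perm.mul_apply, hfix _ h23 h24]
      exact viaEmbedding_apply_of_notMem _ e _ (by rintro ⟨i, hi⟩; exact hne m2Y i hi)
    · rw [Perm.mul_apply, hfix _ (hne m3Y i) (hne m4Y i)]
      exact viaEmbedding_apply _ e i
    · rw [Perm.mul_apply, hfix _ h3 h4]
      exact viaEmbedding_apply_of_notMem _ e _ hr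
  obtain ⟨u, hudef, huA, hu1, hu2, hue, hufix⟩ := rot A B LA ea (fun i => (Finset.mem_sdiff.1 (hea i)).1)
    (fun i => (Finset.mem_sdiff.1 (hea i)).2) m3.1 m4.1 m3.2 m4.2 m1.2 m2.2
  obtain ⟨v, hvdef, hvB, hv1, hv2, hve, hvfix⟩ := rot B A LB eb (fun i => (Finset.mem_sdiff.1 (heb i)).1)
    (fun i => (Finset.mem_sdiff.1 (heb i)).2) m3.2 m4.2 m3.1 m4.1 m1.1 m2.1
  -- the target and the words
  let iA : AltOn A →* alternatingGroup α := Subgroup.inclusion (altOn_le_alternating A)
  let iB : AltOn B →* alternatingGroup α := Subgroup.inclusion (altOn_le_alternating B)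
  let f : Fin (dA + dB) → alternatingGroup α :=
    Fin.addCases (fun i => iA (eA (PresentedGroup.of i))) (fun i => iB (eB (PresentedGroup.of i)))
  choose preA hpreA using fun g => PresentedGroup.mk_surjective (↑RA : Set (FreeGroup (Fin dA))) (eA.symm g)
  choose preB hpreB using fun g => PresentedGroup.mk_surjective (↑RB : Set (FreeGroup (Fin dB))) (eB.symm g)
  let wA : AltOn A → FreeGroup (Fin (dA + dB)) := fun g => FreeGroup.map (Fin.castAdd dB) (preA g)
  let wB : AltOn B → FreeGroup (Fin (dA + dB)) := fun g => FreeGroup.map (Fin.natAdd dA) (preB g)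
  have hliftA : ∀ x, FreeGroup.lift f (FreeGroup.map (Fin.castAdd dB) x) = iA (eA (PresentedGroup.mk _ x)) := fun x => by
    rw [lift_map']
    exact DFunLike.congr_fun (FreeGroup.ext_hom (FreeGroup.lift (f ∘ Fin.castAdd dB))
      (iA.comp (eA.toMonoidHom.comp (PresentedGroup.mk _))) fun a => by simp [f, PresentedGroup.of]) x
  have hliftB : ∀ x, FreeGroup.lift f (FreeGroup.map (Fin.natAdd dA) x) = iB (eB (PresentedGroup.mk _ x)) := fun x => by
    rw [lift_map']
    exact DFunLike.congr_fun (FreeGroup.ext_hom (FreeGroup.lift (f ∘ Fin.natAdd dA))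
      (iB.comp (eB.toMonoidHom.comp (PresentedGroup.mk _))) fun a => by simp [f, PresentedGroup.of]) x
  have hwA : ∀ g, FreeGroup.lift f (wA g) = iA g := fun g => by
    rw [hliftA, hpreA, MulEquiv.apply_symm_apply]
  have hwB : ∀ g, FreeGroup.lift f (wB g) = iB g := fun g => by
    rw [hliftB, hpreB, MulEquiv.apply_symm_apply]
  let jA : ∀ {X : Finset α}, X ⊆ A → AltOn X →* AltOn A := fun h => Subgroup.inclusion (altOn_mono h)
  let jB : ∀ {X : Finset α}, X ⊆ B → AltOn X →* AltOn B := fun h => Subgroup.inclusion (altOn_mono h)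
  have hIA : A ∩ B ⊆ A := Finset.inter_subset_left
  have hIB : A ∩ B ⊆ B := Finset.inter_subset_right
  obtain ⟨s1, s2, hs⟩ := altOn_two_gen (A ∩ B)
  let ci : AltOn A := ⟨cyc o1 o2 i0, cyc_mem h12 (hne hi0B m1.2) m1.1 m2.1 hi0A⟩
  let cj : AltOn B := ⟨cyc o1 o2 j0, cyc_mem h12 (hne' hj0A m1.1) m1.2 m2.2 hj0B⟩
  let U : AltOn A := ⟨u, huA⟩
  let V : AltOn B := ⟨v, hvB⟩
  let comm : AltOn A → AltOn B → FreeGroup (Fin (dA + dB)) := fun g h => wA g * wB h * (wA g)⁻¹ * (wB h)⁻¹
  let agree : AltOn (A ∩ B) → FreeGroup (Fin (dA + dB)) := fun s => wA (jA hIA s) * (wB (jB hIB s))⁻¹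
  let rels : Finset (FreeGroup (Fin (dA + dB))) := RA.image (FreeGroup.map (Fin.castAdd dB)) ∪
    (RB.image (FreeGroup.map (Fin.natAdd dA)) ∪
      ({agree s1, agree s2} ∪ {comm U cj, comm ci V, comm U V, (wA ci * wB cj) ^ 2}))
  have hcard : rels.card ≤ 16 := by
    refine (Finset.card_union_le _ _).trans (le_trans (Nat.add_le_add (Finset.card_image_le.trans hRA)
      ((Finset.card_union_le _ _).trans (Nat.add_le_add (Finset.card_image_le.trans hRB)
        ((Finset.card_union_le _ _).trans (Nat.add_le_add Finset.card_le_two Finset.card_le_four))))) le_rfl)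
  have hci : i0 ≠ j0 := hne hi0B hj0B
  have hrels : ∀ r ∈ (↑rels : Set (FreeGroup (Fin (dA + dB)))), FreeGroup.lift f r = 1 := by
    have hcom : ∀ (g : AltOn A) (h : AltOn B), (g : Perm α) * h = h * (g : Perm α) → FreeGroup.lift f (comm g h) = 1 :=
      fun g h e => by
        simp only [comm, map_mul, map_inv, hwA, hwB]
        refine Subtype.ext ?_
        show (g : Perm α) * h * (g : Perm α)⁻¹ * (h : Perm α)⁻¹ = 1
        rw [e, mul_inv_cancel_right, mul_inv_cancel]
    have hUcj : u * cyc o1 o2 j0 = cyc o1 o2 j0 * u := by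
      rw [← mul_inv_eq_iff_eq_mul, conj_cyc, hu1, hu2, hufix j0 (hne' hj0A m3.1) (hne' hj0A m4.1)
        (by rintro ⟨i, hi⟩; exact hj0A (hi ▸ (Finset.mem_sdiff.1 (hea i)).1))]
    have hVci : cyc o1 o2 i0 * v = v * cyc o1 o2 i0 := by
      rw [eq_comm, ← mul_inv_eq_iff_eq_mul, conj_cyc, hv1, hv2, hvfix i0 (hne hi0B m3.2) (hne hi0B m4.2)
        (by rintro ⟨i, hi⟩; exact hi0B (hi ▸ (Finset.mem_sdiff.1 (heb i)).1))]
    have hUV : u * v = v * u := by
      have d1 : Perm.Disjoint ((finRotate (LA + 1)).viaEmbedding ea) ((finRotate (LB + 1)).viaEmbedding eb) := fun x => by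
        by_cases hx : x ∈ Set.range ea
        · obtain ⟨i, rfl⟩ := hx
          exact Or.inr (viaEmbedding_apply_of_notMem _ eb _ (by
            rintro ⟨j, hj⟩; exact (Finset.mem_sdiff.1 (hea i)).2 (hj ▸ (Finset.mem_sdiff.1 (heb j)).1)))
        · exact Or.inl (viaEmbedding_apply_of_notMem _ ea _ hx)
      have dsw : ∀ (L : ℕ) (e : Fin (L + 1) ↪ α), (∀ i, e i ∉ A ∩ B) →
          Perm.Disjoint ((finRotate (L + 1)).viaEmbedding e) (swap o3 o4) := fun L e he x => by
        by_cases hx : x ∈ Set.range e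
        · obtain ⟨i, rfl⟩ := hx
          exact Or.inr (swap_apply_of_ne_of_ne (fun h => he i (h ▸ Finset.mem_inter.2 m3)) (fun h => he i (h ▸ Finset.mem_inter.2 m4)))
        · exact Or.inl (viaEmbedding_apply_of_notMem _ e _ hx)
      have ca := (dsw LA ea fun i h => (Finset.mem_sdiff.1 (hea i)).2 (Finset.mem_inter.1 h).2).commute
      have cb := (dsw LB eb fun i h => (Finset.mem_sdiff.1 (heb i)).2 (Finset.mem_inter.1 h).1).commute
      rw [hudef, hvdef]
      exact ((d1.commute.mul_right (ca.pow_right LB)).mul_left ((cb.symm.pow_left LA).mul_right (Commute.pow_pow_self _ LA LB))).eq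
    have hag : ∀ s, FreeGroup.lift f (agree s) = 1 := fun s => by
      simp only [agree, map_mul, map_inv, hwA, hwB]
      refine Subtype.ext ?_
      show (s : Perm α) * (s : Perm α)⁻¹ = 1
      rw [mul_inv_cancel]
    intro r hr
    simp only [rels, Finset.coe_union, Set.mem_union, Finset.coe_image, Set.mem_image, Finset.mem_coe, Finset.mem_insert,
      Finset.mem_singleton] at hr
    rcases hr with ⟨r, hr, rfl⟩ | ⟨r, hr, rfl⟩ | (rfl | rfl) | rfl | rfl | rfl | rfl
    · rw [hliftA, PresentedGroup.one_of_mem (Finset.mem_coe.2 hr), map_one, map_one]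
    · rw [hliftB, PresentedGroup.one_of_mem (Finset.mem_coe.2 hr), map_one, map_one]
    · exact hag s1
    · exact hag s2
    · exact hcom U cj hUcj
    · exact hcom ci V hVci
    · exact hcom U V hUV
    · simp only [map_pow, map_mul, hwA, hwB]
      refine Subtype.ext ?_
      exact (cyc_rel h12 (hne hi0B m1.2) (hne hi0B m2.2) (hne' hj0A m1.1) (hne' hj0A m2.1)).2 hci
  -- the presented group
  set P := PresentedGroup (↑rels : Set (FreeGroup (Fin (dA + dB))))
  let mk := PresentedGroup.mk (↑rels : Set (FreeGroup (Fin (dA + dB))))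
  have hone : ∀ r ∈ rels, mk r = 1 := fun r hr => PresentedGroup.one_of_mem (Finset.mem_coe.2 hr)
  have hθA : ∀ r ∈ (↑RA : Set (FreeGroup (Fin dA))),
      FreeGroup.lift (PresentedGroup.of (rels := (↑rels : Set (FreeGroup (Fin (dA + dB))))) ∘ Fin.castAdd dB) r = 1 := by
    intro r hr
    rw [← lift_map', lift_mk]
    exact hone _ (Finset.mem_union_left _ (Finset.mem_image_of_mem _ (Finset.mem_coe.1 hr)))
  have hθB : ∀ r ∈ (↑RB : Set (FreeGroup (Fin dB))),
      FreeGroup.lift (PresentedGroup.of (rels := (↑rels : Set (FreeGroup (Fin (dA + dB))))) ∘ Fin.natAdd dA) r = 1 := by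
    intro r hr
    rw [← lift_map', lift_mk]
    exact hone _ (Finset.mem_union_right _ (Finset.mem_union_left _ (Finset.mem_image_of_mem _ (Finset.mem_coe.1 hr))))
  let φA : AltOn A →* P := (PresentedGroup.toGroup hθA).comp eA.symm.toMonoidHom
  let φB : AltOn B →* P := (PresentedGroup.toGroup hθB).comp eB.symm.toMonoidHom
  have hφA : ∀ g, φA g = mk (wA g) := fun g => by
    show PresentedGroup.toGroup hθA (eA.symm g) = _
    rw [← hpreA g]
    refine (DFunLike.congr_fun (FreeGroup.ext_hom ((PresentedGroup.toGroup hθA).comp (PresentedGroup.mk _))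
      (mk.comp (FreeGroup.map (Fin.castAdd dB))) fun a => ?_) (preA g))
    simp only [MonoidHom.comp_apply, FreeGroup.map.of]
    exact PresentedGroup.toGroup.of hθA
  have hφB : ∀ g, φB g = mk (wB g) := fun g => by
    show PresentedGroup.toGroup hθB (eB.symm g) = _
    rw [← hpreB g]
    refine (DFunLike.congr_fun (FreeGroup.ext_hom ((PresentedGroup.toGroup hθB).comp (PresentedGroup.mk _))
      (mk.comp (FreeGroup.map (Fin.natAdd dA))) fun a => ?_) (preB g))
    simp only [MonoidHom.comp_apply, FreeGroup.map.of]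
    exact PresentedGroup.toGroup.of hθB
  have hag : φA.comp (jA hIA) = φB.comp (jB hIB) := by
    refine MonoidHom.eq_of_eqOn_dense hs fun s hs' => ?_
    have h1 := hone (agree s) (by rcases hs' with rfl | rfl <;> simp [rels])
    simp only [agree, map_mul, map_inv, mul_inv_eq_one] at h1
    show φA (jA hIA s) = φB (jB hIB s)
    rw [hφA, hφB]
    exact h1
  have hC : ∀ (g : AltOn A) (h : AltOn B), comm g h ∈ rels → Commute (φA g) (φB h) := fun g h hr => by
    have h1 := hone _ hr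
    simp only [comm, map_mul, map_inv, ← hφA, ← hφB] at h1
    rw [mul_inv_eq_one, mul_inv_eq_iff_eq_mul] at h1
    exact h1
  have hUy : Commute (φA U) (φB cj) := hC _ _ (by simp [rels])
  have hxV : Commute (φA ci) (φB V) := hC _ _ (by simp [rels])
  have hUV' : Commute (φA U) (φB V) := hC _ _ (by simp [rels])
  -- the star
  let cA : ∀ i, i ∈ A → i ≠ o1 → AltOn A := fun i hi h1 => ⟨cyc o1 o2 i, cyc_mem h12 h1 m1.1 m2.1 hi⟩
  let cB : ∀ i, i ∈ B → i ≠ o1 → AltOn B := fun i hi h1 => ⟨cyc o1 o2 i, cyc_mem h12 h1 m1.2 m2.2 hi⟩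
  let ι := {i : α // i ≠ o1 ∧ i ≠ o2}
  let x : ι → P := fun i =>
    if h : i.1 ∈ A then φA (cA i h i.2.1) else φB (cB i ((hAB i).resolve_left h) i.2.1)
  have hxA : ∀ (i : ι) (h : i.1 ∈ A), x i = φA (cA i h i.2.1) := fun i h => by simp only [x, dif_pos h]
  have hxB : ∀ (i : ι) (h : i.1 ∈ B), x i = φB (cB i h i.2.1) := fun i h => by
    by_cases h' : i.1 ∈ A
    · rw [hxA i h']
      exact DFunLike.congr_fun hag
        ⟨cyc o1 o2 i, cyc_mem h12 i.2.1 (Finset.mem_inter.2 m1) (Finset.mem_inter.2 m2) (Finset.mem_inter.2 ⟨h', h⟩)⟩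
    · simp only [x, dif_neg h']
  have hA0 : ∀ n (hn : n < LA + 1), ∀ i (hi : i ∈ A) (hiB : i ∉ B), i = ea ⟨n, hn⟩ →
      (φA (cA i hi (hne hiB m1.2)) * φB cj) ^ 2 = 1 ∧ Commute (φA (cA i hi (hne hiB m1.2))) (φB V) := by
    intro n
    induction n with
    | zero =>
      intro hn i hi hiB e
      obtain rfl : i = i0 := e.trans hi0'.symm
      refine ⟨?_, hxV⟩
      have h1 := hone ((wA ci * wB cj) ^ 2) (by simp [rels])
      rwa [map_pow, map_mul, ← hφA, ← hφB] at h1
    | succ n ih =>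
      intro hn i hi hiB e
      obtain ⟨hpA, hpB⟩ := Finset.mem_sdiff.1 (hea ⟨n, by omega⟩)
      obtain ⟨h2, h3⟩ := ih (by omega) _ hpA hpB rfl
      have hstep : finRotate (LA + 1) ⟨n, by omega⟩ = ⟨n + 1, hn⟩ := by
        ext; rw [coe_finRotate, if_neg (by simp [Fin.ext_iff]; omega)]
      have ec : cA i hi (hne hiB m1.2) = U * cA (ea ⟨n, by omega⟩) hpA (hne hpB m1.2) * U⁻¹ := Subtype.ext (by
        show cyc o1 o2 i = u * cyc o1 o2 (ea ⟨n, by omega⟩) * u⁻¹
        rw [conj_cyc, hu1, hu2, hue, hstep, e])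
      rw [ec, map_mul, map_mul, map_inv]
      refine ⟨?_, (hUV'.mul_left h3).mul_left hUV'.inv_left⟩
      generalize φA U = g at hUy
      generalize φA (cA (ea ⟨n, by omega⟩) hpA (hne hpB m1.2)) = w at h2
      calc (g * w * g⁻¹ * φB cj) ^ 2 = (g * (w * φB cj) * g⁻¹) ^ 2 := by
            congr 1
            rw [mul_assoc (g * w), hUy.inv_left.eq]
            group
        _ = 1 := by rw [conj_pow, h2, mul_one, mul_inv_cancel]
  have hB0 : ∀ n (hn : n < LB + 1), ∀ j (hj : j ∈ B) (hjA : j ∉ A), j = eb ⟨n, hn⟩ →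
      ∀ i (hi : i ∈ A) (hiB : i ∉ B), (φA (cA i hi (hne hiB m1.2)) * φB (cB j hj (hne' hjA m1.1))) ^ 2 = 1 := by
    intro n
    induction n with
    | zero =>
      intro hn j hj hjA e i hi hiB
      obtain rfl : j = j0 := e.trans hj0'.symm
      obtain ⟨⟨k, hk⟩, rfl⟩ := hea' i (Finset.mem_sdiff.2 ⟨hi, hiB⟩)
      exact (hA0 k hk _ hi hiB rfl).1
    | succ n ih =>
      intro hn j hj hjA e i hi hiB
      obtain ⟨hpB, hpA⟩ := Finset.mem_sdiff.1 (heb ⟨n, by omega⟩)
      have h2 := ih (by omega) _ hpB hpA rfl i hi hiB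
      have h3 : Commute (φA (cA i hi (hne hiB m1.2))) (φB V) := by
        obtain ⟨⟨k, hk⟩, rfl⟩ := hea' i (Finset.mem_sdiff.2 ⟨hi, hiB⟩)
        exact (hA0 k hk _ hi hiB rfl).2
      have hstep : finRotate (LB + 1) ⟨n, by omega⟩ = ⟨n + 1, hn⟩ := by
        ext; rw [coe_finRotate, if_neg (by simp [Fin.ext_iff]; omega)]
      have ec : cB j hj (hne' hjA m1.1) = V * cB (eb ⟨n, by omega⟩) hpB (hne' hpA m1.1) * V⁻¹ := Subtype.ext (by
        show cyc o1 o2 j = v * cyc o1 o2 (eb ⟨n, by omega⟩) * v⁻¹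
        rw [conj_cyc, hv1, hv2, hve, hstep, e])
      rw [ec, map_mul, map_mul, map_inv]
      generalize φB V = g at h3
      generalize φA (cA i hi (hne hiB m1.2)) = y at h2 h3
      generalize φB (cB (eb ⟨n, by omega⟩) hpB (hne' hpA m1.1)) = w at h2
      calc (y * (g * w * g⁻¹)) ^ 2 = (g * (y * w) * g⁻¹) ^ 2 := by
            congr 1
            rw [← mul_assoc, ← mul_assoc, h3.eq]
            group
        _ = 1 := by rw [conj_pow, h2, mul_one, mul_inv_cancel]
  have hmix : ∀ i (hiA : i ∈ A) (hiB : i ∉ B) j (hjB : j ∈ B) (hjA : j ∉ A),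
      (φA (cA i hiA (hne hiB m1.2)) * φB (cB j hjB (hne' hjA m1.1))) ^ 2 = 1 := by
    intro i hiA hiB j hjB hjA
    obtain ⟨⟨k, hk⟩, hke⟩ := heb' j (Finset.mem_sdiff.2 ⟨hjB, hjA⟩)
    exact hB0 k hk j hjB hjA hke.symm i hiA hiB
  have hflip : ∀ a b : P, (a * b) ^ 2 = 1 → (b * a) ^ 2 = 1 := fun a b h => by
    rw [show b * a = b * (a * b) * b⁻¹ by group, conj_pow, h, mul_one, mul_inv_cancel]
  have hstar : StarRel x := by
    refine ⟨fun i => ?_, fun i j hij => ?_⟩
    · rcases hAB i with h | h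
      · rw [hxA i h, ← map_pow,
          show cA i h i.2.1 ^ 3 = 1 from Subtype.ext (cyc_rel h12 i.2.1 i.2.2 i.2.1 i.2.2).1, map_one]
      · rw [hxB i h, ← map_pow,
          show cB i h i.2.1 ^ 3 = 1 from Subtype.ext (cyc_rel h12 i.2.1 i.2.2 i.2.1 i.2.2).1, map_one]
    · have hrel := (cyc_rel h12 i.2.1 i.2.2 j.2.1 j.2.2).2 (fun e => hij (Subtype.ext e))
      by_cases h1 : i.1 ∈ A ∧ j.1 ∈ A
      · rw [hxA i h1.1, hxA j h1.2, ← map_mul, ← map_pow,
          show (cA i h1.1 i.2.1 * cA j h1.2 j.2.1) ^ 2 = 1 from Subtype.ext hrel, map_one]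
      by_cases h2 : i.1 ∈ B ∧ j.1 ∈ B
      · rw [hxB i h2.1, hxB j h2.2, ← map_mul, ← map_pow,
          show (cB i h2.1 i.2.1 * cB j h2.2 j.2.1) ^ 2 = 1 from Subtype.ext hrel, map_one]
      rcases hAB i with hi | hi
      · have hjA : j.1 ∉ A := fun h => h1 ⟨hi, h⟩
        have hjB := (hAB j).resolve_left hjA
        have hiB : i.1 ∉ B := fun h => h2 ⟨h, hjB⟩
        rw [hxA i hi, hxB j hjB]
        exact hmix _ hi hiB _ hjB hjA
      · have hjB : j.1 ∉ B := fun h => h2 ⟨hi, h⟩
        have hjA := (hAB j).resolve_right hjB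
        have hiA : i.1 ∉ A := fun h => h1 ⟨h, hjA⟩
        rw [hxB i hi, hxA j hjA]
        exact hflip _ _ (hmix _ hjA hjB _ hi hiA)
  have hgen : Subgroup.closure (Set.range x) = ⊤ := by
    have hrA : ∀ g : AltOn A, φA g ∈ Subgroup.closure (Set.range x) := by
      have h : AltOn A ≤ ((Subgroup.closure (Set.range x)).comap φA).map (AltOn A).subtype := by
        refine altOn_le_of_cyc m1.1 m2.1 h12 fun i hi h1 h2 => ⟨cA i hi h1, ?_, rfl⟩
        rw [SetLike.mem_coe, Subgroup.mem_comap, ← hxA ⟨i, h1, h2⟩ hi]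
        exact Subgroup.subset_closure ⟨_, rfl⟩
      intro g
      obtain ⟨g', hg', e⟩ := h g.2
      rwa [← Subtype.ext e]
    have hrB : ∀ g : AltOn B, φB g ∈ Subgroup.closure (Set.range x) := by
      have h : AltOn B ≤ ((Subgroup.closure (Set.range x)).comap φB).map (AltOn B).subtype := by
        refine altOn_le_of_cyc m1.2 m2.2 h12 fun i hi h1 h2 => ⟨cB i hi h1, ?_, rfl⟩
        rw [SetLike.mem_coe, Subgroup.mem_comap, ← hxB ⟨i, h1, h2⟩ hi]
        exact Subgroup.subset_closure ⟨_, rfl⟩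
      intro g
      obtain ⟨g', hg', e⟩ := h g.2
      rwa [← Subtype.ext e]
    rw [eq_top_iff, ← PresentedGroup.closure_range_of, Subgroup.closure_le]
    rintro _ ⟨k, rfl⟩
    induction k using Fin.addCases with
    | left k =>
      have e : φA (eA (PresentedGroup.of k)) = PresentedGroup.of (Fin.castAdd dB k) := by
        show PresentedGroup.toGroup hθA (eA.symm (eA _)) = _
        rw [MulEquiv.symm_apply_apply]
        exact PresentedGroup.toGroup.of hθA
      rw [← e]
      exact hrA _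
    | right k =>
      have e : φB (eB (PresentedGroup.of k)) = PresentedGroup.of (Fin.natAdd dA k) := by
        show PresentedGroup.toGroup hθB (eB.symm (eB _)) = _
        rw [MulEquiv.symm_apply_apply]
        exact PresentedGroup.toGroup.of hθB
      rw [← e]
      exact hrB _
  obtain ⟨hfin, hle⟩ := hstar.card_le hgen
  let ψ := PresentedGroup.toGroup hrels
  have hψ : Function.Surjective ψ := by
    rw [← MonoidHom.range_eq_top]
    refine Subgroup.map_injective (alternatingGroup α).subtype_injective ?_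
    rw [← MonoidHom.range_eq_map (alternatingGroup α).subtype, Subgroup.range_subtype]
    refine le_antisymm ?_ (alternating_le_of_cyc h12 fun i h1 h2 => ?_)
    · rintro _ ⟨σ, _, rfl⟩
      exact σ.2
    · rcases hAB i with h | h
      · exact ⟨iA (cA i h h1), ⟨mk (wA (cA i h h1)), hwA _⟩, rfl⟩
      · exact ⟨iB (cB i h h1), ⟨mk (wB (cB i h h1)), hwB _⟩, rfl⟩
  have hbij : Function.Bijective ψ := hψ.bijective_of_nat_card_le (by
    haveI : Nontrivial α := ⟨⟨o1, o2, h12⟩⟩
    have h1 := two_mul_nat_card_alternatingGroup (α := α)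
    rw [Nat.card_perm, Nat.card_eq_fintype_card (α := α)] at h1
    have hι : Fintype.card ι + 2 = Fintype.card α := by
      rw [Fintype.card_subtype]
      have : (Finset.univ.filter fun i => i ≠ o1 ∧ i ≠ o2) = Finset.univ \ {o1, o2} := by ext; simp
      rw [this, Finset.card_univ_diff, Finset.card_pair h12]
      have := Fintype.one_lt_card (α := α)
      omega
    rw [hι] at hle
    change 2 * Nat.card (PresentedGroup (↑rels : Set (FreeGroup (Fin (dA + dB))))) ≤ _ at hle
    omega)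
  exact ⟨rels, hcard, MulEquiv.ofBijective ψ hbij, Fin.castAdd dB kA, z1, z2, z3, hz12, hz31, hz32, by
    rw [MulEquiv.ofBijective_apply, show ψ (PresentedGroup.of (Fin.castAdd dB kA)) = f (Fin.castAdd dB kA) from
      PresentedGroup.toGroup.of hrels]
    simp only [f, Fin.addCases_left]
    exact hzc⟩

end glue

theorem smallFew (k : ℕ) (hk1 : 2 ≤ k) (hk4 : k ≤ 4) :
    AltPres (Fin (k + 2)) k (k + k.choose 2) := by
  classical
  have ho : (0 : Fin (k + 2)) ≠ 1 := by simp
  let pt : Fin k → Fin (k + 2) := fun i => ⟨i.val + 2, by omega⟩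
  have hp0 : ∀ i, pt i ≠ 0 := fun i e => by simpa [pt] using congrArg Fin.val e
  have hp1 : ∀ i, pt i ≠ 1 := fun i e => by simpa [pt] using congrArg Fin.val e
  let f : Fin k → alternatingGroup (Fin (k + 2)) := fun i =>
    ⟨cyc 0 1 (pt i), mem_alternatingGroup.2 (cyc_sign ho (hp0 i))⟩
  let rels : Finset (FreeGroup (Fin k)) := (Finset.univ.image fun i => FreeGroup.of i ^ 3) ∪
    ((Finset.univ.filter fun q : Fin k × Fin k => q.1 < q.2).image fun q => (FreeGroup.of q.1 * FreeGroup.of q.2) ^ 2)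
  have hpairs : (Finset.univ.filter fun q : Fin k × Fin k => q.1 < q.2).card ≤ k.choose 2 := by
    interval_cases k <;> decide
  have hcard : rels.card ≤ k + k.choose 2 := by
    refine (Finset.card_union_le _ _).trans (le_trans (Nat.add_le_add Finset.card_image_le
      (Finset.card_image_le.trans hpairs)) ?_)
    rw [Finset.card_univ, Fintype.card_fin]
  have hrels : ∀ r ∈ (↑rels : Set (FreeGroup (Fin k))), FreeGroup.lift f r = 1 := by
    intro r hr
    simp only [rels, Finset.coe_union, Set.mem_union, Finset.coe_image, Set.mem_image, Finset.coe_filter,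
      Finset.coe_univ, Set.mem_univ, true_and, Finset.mem_univ, Set.mem_setOf_eq] at hr
    rcases hr with ⟨i, rfl⟩ | ⟨⟨i, j⟩, hij, rfl⟩
    · rw [map_pow, FreeGroup.lift_apply_of]
      exact Subtype.ext (cyc_rel ho (hp0 i) (hp1 i) (hp0 i) (hp1 i)).1
    · rw [map_pow, map_mul, FreeGroup.lift_apply_of, FreeGroup.lift_apply_of]
      refine Subtype.ext ((cyc_rel ho (hp0 i) (hp1 i) (hp0 j) (hp1 j)).2 fun e => ?_)
      have h' : i.val < j.val := hij
      have := congrArg Fin.val e
      simp [pt] at this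
      omega
  let x : Fin k → PresentedGroup (↑rels : Set (FreeGroup (Fin k))) := PresentedGroup.of
  have hx2 : ∀ i j : Fin k, i < j → (x i * x j) ^ 2 = 1 := fun i j hij => by
    have h1 := PresentedGroup.one_of_mem (rels := (↑rels : Set (FreeGroup (Fin k))))
      (x := (FreeGroup.of i * FreeGroup.of j) ^ 2) (Finset.mem_coe.2 (Finset.mem_union_right _ (Finset.mem_image.2
        ⟨(i, j), by simp [hij], rfl⟩)))
    rw [map_pow, map_mul] at h1
    exact h1
  have hstar : StarRel x := by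
    refine ⟨fun i => ?_, fun i j hij => ?_⟩
    · have h1 := PresentedGroup.one_of_mem (rels := (↑rels : Set (FreeGroup (Fin k)))) (x := FreeGroup.of i ^ 3)
        (Finset.mem_coe.2 (Finset.mem_union_left _ (Finset.mem_image.2 ⟨i, Finset.mem_univ _, rfl⟩)))
      rw [map_pow] at h1
      exact h1
    · rcases lt_or_gt_of_ne hij with h' | h'
      · exact hx2 i j h'
      · rw [show x i * x j = x i * (x j * x i) * (x i)⁻¹ by group, conj_pow, hx2 j i h', mul_one, mul_inv_cancel]
  obtain ⟨hfin, hle⟩ := hstar.card_le (PresentedGroup.closure_range_of _)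
  let ψ := PresentedGroup.toGroup hrels
  have hψ : Function.Surjective ψ := by
    rw [← MonoidHom.range_eq_top]
    refine Subgroup.map_injective (alternatingGroup (Fin (k + 2))).subtype_injective ?_
    rw [← MonoidHom.range_eq_map (alternatingGroup (Fin (k + 2))).subtype, Subgroup.range_subtype]
    refine le_antisymm ?_ (alternating_le_of_cyc ho fun i hi0 hi1 => ?_)
    · rintro _ ⟨σ, _, rfl⟩
      exact σ.2
    · have h2 : 2 ≤ i.val := by
        have a : i.val ≠ 0 := fun e => hi0 (Fin.ext e)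
        have b : i.val ≠ 1 := fun e => hi1 (Fin.ext (by simpa using e))
        omega
      refine ⟨f ⟨i.val - 2, by omega⟩, ⟨PresentedGroup.of ⟨i.val - 2, by omega⟩, PresentedGroup.toGroup.of hrels⟩, ?_⟩
      have : pt ⟨i.val - 2, by omega⟩ = i := Fin.ext (by simp [pt]; omega)
      show cyc 0 1 (pt _) = _
      rw [this]
  have hbij : Function.Bijective ψ := hψ.bijective_of_nat_card_le (by
    have h1 := two_mul_nat_card_alternatingGroup (α := Fin (k + 2))
    rw [Nat.card_perm, Nat.card_fin] at h1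
    rw [Fintype.card_fin] at hle
    omega)
  exact ⟨rels, hcard, MulEquiv.ofBijective ψ hbij, ⟨0, by omega⟩, 0, 1, pt ⟨0, by omega⟩, ho, hp0 _, hp1 _, by
    rw [MulEquiv.ofBijective_apply, show ψ (PresentedGroup.of _) = f _ from PresentedGroup.toGroup.of hrels]⟩

theorem alt_pres_seven (n : ℕ) (hn : 7 ≤ n) : AltPres (Fin n) 4 16 := by
  classical
  obtain ⟨p, hp, h1, h2⟩ := Nat.exists_prime_lt_and_le_two_mul ((n - 1) / 2) (by omega)
  haveI := Fact.mk hp
  have hp5 : 4 ≤ p := by omega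
  have hev : p + 1 ≠ n := by
    rintro rfl
    obtain ⟨j, hj⟩ := hp.odd_of_ne_two (by omega)
    omega
  have hb := AltBase.main (p := p) (by omega) (by omega)
  rcases eq_or_ne n (p + 2) with rfl | hne
  · obtain ⟨R, hR, rest⟩ := hb.pad.pad
    exact ⟨R, hR.trans (by norm_num), rest⟩
  let A : Finset (Fin n) := Finset.univ.filter fun i => i.val < p + 2
  let B : Finset (Fin n) := Finset.univ.filter fun i => n - (p + 2) ≤ i.val
  have hAc : A.card = p + 2 := by
    rw [Fin.card_filter_val_lt, min_eq_right (by omega)]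
  have hBc : B.card = p + 2 := by
    have e : B = (Finset.univ.filter fun i : Fin n => i.val < n - (p + 2))ᶜ := by ext; simp [B]
    rw [e, Finset.card_compl, Fin.card_filter_val_lt, Fintype.card_fin, min_eq_right (by omega)]
    omega
  refine glueFew A B (fun x => ?_) ?_ ⟨⟨0, by omega⟩, ?_⟩ ⟨⟨n - 1, by omega⟩, ?_⟩
    (hb.altOn (A.equivFinOfCardEq hAc).symm) (hb.altOn (B.equivFinOfCardEq hBc).symm)
  · simp only [A, B, Finset.mem_filter, Finset.mem_univ, true_and]
    omega
  · have hu : A ∪ B = Finset.univ := by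
      ext x
      simp only [A, B, Finset.mem_union, Finset.mem_filter, Finset.mem_univ, true_and, iff_true]
      omega
    have := Finset.card_union_add_card_inter A B
    rw [hu, Finset.card_univ, Fintype.card_fin, hAc, hBc] at this
    omega
  · simp [A, B]; omega
  · simp [A, B]; omega

/-- Every alternating group of degree at least six. -/
theorem alt_pres_six (n : ℕ) (hn : 6 ≤ n) : AltPres (Fin n) 4 16 := by
  rcases eq_or_ne n 6 with rfl | hne
  · obtain ⟨R, hR, rest⟩ := smallFew 4 (by norm_num) le_rfl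
    exact ⟨R, hR.trans (by decide), rest⟩
  · exact alt_pres_seven n (by omega)

end Cfsg.Agent.Lib.BoundedPres
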