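import Cfsg.Agent.Lib.BoundedPres.Alt
import Cfsg.Agent.Lib.SLTwoPres.Final

/-!
# Sixteen relations for the alternating group on `p + 3` points, from the projective line
-/

set_option autoImplicit false

namespace Cfsg.Agent.Lib.BoundedPres.Base

open Equiv Equiv.Perm Matrix
open Cfsg.Agent.Lib.SLTwoPres.Core

variable (p : ℕ) [Fact p.Prime]

/-- The projective line and two further points. -/
abbrev Pt := OnePoint (ZMod p) ⊕ Fin 2

/-- The group acting. -/
abbrev SL2 := Matrix.SpecialLinearGroup (Fin 2) (ZMod p)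

/-- Decidable equality of the points of the projective line. -/
local instance instDecEqLine : DecidableEq (OnePoint (ZMod p)) := inferInstanceAs (DecidableEq (Option (ZMod p)))

/-- The action on the projective line. -/
def act : SL2 p →* Perm (OnePoint (ZMod p)) :=
  (MulAction.toPermHom (GL (Fin 2) (ZMod p)) (OnePoint (ZMod p))).comp Matrix.SpecialLinearGroup.toGL

/-- The action fixing the two further points. -/
def rho : SL2 p →* Perm (Pt p) := (Perm.sumCongrHom _ _).comp ((act p).prod 1)

variable {p}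

theorem rho_inl (g : SL2 p) (i : OnePoint (ZMod p)) : rho p g (Sum.inl i) = Sum.inl (act p g i) := rfl

theorem rho_inr (g : SL2 p) (a : Fin 2) : rho p g (Sum.inr a) = Sum.inr a := rfl

theorem rho_conj (g : SL2 p) (i : OnePoint (ZMod p)) :
    rho p g * cyc (Sum.inr 0) (Sum.inr 1) (Sum.inl i) * (rho p g)⁻¹ = cyc (Sum.inr 0) (Sum.inr 1) (Sum.inl (act p g i)) := by
  rw [conj_cyc, rho_inr, rho_inr, rho_inl]

theorem act_infty_iff (g : SL2 p) :
    act p g OnePoint.infty = OnePoint.infty ↔ (g : Matrix (Fin 2) (Fin 2) (ZMod p)) 1 0 = 0 :=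
  OnePoint.smul_infty_eq_self_iff

theorem act_T : act p T' OnePoint.infty = ((0 : ZMod p) : OnePoint (ZMod p)) := by
  change (Matrix.SpecialLinearGroup.toGL T' : GL (Fin 2) (ZMod p)) • (OnePoint.infty : OnePoint (ZMod p)) = _
  rw [OnePoint.smul_infty_eq_ite]
  simp [T', Matrix.SpecialLinearGroup.toGL]

theorem act_X (c j : ZMod p) : act p (X' c) (j : OnePoint (ZMod p)) = ((j + c : ZMod p) : OnePoint (ZMod p)) := by
  change (Matrix.SpecialLinearGroup.toGL (X' c) : GL (Fin 2) (ZMod p)) • (j : OnePoint (ZMod p)) = _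
  rw [OnePoint.smul_some_eq_ite]
  simp [X', Matrix.SpecialLinearGroup.toGL]

theorem act_X_infty (c : ZMod p) : act p (X' c) OnePoint.infty = OnePoint.infty :=
  (act_infty_iff _).2 (by simp [X'])

theorem stab_le (ω : (ZMod p)ˣ) (hω : ∀ s : (ZMod p)ˣ, ∃ n : ℕ, ω ^ n = s) (g : SL2 p)
    (hg : act p g OnePoint.infty = OnePoint.infty) : g ∈ Subgroup.closure ({X' 1, H' ω} : Set (SL2 p)) := by
  rw [act_infty_iff] at hg
  have hdet : (g : Matrix (Fin 2) (Fin 2) (ZMod p)) 0 0 * (g : Matrix (Fin 2) (Fin 2) (ZMod p)) 1 1 = 1 := by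
    have h := g.2
    rw [det_fin_two, hg, mul_zero, sub_zero] at h
    exact h
  let s : (ZMod p)ˣ := Units.mkOfMulEqOne _ _ hdet
  obtain ⟨n, hn⟩ := hω s
  have hs : (s : ZMod p) = (g : Matrix (Fin 2) (Fin 2) (ZMod p)) 0 0 := rfl
  have hs' : ((s⁻¹ : (ZMod p)ˣ) : ZMod p) = (g : Matrix (Fin 2) (Fin 2) (ZMod p)) 1 1 := rfl
  set t := (g : Matrix (Fin 2) (Fin 2) (ZMod p)) 1 1 * (g : Matrix (Fin 2) (Fin 2) (ZMod p)) 0 1 with ht
  have e : g = H' ω ^ n * X' (1 : ZMod p) ^ t.val := by
    rw [H'_pow, X'_pow, hn, ZMod.natCast_zmod_val, mul_one]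
    refine Matrix.SpecialLinearGroup.ext _ _ fun i j => ?_
    simp only [Matrix.SpecialLinearGroup.coe_mul]
    fin_cases i <;> fin_cases j <;> simp [H', X', Matrix.mul_apply, Fin.sum_univ_two, hs, hs', hg]
    rw [ht, ← mul_assoc, hdet, one_mul]
  rw [e]
  exact mul_mem (pow_mem (Subgroup.subset_closure (by simp)) _) (pow_mem (Subgroup.subset_closure (by simp)) _)

theorem sign_rho (hp : p ≠ 2) (g : SL2 p) : Perm.sign (rho p g) = 1 := by
  haveI : CharP (ZMod p) p := ZMod.charP p
  refine Cfsg.Agent.Lib.Classical.SL_transvection_induction (fun g => Perm.sign (rho p g) = 1)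
    (by simp only [map_one]) (fun i j h c => ?_) (fun A B hA hB => by simp only [map_mul, hA, hB, one_mul]) g
  have hpow : ∀ k : ℕ, Matrix.SpecialLinearGroup.transvection h c ^ k =
      Matrix.SpecialLinearGroup.transvection h ((k : ZMod p) * c) := by
    intro k
    induction k with
    | zero =>
      rw [pow_zero, Nat.cast_zero, zero_mul]
      exact Subtype.ext (by simp [Matrix.SpecialLinearGroup.transvection])
    | succ k ih =>
      rw [pow_succ, ih]
      refine Subtype.ext ?_
      change Matrix.transvection i j _ * Matrix.transvection i j c = Matrix.transvection i j _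
      rw [Matrix.transvection_mul_transvection_same _ _ h, Nat.cast_succ, add_mul, one_mul]
  have h1 : Matrix.SpecialLinearGroup.transvection h c ^ p = 1 := by
    rw [hpow, CharP.cast_eq_zero, zero_mul]
    exact Subtype.ext (by simp [Matrix.SpecialLinearGroup.transvection])
  have h2 := congrArg (fun g => Perm.sign (rho p g)) h1
  simp only [map_pow, map_one] at h2
  rcases Int.units_eq_one_or (Perm.sign (rho p (Matrix.SpecialLinearGroup.transvection h c))) with e | e
  · exact e
  · exfalso
    rw [e, Odd.neg_one_pow ((Fact.out : p.Prime).odd_of_ne_two hp)] at h2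
    exact absurd h2 (by decide)

theorem main (hp : p ≠ 2) : HasPres (alternatingGroup (Fin (p + 3))) 16 := by
  classical
  obtain ⟨⟨R0, hR0, ⟨e0⟩⟩, -⟩ := Cfsg.Agent.Lib.SLTwoPres.Final.main (ZMod p)
  obtain ⟨ω, hω⟩ := IsCyclic.exists_monoid_generator (α := (ZMod p)ˣ)
  have hω' : ∀ s : (ZMod p)ˣ, ∃ n : ℕ, ω ^ n = s := fun s => hω s
  choose pre hpre using fun g => PresentedGroup.mk_surjective (↑R0 : Set (FreeGroup (Fin 3))) (e0.symm g)
  let W : SL2 p → FreeGroup (Fin 4) := fun g => FreeGroup.map Fin.castSucc (pre g)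
  let rA : SL2 p →* alternatingGroup (Pt p) := (rho p).codRestrict _ fun g => mem_alternatingGroup.2 (sign_rho hp g)
  have ho : (Sum.inr 0 : Pt p) ≠ Sum.inr 1 := by simp
  let cA : OnePoint (ZMod p) → alternatingGroup (Pt p) := fun i =>
    ⟨cyc (Sum.inr 0) (Sum.inr 1) (Sum.inl i), mem_alternatingGroup.2 (cyc_sign ho (by simp))⟩
  let f : Fin 4 → alternatingGroup (Pt p) := Fin.snoc (fun k => rA (e0 (PresentedGroup.of k))) (cA OnePoint.infty)
  have hf3 : f 3 = cA OnePoint.infty := rfl
  have hfk : ∀ k : Fin 3, f k.castSucc = rA (e0 (PresentedGroup.of k)) := fun k => Fin.snoc_castSucc _ _ _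
  have hlift0 : ∀ x, FreeGroup.lift f (FreeGroup.map Fin.castSucc x) = rA (e0 (PresentedGroup.mk _ x)) := fun x => by
    rw [lift_map']
    exact DFunLike.congr_fun (FreeGroup.ext_hom (FreeGroup.lift (f ∘ Fin.castSucc))
      (rA.comp (e0.toMonoidHom.comp (PresentedGroup.mk _))) fun a => by simp [hfk, PresentedGroup.of]) x
  have hW : ∀ g, FreeGroup.lift f (W g) = rA g := fun g => by
    show FreeGroup.lift f (FreeGroup.map Fin.castSucc (pre g)) = _
    rw [hlift0, hpre, MulEquiv.apply_symm_apply]
  have hconjA : ∀ g i, rA g * cA i * (rA g)⁻¹ = cA (act p g i) := fun g i => Subtype.ext (rho_conj g i)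
  let rep : OnePoint (ZMod p) → SL2 p := fun i => Option.elim i 1 fun j => X' j * T'
  have hrep : ∀ i, act p (rep i) OnePoint.infty = i := by
    intro i
    induction i using OnePoint.rec with
    | infty => show act p 1 OnePoint.infty = _; rw [map_one]; rfl
    | coe j => show act p (X' j * T') OnePoint.infty = _; rw [map_mul, Perm.mul_apply, act_T, act_X, zero_add]
  let C : FreeGroup (Fin 4) := FreeGroup.of 3
  let Xw : OnePoint (ZMod p) → FreeGroup (Fin 4) := fun i => W (rep i) * C * (W (rep i))⁻¹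
  have hXw : ∀ i, FreeGroup.lift f (Xw i) = cA i := fun i => by
    simp only [Xw, C, map_mul, map_inv, hW, FreeGroup.lift_apply_of, hf3, hconjA, hrep]
  have hgenA : Subgroup.closure (Set.range cA) = ⊤ := by
    refine Subgroup.map_injective (alternatingGroup (Pt p)).subtype_injective ?_
    rw [← MonoidHom.range_eq_map, Subgroup.range_subtype]
    refine le_antisymm ?_ (alternating_le_of_cyc ho fun i hi1 hi2 => ?_)
    · rintro _ ⟨σ, _, rfl⟩
      exact σ.2
    · obtain i | a := i
      · exact ⟨cA i, Subgroup.subset_closure ⟨i, rfl⟩, rfl⟩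
      · fin_cases a
        · exact absurd rfl hi1
        · exact absurd rfl hi2
  have hsurj : Function.Surjective (FreeGroup.lift cA) := by
    rw [← MonoidHom.range_eq_top, eq_top_iff, ← hgenA, Subgroup.closure_le]
    rintro _ ⟨i, rfl⟩
    exact ⟨FreeGroup.of i, by simp⟩
  choose word hword using fun k : Fin 3 => hsurj (rA (e0 (PresentedGroup.of k)))
  let rGen : Fin 3 → FreeGroup (Fin 4) := fun k => FreeGroup.of k.castSucc * (FreeGroup.lift Xw (word k))⁻¹
  let rels : Finset (FreeGroup (Fin 4)) := R0.image (FreeGroup.map Fin.castSucc) ∪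
    ({C ^ 3, C * W (X' 1) * C⁻¹ * (W (X' 1))⁻¹, C * W (H' ω) * C⁻¹ * (W (H' ω))⁻¹,
      (C * (W T' * C * (W T')⁻¹)) ^ 2} ∪ Finset.univ.image rGen)
  have hcard : rels.card ≤ 16 := by
    refine (Finset.card_union_le _ _).trans ?_
    refine le_trans (Nat.add_le_add (Finset.card_image_le.trans hR0) ((Finset.card_union_le _ _).trans
      (Nat.add_le_add Finset.card_le_four (Finset.card_image_le.trans (le_of_eq (Fintype.card_fin 3)))))) le_rfl
  have hcomm : ∀ b : SL2 p, act p b OnePoint.infty = OnePoint.infty →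
      cA OnePoint.infty * rA b * (cA OnePoint.infty)⁻¹ * (rA b)⁻¹ = 1 := fun b hb => by
    have e := hconjA b OnePoint.infty
    rw [hb] at e
    calc cA OnePoint.infty * rA b * (cA OnePoint.infty)⁻¹ * (rA b)⁻¹
        = cA OnePoint.infty * (rA b * cA OnePoint.infty * (rA b)⁻¹)⁻¹ := by group
      _ = 1 := by rw [e, mul_inv_cancel]
  have hT0 : act p T' OnePoint.infty ≠ OnePoint.infty := by rw [act_T]; exact OnePoint.coe_ne_infty _
  have hrels : ∀ r ∈ (↑rels : Set (FreeGroup (Fin 4))), FreeGroup.lift f r = 1 := by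
    intro r hr
    simp only [rels, Finset.coe_union, Set.mem_union, Finset.coe_image, Set.mem_image, Finset.mem_coe, Finset.mem_insert,
      Finset.mem_singleton, Finset.coe_univ, Set.mem_univ, true_and] at hr
    rcases hr with ⟨r, hr, rfl⟩ | (rfl | rfl | rfl | rfl) | ⟨k, rfl⟩
    · rw [hlift0, PresentedGroup.one_of_mem (Finset.mem_coe.2 hr), map_one, map_one]
    · rw [map_pow]
      refine Subtype.ext ?_
      simp only [C, FreeGroup.lift_apply_of, hf3]
      exact (cyc_rel ho (i := Sum.inl OnePoint.infty) (j := Sum.inl OnePoint.infty) (by simp) (by simp) (by simp) (by simp)).1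
    · simp only [C, map_mul, map_inv, hW, FreeGroup.lift_apply_of, hf3]
      exact hcomm _ (act_X_infty 1)
    · simp only [C, map_mul, map_inv, hW, FreeGroup.lift_apply_of, hf3]
      exact hcomm _ ((act_infty_iff _).2 (show (H' ω : Matrix (Fin 2) (Fin 2) (ZMod p)) 1 0 = 0 from rfl))
    · simp only [C, map_pow, map_mul, map_inv, hW, FreeGroup.lift_apply_of, hf3, hconjA]
      refine Subtype.ext ?_
      exact (cyc_rel ho (i := Sum.inl OnePoint.infty) (j := Sum.inl (act p T' OnePoint.infty)) (by simp) (by simp) (by simp)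
        (by simp)).2 (fun e => hT0 (Sum.inl_injective e).symm)
    · simp only [rGen, map_mul, map_inv, FreeGroup.lift_apply_of, hfk, lift_lift, hXw, hword, mul_inv_cancel]
  set P := PresentedGroup (↑rels : Set (FreeGroup (Fin 4)))
  let mk := PresentedGroup.mk (↑rels : Set (FreeGroup (Fin 4)))
  have hone : ∀ r ∈ rels, mk r = 1 := fun r hr => PresentedGroup.one_of_mem (Finset.mem_coe.2 hr)
  have hθ : ∀ r ∈ (↑R0 : Set (FreeGroup (Fin 3))),
      FreeGroup.lift (fun k : Fin 3 => PresentedGroup.of (rels := (↑rels : Set (FreeGroup (Fin 4)))) k.castSucc) r = 1 := by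
    intro r hr
    rw [show (fun k : Fin 3 => PresentedGroup.of (rels := (↑rels : Set (FreeGroup (Fin 4)))) k.castSucc) =
      PresentedGroup.of ∘ Fin.castSucc from rfl, ← lift_map', lift_mk]
    exact hone _ (Finset.mem_union_left _ (Finset.mem_image_of_mem _ (Finset.mem_coe.1 hr)))
  let Φ : SL2 p →* P := (PresentedGroup.toGroup hθ).comp e0.symm.toMonoidHom
  have hΦW : ∀ g, Φ g = mk (W g) := fun g => by
    show PresentedGroup.toGroup hθ (e0.symm g) = _
    rw [← hpre g]
    refine (DFunLike.congr_fun (FreeGroup.ext_hom ((PresentedGroup.toGroup hθ).comp (PresentedGroup.mk _))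
      (mk.comp (FreeGroup.map Fin.castSucc)) fun a => ?_) (pre g))
    simp only [MonoidHom.comp_apply, FreeGroup.map.of]
    exact PresentedGroup.toGroup.of hθ
  let c : P := mk C
  let x : OnePoint (ZMod p) → P := fun i => Φ (rep i) * c * (Φ (rep i))⁻¹
  have hxmk : ∀ i, x i = mk (Xw i) := fun i => by simp only [x, c, Xw, map_mul, map_inv, hΦW]
  have hc3 : c ^ 3 = 1 := by
    rw [← map_pow]; exact hone _ (Finset.mem_union_right _ (Finset.mem_union_left _ (by simp)))
  have hcB : ∀ b : SL2 p, act p b OnePoint.infty = OnePoint.infty → Φ b * c * (Φ b)⁻¹ = c := by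
    intro b hb
    have h1 : b ∈ (Subgroup.centralizer {c}).comap Φ := by
      refine (Subgroup.closure_le _).2 ?_ (stab_le ω hω' b hb)
      have : ∀ b, C * W b * C⁻¹ * (W b)⁻¹ ∈ rels → b ∈ (Subgroup.centralizer {c}).comap Φ := fun b hr => by
        have h1 := hone _ hr
        simp only [map_mul, map_inv, ← hΦW] at h1
        rw [Subgroup.mem_comap, Subgroup.mem_centralizer_singleton_iff]
        rw [mul_inv_eq_one, mul_inv_eq_iff_eq_mul] at h1
        exact h1.symm
      rintro y (rfl | rfl)
      · exact this _ (Finset.mem_union_right _ (Finset.mem_union_left _ (by simp)))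
      · exact this _ (Finset.mem_union_right _ (Finset.mem_union_left _ (by simp)))
    rw [Subgroup.mem_comap, Subgroup.mem_centralizer_singleton_iff] at h1
    rw [h1, mul_inv_cancel_right]
  have heq : ∀ g i, Φ g * x i * (Φ g)⁻¹ = x (act p g i) := by
    intro g i
    have hb : act p ((rep (act p g i))⁻¹ * (g * rep i)) OnePoint.infty = OnePoint.infty := by
      rw [map_mul, map_mul, Perm.mul_apply, Perm.mul_apply, hrep, map_inv, Perm.inv_def, Equiv.symm_apply_eq, hrep]
    have h := hcB _ hb
    simp only [map_mul, map_inv] at h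
    simp only [x]
    calc _ = Φ (rep (act p g i)) * (((Φ (rep (act p g i)))⁻¹ * (Φ g * Φ (rep i))) * c *
          ((Φ (rep (act p g i)))⁻¹ * (Φ g * Φ (rep i)))⁻¹) * (Φ (rep (act p g i)))⁻¹ := by group
      _ = _ := by rw [h]
  have hxinf : x OnePoint.infty = c := by
    show Φ 1 * c * (Φ 1)⁻¹ = c
    rw [map_one, one_mul, inv_one, mul_one]
  have hsq : (c * x ((0 : ZMod p) : OnePoint (ZMod p))) ^ 2 = 1 := by
    have h1 := heq T' OnePoint.infty
    rw [hxinf, act_T] at h1
    rw [← h1, hΦW]
    simp only [c, ← map_inv, ← map_mul, ← map_pow]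
    exact hone _ (Finset.mem_union_right _ (Finset.mem_union_left _ (by simp)))
  have hstar : StarRel x := by
    refine ⟨fun i => by rw [conj_pow, hc3, mul_one, mul_inv_cancel], fun i j hij => ?_⟩
    obtain ⟨j', hj'⟩ : ∃ j' : ZMod p, act p (rep i) (j' : OnePoint (ZMod p)) = j := by
      obtain ⟨z, hz⟩ := (act p (rep i)).surjective j
      induction z using OnePoint.rec with
      | infty => exact absurd (by rw [← hz, hrep]) hij
      | coe z => exact ⟨z, hz⟩
    have hi : act p (rep i * X' j') OnePoint.infty = i := by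
      rw [map_mul, Perm.mul_apply, act_X_infty, hrep]
    have hj : act p (rep i * X' j') ((0 : ZMod p) : OnePoint (ZMod p)) = j := by
      rw [map_mul, Perm.mul_apply, act_X, zero_add, hj']
    rw [← hi, ← hj, ← heq, ← heq, hxinf]
    generalize hy : x ((0 : ZMod p) : OnePoint (ZMod p)) = y at hsq ⊢
    generalize Φ (rep i * X' j') = g
    rw [show g * c * g⁻¹ * (g * y * g⁻¹) = g * (c * y) * g⁻¹ by group, conj_pow, hsq, mul_one, mul_inv_cancel]
  have hgen : Subgroup.closure (Set.range x) = ⊤ := by
    rw [eq_top_iff, ← PresentedGroup.closure_range_of, Subgroup.closure_le]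
    rintro _ ⟨k, rfl⟩
    induction k using Fin.lastCases with
    | last => exact Subgroup.subset_closure ⟨OnePoint.infty, hxinf⟩
    | cast k =>
      have h1 := hone (rGen k) (Finset.mem_union_right _ (Finset.mem_union_right _ (Finset.mem_image_of_mem _
        (Finset.mem_univ k))))
      simp only [rGen, map_mul, map_inv, mul_inv_eq_one] at h1
      have h2 : mk (FreeGroup.lift Xw (word k)) = FreeGroup.lift x (word k) :=
        DFunLike.congr_fun (FreeGroup.ext_hom (mk.comp (FreeGroup.lift Xw)) (FreeGroup.lift x) fun a => by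
          simp [hxmk]) (word k)
      show mk (FreeGroup.of k.castSucc) ∈ _
      rw [h1, h2]
      have : (FreeGroup.lift x).range ≤ Subgroup.closure (Set.range x) := le_of_eq (FreeGroup.range_lift_eq_closure)
      exact this ⟨word k, rfl⟩
  obtain ⟨hfin, hle⟩ := hstar.card_le hgen
  let ψ := PresentedGroup.toGroup hrels
  have hψ : Function.Surjective ψ := by
    intro a
    obtain ⟨w, rfl⟩ := hsurj a
    refine ⟨mk (FreeGroup.lift Xw w), ?_⟩
    show FreeGroup.lift f (FreeGroup.lift Xw w) = _
    rw [lift_lift]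
    simp only [hXw]
  have hcardP : Fintype.card (Pt p) = p + 3 := by
    rw [Fintype.card_sum, Fintype.card_fin, show Fintype.card (OnePoint (ZMod p)) = p + 1 from
      Fintype.card_option.trans (by rw [ZMod.card])]
  obtain ⟨e⟩ := nonempty_equiv_of_card ψ hψ (by
    haveI : Nontrivial (Pt p) := Fintype.one_lt_card_iff_nontrivial.1 (by omega)
    have h1 := two_mul_nat_card_alternatingGroup (α := Pt p)
    rw [Nat.card_perm, Nat.card_eq_fintype_card (α := Pt p), hcardP] at h1
    rw [show Fintype.card (OnePoint (ZMod p)) = p + 1 from Fintype.card_option.trans (by rw [ZMod.card]),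
      show p + 1 + 2 = p + 3 by omega] at hle
    change 2 * Nat.card (PresentedGroup (↑rels : Set (FreeGroup (Fin 4)))) ≤ _ at hle
    omega)
  exact HasPres.mk' rels hcard (e.trans (Equiv.altCongrHom (Fintype.equivFinOfCardEq hcardP)))

end Cfsg.Agent.Lib.BoundedPres.Base
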