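import Cfsg.Agent.Lib.BoundedPres.Base

/-!
# A bounded number of relations for every alternating group
-/

set_option autoImplicit false

namespace Cfsg.Agent.Lib.BoundedPres

open Equiv Equiv.Perm

theorem small (n : ℕ) (hn : n ≤ 10) : HasPres (alternatingGroup (Fin n)) 39 := by
  classical
  rcases Nat.lt_or_ge n 3 with h | h
  · refine HasPres.mk' (d := 0) (∅ : Finset (FreeGroup (Fin 0))) (by simp) (@MulEquiv.ofUnique _ _ ?_ ?_ _ _)
    · refine @uniqueOfSubsingleton _ ?_ 1
      constructor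
      intro a b
      obtain ⟨a, rfl⟩ := PresentedGroup.mk_surjective _ a
      obtain ⟨b, rfl⟩ := PresentedGroup.mk_surjective _ b
      rw [Subsingleton.elim a b]
    · refine @uniqueOfSubsingleton _ ?_ 1
      rw [← Fintype.card_le_one_iff_subsingleton]
      interval_cases n <;> decide
  obtain ⟨k, rfl⟩ : ∃ k, n = k + 2 := ⟨n - 2, by omega⟩
  have hk : k ≤ 8 := by omega
  have ho : (0 : Fin (k + 2)) ≠ 1 := by simp
  let pt : Fin k → Fin (k + 2) := fun i => ⟨i.val + 2, by omega⟩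
  have hp0 : ∀ i, pt i ≠ 0 := fun i e => by simpa [pt] using congrArg Fin.val e
  have hp1 : ∀ i, pt i ≠ 1 := fun i e => by simpa [pt] using congrArg Fin.val e
  let f : Fin k → alternatingGroup (Fin (k + 2)) := fun i =>
    ⟨cyc 0 1 (pt i), mem_alternatingGroup.2 (cyc_sign ho (hp0 i))⟩
  let rels : Finset (FreeGroup (Fin k)) := (Finset.univ.image fun i => FreeGroup.of i ^ 3) ∪
    ((Finset.univ.filter fun q : Fin k × Fin k => q.1 < q.2).image fun q => (FreeGroup.of q.1 * FreeGroup.of q.2) ^ 2)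
  have hpairs : (Finset.univ.filter fun q : Fin k × Fin k => q.1 < q.2).card ≤ 28 := by
    interval_cases k <;> decide
  have hcard : rels.card ≤ 39 := by
    refine (Finset.card_union_le _ _).trans (le_trans (Nat.add_le_add Finset.card_image_le
      (Finset.card_image_le.trans hpairs)) ?_)
    rw [Finset.card_univ, Fintype.card_fin]
    omega
  have hrels : ∀ r ∈ (↑rels : Set (FreeGroup (Fin k))), FreeGroup.lift f r = 1 := by
    intro r hr
    simp only [rels, Finset.coe_union, Set.mem_union, Finset.coe_image, Set.mem_image, Finset.coe_filter,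
      Finset.coe_univ, Set.mem_univ, true_and, Finset.mem_univ, Set.mem_setOf_eq] at hr
    rcases hr with ⟨i, rfl⟩ | ⟨⟨i, j⟩, hij, rfl⟩
    · rw [map_pow, FreeGroup.lift_apply_of]
      exact Subtype.ext (cyc_rel ho (hp0 i) (hp1 i) (hp0 i) (hp1 i)).1
    · rw [map_pow, map_mul, FreeGroup.lift_apply_of, FreeGroup.lift_apply_of]
      refine Subtype.ext ((cyc_rel ho (hp0 i) (hp1 i) (hp0 j) (hp1 j)).2 fun e => ?_)
      have h' : i.val < j.val := hij
      have := congrArg Fin.val e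
      simp [pt] at this
      omega
  let x : Fin k → PresentedGroup (↑rels : Set (FreeGroup (Fin k))) := PresentedGroup.of
  have hx2 : ∀ i j : Fin k, i < j → (x i * x j) ^ 2 = 1 := fun i j hij => by
    have h1 := PresentedGroup.one_of_mem (rels := (↑rels : Set (FreeGroup (Fin k))))
      (x := (FreeGroup.of i * FreeGroup.of j) ^ 2) (Finset.mem_coe.2 (Finset.mem_union_right _ (Finset.mem_image.2
        ⟨(i, j), by simp [hij], rfl⟩)))
    rw [map_pow, map_mul] at h1
    exact h1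
  have hstar : StarRel x := by
    refine ⟨fun i => ?_, fun i j hij => ?_⟩
    · have h1 := PresentedGroup.one_of_mem (rels := (↑rels : Set (FreeGroup (Fin k)))) (x := FreeGroup.of i ^ 3)
        (Finset.mem_coe.2 (Finset.mem_union_left _ (Finset.mem_image.2 ⟨i, Finset.mem_univ _, rfl⟩)))
      rw [map_pow] at h1
      exact h1
    · rcases lt_or_gt_of_ne hij with h' | h'
      · exact hx2 i j h'
      · rw [show x i * x j = x i * (x j * x i) * (x i)⁻¹ by group, conj_pow, hx2 j i h', mul_one, mul_inv_cancel]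
  obtain ⟨hfin, hle⟩ := hstar.card_le (PresentedGroup.closure_range_of _)
  let ψ := PresentedGroup.toGroup hrels
  have hψ : Function.Surjective ψ := by
    rw [← MonoidHom.range_eq_top]
    refine Subgroup.map_injective (alternatingGroup (Fin (k + 2))).subtype_injective ?_
    rw [← MonoidHom.range_eq_map (alternatingGroup (Fin (k + 2))).subtype, Subgroup.range_subtype]
    refine le_antisymm ?_ (alternating_le_of_cyc ho fun i hi0 hi1 => ?_)
    · rintro _ ⟨σ, _, rfl⟩
      exact σ.2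
    · have h2 : 2 ≤ i.val := by
        have a : i.val ≠ 0 := fun e => hi0 (Fin.ext e)
        have b : i.val ≠ 1 := fun e => hi1 (Fin.ext (by simpa using e))
        omega
      refine ⟨f ⟨i.val - 2, by omega⟩, ⟨PresentedGroup.of ⟨i.val - 2, by omega⟩, PresentedGroup.toGroup.of hrels⟩, ?_⟩
      have : pt ⟨i.val - 2, by omega⟩ = i := Fin.ext (by simp [pt]; omega)
      show cyc 0 1 (pt _) = _
      rw [this]
  obtain ⟨e⟩ := nonempty_equiv_of_card ψ hψ (by
    have h1 := two_mul_nat_card_alternatingGroup (α := Fin (k + 2))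
    rw [Nat.card_perm, Nat.card_fin] at h1
    rw [Fintype.card_fin] at hle
    omega)
  exact HasPres.mk' rels hcard e

section glue

variable {α : Type*} [Fintype α] [DecidableEq α]

/-- Two overlapping alternating groups. -/
theorem glue (A B : Finset α) (hAB : ∀ x, x ∈ A ∨ x ∈ B) (h4 : 4 ≤ (A ∩ B).card) {i0 j0 : α}
    (hi0 : i0 ∈ A \ B) (hj0 : j0 ∈ B \ A) (hA : HasPres (AltOn A) 16) (hB : HasPres (AltOn B) 16) :
    HasPres (alternatingGroup α) 39 := by
  classical
  obtain ⟨dA, RA, hRA, ⟨eA⟩⟩ := hA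
  obtain ⟨dB, RB, hRB, ⟨eB⟩⟩ := hB
  let emb : Fin 4 → α := fun i => ((A ∩ B).equivFin.symm (Fin.castLE h4 i)).1
  have hemb : Function.Injective emb := fun a b e =>
    Fin.castLE_injective h4 ((A ∩ B).equivFin.symm.injective (Subtype.ext e))
  have hmem : ∀ i, emb i ∈ A ∧ emb i ∈ B := fun i =>
    Finset.mem_inter.1 ((A ∩ B).equivFin.symm (Fin.castLE h4 i)).2
  obtain ⟨o1, ho1⟩ : ∃ o, o = emb 0 := ⟨_, rfl⟩
  obtain ⟨o2, ho2⟩ : ∃ o, o = emb 1 := ⟨_, rfl⟩
  obtain ⟨o3, ho3⟩ : ∃ o, o = emb 2 := ⟨_, rfl⟩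
  obtain ⟨o4, ho4⟩ : ∃ o, o = emb 3 := ⟨_, rfl⟩
  have h12 : o1 ≠ o2 := by rw [ho1, ho2]; exact hemb.ne (by decide)
  have h13 : o1 ≠ o3 := by rw [ho1, ho3]; exact hemb.ne (by decide)
  have h14 : o1 ≠ o4 := by rw [ho1, ho4]; exact hemb.ne (by decide)
  have h23 : o2 ≠ o3 := by rw [ho2, ho3]; exact hemb.ne (by decide)
  have h24 : o2 ≠ o4 := by rw [ho2, ho4]; exact hemb.ne (by decide)
  have h34 : o3 ≠ o4 := by rw [ho3, ho4]; exact hemb.ne (by decide)
  have m1 := ho1 ▸ hmem 0
  have m2 := ho2 ▸ hmem 1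
  have m3 := ho3 ▸ hmem 2
  have m4 := ho4 ▸ hmem 3
  obtain ⟨hi0A, hi0B⟩ := Finset.mem_sdiff.1 hi0
  obtain ⟨hj0B, hj0A⟩ := Finset.mem_sdiff.1 hj0
  have hne : ∀ {x y : α}, x ∉ B → y ∈ B → x ≠ y := fun hx hy e => hx (e ▸ hy)
  have hne' : ∀ {x y : α}, x ∉ A → y ∈ A → x ≠ y := fun hx hy e => hx (e ▸ hy)
  -- the four auxiliary supports
  let X1 : Finset α := (A \ B) ∪ {o3, o4}
  let Y1 : Finset α := (B \ A) ∪ {o1, o2}
  let X2 : Finset α := (A \ B) ∪ {o1, o2}
  let Y2 : Finset α := (B \ A) ∪ {o3, o4}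
  have hX1A : X1 ⊆ A := Finset.union_subset Finset.sdiff_subset (by simp [Finset.insert_subset_iff, m3.1, m4.1])
  have hX2A : X2 ⊆ A := Finset.union_subset Finset.sdiff_subset (by simp [Finset.insert_subset_iff, m1.1, m2.1])
  have hY1B : Y1 ⊆ B := Finset.union_subset Finset.sdiff_subset (by simp [Finset.insert_subset_iff, m1.2, m2.2])
  have hY2B : Y2 ⊆ B := Finset.union_subset Finset.sdiff_subset (by simp [Finset.insert_subset_iff, m3.2, m4.2])
  have hd1 : ∀ x, x ∈ X1 → x ∉ Y1 := by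
    intro x hx hy
    simp only [X1, Y1, Finset.mem_union, Finset.mem_sdiff, Finset.mem_insert, Finset.mem_singleton] at hx hy
    rcases hx with ⟨-, hxB⟩ | rfl | rfl <;> rcases hy with ⟨hyB, hyA⟩ | h | h
    exacts [hxB hyB, hxB (h ▸ m1.2), hxB (h ▸ m2.2), hyA m3.1, h13 h.symm, h23 h.symm, hyA m4.1, h14 h.symm, h24 h.symm]
  -- the target and the words
  let iA : AltOn A →* alternatingGroup α := Subgroup.inclusion (altOn_le_alternating A)
  let iB : AltOn B →* alternatingGroup α := Subgroup.inclusion (altOn_le_alternating B)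
  let f : Fin (dA + dB) → alternatingGroup α :=
    Fin.addCases (fun i => iA (eA (PresentedGroup.of i))) (fun i => iB (eB (PresentedGroup.of i)))
  choose preA hpreA using fun g => PresentedGroup.mk_surjective (↑RA : Set (FreeGroup (Fin dA))) (eA.symm g)
  choose preB hpreB using fun g => PresentedGroup.mk_surjective (↑RB : Set (FreeGroup (Fin dB))) (eB.symm g)
  let wA : AltOn A → FreeGroup (Fin (dA + dB)) := fun g => FreeGroup.map (Fin.castAdd dB) (preA g)
  let wB : AltOn B → FreeGroup (Fin (dA + dB)) := fun g => FreeGroup.map (Fin.natAdd dA) (preB g)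
  have hliftA : ∀ x, FreeGroup.lift f (FreeGroup.map (Fin.castAdd dB) x) = iA (eA (PresentedGroup.mk _ x)) := fun x => by
    rw [lift_map']
    exact DFunLike.congr_fun (FreeGroup.ext_hom (FreeGroup.lift (f ∘ Fin.castAdd dB))
      (iA.comp (eA.toMonoidHom.comp (PresentedGroup.mk _))) fun a => by simp [f, PresentedGroup.of]) x
  have hliftB : ∀ x, FreeGroup.lift f (FreeGroup.map (Fin.natAdd dA) x) = iB (eB (PresentedGroup.mk _ x)) := fun x => by
    rw [lift_map']
    exact DFunLike.congr_fun (FreeGroup.ext_hom (FreeGroup.lift (f ∘ Fin.natAdd dA))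
      (iB.comp (eB.toMonoidHom.comp (PresentedGroup.mk _))) fun a => by simp [f, PresentedGroup.of]) x
  have hwA : ∀ g, FreeGroup.lift f (wA g) = iA g := fun g => by
    rw [hliftA, hpreA, MulEquiv.apply_symm_apply]
  have hwB : ∀ g, FreeGroup.lift f (wB g) = iB g := fun g => by
    rw [hliftB, hpreB, MulEquiv.apply_symm_apply]
  let jA : ∀ {X : Finset α}, X ⊆ A → AltOn X →* AltOn A := fun h => Subgroup.inclusion (altOn_mono h)
  let jB : ∀ {X : Finset α}, X ⊆ B → AltOn X →* AltOn B := fun h => Subgroup.inclusion (altOn_mono h)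
  have hIA : A ∩ B ⊆ A := Finset.inter_subset_left
  have hIB : A ∩ B ⊆ B := Finset.inter_subset_right
  obtain ⟨s1, s2, hs⟩ := altOn_two_gen (A ∩ B)
  obtain ⟨u1, u2, hu⟩ := altOn_two_gen X1
  obtain ⟨v1, v2, hv⟩ := altOn_two_gen Y1
  let ci : AltOn A := ⟨cyc o1 o2 i0, cyc_mem h12 (hne hi0B m1.2) m1.1 m2.1 hi0A⟩
  let cj : AltOn B := ⟨cyc o1 o2 j0, cyc_mem h12 (hne' hj0A m1.1) m1.2 m2.2 hj0B⟩
  let comm : AltOn X1 → AltOn Y1 → FreeGroup (Fin (dA + dB)) := fun u v =>
    wA (jA hX1A u) * wB (jB hY1B v) * (wA (jA hX1A u))⁻¹ * (wB (jB hY1B v))⁻¹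
  let agree : AltOn (A ∩ B) → FreeGroup (Fin (dA + dB)) := fun s => wA (jA hIA s) * (wB (jB hIB s))⁻¹
  let rels : Finset (FreeGroup (Fin (dA + dB))) := RA.image (FreeGroup.map (Fin.castAdd dB)) ∪
    (RB.image (FreeGroup.map (Fin.natAdd dA)) ∪
      ({agree s1, agree s2} ∪ ({comm u1 v1, comm u1 v2, comm u2 v1, comm u2 v2} ∪ {(wA ci * wB cj) ^ 2})))
  have hcard : rels.card ≤ 39 := by
    refine (Finset.card_union_le _ _).trans (le_trans (Nat.add_le_add (Finset.card_image_le.trans hRA)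
      ((Finset.card_union_le _ _).trans (Nat.add_le_add (Finset.card_image_le.trans hRB)
        ((Finset.card_union_le _ _).trans (Nat.add_le_add Finset.card_le_two
          ((Finset.card_union_le _ _).trans (Nat.add_le_add Finset.card_le_four (le_of_eq (Finset.card_singleton _))))))))) le_rfl)
  have hci : i0 ≠ j0 := hne hi0B hj0B
  have hrels : ∀ r ∈ (↑rels : Set (FreeGroup (Fin (dA + dB)))), FreeGroup.lift f r = 1 := by
    have hcom : ∀ u v, FreeGroup.lift f (comm u v) = 1 := fun u v => by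
      simp only [comm, map_mul, map_inv, hwA, hwB]
      have hd : Perm.Disjoint (u : Perm α) (v : Perm α) := fun x => by
        by_cases hx : x ∈ X1
        · exact Or.inr (v.2.2 x (hd1 x hx))
        · exact Or.inl (u.2.2 x hx)
      refine Subtype.ext ?_
      show (u : Perm α) * v * (u : Perm α)⁻¹ * (v : Perm α)⁻¹ = 1
      rw [hd.commute.eq, mul_inv_cancel_right, mul_inv_cancel]
    have hag : ∀ s, FreeGroup.lift f (agree s) = 1 := fun s => by
      simp only [agree, map_mul, map_inv, hwA, hwB]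
      refine Subtype.ext ?_
      show (s : Perm α) * (s : Perm α)⁻¹ = 1
      rw [mul_inv_cancel]
    intro r hr
    simp only [rels, Finset.coe_union, Set.mem_union, Finset.coe_image, Set.mem_image, Finset.mem_coe, Finset.mem_insert,
      Finset.mem_singleton] at hr
    rcases hr with ⟨r, hr, rfl⟩ | ⟨r, hr, rfl⟩ | (rfl | rfl) | (rfl | rfl | rfl | rfl) | rfl
    · rw [hliftA, PresentedGroup.one_of_mem (Finset.mem_coe.2 hr), map_one, map_one]
    · rw [hliftB, PresentedGroup.one_of_mem (Finset.mem_coe.2 hr), map_one, map_one]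
    · exact hag s1
    · exact hag s2
    · exact hcom u1 v1
    · exact hcom u1 v2
    · exact hcom u2 v1
    · exact hcom u2 v2
    · simp only [map_pow, map_mul, hwA, hwB]
      refine Subtype.ext ?_
      exact (cyc_rel h12 (hne hi0B m1.2) (hne hi0B m2.2) (hne' hj0A m1.1) (hne' hj0A m2.1)).2 hci
  -- the presented group
  set P := PresentedGroup (↑rels : Set (FreeGroup (Fin (dA + dB))))
  let mk := PresentedGroup.mk (↑rels : Set (FreeGroup (Fin (dA + dB))))
  have hone : ∀ r ∈ rels, mk r = 1 := fun r hr => PresentedGroup.one_of_mem (Finset.mem_coe.2 hr)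
  have hθA : ∀ r ∈ (↑RA : Set (FreeGroup (Fin dA))),
      FreeGroup.lift (PresentedGroup.of (rels := (↑rels : Set (FreeGroup (Fin (dA + dB))))) ∘ Fin.castAdd dB) r = 1 := by
    intro r hr
    rw [← lift_map', lift_mk]
    exact hone _ (Finset.mem_union_left _ (Finset.mem_image_of_mem _ (Finset.mem_coe.1 hr)))
  have hθB : ∀ r ∈ (↑RB : Set (FreeGroup (Fin dB))),
      FreeGroup.lift (PresentedGroup.of (rels := (↑rels : Set (FreeGroup (Fin (dA + dB))))) ∘ Fin.natAdd dA) r = 1 := by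
    intro r hr
    rw [← lift_map', lift_mk]
    exact hone _ (Finset.mem_union_right _ (Finset.mem_union_left _ (Finset.mem_image_of_mem _ (Finset.mem_coe.1 hr))))
  let φA : AltOn A →* P := (PresentedGroup.toGroup hθA).comp eA.symm.toMonoidHom
  let φB : AltOn B →* P := (PresentedGroup.toGroup hθB).comp eB.symm.toMonoidHom
  have hφA : ∀ g, φA g = mk (wA g) := fun g => by
    show PresentedGroup.toGroup hθA (eA.symm g) = _
    rw [← hpreA g]
    refine (DFunLike.congr_fun (FreeGroup.ext_hom ((PresentedGroup.toGroup hθA).comp (PresentedGroup.mk _))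
      (mk.comp (FreeGroup.map (Fin.castAdd dB))) fun a => ?_) (preA g))
    simp only [MonoidHom.comp_apply, FreeGroup.map.of]
    exact PresentedGroup.toGroup.of hθA
  have hφB : ∀ g, φB g = mk (wB g) := fun g => by
    show PresentedGroup.toGroup hθB (eB.symm g) = _
    rw [← hpreB g]
    refine (DFunLike.congr_fun (FreeGroup.ext_hom ((PresentedGroup.toGroup hθB).comp (PresentedGroup.mk _))
      (mk.comp (FreeGroup.map (Fin.natAdd dA))) fun a => ?_) (preB g))
    simp only [MonoidHom.comp_apply, FreeGroup.map.of]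
    exact PresentedGroup.toGroup.of hθB
  have hag : φA.comp (jA hIA) = φB.comp (jB hIB) := by
    refine MonoidHom.eq_of_eqOn_dense hs fun s hs' => ?_
    have h1 := hone (agree s) (by rcases hs' with rfl | rfl <;> simp [rels])
    simp only [agree, map_mul, map_inv, mul_inv_eq_one] at h1
    show φA (jA hIA s) = φB (jB hIB s)
    rw [hφA, hφB]
    exact h1
  have hC1 : ∀ (u : AltOn X1) (v : AltOn Y1), φA (jA hX1A u) * φB (jB hY1B v) = φB (jB hY1B v) * φA (jA hX1A u) := by
    have base : ∀ u ∈ ({u1, u2} : Set (AltOn X1)), ∀ v ∈ ({v1, v2} : Set (AltOn Y1)),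
        φA (jA hX1A u) * φB (jB hY1B v) = φB (jB hY1B v) * φA (jA hX1A u) := by
      intro u hu' v hv'
      have h1 := hone (comm u v) (by rcases hu' with rfl | rfl <;> rcases hv' with rfl | rfl <;> simp [rels])
      simp only [comm, map_mul, map_inv, ← hφA, ← hφB] at h1
      rw [mul_inv_eq_one, mul_inv_eq_iff_eq_mul] at h1
      exact h1
    have step : ∀ v ∈ ({v1, v2} : Set (AltOn Y1)), ∀ u : AltOn X1,
        u ∈ (Subgroup.centralizer {φB (jB hY1B v)}).comap (φA.comp (jA hX1A)) := by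
      intro v hv' u
      refine (Subgroup.closure_le _).2 ?_ (hu ▸ Subgroup.mem_top u)
      intro w hw
      rw [SetLike.mem_coe, Subgroup.mem_comap, Subgroup.mem_centralizer_singleton_iff]
      exact base w hw v hv'
    intro u v
    have h2 : v ∈ (Subgroup.centralizer {φA (jA hX1A u)}).comap (φB.comp (jB hY1B)) := by
      refine (Subgroup.closure_le _).2 ?_ (hv ▸ Subgroup.mem_top v)
      intro w hw
      rw [SetLike.mem_coe, Subgroup.mem_comap, Subgroup.mem_centralizer_singleton_iff]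
      exact (Subgroup.mem_centralizer_singleton_iff.1 (step w hw u)).symm
    exact (Subgroup.mem_centralizer_singleton_iff.1 h2).symm
  -- the exchange of the two pairs
  obtain ⟨π, hπ⟩ : ∃ π : Perm α, π = swap o1 o3 * swap o2 o4 := ⟨_, rfl⟩
  have hπI : π ∈ AltOn (A ∩ B) := by
    refine ⟨by rw [hπ, map_mul, sign_swap h13, sign_swap h24]; rfl, fun x hx => ?_⟩
    have hxn : ∀ {o}, o ∈ A ∧ o ∈ B → x ≠ o := fun h e => hx (e ▸ Finset.mem_inter.2 h)
    rw [hπ, Perm.mul_apply, swap_apply_of_ne_of_ne (hxn m2) (hxn m4), swap_apply_of_ne_of_ne (hxn m1) (hxn m3)]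
  have hπo : π o1 = o3 ∧ π o2 = o4 ∧ π o3 = o1 ∧ π o4 = o2 := by
    refine ⟨?_, ?_, ?_, ?_⟩ <;>
      simp [hπ, Perm.mul_apply, swap_apply_def, h12, h12.symm, h13, h13.symm, h14, h14.symm, h23, h23.symm, h24, h24.symm, h34, h34.symm]
  have hconjmem : ∀ {X X' : Finset α}, (∀ x ∈ X', π x ∈ X) → ∀ g ∈ AltOn X', π * g * π⁻¹ ∈ AltOn X := by
    intro X X' h g hg
    refine ⟨by rw [map_mul, map_mul, map_inv, hg.1, mul_one, mul_inv_cancel], fun x hx => ?_⟩
    rw [Perm.mul_apply, Perm.mul_apply, hg.2 (π⁻¹ x) (fun h' => hx (by simpa using h _ h'))]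
    exact π.apply_symm_apply x
  have hC2 : ∀ (u : AltOn X2) (v : AltOn Y2), φA (jA hX2A u) * φB (jB hY2B v) = φB (jB hY2B v) * φA (jA hX2A u) := by
    intro u v
    have hfix : ∀ x, x ∉ A ∩ B → π x = x := hπI.2
    have e1 : ∀ x ∈ X2, π x ∈ X1 := by
      intro x hx
      simp only [X2, X1, Finset.mem_union, Finset.mem_sdiff, Finset.mem_insert, Finset.mem_singleton] at hx ⊢
      rcases hx with h | rfl | rfl
      · rw [hfix x (fun h' => h.2 (Finset.mem_inter.1 h').2)]; exact Or.inl h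
      · exact Or.inr (Or.inl hπo.1)
      · exact Or.inr (Or.inr hπo.2.1)
    have e2 : ∀ x ∈ Y2, π x ∈ Y1 := by
      intro x hx
      simp only [Y2, Y1, Finset.mem_union, Finset.mem_sdiff, Finset.mem_insert, Finset.mem_singleton] at hx ⊢
      rcases hx with h | rfl | rfl
      · rw [hfix x (fun h' => h.2 (Finset.mem_inter.1 h').1)]; exact Or.inl h
      · exact Or.inr (Or.inl hπo.2.2.1)
      · exact Or.inr (Or.inr hπo.2.2.2)
    let u' : AltOn X1 := ⟨π * u * π⁻¹, hconjmem e1 _ u.2⟩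
    let v' : AltOn Y1 := ⟨π * v * π⁻¹, hconjmem e2 _ v.2⟩
    let q : AltOn (A ∩ B) := ⟨π, hπI⟩
    have eu : jA hX1A u' = jA hIA q * jA hX2A u * (jA hIA q)⁻¹ := Subtype.ext rfl
    have ev : jB hY1B v' = jB hIB q * jB hY2B v * (jB hIB q)⁻¹ := Subtype.ext rfl
    have h := hC1 u' v'
    have hq : φA (jA hIA q) = φB (jB hIB q) := DFunLike.congr_fun hag q
    rw [eu, ev, map_mul, map_mul, map_inv, map_mul, map_mul, map_inv, hq] at h
    generalize φB (jB hIB q) = g at h
    calc φA (jA hX2A u) * φB (jB hY2B v)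
        = g⁻¹ * (g * φA (jA hX2A u) * g⁻¹ * (g * φB (jB hY2B v) * g⁻¹)) * g := by group
      _ = g⁻¹ * (g * φB (jB hY2B v) * g⁻¹ * (g * φA (jA hX2A u) * g⁻¹)) * g := by rw [h]
      _ = _ := by group
  -- the star
  let cA : ∀ i, i ∈ A → i ≠ o1 → AltOn A := fun i hi h1 => ⟨cyc o1 o2 i, cyc_mem h12 h1 m1.1 m2.1 hi⟩
  let cB : ∀ i, i ∈ B → i ≠ o1 → AltOn B := fun i hi h1 => ⟨cyc o1 o2 i, cyc_mem h12 h1 m1.2 m2.2 hi⟩
  let ι := {i : α // i ≠ o1 ∧ i ≠ o2}
  let x : ι → P := fun i =>
    if h : i.1 ∈ A then φA (cA i h i.2.1) else φB (cB i ((hAB i).resolve_left h) i.2.1)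
  have hxA : ∀ (i : ι) (h : i.1 ∈ A), x i = φA (cA i h i.2.1) := fun i h => by simp only [x, dif_pos h]
  have hxB : ∀ (i : ι) (h : i.1 ∈ B), x i = φB (cB i h i.2.1) := fun i h => by
    by_cases h' : i.1 ∈ A
    · rw [hxA i h']
      exact DFunLike.congr_fun hag
        ⟨cyc o1 o2 i, cyc_mem h12 i.2.1 (Finset.mem_inter.2 m1) (Finset.mem_inter.2 m2) (Finset.mem_inter.2 ⟨h', h⟩)⟩
    · simp only [x, dif_neg h']
  -- products of two swaps
  have hdswap : ∀ {X : Finset α} {a b c d : α}, a ∈ X → b ∈ X → c ∈ X → d ∈ X → a ≠ b → c ≠ d →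
      swap a b * swap c d ∈ AltOn X := by
    intro X a b c d ha hb hc hd hab hcd
    refine ⟨by rw [map_mul, sign_swap hab, sign_swap hcd]; rfl, fun y hy => ?_⟩
    have hy' : ∀ {z}, z ∈ X → y ≠ z := fun h e => hy (e ▸ h)
    rw [Perm.mul_apply, swap_apply_of_ne_of_ne (hy' hc) (hy' hd), swap_apply_of_ne_of_ne (hy' ha) (hy' hb)]
  have hmix0 : ∀ i (hiA : i ∈ A) (hiB : i ∉ B),
      (φA (cA i hiA (hne hiB m1.2)) * φB cj) ^ 2 = 1 := by
    intro i hiA hiB
    have h0 : (φA ci * φB cj) ^ 2 = 1 := by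
      have h1 := hone ((wA ci * wB cj) ^ 2) (by simp [rels])
      rwa [map_pow, map_mul, ← hφA, ← hφB] at h1
    rcases eq_or_ne i i0 with rfl | hne0
    · exact h0
    have hgX : swap i0 i * swap o3 o4 ∈ AltOn X1 :=
      hdswap (by simp [X1, hi0A, hi0B]) (by simp [X1, hiA, hiB]) (by simp [X1]) (by simp [X1]) hne0.symm h34
    let g : AltOn X1 := ⟨_, hgX⟩
    let vj : AltOn Y1 := ⟨cyc o1 o2 j0, cyc_mem h12 (hne' hj0A m1.1) (by simp [Y1]) (by simp [Y1]) (by simp [Y1, hj0B, hj0A])⟩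
    have hfix1 : (g : Perm α) o1 = o1 ∧ (g : Perm α) o2 = o2 ∧ (g : Perm α) i0 = i := by
      refine ⟨?_, ?_, ?_⟩ <;> show (swap i0 i * swap o3 o4) _ = _
      · rw [Perm.mul_apply, swap_apply_of_ne_of_ne h13 h14, swap_apply_of_ne_of_ne (hne hi0B m1.2).symm (hne hiB m1.2).symm]
      · rw [Perm.mul_apply, swap_apply_of_ne_of_ne h23 h24, swap_apply_of_ne_of_ne (hne hi0B m2.2).symm (hne hiB m2.2).symm]
      · rw [Perm.mul_apply, swap_apply_of_ne_of_ne (hne hi0B m3.2) (hne hi0B m4.2), swap_apply_left]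
    have ec : cA i hiA (hne hiB m1.2) = jA hX1A g * ci * (jA hX1A g)⁻¹ := Subtype.ext (by
      show cyc o1 o2 i = (g : Perm α) * cyc o1 o2 i0 * (g : Perm α)⁻¹
      rw [conj_cyc, hfix1.1, hfix1.2.1, hfix1.2.2])
    have hc : φA (jA hX1A g) * φB cj = φB cj * φA (jA hX1A g) := hC1 g vj
    rw [ec, map_mul, map_mul, map_inv]
    calc (φA (jA hX1A g) * φA ci * (φA (jA hX1A g))⁻¹ * φB cj) ^ 2
        = (φA (jA hX1A g) * (φA ci * φB cj) * (φA (jA hX1A g))⁻¹) ^ 2 := by
          congr 1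
          rw [mul_assoc (_ * _), (Commute.inv_left (show Commute (φA (jA hX1A g)) (φB cj) from hc)).eq]
          group
      _ = 1 := by rw [conj_pow, h0, mul_one, mul_inv_cancel]
  have hmix : ∀ i (hiA : i ∈ A) (hiB : i ∉ B) j (hjB : j ∈ B) (hjA : j ∉ A),
      (φA (cA i hiA (hne hiB m1.2)) * φB (cB j hjB (hne' hjA m1.1))) ^ 2 = 1 := by
    intro i hiA hiB j hjB hjA
    rcases eq_or_ne j j0 with rfl | hne0
    · exact hmix0 i hiA hiB
    have hgY : swap j0 j * swap o3 o4 ∈ AltOn Y2 :=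
      hdswap (by simp [Y2, hj0A, hj0B]) (by simp [Y2, hjA, hjB]) (by simp [Y2]) (by simp [Y2]) hne0.symm h34
    let g : AltOn Y2 := ⟨_, hgY⟩
    let ui : AltOn X2 := ⟨cyc o1 o2 i, cyc_mem h12 (hne hiB m1.2) (by simp [X2]) (by simp [X2]) (by simp [X2, hiA, hiB])⟩
    have hfix1 : (g : Perm α) o1 = o1 ∧ (g : Perm α) o2 = o2 ∧ (g : Perm α) j0 = j := by
      refine ⟨?_, ?_, ?_⟩ <;> show (swap j0 j * swap o3 o4) _ = _
      · rw [Perm.mul_apply, swap_apply_of_ne_of_ne h13 h14, swap_apply_of_ne_of_ne (hne' hj0A m1.1).symm (hne' hjA m1.1).symm]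
      · rw [Perm.mul_apply, swap_apply_of_ne_of_ne h23 h24, swap_apply_of_ne_of_ne (hne' hj0A m2.1).symm (hne' hjA m2.1).symm]
      · rw [Perm.mul_apply, swap_apply_of_ne_of_ne (hne' hj0A m3.1) (hne' hj0A m4.1), swap_apply_left]
    have ec : cB j hjB (hne' hjA m1.1) = jB hY2B g * cj * (jB hY2B g)⁻¹ := Subtype.ext (by
      show cyc o1 o2 j = (g : Perm α) * cyc o1 o2 j0 * (g : Perm α)⁻¹
      rw [conj_cyc, hfix1.1, hfix1.2.1, hfix1.2.2])
    have hc : φA (cA i hiA (hne hiB m1.2)) * φB (jB hY2B g) = φB (jB hY2B g) * φA (cA i hiA (hne hiB m1.2)) := hC2 ui g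
    rw [ec, map_mul, map_mul, map_inv]
    generalize hb : φB (jB hY2B g) = b at hc
    generalize hy : φA (cA i hiA (hne hiB m1.2)) = y at hc
    have h0 := hmix0 i hiA hiB
    rw [hy] at h0
    calc (y * (b * φB cj * b⁻¹)) ^ 2 = (b * (y * φB cj) * b⁻¹) ^ 2 := by
          congr 1
          rw [← mul_assoc, ← mul_assoc, hc]
          group
      _ = 1 := by rw [conj_pow, h0, mul_one, mul_inv_cancel]
  have hflip : ∀ a b : P, (a * b) ^ 2 = 1 → (b * a) ^ 2 = 1 := fun a b h => by
    rw [show b * a = b * (a * b) * b⁻¹ by group, conj_pow, h, mul_one, mul_inv_cancel]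
  have hstar : StarRel x := by
    refine ⟨fun i => ?_, fun i j hij => ?_⟩
    · rcases hAB i with h | h
      · rw [hxA i h, ← map_pow,
          show cA i h i.2.1 ^ 3 = 1 from Subtype.ext (cyc_rel h12 i.2.1 i.2.2 i.2.1 i.2.2).1, map_one]
      · rw [hxB i h, ← map_pow,
          show cB i h i.2.1 ^ 3 = 1 from Subtype.ext (cyc_rel h12 i.2.1 i.2.2 i.2.1 i.2.2).1, map_one]
    · have hrel := (cyc_rel h12 i.2.1 i.2.2 j.2.1 j.2.2).2 (fun e => hij (Subtype.ext e))
      by_cases h1 : i.1 ∈ A ∧ j.1 ∈ A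
      · rw [hxA i h1.1, hxA j h1.2, ← map_mul, ← map_pow,
          show (cA i h1.1 i.2.1 * cA j h1.2 j.2.1) ^ 2 = 1 from Subtype.ext hrel, map_one]
      by_cases h2 : i.1 ∈ B ∧ j.1 ∈ B
      · rw [hxB i h2.1, hxB j h2.2, ← map_mul, ← map_pow,
          show (cB i h2.1 i.2.1 * cB j h2.2 j.2.1) ^ 2 = 1 from Subtype.ext hrel, map_one]
      rcases hAB i with hi | hi
      · have hjA : j.1 ∉ A := fun h => h1 ⟨hi, h⟩
        have hjB := (hAB j).resolve_left hjA
        have hiB : i.1 ∉ B := fun h => h2 ⟨h, hjB⟩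
        rw [hxA i hi, hxB j hjB]
        exact hmix _ hi hiB _ hjB hjA
      · have hjB : j.1 ∉ B := fun h => h2 ⟨hi, h⟩
        have hjA := (hAB j).resolve_right hjB
        have hiA : i.1 ∉ A := fun h => h1 ⟨h, hjA⟩
        rw [hxB i hi, hxA j hjA]
        exact hflip _ _ (hmix _ hjA hjB _ hi hiA)
  have hgen : Subgroup.closure (Set.range x) = ⊤ := by
    have hrA : ∀ g : AltOn A, φA g ∈ Subgroup.closure (Set.range x) := by
      have h : AltOn A ≤ ((Subgroup.closure (Set.range x)).comap φA).map (AltOn A).subtype := by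
        refine altOn_le_of_cyc m1.1 m2.1 h12 fun i hi h1 h2 => ⟨cA i hi h1, ?_, rfl⟩
        rw [SetLike.mem_coe, Subgroup.mem_comap, ← hxA ⟨i, h1, h2⟩ hi]
        exact Subgroup.subset_closure ⟨_, rfl⟩
      intro g
      obtain ⟨g', hg', e⟩ := h g.2
      rwa [← Subtype.ext e]
    have hrB : ∀ g : AltOn B, φB g ∈ Subgroup.closure (Set.range x) := by
      have h : AltOn B ≤ ((Subgroup.closure (Set.range x)).comap φB).map (AltOn B).subtype := by
        refine altOn_le_of_cyc m1.2 m2.2 h12 fun i hi h1 h2 => ⟨cB i hi h1, ?_, rfl⟩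
        rw [SetLike.mem_coe, Subgroup.mem_comap, ← hxB ⟨i, h1, h2⟩ hi]
        exact Subgroup.subset_closure ⟨_, rfl⟩
      intro g
      obtain ⟨g', hg', e⟩ := h g.2
      rwa [← Subtype.ext e]
    rw [eq_top_iff, ← PresentedGroup.closure_range_of, Subgroup.closure_le]
    rintro _ ⟨k, rfl⟩
    induction k using Fin.addCases with
    | left k =>
      have e : φA (eA (PresentedGroup.of k)) = PresentedGroup.of (Fin.castAdd dB k) := by
        show PresentedGroup.toGroup hθA (eA.symm (eA _)) = _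
        rw [MulEquiv.symm_apply_apply]
        exact PresentedGroup.toGroup.of hθA
      rw [← e]
      exact hrA _
    | right k =>
      have e : φB (eB (PresentedGroup.of k)) = PresentedGroup.of (Fin.natAdd dA k) := by
        show PresentedGroup.toGroup hθB (eB.symm (eB _)) = _
        rw [MulEquiv.symm_apply_apply]
        exact PresentedGroup.toGroup.of hθB
      rw [← e]
      exact hrB _
  obtain ⟨hfin, hle⟩ := hstar.card_le hgen
  let ψ := PresentedGroup.toGroup hrels
  have hψ : Function.Surjective ψ := by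
    rw [← MonoidHom.range_eq_top]
    refine Subgroup.map_injective (alternatingGroup α).subtype_injective ?_
    rw [← MonoidHom.range_eq_map (alternatingGroup α).subtype, Subgroup.range_subtype]
    refine le_antisymm ?_ (alternating_le_of_cyc h12 fun i h1 h2 => ?_)
    · rintro _ ⟨σ, _, rfl⟩
      exact σ.2
    · rcases hAB i with h | h
      · exact ⟨iA (cA i h h1), ⟨mk (wA (cA i h h1)), hwA _⟩, rfl⟩
      · exact ⟨iB (cB i h h1), ⟨mk (wB (cB i h h1)), hwB _⟩, rfl⟩
  obtain ⟨e⟩ := nonempty_equiv_of_card ψ hψ (by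
    haveI : Nontrivial α := ⟨⟨o1, o2, h12⟩⟩
    have h1 := two_mul_nat_card_alternatingGroup (α := α)
    rw [Nat.card_perm, Nat.card_eq_fintype_card (α := α)] at h1
    have hι : Fintype.card ι + 2 = Fintype.card α := by
      rw [Fintype.card_subtype]
      have : (Finset.univ.filter fun i => i ≠ o1 ∧ i ≠ o2) = Finset.univ \ {o1, o2} := by ext; simp
      rw [this, Finset.card_univ_diff, Finset.card_pair h12]
      have := Fintype.one_lt_card (α := α)
      omega
    rw [hι] at hle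
    change 2 * Nat.card (PresentedGroup (↑rels : Set (FreeGroup (Fin (dA + dB))))) ≤ _ at hle
    omega)
  exact HasPres.mk' rels hcard e

end glue

/-- Every alternating group has a presentation with at most 39 relations. -/
theorem exists_alt_pres (n : ℕ) : HasPres (alternatingGroup (Fin n)) 39 := by
  classical
  rcases Nat.lt_or_ge n 11 with hn | hn
  · exact small n (by omega)
  obtain ⟨p, hp, h1, h2⟩ := Nat.exists_prime_lt_and_le_two_mul ((n - 3) / 2) (by omega)
  haveI := Fact.mk hp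
  have hb := Base.main (p := p) (by omega)
  rcases eq_or_ne n (p + 3) with rfl | hne
  · exact hb.mono (by norm_num)
  let A : Finset (Fin n) := Finset.univ.filter fun i => i.val < p + 3
  let B : Finset (Fin n) := Finset.univ.filter fun i => n - (p + 3) ≤ i.val
  have hAc : A.card = p + 3 := by
    rw [Fin.card_filter_val_lt, min_eq_right (by omega)]
  have hBc : B.card = p + 3 := by
    have e : B = (Finset.univ.filter fun i : Fin n => i.val < n - (p + 3))ᶜ := by ext; simp [B]
    rw [e, Finset.card_compl, Fin.card_filter_val_lt, Fintype.card_fin, min_eq_right (by omega)]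
    omega
  refine glue A B (fun x => ?_) ?_ (i0 := ⟨0, by omega⟩) (j0 := ⟨n - 1, by omega⟩) ?_ ?_ (hb.altOn hAc) (hb.altOn hBc)
  · simp only [A, B, Finset.mem_filter, Finset.mem_univ, true_and]
    omega
  · have hu : A ∪ B = Finset.univ := by
      ext x
      simp only [A, B, Finset.mem_union, Finset.mem_filter, Finset.mem_univ, true_and, iff_true]
      omega
    have := Finset.card_union_add_card_inter A B
    rw [hu, Finset.card_univ, Fintype.card_fin, hAc, hBc] at this
    omega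
  · simp [A, B]; omega
  · simp [A, B]; omega

end Cfsg.Agent.Lib.BoundedPres
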