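import Cfsg.Agent.Lib.BoundedPres.SLnRoots
import Cfsg.Agent.Lib.BoundedPres.AltFew
import Cfsg.Agent.Lib.SLThreePres.Main

/-!
# Few relations for `SL_n`
-/

set_option autoImplicit false

namespace Cfsg.Agent.Lib.BoundedPres.SLn

open Equiv Equiv.Perm Matrix

universe u

variable {F : Type u} [Field F] [Fintype F]

theorem exists_relabel {κ : Type*} [Fintype κ] [DecidableEq κ] {m : ℕ} (hn : Fintype.card κ = m + 4) {o1 o2 i : κ}
    (h1 : o1 ≠ o2) (h2 : i ≠ o1) (h3 : i ≠ o2) :
    ∃ e : κ ≃ Idx m, e o1 = Sum.inl 0 ∧ e o2 = Sum.inl 1 ∧ e i = Sum.inl 2 := by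
  let e0 : κ ≃ Idx m := Fintype.equivOfCardEq (by simp; omega)
  let e1 := e0.trans (swap (e0 o1) (Sum.inl 0))
  have a1 : e1 o1 = Sum.inl 0 := by simp [e1]
  let e2 := e1.trans (swap (e1 o2) (Sum.inl 1))
  have b1 : e2 o1 = Sum.inl 0 := by
    simp only [e2, Equiv.trans_apply, a1]
    exact swap_apply_of_ne_of_ne (fun h => h1 (e1.injective (a1.trans h))) (by simp)
  have b2 : e2 o2 = Sum.inl 1 := by simp [e2]
  let e3 := e2.trans (swap (e2 i) (Sum.inl 2))
  refine ⟨e3, ?_, ?_, by simp [e3]⟩
  · simp only [e3, Equiv.trans_apply, b1]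
    exact swap_apply_of_ne_of_ne (fun h => h2 (e2.injective (b1.trans h)).symm) (by simp)
  · simp only [e3, Equiv.trans_apply, b2]
    exact swap_apply_of_ne_of_ne (fun h => h3 (e2.injective (b2.trans h)).symm) (by simp)

theorem sl_few (m : ℕ) {κ : Type*} [Fintype κ] [DecidableEq κ] (hκ : Fintype.card κ = m + 4) {d mA : ℕ}
    (hA : AltPres κ (d + 1) mA) :
    HasPresD (Matrix.SpecialLinearGroup (Idx m) F) (d + 4) (mA + 21 + if 2 ≤ m then 0 else 1) := by
  classical
  have hn : Fintype.card (Idx m) = m + 4 := by simp; omega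
  let eι : Idx m ≃ Fin (m + 4) := Fintype.equivFinOfCardEq hn
  obtain ⟨RA, hRA, eA0, k, o1, o2, i, h12, hi1, hi2, hc⟩ := hA
  obtain ⟨eq, q1, q2, q3⟩ := exists_relabel hκ h12 hi1 hi2
  let eA := eA0.trans (Equiv.altCongrHom eq)
  have hk : eA (PresentedGroup.of k) = tau m := by
    refine Subtype.ext ?_
    ext x : 1
    obtain ⟨y, rfl⟩ := eq.surjective x
    simp [eA, Equiv.altCongrHom, hc, tau, cyc, Perm.mul_apply, swap_apply_def, apply_ite eq, Equiv.symm_apply_eq, ← q1, ← q2, ← q3]
  obtain ⟨RB, hRB, ⟨eB⟩⟩ := Cfsg.Agent.Lib.SLThreePres.Main.main F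
  obtain ⟨ω, hωo⟩ := Cfsg.Agent.Lib.SLTwoPres.Final.exists_generator F
  have hω : ∀ s : Fˣ, ∃ n : ℕ, ω ^ n = s := Cfsg.Agent.Lib.SLTwoPres.Main.card_eq ω hωo
  let iA := rA F (ι := Idx m)
  let iB := emb F m
  let f : Fin (d + 4) → Matrix.SpecialLinearGroup (Idx m) F :=
    Fin.addCases (fun j => iA (eA (PresentedGroup.of (k.succAbove j)))) (fun j => iB (eB (PresentedGroup.of j)))
  choose preA hpreA using fun g => PresentedGroup.mk_surjective (↑RA : Set (FreeGroup (Fin (d + 1)))) (eA.symm g)
  choose preB hpreB using fun g => PresentedGroup.mk_surjective (↑RB : Set (FreeGroup (Fin 4))) (eB.symm g)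
  let wB : Matrix.SpecialLinearGroup (Fin 3) F → FreeGroup (Fin (d + 4)) := fun g => FreeGroup.map (Fin.natAdd d) (preB g)
  let sub : Fin (d + 1) → FreeGroup (Fin (d + 4)) :=
    Fin.insertNth k (wB (rA F tau3)) (fun j => FreeGroup.of (Fin.castAdd 4 j))
  let wA : alternatingGroup (Idx m) → FreeGroup (Fin (d + 4)) := fun g => FreeGroup.lift sub (preA g)
  have hliftB : ∀ x, FreeGroup.lift f (FreeGroup.map (Fin.natAdd d) x) = iB (eB (PresentedGroup.mk _ x)) := fun x => by
    rw [lift_map']
    exact DFunLike.congr_fun (FreeGroup.ext_hom (FreeGroup.lift (f ∘ Fin.natAdd d))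
      (iB.comp (eB.toMonoidHom.comp (PresentedGroup.mk _))) fun a => by simp [f, PresentedGroup.of]) x
  have hwB : ∀ g, FreeGroup.lift f (wB g) = iB g := fun g => by rw [hliftB, hpreB, MulEquiv.apply_symm_apply]
  have hsub : ∀ j, FreeGroup.lift f (sub j) = iA (eA (PresentedGroup.of j)) := fun j => by
    rcases Fin.eq_self_or_eq_succAbove k j with rfl | ⟨j, rfl⟩
    · simp only [sub, Fin.insertNth_apply_same]
      rw [hwB, hk]
      exact emb_tau
    · simp [sub, f]
  have hliftA : ∀ x, FreeGroup.lift f (FreeGroup.lift sub x) = iA (eA (PresentedGroup.mk _ x)) := fun x => by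
    rw [lift_lift]
    exact DFunLike.congr_fun (FreeGroup.ext_hom (FreeGroup.lift fun j => FreeGroup.lift f (sub j))
      (iA.comp (eA.toMonoidHom.comp (PresentedGroup.mk _))) fun a => by simp [hsub, PresentedGroup.of]) x
  have hwA : ∀ g, FreeGroup.lift f (wA g) = iA g := fun g => by rw [hliftA, hpreA, MulEquiv.apply_symm_apply]
  -- the stabilizer of the first two indices
  let X01 : Finset (Idx m) := Finset.univ \ {Sum.inl 0, Sum.inl 1}
  obtain ⟨s1, s2, hs⟩ := altOn_two_gen X01
  let jS : AltOn X01 →* alternatingGroup (Idx m) := Subgroup.inclusion (altOn_le_alternating X01)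
  let x1 : Matrix.SpecialLinearGroup (Fin 3) F := SpecialLinearGroup.transvection ne01 1
  let y1 : Matrix.SpecialLinearGroup (Fin 3) F := SpecialLinearGroup.transvection ne10 1
  let fixr : AltOn X01 → Matrix.SpecialLinearGroup (Fin 3) F → FreeGroup (Fin (d + 4)) := fun s z =>
    wA (jS s) * wB z * (wA (jS s))⁻¹ * (wB z)⁻¹
  let cj : alternatingGroup (Idx m) → Matrix.SpecialLinearGroup (Fin 3) F → FreeGroup (Fin (d + 4)) := fun g z =>
    wA g * wB z * (wA g)⁻¹
  let cmr : alternatingGroup (Idx m) → FreeGroup (Fin (d + 4)) := fun g =>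
    wB x1 * cj g x1 * (wB x1)⁻¹ * (cj g x1)⁻¹
  let extra : Finset (FreeGroup (Fin (d + 4))) := if 2 ≤ m then ∅ else {cmr (pi3 m)}
  let rels : Finset (FreeGroup (Fin (d + 4))) := RA.image (FreeGroup.lift sub) ∪
    (RB.image (FreeGroup.map (Fin.natAdd d)) ∪
      (({fixr s1 x1, fixr s2 x1, fixr s1 (hh ω), fixr s2 (hh ω)} ∪
        {cj (pi1 m) x1 * (wB y1)⁻¹, cj (pi1 m) (hh ω) * wB (hh ω), cmr (pi2 m)}) ∪ extra))
  have hextra : extra.card ≤ if 2 ≤ m then 0 else 1 := by
    simp only [extra]; split_ifs <;> simp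
  have hcard : rels.card ≤ mA + 21 + if 2 ≤ m then 0 else 1 := by
    have := (Finset.card_union_le _ _).trans (Nat.add_le_add (Finset.card_image_le.trans hRA)
      ((Finset.card_union_le _ _).trans (Nat.add_le_add (Finset.card_image_le.trans hRB)
        ((Finset.card_union_le _ _).trans (Nat.add_le_add ((Finset.card_union_le _ _).trans
          (Nat.add_le_add Finset.card_le_four Finset.card_le_three)) hextra)))))
      (a := rels.card)
    refine le_trans this (le_of_eq ?_)
    omega
  have hx1 : iB x1 = SpecialLinearGroup.transvection (inl_ne (m := m) ne01) 1 := emb_tv ne01 1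
  have hy1 : iB y1 = SpecialLinearGroup.transvection (inl_ne (m := m) ne10) 1 := emb_tv ne10 1
  have hconj : ∀ (g : alternatingGroup (Idx m)) {a b : Idx m} (hab : a ≠ b),
      (g : Perm (Idx m)) (Sum.inl 0) = a → (g : Perm (Idx m)) (Sum.inl 1) = b →
      iA g * iB x1 * (iA g)⁻¹ = SpecialLinearGroup.transvection hab (1 : F) := by
    intro g a b hab ha hb
    subst ha hb
    rw [hx1, rA_tv g _ hab]
  have hS : ∀ s : AltOn X01, (s : Perm (Idx m)) (Sum.inl 0) = Sum.inl 0 ∧ (s : Perm (Idx m)) (Sum.inl 1) = Sum.inl 1 :=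
    fun s => ⟨s.2.2 _ (by simp [X01]), s.2.2 _ (by simp [X01])⟩
  have hrels : ∀ r ∈ (↑rels : Set (FreeGroup (Fin (d + 4)))), FreeGroup.lift f r = 1 := by
    have hfx : ∀ s, FreeGroup.lift f (fixr s x1) = 1 := fun s => by
      simp only [fixr, map_mul, map_inv, hwA, hwB]
      rw [hconj (jS s) (inl_ne ne01) (hS s).1 (hS s).2, hx1, mul_inv_cancel]
    have hfh : ∀ s, FreeGroup.lift f (fixr s (hh ω)) = 1 := fun s => by
      simp only [fixr, map_mul, map_inv, hwA, hwB]
      rw [mul_inv_eq_one, mul_inv_eq_iff_eq_mul]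
      refine Subtype.ext ?_
      simp only [Matrix.SpecialLinearGroup.coe_mul, coe_emb_hh, coe_rA, iA, iB]
      ext a b
      rw [Matrix.mul_diagonal, Matrix.diagonal_mul, pm_apply]
      split_ifs with h
      · rw [symm_apply_eq] at h
        subst h
        rw [one_mul, mul_one]
        by_cases hb : b ∈ X01
        · have hb' := apply_mem s.2 hb
          simp only [X01, Finset.mem_sdiff, Finset.mem_univ, true_and, Finset.mem_insert, Finset.mem_singleton,
            not_or] at hb hb'
          have : ∀ z : Idx m, z ≠ Sum.inl 0 → z ≠ Sum.inl 1 → hd ω z = (1 : F) := by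
            rintro (z | z) h0 h1
            · fin_cases z
              · exact absurd rfl h0
              · exact absurd rfl h1
              · rfl
            · rfl
          show hd ω b = hd ω ((s : Perm (Idx m)) b)
          rw [this _ hb.1 hb.2, this _ hb'.1 hb'.2]
        · show hd ω b = hd ω ((s : Perm (Idx m)) b)
          rw [s.2.2 b hb]
      · simp
    have hcm : ∀ (g : alternatingGroup (Idx m)) {a b : Idx m} (hab : a ≠ b),
        (g : Perm (Idx m)) (Sum.inl 0) = a → (g : Perm (Idx m)) (Sum.inl 1) = b →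
        (Sum.inl 1 : Idx m) ≠ a → (Sum.inl 0 : Idx m) ≠ b → FreeGroup.lift f (cmr g) = 1 := by
      intro g a b hab ha hb h1a h0b
      simp only [cmr, cj, map_mul, map_inv, hwA, hwB]
      rw [hconj g hab ha hb, hx1, (tv_commute (inl_ne ne01) hab h1a h0b 1 1).eq, mul_inv_cancel_right, mul_inv_cancel]
    intro r hr
    simp only [rels, Finset.coe_union, Set.mem_union, Finset.coe_image, Set.mem_image, Finset.mem_coe, Finset.mem_insert,
      Finset.mem_singleton] at hr
    rcases hr with ⟨r, hr, rfl⟩ | ⟨r, hr, rfl⟩ | ((rfl | rfl | rfl | rfl) | rfl | rfl | rfl) | hr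
    · rw [hliftA, PresentedGroup.one_of_mem (Finset.mem_coe.2 hr), map_one, map_one]
    · rw [hliftB, PresentedGroup.one_of_mem (Finset.mem_coe.2 hr), map_one, map_one]
    · exact hfx s1
    · exact hfx s2
    · exact hfh s1
    · exact hfh s2
    · simp only [cj, map_mul, map_inv, hwA, hwB]
      rw [hconj (pi1 m) (inl_ne ne10) pi1_inl0 pi1_inl1, hy1, mul_inv_cancel]
    · simp only [cj, map_mul, map_inv, hwA, hwB, iA, iB, pi1_hd, inv_mul_cancel]
    · exact hcm (pi2 m) (by simp) pi2_inl0 pi2_inl1 (by simp) (by simp)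
    · have : r = cmr (pi3 m) := by
        simp only [extra] at hr
        split_ifs at hr with h <;> simp at hr
        exact hr
      subst this
      exact hcm (pi3 m) (by simp) pi3_inl0 pi3_inl1 (by simp) (by simp)
  -- the presented group
  let mk := PresentedGroup.mk (↑rels : Set (FreeGroup (Fin (d + 4))))
  have hone : ∀ r ∈ rels, mk r = 1 := fun r hr => PresentedGroup.one_of_mem (Finset.mem_coe.2 hr)
  have hθA : ∀ r ∈ (↑RA : Set (FreeGroup (Fin (d + 1)))),
      FreeGroup.lift (fun j => mk (sub j)) r = 1 := by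
    intro r hr
    rw [show FreeGroup.lift (fun j => mk (sub j)) r = mk (FreeGroup.lift sub r) from
      DFunLike.congr_fun (FreeGroup.ext_hom (FreeGroup.lift fun j => mk (sub j)) (mk.comp (FreeGroup.lift sub))
        fun a => by simp) r]
    exact hone _ (Finset.mem_union_left _ (Finset.mem_image_of_mem _ (Finset.mem_coe.1 hr)))
  have hθB : ∀ r ∈ (↑RB : Set (FreeGroup (Fin 4))),
      FreeGroup.lift (PresentedGroup.of (rels := (↑rels : Set (FreeGroup (Fin (d + 4))))) ∘ Fin.natAdd d) r = 1 := by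
    intro r hr
    rw [← lift_map', lift_mk]
    exact hone _ (Finset.mem_union_right _ (Finset.mem_union_left _ (Finset.mem_image_of_mem _ (Finset.mem_coe.1 hr))))
  let φA : alternatingGroup (Idx m) →* PresentedGroup (↑rels : Set (FreeGroup (Fin (d + 4)))) :=
    (PresentedGroup.toGroup hθA).comp eA.symm.toMonoidHom
  let φB : Matrix.SpecialLinearGroup (Fin 3) F →* PresentedGroup (↑rels : Set (FreeGroup (Fin (d + 4)))) :=
    (PresentedGroup.toGroup hθB).comp eB.symm.toMonoidHom
  have hφA : ∀ g, φA g = mk (wA g) := fun g => by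
    show PresentedGroup.toGroup hθA (eA.symm g) = _
    rw [← hpreA g]
    refine (DFunLike.congr_fun (FreeGroup.ext_hom ((PresentedGroup.toGroup hθA).comp (PresentedGroup.mk _))
      (mk.comp (FreeGroup.lift sub)) fun a => ?_) (preA g))
    simp only [MonoidHom.comp_apply, FreeGroup.lift_apply_of]
    exact PresentedGroup.toGroup.of hθA
  have hφB : ∀ g, φB g = mk (wB g) := fun g => by
    show PresentedGroup.toGroup hθB (eB.symm g) = _
    rw [← hpreB g]
    refine (DFunLike.congr_fun (FreeGroup.ext_hom ((PresentedGroup.toGroup hθB).comp (PresentedGroup.mk _))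
      (mk.comp (FreeGroup.map (Fin.natAdd d))) fun a => ?_) (preB g))
    simp only [MonoidHom.comp_apply, FreeGroup.map.of]
    exact PresentedGroup.toGroup.of hθB
  have hstab : ∀ z ∈ ({x1, hh ω} : Set (Matrix.SpecialLinearGroup (Fin 3) F)), ∀ σ : alternatingGroup (Idx m),
      (σ : Perm (Idx m)) (Sum.inl 0) = Sum.inl 0 → (σ : Perm (Idx m)) (Sum.inl 1) = Sum.inl 1 →
      Commute (φA σ) (φB z) := by
    intro z hz σ h0 h1
    have base : ∀ s ∈ ({s1, s2} : Set (AltOn X01)), s ∈ (Subgroup.centralizer {φB z}).comap (φA.comp jS) := by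
      intro s hs'
      have h := hone (fixr s z) (by rcases hs' with rfl | rfl <;> rcases hz with rfl | rfl <;> simp [rels])
      simp only [fixr, map_mul, map_inv, ← hφA, ← hφB] at h
      rw [mul_inv_eq_one, mul_inv_eq_iff_eq_mul] at h
      rw [Subgroup.mem_comap, Subgroup.mem_centralizer_singleton_iff]
      exact h
    have hσ : (σ : Perm (Idx m)) ∈ AltOn X01 := ⟨mem_alternatingGroup.1 σ.2, fun q hq => by
      simp only [X01, Finset.mem_sdiff, Finset.mem_univ, true_and, Finset.mem_insert, Finset.mem_singleton,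
        not_not] at hq
      rcases hq with rfl | rfl <;> assumption⟩
    have := (Subgroup.closure_le _).2 base (hs ▸ Subgroup.mem_top (⟨_, hσ⟩ : AltOn X01))
    rw [Subgroup.mem_comap, Subgroup.mem_centralizer_singleton_iff] at this
    exact this
  have hcom3 : Commute (φB x1) (φA (pi3 m) * φB x1 * (φA (pi3 m))⁻¹) := by
    by_cases hm2 : 2 ≤ m
    · have h := hone (cmr (pi2 m)) (by simp [rels])
      simp only [cmr, cj, map_mul, map_inv, ← hφA, ← hφB] at h
      have h2 : Commute (φB x1) (φA (pi2 m) * φB x1 * (φA (pi2 m))⁻¹) := mul_inv_eq_iff_eq_mul.1 (mul_inv_eq_one.1 h)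
      let σ : alternatingGroup (Idx m) := ⟨swap (Sum.inl 2) (Sum.inr 0) * swap (Sum.inr ⟨1, by omega⟩) (Sum.inr ⟨2, by omega⟩),
        mem_alternatingGroup.2 (by rw [map_mul, sign_swap (by simp), sign_swap (by simp [Fin.ext_iff])]; rfl)⟩
      have hσ := hstab x1 (Or.inl rfl) σ
        (by simp [σ, Perm.mul_apply, swap_apply_def])
        (by simp [σ, Perm.mul_apply, swap_apply_def])
      have hρ := hstab x1 (Or.inl rfl) ((pi3 m)⁻¹ * (σ * pi2 m))
        (by simp [σ, pi2, pi3, Perm.mul_apply, swap_apply_def, Fin.ext_iff])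
        (by simp [σ, pi2, pi3, Perm.mul_apply, swap_apply_def, Fin.ext_iff])
      rw [map_mul, map_mul, map_inv] at hρ
      generalize φA σ = S at hσ hρ
      generalize φA (pi2 m) = A2 at hρ h2
      generalize φA (pi3 m) = A3 at hρ ⊢
      have e : A3 * φB x1 * A3⁻¹ = S * (A2 * φB x1 * A2⁻¹) * S⁻¹ := by
        calc A3 * φB x1 * A3⁻¹ = A3 * (φB x1 * (A3⁻¹ * (S * A2))) * (S * A2)⁻¹ := by group
          _ = A3 * ((A3⁻¹ * (S * A2)) * φB x1) * (S * A2)⁻¹ := by rw [hρ.eq]
          _ = _ := by group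
      rw [e]
      have := h2.map (MulAut.conj S).toMonoidHom
      simp only [MulEquiv.coe_toMonoidHom, MulAut.conj_apply] at this
      rwa [hσ.eq, mul_inv_cancel_right] at this
    · have h := hone (cmr (pi3 m)) (by simp [rels, extra, hm2])
      simp only [cmr, cj, map_mul, map_inv, ← hφA, ← hφB] at h
      exact mul_inv_eq_iff_eq_mul.1 (mul_inv_eq_one.1 h)
  let D : Data F (PresentedGroup (↑rels : Set (FreeGroup (Fin (d + 4))))) m :=
    { al := φA
      be := φB
      ω := ω
      hω := hω
      stab1 := hstab x1 (Or.inl rfl)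
      stabh := hstab (hh ω) (Or.inr rfl)
      tau_eq := by
        rw [← hk]
        show PresentedGroup.toGroup hθA (eA.symm (eA _)) = _
        rw [MulEquiv.symm_apply_apply, hφB]
        refine (PresentedGroup.toGroup.of hθA).trans ?_
        simp only [sub, Fin.insertNth_apply_same]
      pi_x := by
        have h := hone (cj (pi1 m) x1 * (wB y1)⁻¹) (by simp [rels])
        simp only [cj, map_mul, map_inv, mul_inv_eq_one, ← hφA, ← hφB] at h
        exact h
      pi_h := by
        have h := hone (cj (pi1 m) (hh ω) * wB (hh ω)) (by simp [rels])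
        simp only [cj, map_mul, map_inv, ← hφA, ← hφB] at h
        exact mul_eq_one_iff_eq_inv.1 h
      com2 := by
        have h := hone (cmr (pi2 m)) (by simp [rels])
        simp only [cmr, cj, map_mul, map_inv, ← hφA, ← hφB] at h
        exact mul_inv_eq_iff_eq_mul.1 (mul_inv_eq_one.1 h)
      com3 := hcom3 }
  have htop : D.steinberg.grp Finset.univ = ⊤ := by
    rw [eq_top_iff, ← PresentedGroup.closure_range_of, Subgroup.closure_le]
    rintro _ ⟨k, rfl⟩
    induction k using Fin.addCases with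
    | left j =>
      have e : φA (eA (PresentedGroup.of (k.succAbove j))) = PresentedGroup.of (Fin.castAdd 4 j) := by
        show PresentedGroup.toGroup hθA (eA.symm (eA _)) = _
        rw [MulEquiv.symm_apply_apply]
        refine (PresentedGroup.toGroup.of hθA).trans ?_
        simp only [sub, Fin.insertNth_apply_succAbove]
        rfl
      rw [← e]
      exact D.al_mem _
    | right k =>
      have e : φB (eB (PresentedGroup.of k)) = PresentedGroup.of (Fin.natAdd d k) := by
        show PresentedGroup.toGroup hθB (eB.symm (eB _)) = _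
        rw [MulEquiv.symm_apply_apply]
        exact PresentedGroup.toGroup.of hθB
      rw [← e]
      exact D.be_mem _
  obtain ⟨T, hTc, hT⟩ := D.steinberg.card_grp (m + 4) Finset.univ (by rw [Finset.card_univ, hn]) (by omega)
  have hall : ∀ g, g ∈ T := fun g => hT g (htop ▸ Subgroup.mem_top g)
  haveI : Finite (PresentedGroup (↑rels : Set (FreeGroup (Fin (d + 4))))) :=
    Finite.of_surjective (fun z : T => (z : PresentedGroup (↑rels : Set (FreeGroup (Fin (d + 4)))))) fun g => ⟨⟨g, hall g⟩, rfl⟩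
  let ψ := PresentedGroup.toGroup hrels
  have hψ : Function.Surjective ψ := by
    intro A
    induction A using Cfsg.Agent.Lib.Classical.SL_transvection_induction with
    | h1 => exact ⟨1, map_one ψ⟩
    | htransvec i j hij c =>
      obtain ⟨g, h0, h1⟩ := exists_alt_pair hij
      refine ⟨mk (wA g * wB (SpecialLinearGroup.transvection ne01 c) * (wA g)⁻¹), ?_⟩
      show FreeGroup.lift f _ = _
      subst h0 h1
      simp only [map_mul, map_inv, hwA, hwB, iA, iB, emb_tv]
      exact rA_tv g _ hij c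
    | hmul A B hA hB =>
      obtain ⟨x, rfl⟩ := hA
      obtain ⟨y, rfl⟩ := hB
      exact ⟨x * y, map_mul ψ x y⟩
  obtain ⟨e⟩ := nonempty_equiv_of_card ψ hψ (by
    refine (Nat.card_le_card_of_surjective (fun z : T => (z : PresentedGroup (↑rels : Set (FreeGroup (Fin (d + 4))))))
      fun g => ⟨⟨g, hall g⟩, rfl⟩).trans ?_
    rw [Nat.card_eq_fintype_card, Fintype.card_coe, Nat.card_congr (slCongr (F := F) eι).toEquiv]
    refine Nat.le_of_mul_le_mul_left ?_ (Nat.sub_pos_of_lt (Fintype.one_lt_card (α := F)))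
    rw [Cfsg.Agent.Lib.Classical.card_SL_mul rfl (m + 4) (by omega)]
    exact hTc)
  exact ⟨rels, hcard, ⟨e⟩⟩

end Cfsg.Agent.Lib.BoundedPres.SLn
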