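import Cfsg.Agent.Lib.BoundedPres.Glue
import Cfsg.Agent.Lib.GLn.CycleGen

/-!
# Permutation matrices and the corner `SL₃`
-/

set_option autoImplicit false

namespace Cfsg.Agent.Lib.BoundedPres.SLn

open Equiv Equiv.Perm Matrix

universe u

variable {F : Type u} [Field F]

/-- The indices. -/
abbrev Idx (m : ℕ) := Fin 3 ⊕ Fin (m + 1)

section perm

variable {ι : Type*} [Fintype ι] [DecidableEq ι]

/-- The permutation matrix. -/
def pm (σ : Perm ι) : Matrix ι ι F := Equiv.Perm.permMatrix F σ.symm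

theorem pm_apply (σ : Perm ι) (i j : ι) : (pm σ : Matrix ι ι F) i j = if σ.symm i = j then 1 else 0 := by
  simp [pm, Equiv.toPEquiv_apply, PEquiv.toMatrix_apply]

theorem pm_mul_apply (σ : Perm ι) (A : Matrix ι ι F) (i j : ι) : (pm σ * A : Matrix ι ι F) i j = A (σ.symm i) j := by
  simp [Matrix.mul_apply, pm_apply]

theorem mul_pm_apply (σ : Perm ι) (A : Matrix ι ι F) (i j : ι) : (A * pm σ : Matrix ι ι F) i j = A i (σ j) := by
  rw [Matrix.mul_apply, Finset.sum_eq_single (σ j)]
  · simp [pm_apply]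
  · intro b _ hb
    rw [pm_apply, if_neg fun e => hb (by rw [← e, apply_symm_apply]), mul_zero]
  · simp

theorem pm_one : (pm (1 : Perm ι) : Matrix ι ι F) = 1 := by
  ext i j
  rw [pm_apply, Matrix.one_apply]
  rfl

theorem pm_mul (σ τ : Perm ι) : (pm (σ * τ) : Matrix ι ι F) = pm σ * pm τ := by
  ext i j
  rw [pm_mul_apply, pm_apply, pm_apply]
  rfl

variable (F) in
/-- Even permutations as matrices of determinant one. -/
def rA : alternatingGroup ι →* Matrix.SpecialLinearGroup ι F where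
  toFun σ := ⟨pm (σ : Perm ι), by
    rw [pm, det_permutation, Perm.sign_symm, mem_alternatingGroup.1 σ.2]
    simp⟩
  map_one' := Subtype.ext pm_one
  map_mul' σ τ := Subtype.ext (pm_mul (σ : Perm ι) τ)

theorem coe_rA (σ : alternatingGroup ι) : ((rA F σ : Matrix.SpecialLinearGroup ι F) : Matrix ι ι F) = pm (σ : Perm ι) := rfl

theorem rA_tv (σ : alternatingGroup ι) {i j : ι} (h : i ≠ j) (h' : (σ : Perm ι) i ≠ (σ : Perm ι) j) (t : F) :
    rA F σ * SpecialLinearGroup.transvection h t * (rA F σ)⁻¹ = SpecialLinearGroup.transvection h' t := by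
  rw [mul_inv_eq_iff_eq_mul]
  refine Subtype.ext ?_
  simp only [Matrix.SpecialLinearGroup.coe_mul, coe_rA]
  change pm (σ : Perm ι) * Matrix.transvection i j t = Matrix.transvection ((σ : Perm ι) i) ((σ : Perm ι) j) t * pm (σ : Perm ι)
  ext a b
  rw [pm_mul_apply, mul_pm_apply]
  simp only [Matrix.transvection, Matrix.add_apply, Matrix.one_apply, Matrix.single_apply, symm_apply_eq,
    (σ : Perm ι).injective.eq_iff, Equiv.eq_symm_apply]

theorem exists_scaling {d : ι → F} {g : Matrix.SpecialLinearGroup ι F}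
    (hg : (g : Matrix ι ι F) = Matrix.diagonal d) {i j : ι} (h : i ≠ j) (t t' : F) (ht : d i * t = t' * d j) :
    g * SpecialLinearGroup.transvection h t * g⁻¹ = SpecialLinearGroup.transvection h t' := by
  rw [mul_inv_eq_iff_eq_mul]
  refine Subtype.ext ?_
  simp only [Matrix.SpecialLinearGroup.coe_mul, hg]
  change Matrix.diagonal d * Matrix.transvection i j t = Matrix.transvection i j t' * Matrix.diagonal d
  ext a b
  simp only [Matrix.transvection, mul_add, add_mul, mul_one, one_mul, Matrix.add_apply, Matrix.diagonal_mul,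
    Matrix.mul_diagonal, Matrix.single_apply]
  split_ifs with e
  · obtain ⟨rfl, rfl⟩ := e
    simp [Matrix.one_apply, h, ht]
  · rcases eq_or_ne a b with rfl | hab
    · simp
    · simp [Matrix.one_apply, hab]

theorem tv_add {i j : ι} (h : i ≠ j) (s t : F) : SpecialLinearGroup.transvection h (s + t) =
    SpecialLinearGroup.transvection h s * SpecialLinearGroup.transvection h t := Subtype.ext (by
  change Matrix.transvection i j (s + t) = Matrix.transvection i j s * Matrix.transvection i j t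
  rw [Matrix.transvection_mul_transvection_same _ _ h])

theorem tv_commute {i j k l : ι} (hij : i ≠ j) (hkl : k ≠ l) (hjk : j ≠ k) (hil : i ≠ l) (t u : F) :
    Commute (SpecialLinearGroup.transvection hij t) (SpecialLinearGroup.transvection hkl u) := Subtype.ext (by
  change Matrix.transvection i j t * Matrix.transvection k l u = Matrix.transvection k l u * Matrix.transvection i j t
  simp [Matrix.transvection, add_mul, mul_add, hjk, hil.symm]
  abel)

end perm

/-- Relabelling the indices. -/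
def slCongr {ι κ : Type*} [Fintype ι] [DecidableEq ι] [Fintype κ] [DecidableEq κ] (e : ι ≃ κ) :
    Matrix.SpecialLinearGroup ι F ≃* Matrix.SpecialLinearGroup κ F where
  toFun A := ⟨Matrix.reindex e e (A : Matrix ι ι F), by rw [Matrix.det_reindex_self]; exact A.2⟩
  invFun A := ⟨Matrix.reindex e.symm e.symm (A : Matrix κ κ F), by rw [Matrix.det_reindex_self]; exact A.2⟩
  left_inv A := Subtype.ext (by ext i j; simp)
  right_inv A := Subtype.ext (by ext i j; simp)
  map_mul' A B := Subtype.ext (by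
    refine Eq.trans ?_ (Matrix.SpecialLinearGroup.coe_mul _ _).symm
    exact (Matrix.submatrix_mul_equiv (A : Matrix ι ι F) (B : Matrix ι ι F) e.symm e.symm e.symm).symm)

section corner

variable {m : ℕ}

variable (F m) in
/-- The corner copy of `SL₃`. -/
def emb : Matrix.SpecialLinearGroup (Fin 3) F →* Matrix.SpecialLinearGroup (Idx m) F where
  toFun A := ⟨fromBlocks (A : Matrix (Fin 3) (Fin 3) F) 0 0 1, by rw [det_fromBlocks_zero₂₁, A.2, det_one, one_mul]⟩
  map_one' := Subtype.ext (by simp [fromBlocks_one])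
  map_mul' A B := Subtype.ext (by
    refine Eq.trans ?_ (Matrix.SpecialLinearGroup.coe_mul _ _).symm
    change fromBlocks ((A * B : Matrix.SpecialLinearGroup (Fin 3) F) : Matrix (Fin 3) (Fin 3) F) 0 0
        (1 : Matrix (Fin (m + 1)) (Fin (m + 1)) F) =
      fromBlocks (A : Matrix (Fin 3) (Fin 3) F) 0 0 1 * fromBlocks (B : Matrix (Fin 3) (Fin 3) F) 0 0 1
    rw [fromBlocks_multiply, Matrix.SpecialLinearGroup.coe_mul]
    simp)

theorem inl_ne {a b : Fin 3} (h : a ≠ b) : (Sum.inl a : Idx m) ≠ Sum.inl b := fun e => h (Sum.inl_injective e)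

theorem emb_tv {a b : Fin 3} (h : a ≠ b) (t : F) :
    emb F m (SpecialLinearGroup.transvection h t) = SpecialLinearGroup.transvection (inl_ne (m := m) h) t := by
  refine Subtype.ext ?_
  change fromBlocks (Matrix.transvection a b t) 0 0 (1 : Matrix (Fin (m + 1)) (Fin (m + 1)) F) =
    Matrix.transvection (Sum.inl a) (Sum.inl b) t
  ext (i | i) (j | j) <;> simp [Matrix.transvection, Matrix.one_apply, Matrix.single_apply]

/-- A three-cycle of the corner. -/
def tau (m : ℕ) : alternatingGroup (Idx m) :=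
  ⟨cyc (Sum.inl 0) (Sum.inl 1) (Sum.inl 2), mem_alternatingGroup.2 (cyc_sign (by simp) (by simp))⟩

/-- A three-cycle of three points. -/
def tau3 : alternatingGroup (Fin 3) := ⟨cyc 0 1 2, mem_alternatingGroup.2 (cyc_sign (by decide) (by decide))⟩

theorem tau_inl (a : Fin 3) : (tau m : Perm (Idx m)) (Sum.inl a) = Sum.inl ((tau3 : Perm (Fin 3)) a) := by
  fin_cases a <;> simp [tau, tau3, cyc, swap_apply_def]

theorem tau_inr (a : Fin (m + 1)) : (tau m : Perm (Idx m)) (Sum.inr a) = Sum.inr a := by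
  simp [tau, cyc, swap_apply_def]

theorem tau_eq : (tau m : Perm (Idx m)) = Equiv.sumCongr (tau3 : Perm (Fin 3)) (Equiv.refl _) := by
  ext (a | a)
  · rw [tau_inl]; rfl
  · rw [tau_inr]; rfl

theorem emb_tau : emb F m (rA F tau3) = rA F (tau m) := by
  refine Subtype.ext ?_
  change fromBlocks (pm (tau3 : Perm (Fin 3))) 0 0 (1 : Matrix (Fin (m + 1)) (Fin (m + 1)) F) = pm (tau m : Perm (Idx m))
  rw [tau_eq]
  ext (i | i) (j | j) <;> simp [pm_apply, Matrix.one_apply]

/-- The diagonal element of the corner. -/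
def hh (ω : Fˣ) : Matrix.SpecialLinearGroup (Fin 3) F :=
  ⟨Matrix.diagonal ![(ω : F), ((ω⁻¹ : Fˣ) : F), 1], by simp [Fin.prod_univ_three]⟩

/-- Its diagonal in the big group. -/
def hd (ω : Fˣ) : Idx m → F := Sum.elim ![(ω : F), ((ω⁻¹ : Fˣ) : F), 1] 1

theorem coe_emb_hh (ω : Fˣ) :
    ((emb F m (hh ω) : Matrix.SpecialLinearGroup (Idx m) F) : Matrix (Idx m) (Idx m) F) = Matrix.diagonal (hd ω) := by
  change fromBlocks (Matrix.diagonal ![(ω : F), ((ω⁻¹ : Fˣ) : F), 1]) 0 0 (1 : Matrix (Fin (m + 1)) (Fin (m + 1)) F) = _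
  rw [← Matrix.diagonal_one, Matrix.fromBlocks_diagonal]
  rfl

/-- The permutation exchanging the first two and the next two indices. -/
def pi1 (m : ℕ) : alternatingGroup (Idx m) :=
  ⟨swap (Sum.inl 0) (Sum.inl 1) * swap (Sum.inl 2) (Sum.inr 0), mem_alternatingGroup.2 (by
    rw [map_mul, sign_swap (by simp), sign_swap (by simp)]; rfl)⟩

/-- The permutation taking the first pair to the second. -/
def pi2 (m : ℕ) : alternatingGroup (Idx m) :=
  ⟨swap (Sum.inl 0) (Sum.inl 2) * swap (Sum.inl 1) (Sum.inr 0), mem_alternatingGroup.2 (by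
    rw [map_mul, sign_swap (by simp), sign_swap (by simp)]; rfl)⟩

/-- The permutation taking the first pair to the second, reversed. -/
def pi3 (m : ℕ) : alternatingGroup (Idx m) :=
  ⟨swap (Sum.inl 0) (Sum.inr 0) * swap (Sum.inl 1) (Sum.inl 2), mem_alternatingGroup.2 (by
    rw [map_mul, sign_swap (by simp), sign_swap (by simp)]; rfl)⟩

theorem pi1_inl0 : (pi1 m : Perm (Idx m)) (Sum.inl 0) = Sum.inl 1 := by simp [pi1, swap_apply_def]
theorem pi1_inl1 : (pi1 m : Perm (Idx m)) (Sum.inl 1) = Sum.inl 0 := by simp [pi1, swap_apply_def]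
theorem pi1_inl2 : (pi1 m : Perm (Idx m)) (Sum.inl 2) = Sum.inr 0 := by simp [pi1, swap_apply_def]
theorem pi2_inl0 : (pi2 m : Perm (Idx m)) (Sum.inl 0) = Sum.inl 2 := by simp [pi2, swap_apply_def]
theorem pi2_inl1 : (pi2 m : Perm (Idx m)) (Sum.inl 1) = Sum.inr 0 := by simp [pi2, swap_apply_def]
theorem pi2_inl2 : (pi2 m : Perm (Idx m)) (Sum.inl 2) = Sum.inl 0 := by simp [pi2, swap_apply_def]
theorem pi2_inr0 : (pi2 m : Perm (Idx m)) (Sum.inr 0) = Sum.inl 1 := by simp [pi2, swap_apply_def]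
theorem pi3_inl0 : (pi3 m : Perm (Idx m)) (Sum.inl 0) = Sum.inr 0 := by simp [pi3, swap_apply_def]
theorem pi3_inl1 : (pi3 m : Perm (Idx m)) (Sum.inl 1) = Sum.inl 2 := by simp [pi3, swap_apply_def]

theorem pi1_hd (ω : Fˣ) :
    rA F (pi1 m) * emb F m (hh ω) * (rA F (pi1 m))⁻¹ = (emb F m (hh ω))⁻¹ := by
  rw [mul_inv_eq_iff_eq_mul, ← map_inv]
  have e : (hh ω)⁻¹ = hh ω⁻¹ := inv_eq_of_mul_eq_one_right (Subtype.ext (by
    change Matrix.diagonal _ * Matrix.diagonal _ = 1
    rw [Matrix.diagonal_mul_diagonal, ← Matrix.diagonal_one]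
    congr 1
    funext i
    fin_cases i <;> simp))
  rw [e]
  refine Subtype.ext ?_
  simp only [Matrix.SpecialLinearGroup.coe_mul, coe_emb_hh, coe_rA]
  ext a b
  rw [Matrix.mul_diagonal, Matrix.diagonal_mul, pm_apply]
  split_ifs with h
  · rw [symm_apply_eq] at h
    subst h
    rw [one_mul, mul_one]
    rcases b with b | b
    · fin_cases b <;> simp [pi1, hd, swap_apply_def]
    · rcases eq_or_ne b 0 with rfl | hb
      · simp [pi1, hd, swap_apply_def]
      · simp [pi1, hd, swap_apply_def, hb]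
  · simp

end corner

end Cfsg.Agent.Lib.BoundedPres.SLn
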