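import Cfsg.Agent.Lib.BoundedPres.SLnMatrix
import Cfsg.Agent.Lib.SteinbergPres.SLn
import Cfsg.Agent.Lib.SpFourPres.Torus

/-!
# Steinberg's relations from an alternating group and a corner `SL₃`
-/

set_option autoImplicit false

namespace Cfsg.Agent.Lib.BoundedPres.SLn

open Equiv Equiv.Perm Matrix

universe u v

variable {F : Type u} [Field F] {G : Type v} [Group G] {m : ℕ}

theorem ne01 : (0 : Fin 3) ≠ 1 := by decide
theorem ne10 : (1 : Fin 3) ≠ 0 := by decide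

/-- An even permutation moving three points of the corner to given points. -/
theorem exists_alt_three {i j l : Idx m} (hij : i ≠ j) (hjl : j ≠ l) (hil : i ≠ l) :
    ∃ (g : alternatingGroup (Idx m)) (a b c : Fin 3), a ≠ b ∧ b ≠ c ∧ a ≠ c ∧
      (g : Perm (Idx m)) (Sum.inl a) = i ∧ (g : Perm (Idx m)) (Sum.inl b) = j ∧ (g : Perm (Idx m)) (Sum.inl c) = l := by
  let p0 : Idx m := Sum.inl 0
  let p1 : Idx m := Sum.inl 1
  let p2 : Idx m := Sum.inl 2
  have h01 : p0 ≠ p1 := by simp [p0, p1]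
  have h12 : p1 ≠ p2 := by simp [p1, p2]
  have h02 : p0 ≠ p2 := by simp [p0, p2]
  let g1 : Perm (Idx m) := swap p0 i
  have a0 : g1 p0 = i := swap_apply_left _ _
  let g2 : Perm (Idx m) := swap (g1 p1) j * g1
  have b0 : g2 p0 = i := by
    rw [Perm.mul_apply, a0, swap_apply_of_ne_of_ne (fun e => h01 (g1.injective (a0.trans e))) hij]
  have b1 : g2 p1 = j := by rw [Perm.mul_apply, swap_apply_left]
  let g3 : Perm (Idx m) := swap (g2 p2) l * g2
  have c0 : g3 p0 = i := by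
    rw [Perm.mul_apply, b0, swap_apply_of_ne_of_ne (fun e => h02 (g2.injective (b0.trans e))) hil]
  have c1 : g3 p1 = j := by
    rw [Perm.mul_apply, b1, swap_apply_of_ne_of_ne (fun e => h12 (g2.injective (b1.trans e))) hjl]
  have c2 : g3 p2 = l := by rw [Perm.mul_apply, swap_apply_left]
  rcases Int.units_eq_one_or (Perm.sign g3) with h | h
  · exact ⟨⟨g3, mem_alternatingGroup.2 h⟩, 0, 1, 2, by decide, by decide, by decide, c0, c1, c2⟩
  · refine ⟨⟨g3 * swap p0 p1, mem_alternatingGroup.2 (by rw [map_mul, h, sign_swap h01]; rfl)⟩, 1, 0, 2,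
      by decide, by decide, by decide, ?_, ?_, ?_⟩
    · show g3 (swap p0 p1 p1) = i; rw [swap_apply_right, c0]
    · show g3 (swap p0 p1 p0) = j; rw [swap_apply_left, c1]
    · show g3 (swap p0 p1 p2) = l; rw [swap_apply_of_ne_of_ne h02.symm h12.symm, c2]

theorem exists_alt_pair {i j : Idx m} (hij : i ≠ j) : ∃ g : alternatingGroup (Idx m),
    (g : Perm (Idx m)) (Sum.inl 0) = i ∧ (g : Perm (Idx m)) (Sum.inl 1) = j := by
  let p0 : Idx m := Sum.inl 0
  let p1 : Idx m := Sum.inl 1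
  have h01 : p0 ≠ p1 := by simp [p0, p1]
  let g1 : Perm (Idx m) := swap p0 i
  have a0 : g1 p0 = i := swap_apply_left _ _
  let g2 : Perm (Idx m) := swap (g1 p1) j * g1
  have b0 : g2 p0 = i := by
    rw [Perm.mul_apply, a0, swap_apply_of_ne_of_ne (fun e => h01 (g1.injective (a0.trans e))) hij]
  have b1 : g2 p1 = j := by rw [Perm.mul_apply, swap_apply_left]
  rcases Int.units_eq_one_or (Perm.sign g2) with h | h
  · exact ⟨⟨g2, mem_alternatingGroup.2 h⟩, b0, b1⟩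
  · refine ⟨⟨g2 * swap (Sum.inl 2) (Sum.inr 0), mem_alternatingGroup.2 (by rw [map_mul, h, sign_swap (by simp)]; rfl)⟩, ?_, ?_⟩
    · show g2 (swap _ _ p0) = i; rw [swap_apply_of_ne_of_ne (by simp [p0]) (by simp [p0]), b0]
    · show g2 (swap _ _ p1) = j; rw [swap_apply_of_ne_of_ne (by simp [p1]) (by simp [p1]), b1]

/-- The finitely many relations between the two groups. -/
structure Data (F : Type u) [Field F] (G : Type v) [Group G] (m : ℕ) where
  al : alternatingGroup (Idx m) →* G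
  be : Matrix.SpecialLinearGroup (Fin 3) F →* G
  ω : Fˣ
  hω : ∀ s : Fˣ, ∃ n : ℕ, ω ^ n = s
  stab1 : ∀ σ : alternatingGroup (Idx m), (σ : Perm (Idx m)) (Sum.inl 0) = Sum.inl 0 →
    (σ : Perm (Idx m)) (Sum.inl 1) = Sum.inl 1 → Commute (al σ) (be (SpecialLinearGroup.transvection ne01 1))
  stabh : ∀ σ : alternatingGroup (Idx m), (σ : Perm (Idx m)) (Sum.inl 0) = Sum.inl 0 →
    (σ : Perm (Idx m)) (Sum.inl 1) = Sum.inl 1 → Commute (al σ) (be (hh ω))
  tau_eq : al (tau m) = be (rA F tau3)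
  pi_x : al (pi1 m) * be (SpecialLinearGroup.transvection ne01 1) * (al (pi1 m))⁻¹ =
    be (SpecialLinearGroup.transvection ne10 1)
  pi_h : al (pi1 m) * be (hh ω) * (al (pi1 m))⁻¹ = (be (hh ω))⁻¹
  com2 : Commute (be (SpecialLinearGroup.transvection ne01 1))
    (al (pi2 m) * be (SpecialLinearGroup.transvection ne01 1) * (al (pi2 m))⁻¹)
  com3 : Commute (be (SpecialLinearGroup.transvection ne01 1))
    (al (pi3 m) * be (SpecialLinearGroup.transvection ne01 1) * (al (pi3 m))⁻¹)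

namespace Data

variable (D : Data F G m)

/-- The basic root subgroup. -/
def x0 (c : F) : G := D.be (SpecialLinearGroup.transvection ne01 c)

theorem x0_add (s t : F) : D.x0 (s + t) = D.x0 s * D.x0 t := by rw [x0, x0, x0, tv_add, map_mul]

/-- The root element of an index pair of the corner. -/
def y {a b : Fin 3} (h : a ≠ b) (c : F) : G := D.be (SpecialLinearGroup.transvection h c)

theorem y_add {a b : Fin 3} (h : a ≠ b) (s t : F) : D.y h (s + t) = D.y h s * D.y h t := by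
  rw [y, y, y, tv_add, map_mul]

/-- Weights of the diagonal element. -/
def d3 (ω : Fˣ) : Fin 3 → F := ![(ω : F), ((ω⁻¹ : Fˣ) : F), 1]

theorem h_y {a b : Fin 3} (h : a ≠ b) (c c' : F) (e : d3 D.ω a * c = c' * d3 D.ω b) :
    D.be (hh D.ω) * D.y h c * (D.be (hh D.ω))⁻¹ = D.y h c' := by
  rw [y, y, ← exists_scaling (g := hh D.ω) (d := d3 D.ω) rfl h c c' e, map_mul, map_mul, map_inv]

theorem hpow_x0 (n : ℕ) : D.be (hh D.ω) ^ n * D.x0 1 * (D.be (hh D.ω) ^ n)⁻¹ = D.x0 ((((D.ω ^ n : Fˣ)) : F) ^ 2) := by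
  induction n with
  | zero => simp
  | succ n ih =>
    rw [pow_succ', _root_.mul_inv_rev, show D.be (hh D.ω) * D.be (hh D.ω) ^ n * D.x0 1 * ((D.be (hh D.ω) ^ n)⁻¹ * (D.be (hh D.ω))⁻¹) =
      D.be (hh D.ω) * (D.be (hh D.ω) ^ n * D.x0 1 * (D.be (hh D.ω) ^ n)⁻¹) * (D.be (hh D.ω))⁻¹ by group, ih]
    refine D.h_y ne01 _ _ ?_
    simp only [d3, Matrix.cons_val_zero, Matrix.cons_val_one, Units.val_pow_eq_pow_val, Units.val_inv_eq_inv_val]
    field_simp
    ring

variable [Finite F]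

/-- What commutes with `x(1)` and the diagonal element commutes with all `x(c)`. -/
theorem commute_x0 {g : G} (h1 : Commute g (D.x0 1)) (hh' : Commute g (D.be (hh D.ω))) (c : F) :
    Commute g (D.x0 c) := by
  have hsq : ∀ s : F, g * D.x0 (s ^ 2) * g⁻¹ = D.x0 (s ^ 2) := by
    intro s
    rcases eq_or_ne s 0 with rfl | hs
    · have h0 : D.x0 0 = 1 := by
        have := D.x0_add 0 0
        rw [add_zero] at this
        exact left_eq_mul.1 this
      rw [zero_pow two_ne_zero, h0, mul_one, mul_inv_cancel]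
    · obtain ⟨n, hn⟩ := D.hω (Units.mk0 s hs)
      have e := D.hpow_x0 n
      rw [hn, Units.val_mk0] at e
      rw [← e]
      have hc : Commute g (D.be (hh D.ω) ^ n * D.x0 1 * (D.be (hh D.ω) ^ n)⁻¹) :=
        ((hh'.pow_right n).mul_right h1).mul_right (hh'.pow_right n).inv_right
      rw [hc.eq, mul_inv_cancel_right]
  have := SpFourPres.eq_of_squares (fun c => g * D.x0 c * g⁻¹) D.x0
    (fun a b => by simp only [D.x0_add]; group) D.x0_add hsq c
  exact mul_inv_eq_iff_eq_mul.1 this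

theorem conj_indep {g g' : alternatingGroup (Idx m)}
    (h0 : (g : Perm (Idx m)) (Sum.inl 0) = (g' : Perm (Idx m)) (Sum.inl 0))
    (h1 : (g : Perm (Idx m)) (Sum.inl 1) = (g' : Perm (Idx m)) (Sum.inl 1)) (c : F) :
    D.al g * D.x0 c * (D.al g)⁻¹ = D.al g' * D.x0 c * (D.al g')⁻¹ := by
  have k0 : ((g'⁻¹ * g : alternatingGroup (Idx m)) : Perm (Idx m)) (Sum.inl 0) = Sum.inl 0 := by
    simp [Perm.mul_apply, h0]
  have k1 : ((g'⁻¹ * g : alternatingGroup (Idx m)) : Perm (Idx m)) (Sum.inl 1) = Sum.inl 1 := by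
    simp [Perm.mul_apply, h1]
  have hc := D.commute_x0 (D.stab1 _ k0 k1) (D.stabh _ k0 k1) c
  rw [map_mul, map_inv] at hc
  calc D.al g * D.x0 c * (D.al g)⁻¹ = D.al g' * (((D.al g')⁻¹ * D.al g) * D.x0 c) * (D.al g)⁻¹ := by group
    _ = D.al g' * (D.x0 c * ((D.al g')⁻¹ * D.al g)) * (D.al g)⁻¹ := by rw [hc.eq]
    _ = _ := by group

open scoped Classical in
/-- The root element of any pair of indices. -/
noncomputable def X (i j : Idx m) (c : F) : G :=
  if h : i ≠ j then D.al (Classical.choose (exists_alt_pair h)) * D.x0 c * (D.al (Classical.choose (exists_alt_pair h)))⁻¹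
  else 1

theorem X_eq {i j : Idx m} (g : alternatingGroup (Idx m)) (h0 : (g : Perm (Idx m)) (Sum.inl 0) = i)
    (h1 : (g : Perm (Idx m)) (Sum.inl 1) = j) (c : F) : D.X i j c = D.al g * D.x0 c * (D.al g)⁻¹ := by
  have hij : i ≠ j := by
    rw [← h0, ← h1]
    exact (g : Perm (Idx m)).injective.ne (by simp)
  rw [X, dif_pos hij]
  obtain ⟨a, b⟩ := Classical.choose_spec (exists_alt_pair hij)
  exact D.conj_indep (a.trans h0.symm) (b.trans h1.symm) c

theorem X_add {i j : Idx m} (hij : i ≠ j) (s t : F) : D.X i j (s + t) = D.X i j s * D.X i j t := by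
  obtain ⟨g, h0, h1⟩ := exists_alt_pair hij
  simp only [D.X_eq g h0 h1, D.x0_add]
  group

theorem equiv (g : alternatingGroup (Idx m)) {i j : Idx m} (hij : i ≠ j) (c : F) :
    D.al g * D.X i j c * (D.al g)⁻¹ = D.X ((g : Perm (Idx m)) i) ((g : Perm (Idx m)) j) c := by
  obtain ⟨k, h0, h1⟩ := exists_alt_pair hij
  rw [D.X_eq k h0 h1, D.X_eq (g * k) (by simp [Perm.mul_apply, h0]) (by simp [Perm.mul_apply, h1]), map_mul]
  group

theorem X01 (c : F) : D.X (Sum.inl 0) (Sum.inl 1) c = D.x0 c := by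
  rw [D.X_eq (i := Sum.inl 0) (j := Sum.inl 1) 1 rfl rfl, map_one]; simp

theorem tau_step {a b : Fin 3} (h : a ≠ b) (hy : ∀ c, D.X (Sum.inl a) (Sum.inl b) c = D.y h c)
    (h' : (tau3 : Perm (Fin 3)) a ≠ (tau3 : Perm (Fin 3)) b) (c : F) :
    D.X (Sum.inl ((tau3 : Perm (Fin 3)) a)) (Sum.inl ((tau3 : Perm (Fin 3)) b)) c = D.y h' c := by
  rw [← tau_inl (m := m) a, ← tau_inl (m := m) b, ← D.equiv _ (inl_ne h), hy, D.tau_eq, y, y, ← rA_tv tau3 h h' c,
    map_mul, map_mul, map_inv]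

theorem X10 (c : F) : D.X (Sum.inl 1) (Sum.inl 0) c = D.y ne10 c := by
  refine SpFourPres.eq_of_squares (D.X (Sum.inl 1) (Sum.inl 0)) (D.y ne10) (D.X_add (by simp)) (D.y_add ne10) ?_ c
  intro s
  rcases eq_or_ne s 0 with rfl | hs
  · rw [zero_pow two_ne_zero]
    have a0 : D.X (Sum.inl 1) (Sum.inl 0) (0 : F) = 1 := by
      have := D.X_add (i := Sum.inl 1) (j := Sum.inl 0) (by simp) 0 0
      rw [add_zero] at this
      exact left_eq_mul.1 this
    have b0 : D.y ne10 (0 : F) = 1 := by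
      have := D.y_add ne10 0 0
      rw [add_zero] at this
      exact left_eq_mul.1 this
    rw [a0, b0]
  obtain ⟨n, hn⟩ := D.hω (Units.mk0 s hs)
  have e := D.hpow_x0 n
  rw [hn, Units.val_mk0] at e
  rw [D.X_eq (pi1 m) pi1_inl0 pi1_inl1, ← e]
  calc D.al (pi1 m) * (D.be (hh D.ω) ^ n * D.x0 1 * (D.be (hh D.ω) ^ n)⁻¹) * (D.al (pi1 m))⁻¹
      = (D.al (pi1 m) * D.be (hh D.ω) * (D.al (pi1 m))⁻¹) ^ n * (D.al (pi1 m) * D.x0 1 * (D.al (pi1 m))⁻¹) *
        ((D.al (pi1 m) * D.be (hh D.ω) * (D.al (pi1 m))⁻¹) ^ n)⁻¹ := by rw [conj_pow]; group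
    _ = ((D.be (hh D.ω))⁻¹) ^ n * D.y ne10 1 * (((D.be (hh D.ω))⁻¹) ^ n)⁻¹ := by
      rw [D.pi_h, x0, D.pi_x]; rfl
    _ = D.y ne10 ((((D.ω ^ n : Fˣ)) : F) ^ 2) := by
      clear hn e
      induction n with
      | zero => simp
      | succ n ih =>
        rw [pow_succ', _root_.mul_inv_rev, show (D.be (hh D.ω))⁻¹ * (D.be (hh D.ω))⁻¹ ^ n * D.y ne10 1 *
          (((D.be (hh D.ω))⁻¹ ^ n)⁻¹ * ((D.be (hh D.ω))⁻¹)⁻¹) =
          (D.be (hh D.ω))⁻¹ * ((D.be (hh D.ω))⁻¹ ^ n * D.y ne10 1 * ((D.be (hh D.ω))⁻¹ ^ n)⁻¹) * ((D.be (hh D.ω))⁻¹)⁻¹ by group, ih]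
        have h := D.h_y ne10 ((((D.ω ^ (n + 1) : Fˣ)) : F) ^ 2) ((((D.ω ^ n : Fˣ)) : F) ^ 2) (by
          simp only [d3, Matrix.cons_val_zero, Matrix.cons_val_one, Units.val_pow_eq_pow_val, Units.val_inv_eq_inv_val]
          field_simp
          ring)
        rw [← h]
        group
    _ = _ := by rw [hn, Units.val_mk0]

theorem tau3_0 : (tau3 : Perm (Fin 3)) 0 = 1 := by decide
theorem tau3_1 : (tau3 : Perm (Fin 3)) 1 = 2 := by decide
theorem tau3_2 : (tau3 : Perm (Fin 3)) 2 = 0 := by decide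

theorem X_corner {a b : Fin 3} (h : a ≠ b) (c : F) : D.X (Sum.inl a) (Sum.inl b) c = D.y h c := by
  have k01 : ∀ c, D.X (Sum.inl (0 : Fin 3)) (Sum.inl 1) c = D.y ne01 c := D.X01
  have k12 : ∀ c, D.X (Sum.inl (1 : Fin 3)) (Sum.inl 2) c = D.y (a := 1) (b := 2) (by decide) c := fun c => by
    have := D.tau_step ne01 k01 (by decide) c
    simpa only [tau3_0, tau3_1] using this
  have k20 : ∀ c, D.X (Sum.inl (2 : Fin 3)) (Sum.inl 0) c = D.y (a := 2) (b := 0) (by decide) c := fun c => by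
    have := D.tau_step (a := 1) (b := 2) (by decide) k12 (by decide) c
    simpa only [tau3_1, tau3_2] using this
  have k21 : ∀ c, D.X (Sum.inl (2 : Fin 3)) (Sum.inl 1) c = D.y (a := 2) (b := 1) (by decide) c := fun c => by
    have := D.tau_step ne10 D.X10 (by decide) c
    simpa only [tau3_0, tau3_1] using this
  have k02 : ∀ c, D.X (Sum.inl (0 : Fin 3)) (Sum.inl 2) c = D.y (a := 0) (b := 2) (by decide) c := fun c => by
    have := D.tau_step (a := 2) (b := 1) (by decide) k21 (by decide) c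
    simpa only [tau3_1, tau3_2] using this
  fin_cases a <;> fin_cases b
  all_goals first
    | exact absurd rfl h
    | exact k01 c
    | exact k12 c
    | exact k20 c
    | exact D.X10 c
    | exact k21 c
    | exact k02 c

theorem chain {i j l : Idx m} (hij : i ≠ j) (hjl : j ≠ l) (hil : i ≠ l) (t u : F) :
    D.X i j t * D.X j l u * (D.X i j t)⁻¹ * (D.X j l u)⁻¹ = D.X i l (t * u) := by
  obtain ⟨g, a, b, c, hab, hbc, hac, rfl, rfl, rfl⟩ := exists_alt_three hij hjl hil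
  rw [← D.equiv g (inl_ne hab), ← D.equiv g (inl_ne hbc), ← D.equiv g (inl_ne hac), D.X_corner hab, D.X_corner hbc,
    D.X_corner hac]
  have e : D.y hab t * D.y hbc u * (D.y hab t)⁻¹ * (D.y hbc u)⁻¹ = D.y hac (t * u) := by
    simp only [y, ← map_inv, ← map_mul]
    congr 1
    rw [← Cfsg.Agent.Lib.Classical.transvection_commutator hab hbc hac t u, commutatorElement_def]
  rw [← e]
  group

theorem commute_three {i j k : Idx m} (hij : i ≠ j) (hkj : k ≠ j) (hki : k ≠ i) (t u : F) :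
    Commute (D.X i j t) (D.X i k u) ∧ Commute (D.X j i t) (D.X k i u) := by
  obtain ⟨g, a, b, c, hab, hbc, hac, rfl, rfl, rfl⟩ := exists_alt_three hij hkj.symm hki.symm
  rw [← D.equiv g (inl_ne hab), ← D.equiv g (inl_ne hac), ← D.equiv g (inl_ne hab.symm),
    ← D.equiv g (inl_ne hac.symm), D.X_corner hab, D.X_corner hac, D.X_corner hab.symm, D.X_corner hac.symm]
  exact ⟨SpFourPres.commute_conj _ ((tv_commute hab hac hab.symm hac t u).map D.be),
    SpFourPres.commute_conj _ ((tv_commute hab.symm hac.symm hac hab.symm t u).map D.be)⟩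

/-- The second copy of the diagonal element. -/
def h23 : G := D.al (pi2 m) * D.be (hh D.ω) * (D.al (pi2 m))⁻¹

theorem h_X03 (c c' : F) (e : ((D.ω : Fˣ) : F) * c = c') :
    D.be (hh D.ω) * D.X (Sum.inl 0) (Sum.inr 0) c * (D.be (hh D.ω))⁻¹ = D.X (Sum.inl 0) (Sum.inr 0) c' := by
  have h1 : (D.be (hh D.ω))⁻¹ * D.y (a := 1) (b := 2) (by decide) c * D.be (hh D.ω) = D.y (a := 1) (b := 2) (by decide) c' := by
    rw [← D.h_y (a := 1) (b := 2) (by decide) c' c (by simp [d3, ← e])]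
    group
  have e' : D.be (hh D.ω) = D.al (pi1 m) * (D.be (hh D.ω))⁻¹ * (D.al (pi1 m))⁻¹ := by
    rw [← inv_inv (D.be (hh D.ω))]
    nth_rewrite 1 [← D.pi_h]
    group
  rw [← pi1_inl1 (m := m), ← pi1_inl2 (m := m), ← D.equiv _ (by simp), ← D.equiv _ (by simp),
    D.X_corner (a := 1) (b := 2) (by decide), D.X_corner (a := 1) (b := 2) (by decide), ← h1]
  nth_rewrite 1 [e']
  nth_rewrite 2 [e']
  group

theorem h_X30 (c c' : F) (e : ((D.ω⁻¹ : Fˣ) : F) * c = c') :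
    D.be (hh D.ω) * D.X (Sum.inr 0) (Sum.inl 0) c * (D.be (hh D.ω))⁻¹ = D.X (Sum.inr 0) (Sum.inl 0) c' := by
  have h1 : (D.be (hh D.ω))⁻¹ * D.y (a := 2) (b := 1) (by decide) c * D.be (hh D.ω) = D.y (a := 2) (b := 1) (by decide) c' := by
    rw [← D.h_y (a := 2) (b := 1) (by decide) c' c (by simp [d3, ← e]; field_simp)]
    group
  have e' : D.be (hh D.ω) = D.al (pi1 m) * (D.be (hh D.ω))⁻¹ * (D.al (pi1 m))⁻¹ := by
    rw [← inv_inv (D.be (hh D.ω))]
    nth_rewrite 1 [← D.pi_h]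
    group
  rw [← pi1_inl2 (m := m), ← pi1_inl1 (m := m), ← D.equiv _ (by simp), ← D.equiv _ (by simp),
    D.X_corner (a := 2) (b := 1) (by decide), D.X_corner (a := 2) (b := 1) (by decide), ← h1]
  nth_rewrite 1 [e']
  nth_rewrite 2 [e']
  group

theorem h_X23 (c : F) : Commute (D.be (hh D.ω)) (D.X (Sum.inl 2) (Sum.inr 0) c) ∧
    Commute (D.be (hh D.ω)) (D.X (Sum.inr 0) (Sum.inl 2) c) := by
  set h := D.be (hh D.ω)
  have k1 : h * D.X (Sum.inl 2) (Sum.inl 0) c * h⁻¹ = D.X (Sum.inl 2) (Sum.inl 0) (((D.ω⁻¹ : Fˣ) : F) * c) := by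
    rw [D.X_corner (a := 2) (b := 0) (by decide), D.X_corner (a := 2) (b := 0) (by decide)]
    exact D.h_y _ _ _ (by simp [d3]; field_simp)
  have k2 : h * D.X (Sum.inl 0) (Sum.inl 2) (1 : F) * h⁻¹ = D.X (Sum.inl 0) (Sum.inl 2) ((D.ω : Fˣ) : F) := by
    rw [D.X_corner (a := 0) (b := 2) (by decide), D.X_corner (a := 0) (b := 2) (by decide)]
    exact D.h_y _ _ _ (by simp [d3])
  have hw : ((D.ω⁻¹ : Fˣ) : F) * c * ((D.ω : Fˣ) : F) = c := by
    rw [mul_right_comm, Units.inv_mul, one_mul]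
  have conj4 : ∀ a b : G, h * (a * b * a⁻¹ * b⁻¹) * h⁻¹ = (h * a * h⁻¹) * (h * b * h⁻¹) * (h * a * h⁻¹)⁻¹ * (h * b * h⁻¹)⁻¹ :=
    fun a b => by group
  refine ⟨mul_inv_eq_iff_eq_mul.1 ?_, mul_inv_eq_iff_eq_mul.1 ?_⟩
  · rw [← mul_one c, ← D.chain (i := Sum.inl 2) (j := Sum.inl 0) (l := Sum.inr 0) (by simp) (by simp) (by simp) c 1,
      conj4, k1, D.h_X03 1 _ (mul_one _), D.chain (by simp) (by simp) (by simp), hw,
      D.chain (by simp) (by simp) (by simp), mul_one]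
  · rw [← mul_one c, ← D.chain (i := Sum.inr 0) (j := Sum.inl 0) (l := Sum.inl 2) (by simp) (by simp) (by simp) c 1,
      conj4, D.h_X30 c _ rfl, k2, D.chain (by simp) (by simp) (by simp), hw,
      D.chain (by simp) (by simp) (by simp), mul_one]

theorem h23_x0 (c : F) : Commute D.h23 (D.x0 c) := by
  have h := SpFourPres.commute_conj (D.al (pi2 m)) (D.h_X23 c).1
  rwa [D.equiv _ (by simp), pi2_inl2, pi2_inr0, D.X01] at h

theorem disjoint_base (a b : F) : Commute (D.x0 a) (D.X (Sum.inl 2) (Sum.inr 0) b) ∧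
    Commute (D.x0 a) (D.X (Sum.inr 0) (Sum.inl 2) b) := by
  have e2 : D.X (Sum.inl 2) (Sum.inr 0) (1 : F) = D.al (pi2 m) * D.x0 1 * (D.al (pi2 m))⁻¹ :=
    D.X_eq _ pi2_inl0 pi2_inl1 1
  have e3 : D.X (Sum.inr 0) (Sum.inl 2) (1 : F) = D.al (pi3 m) * D.x0 1 * (D.al (pi3 m))⁻¹ :=
    D.X_eq _ pi3_inl0 pi3_inl1 1
  have c2 : Commute (D.X (Sum.inl 2) (Sum.inr 0) (1 : F)) (D.x0 a) :=
    D.commute_x0 (by rw [e2]; exact D.com2.symm) (D.h_X23 1).1.symm a
  have c3 : Commute (D.X (Sum.inr 0) (Sum.inl 2) (1 : F)) (D.x0 a) :=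
    D.commute_x0 (by rw [e3]; exact D.com3.symm) (D.h_X23 1).2.symm a
  have sc2 : ∀ n : ℕ, D.h23 ^ n * D.X (Sum.inl 2) (Sum.inr 0) 1 * (D.h23 ^ n)⁻¹ =
      D.X (Sum.inl 2) (Sum.inr 0) ((((D.ω ^ n : Fˣ)) : F) ^ 2) := fun n => by
    rw [e2, h23, conj_pow, D.X_eq _ pi2_inl0 pi2_inl1, ← D.hpow_x0 n]
    group
  have sc3 : ∀ n : ℕ, (D.h23 ^ n)⁻¹ * D.X (Sum.inr 0) (Sum.inl 2) 1 * D.h23 ^ n =
      D.X (Sum.inr 0) (Sum.inl 2) ((((D.ω ^ n : Fˣ)) : F) ^ 2) := fun n => by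
    have hb : ∀ c, D.X (Sum.inr 0) (Sum.inl 2) c = D.al (pi2 m) * D.X (Sum.inl 1) (Sum.inl 0) c * (D.al (pi2 m))⁻¹ := fun c => by
      rw [D.equiv _ (by simp), pi2_inl1, pi2_inl0]
    have hpi : ∀ c, D.X (Sum.inl 1) (Sum.inl 0) c = D.al (pi1 m) * D.x0 c * (D.al (pi1 m))⁻¹ :=
      D.X_eq _ pi1_inl0 pi1_inl1
    rw [hb, hb, h23, conj_pow, hpi, hpi, ← D.hpow_x0 n]
    have hp : D.al (pi1 m) * D.be (hh D.ω) ^ n * (D.al (pi1 m))⁻¹ = (D.be (hh D.ω) ^ n)⁻¹ := by
      rw [← conj_pow, D.pi_h, inv_pow]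
    generalize D.be (hh D.ω) ^ n = H at hp ⊢
    calc (D.al (pi2 m) * H * (D.al (pi2 m))⁻¹)⁻¹ * (D.al (pi2 m) * (D.al (pi1 m) * D.x0 1 * (D.al (pi1 m))⁻¹) * (D.al (pi2 m))⁻¹) *
          (D.al (pi2 m) * H * (D.al (pi2 m))⁻¹)
        = D.al (pi2 m) * (H⁻¹ * (D.al (pi1 m) * D.x0 1 * (D.al (pi1 m))⁻¹) * (H⁻¹)⁻¹) * (D.al (pi2 m))⁻¹ := by group
      _ = _ := by conv_lhs => rw [← hp]
                  group
  have hsq : ∀ (X' : F → G), (∀ s t, X' (s + t) = X' s * X' t) → (∀ n : ℕ, Commute (D.x0 a) (X' ((((D.ω ^ n : Fˣ)) : F) ^ 2))) →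
      Commute (D.x0 a) (X' b) := by
    intro X' hadd hs
    have hall : ∀ s : F, D.x0 a * X' (s ^ 2) * (D.x0 a)⁻¹ = X' (s ^ 2) := by
      intro s
      rcases eq_or_ne s 0 with rfl | hs0
      · have h0 : X' 0 = 1 := by
          have := hadd 0 0
          rw [add_zero] at this
          exact left_eq_mul.1 this
        rw [zero_pow two_ne_zero, h0, mul_one, mul_inv_cancel]
      · obtain ⟨n, hn⟩ := D.hω (Units.mk0 s hs0)
        have := hs n
        rw [hn, Units.val_mk0] at this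
        rw [this.eq, mul_inv_cancel_right]
    exact mul_inv_eq_iff_eq_mul.1 (SpFourPres.eq_of_squares (fun c => D.x0 a * X' c * (D.x0 a)⁻¹) X'
      (fun s t => by simp only [hadd]; group) hadd hall b)
  refine ⟨hsq _ (D.X_add (by simp)) fun n => ?_, hsq _ (D.X_add (by simp)) fun n => ?_⟩
  · rw [← sc2]
    exact (((D.h23_x0 a).pow_left n).symm.mul_right c2.symm).mul_right ((D.h23_x0 a).pow_left n).symm.inv_right
  · rw [← sc3]
    exact (((D.h23_x0 a).pow_left n).symm.inv_right.mul_right c3.symm).mul_right ((D.h23_x0 a).pow_left n).symm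

theorem comm {i j k l : Idx m} (hij : i ≠ j) (hkl : k ≠ l) (hil : i ≠ l) (hjk : j ≠ k) (t u : F) :
    D.X i j t * D.X k l u = D.X k l u * D.X i j t := by
  by_cases hik : i = k
  · subst hik
    by_cases hjl : j = l
    · subst hjl
      rw [← D.X_add hij, ← D.X_add hij, add_comm]
    · exact (D.commute_three hij (Ne.symm hjl) hkl.symm t u).1
  by_cases hjl : j = l
  · subst hjl
    exact (D.commute_three hij.symm (Ne.symm hik) hkl t u).2
  obtain ⟨g, h0, h1⟩ := exists_alt_pair hij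
  have hs : ∀ q : Idx m, q ≠ i → q ≠ j → (g : Perm (Idx m)).symm q ≠ Sum.inl 0 ∧ (g : Perm (Idx m)).symm q ≠ Sum.inl 1 :=
    fun q hi hj => ⟨fun e => hi (by rw [← h0, ← e, apply_symm_apply]), fun e => hj (by rw [← h1, ← e, apply_symm_apply])⟩
  obtain ⟨a0, a1⟩ := hs k (Ne.symm hik) hjk.symm
  obtain ⟨b0, b1⟩ := hs l hil.symm (Ne.symm hjl)
  set k' := (g : Perm (Idx m)).symm k with hk'
  set l' := (g : Perm (Idx m)).symm l with hl'
  have hkl' : k' ≠ l' := (g : Perm (Idx m)).symm.injective.ne hkl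
  -- move the second pair onto the standard one
  let g1 : Perm (Idx m) := swap (Sum.inl 2) k'
  have q0 : g1 (Sum.inl 0) = Sum.inl 0 := swap_apply_of_ne_of_ne (by simp) a0.symm
  have q1 : g1 (Sum.inl 1) = Sum.inl 1 := swap_apply_of_ne_of_ne (by simp) a1.symm
  have q2 : g1 (Sum.inl 2) = k' := swap_apply_left _ _
  let g2 : Perm (Idx m) := swap (g1 (Sum.inr 0)) l' * g1
  have r0 : g2 (Sum.inl 0) = Sum.inl 0 := by
    rw [Perm.mul_apply, q0, swap_apply_of_ne_of_ne (fun e => by simpa using g1.injective (q0.trans e)) b0.symm]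
  have r1 : g2 (Sum.inl 1) = Sum.inl 1 := by
    rw [Perm.mul_apply, q1, swap_apply_of_ne_of_ne (fun e => by simpa using g1.injective (q1.trans e)) b1.symm]
  have r2 : g2 (Sum.inl 2) = k' := by
    rw [Perm.mul_apply, q2, swap_apply_of_ne_of_ne (fun e => by simpa using g1.injective (q2.trans e)) hkl']
  have r3 : g2 (Sum.inr 0) = l' := by rw [Perm.mul_apply, swap_apply_left]
  obtain ⟨σ, x, y, hxy, hcase, s0, s1, sx, sy⟩ : ∃ (σ : alternatingGroup (Idx m)) (x y : Idx m), x ≠ y ∧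
      ((x = Sum.inl 2 ∧ y = Sum.inr 0) ∨ (x = Sum.inr 0 ∧ y = Sum.inl 2)) ∧
      (σ : Perm (Idx m)) (Sum.inl 0) = Sum.inl 0 ∧ (σ : Perm (Idx m)) (Sum.inl 1) = Sum.inl 1 ∧
      (σ : Perm (Idx m)) x = k' ∧ (σ : Perm (Idx m)) y = l' := by
    rcases Int.units_eq_one_or (Perm.sign g2) with h | h
    · exact ⟨⟨g2, mem_alternatingGroup.2 h⟩, _, _, by simp, Or.inl ⟨rfl, rfl⟩, r0, r1, r2, r3⟩
    · refine ⟨⟨g2 * swap (Sum.inl 2) (Sum.inr 0), mem_alternatingGroup.2 (by rw [map_mul, h, sign_swap (by simp)]; rfl)⟩,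
        Sum.inr 0, Sum.inl 2, by simp, Or.inr ⟨rfl, rfl⟩, ?_, ?_, ?_, ?_⟩
      · show g2 (swap _ _ _) = _; rw [swap_apply_of_ne_of_ne (by simp) (by simp), r0]
      · show g2 (swap _ _ _) = _; rw [swap_apply_of_ne_of_ne (by simp) (by simp), r1]
      · show g2 (swap _ _ _) = _; rw [swap_apply_right, r2]
      · show g2 (swap _ _ _) = _; rw [swap_apply_left, r3]
  set γ := g * σ
  have e0 : (γ : Perm (Idx m)) (Sum.inl 0) = i := by simp [γ, Perm.mul_apply, s0, h0]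
  have e1 : (γ : Perm (Idx m)) (Sum.inl 1) = j := by simp [γ, Perm.mul_apply, s1, h1]
  have ex : (γ : Perm (Idx m)) x = k := by simp [γ, Perm.mul_apply, sx, hk']
  have ey : (γ : Perm (Idx m)) y = l := by simp [γ, Perm.mul_apply, sy, hl']
  rw [D.X_eq γ e0 e1, ← ex, ← ey, ← D.equiv γ hxy]
  refine SpFourPres.commute_conj _ ?_
  rcases hcase with ⟨rfl, rfl⟩ | ⟨rfl, rfl⟩
  exacts [(D.disjoint_base t u).1, (D.disjoint_base t u).2]

theorem three (i j : Idx m) : ∃ k, k ≠ i ∧ k ≠ j := by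
  have : ¬ (Finset.univ : Finset (Idx m)) ⊆ {i, j} := fun h => by
    have h1 := (Finset.card_le_card h).trans Finset.card_le_two
    simp at h1
    omega
  obtain ⟨k, -, hk⟩ := Finset.not_subset.1 this
  exact ⟨k, fun e => hk (by simp [e]), fun e => hk (by simp [e])⟩

/-- Steinberg's relations. -/
noncomputable def steinberg : SteinbergPres.Steinberg (Idx m) F G where
  x := D.X
  add h t u := (D.X_add h t u).symm
  comm h1 h2 h3 h4 t u := D.comm h1 h2 h3 h4 t u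
  chain h1 h2 h3 t u := D.chain h1 h2 h3 t u
  three := three

theorem al_mem_normalizer (g : alternatingGroup (Idx m)) {z : G}
    (hz : z ∈ D.steinberg.grp Finset.univ) : D.al g * z * (D.al g)⁻¹ ∈ D.steinberg.grp Finset.univ := by
  refine D.steinberg.conj_mem (fun i j t hij _ => ?_) hz
  show D.al g * D.X i j t * (D.al g)⁻¹ ∈ _
  rw [D.equiv g hij]
  exact D.steinberg.x_mem_sub ((g : Perm (Idx m)).injective.ne hij) ⟨Finset.mem_univ _, Finset.mem_univ _⟩ t

theorem be_mem (A : Matrix.SpecialLinearGroup (Fin 3) F) : D.be A ∈ D.steinberg.grp Finset.univ := by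
  induction A using Cfsg.Agent.Lib.Classical.SL_transvection_induction with
  | h1 => rw [map_one]; exact one_mem _
  | htransvec a b hab c =>
    show D.y hab c ∈ _
    rw [← D.X_corner hab]
    exact D.steinberg.x_mem_sub (inl_ne hab) ⟨Finset.mem_univ _, Finset.mem_univ _⟩ c
  | hmul A B hA hB => rw [map_mul]; exact mul_mem hA hB

theorem al_mem (σ : alternatingGroup (Idx m)) : D.al σ ∈ D.steinberg.grp Finset.univ := by
  set N := D.steinberg.grp Finset.univ
  have htau : D.al (tau m) ∈ N := by rw [D.tau_eq]; exact D.be_mem _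
  have h : alternatingGroup (Idx m) ≤ (N.comap D.al).map (alternatingGroup (Idx m)).subtype := by
    refine alternating_le_of_cyc (o1 := Sum.inl 0) (o2 := Sum.inl 1) (by simp) fun i hi0 hi1 => ?_
    obtain ⟨g, a, b, c, hab, hbc, hac, ha, hb, hc⟩ := exists_alt_three (i := Sum.inl 0) (j := Sum.inl 1) (l := i)
      (by simp) hi1.symm hi0.symm
    have key : cyc (Sum.inl a) (Sum.inl b) (Sum.inl c) = (tau m : Perm (Idx m)) ∨
        (cyc (Sum.inl a) (Sum.inl b) (Sum.inl c) : Perm (Idx m)) = (((tau m)⁻¹ : alternatingGroup (Idx m)) : Perm (Idx m)) := by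
      have key3 : cyc a b c = (tau3 : Perm (Fin 3)) ∨ cyc a b c = ((tau3)⁻¹ : alternatingGroup (Fin 3)) := by
        revert hab hbc hac
        fin_cases a <;> fin_cases b <;> fin_cases c <;> decide
      have lift : cyc (Sum.inl a : Idx m) (Sum.inl b) (Sum.inl c) = Equiv.sumCongr (cyc a b c) (Equiv.refl _) := by
        ext (z | z) <;> simp [cyc, swap_apply_def] <;> split_ifs <;> simp_all
      rcases key3 with h | h
      · left; rw [lift, h, SLn.tau_eq]
      · right; rw [lift, h]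
        rw [Subgroup.coe_inv, Subgroup.coe_inv, SLn.tau_eq]
        rfl
    rw [show cyc (Sum.inl 0) (Sum.inl 1) i = (g : Perm (Idx m)) * cyc (Sum.inl a) (Sum.inl b) (Sum.inl c) * (g : Perm (Idx m))⁻¹ by
      rw [conj_cyc, ha, hb, hc]]
    rcases key with h | h
    · refine ⟨g * tau m * g⁻¹, ?_, by simp [h]⟩
      show D.al _ ∈ N
      rw [map_mul, map_mul, map_inv]
      exact D.al_mem_normalizer g htau
    · refine ⟨g * (tau m)⁻¹ * g⁻¹, ?_, by simp [h]⟩
      show D.al _ ∈ N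
      rw [map_mul, map_mul, map_inv, map_inv]
      exact D.al_mem_normalizer g (inv_mem htau)
  obtain ⟨σ', hσ', e⟩ := h σ.2
  rwa [← Subtype.ext e]

end Data

end Cfsg.Agent.Lib.BoundedPres.SLn
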