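import Cfsg.Agent.Lib.BoundedPres.SpRadical

/-!
# The double cosets of the Siegel parabolic cover the group
-/

set_option autoImplicit false

namespace Cfsg.Agent.Lib.BoundedPres.Sp

open Equiv Matrix Cfsg.Agent.Lib.GLn Cfsg.Agent.Lib.SLTwoPres.Core
open Fin.NatCast

universe u v

variable {F : Type u} [Field F] {G : Type v} [Group G] {k : ℕ}

theorem val_cast {m : ℕ} (h : m < k + 3) : ((m : Fin (k + 3)) : ℕ) = m := by
  rw [Fin.val_natCast, Nat.mod_eq_of_lt h]

/-- A fixed element moving the first coordinate to a given one. -/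
theorem exists_W (i : Fin (k + 3)) : ∃ g : SL F k, mat g *ᵥ E 0 = E i ∧ E i ᵥ* mat g = E 0 := by
  obtain ⟨j, hj, -⟩ := exists_third i i
  obtain ⟨g, h1, h2, -, -⟩ := exists_pair (F := F) hj.symm 0 1 zero_ne_one'
  exact ⟨g, h1, h2⟩

namespace Data

variable (D : Data F G k)

/-- The rank one group at a given coordinate. -/
noncomputable def Bi (i : Fin (k + 3)) : Matrix.SpecialLinearGroup (Fin 2) F →* G :=
  (MulAut.conj (D.al (exists_W i).choose)).toMonoidHom.comp D.be

theorem Bi_apply {g : SL F k} {i : Fin (k + 3)} (h1 : mat g *ᵥ E 0 = E i) (h2 : E i ᵥ* mat g = E 0)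
    (y : Matrix.SpecialLinearGroup (Fin 2) F) : D.Bi i y = D.al g * D.be y * (D.al g)⁻¹ := by
  obtain ⟨a1, a2⟩ := (exists_W (F := F) i).choose_spec
  set W := (exists_W (F := F) i).choose
  have hb : g⁻¹ * W ∈ Blk F k :=
    ⟨by rw [mul_mulVec', a1, inv_mulVec_eq h1], by rw [vecMul_mul', inv_vecMul_eq h2, a2]⟩
  have e := D.stab _ hb y
  rw [map_mul, map_inv] at e
  show D.al W * D.be y * (D.al W)⁻¹ = _
  calc D.al W * D.be y * (D.al W)⁻¹ = D.al g * ((D.al g)⁻¹ * D.al W * D.be y) * (D.al W)⁻¹ := by group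
    _ = D.al g * (D.be y * ((D.al g)⁻¹ * D.al W)) * (D.al W)⁻¹ := by rw [e.eq]
    _ = _ := by group

theorem Bi_zero : D.Bi 0 = D.be := MonoidHom.ext fun y => by
  rw [D.Bi_apply (g := 1) (one_mulVec'' _) (one_vecMul'' _), map_one]; group

theorem Bi_move {g : SL F k} {i j : Fin (k + 3)} (h1 : mat g *ᵥ E i = E j) (h2 : E j ᵥ* mat g = E i)
    (y : Matrix.SpecialLinearGroup (Fin 2) F) : D.al g * D.Bi i y * (D.al g)⁻¹ = D.Bi j y := by
  obtain ⟨W, a1, a2⟩ := exists_W (F := F) i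
  rw [D.Bi_apply a1 a2, D.Bi_apply (g := g * W) (i := j) (by rw [mul_mulVec', a1, h1]) (by rw [vecMul_mul', h2, a2]),
    map_mul]
  group

theorem Bi_commute {i j : Fin (k + 3)} (h : i ≠ j) (y y' : Matrix.SpecialLinearGroup (Fin 2) F) :
    Commute (D.Bi i y) (D.Bi j y') := by
  obtain ⟨g, a1, a2, b1, b2⟩ := exists_pair (F := F) h 0 1 zero_ne_one'
  rw [D.Bi_apply a1 a2, D.Bi_apply (g := g * D.w) (i := j) (by rw [mul_mulVec', D.w0, b1])
    (by rw [vecMul_mul', b2, D.w0']), map_mul, show D.al g * D.al D.w * D.be y' * (D.al g * D.al D.w)⁻¹ =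
      D.al g * (D.al D.w * D.be y' * (D.al D.w)⁻¹) * (D.al g)⁻¹ by group]
  exact SpFourPres.commute_conj _ (D.ll y y')

theorem Bi_commute_al {i : Fin (k + 3)} {g : SL F k} (h1 : mat g *ᵥ E i = E i) (h2 : E i ᵥ* mat g = E i)
    (y : Matrix.SpecialLinearGroup (Fin 2) F) : Commute (D.al g) (D.Bi i y) := by
  have := D.Bi_move h1 h2 y
  exact mul_inv_eq_iff_eq_mul.1 this

variable [Finite F]

theorem Z_Blk_commute {v : Fin (k + 3) → F} (hv : v 0 = 0) (a : F) (y : Matrix.SpecialLinearGroup (Fin 2) F) :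
    Commute (D.Z v a) (D.be y) := by
  rcases eq_or_ne v 0 with rfl | hv0
  · rw [D.Z_zero]; exact Commute.one_left _
  obtain ⟨g, hg, hg1⟩ := exists_blk_col v hv0 hv
  rw [← hg1, ← D.equiv, D.Z_E1]
  have hs := D.stab g hg y
  exact (hs.mul_left (D.ll y (X' a)).symm).mul_left hs.inv_left

theorem Z_Bi_commute {i : Fin (k + 3)} {v : Fin (k + 3) → F} (hv : v i = 0) (a : F)
    (y : Matrix.SpecialLinearGroup (Fin 2) F) : Commute (D.Z v a) (D.Bi i y) := by
  obtain ⟨W, a1, a2⟩ := exists_W (F := F) i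
  have h0 : (mat W⁻¹ *ᵥ v) 0 = 0 := by
    rw [← E_dot 0 (mat W⁻¹ *ᵥ v), dotProduct_mulVec, inv_vecMul_eq a2, E_dot, hv]
  have := SpFourPres.commute_conj (D.al W) (D.Z_Blk_commute h0 a y)
  rwa [D.equiv, ← mul_mulVec', mul_inv_cancel, one_mulVec'', ← D.Bi_apply a1 a2] at this

theorem Yp_Bi_commute {i a b : Fin (k + 3)} (ha : i ≠ a) (hb : i ≠ b) (t : F)
    (y : Matrix.SpecialLinearGroup (Fin 2) F) : Commute (D.Yp a b t) (D.Bi i y) :=
  ((D.Z_Bi_commute (by simp [E, ha, hb]) _ _).mul_left (D.Z_Bi_commute (by simp [E, ha]) _ _).inv_left).mul_left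
    (D.Z_Bi_commute (by simp [E, hb]) _ _).inv_left

omit [Finite F] in
theorem tr_Bi_commute {i a b : Fin (k + 3)} (hab : a ≠ b) (ha : i ≠ a) (hb : i ≠ b) (t : F)
    (y : Matrix.SpecialLinearGroup (Fin 2) F) : Commute (D.al (tr hab t)) (D.Bi i y) :=
  D.Bi_commute_al (by rw [tr_mulVec]; simp [E, hb.symm]) (by rw [vecMul_tr]; simp [E, ha.symm]) y

/-- The Weyl element at a given coordinate. -/
noncomputable def Ti (i : Fin (k + 3)) : G := D.Bi i T'

theorem T_y (t : F) : D.T * D.Yp 0 1 t * D.T⁻¹ = D.al (tr one_ne_zero' t) := by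
  have := D.Yd01 1 1 t
  rw [one_smul, one_smul, mul_one, mul_one] at this
  rw [Yp, this, y]
  group

theorem Ti_Yp {i j : Fin (k + 3)} (h : i ≠ j) (t : F) :
    D.Ti i * D.Yp i j t * (D.Ti i)⁻¹ = D.al (tr h.symm t) := by
  obtain ⟨g, a1, a2, b1, b2⟩ := exists_pair (F := F) h 0 1 zero_ne_one'
  have e := congrArg (fun x => D.al g * x * (D.al g)⁻¹) (D.T_y t)
  have e2 : D.al g * D.al (tr one_ne_zero' t) * (D.al g)⁻¹ = D.al (tr h.symm t) := by
    rw [← map_inv, ← map_mul, ← map_mul, conj_tr g one_ne_zero' h.symm t 1 1 (by rw [b1, one_smul])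
      (by rw [a2, one_smul]) one_ne_zero, inv_one, one_mul, mul_one]
  rw [e2] at e
  rw [← e, Ti, D.Bi_apply a1 a2, Yp, show D.Yd (E i) (E j) t = D.al g * D.Yp 0 1 t * (D.al g)⁻¹ by
    rw [Yp, D.equiv_Yd, a1, b1], T]
  group

theorem Ti_tr {i j : Fin (k + 3)} (h : i ≠ j) (t : F) :
    D.Ti i * D.al (tr h.symm t) * (D.Ti i)⁻¹ = D.Yp i j (-t) := by
  rw [← D.Ti_Yp h t]
  obtain ⟨g, a1, a2, b1, b2⟩ := exists_pair (F := F) h 0 1 zero_ne_one'
  have hH : D.H (-1) * D.Yp 0 1 t * (D.H (-1))⁻¹ = D.Yp 0 1 (-t) := by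
    rw [Yp, D.H_Yd, diag_E, diag_E, D.Yd_E zero_ne_one']
    congr 1
    simp [dlt]
  have hYp : ∀ s, D.Yp i j s = D.al g * D.Yp 0 1 s * (D.al g)⁻¹ := fun s => by
    rw [Yp, Yp, D.equiv_Yd, a1, b1]
  rw [hYp (-t), ← hH, ← D.T_sq, hYp t, Ti, D.Bi_apply a1 a2, T]
  group

/-- The standard elements of the double cosets. -/
noncomputable def wk : ℕ → G
  | 0 => 1
  | m + 1 => wk m * D.Ti (m : Fin (k + 3))

/-- The standard elements without the first coordinate. -/
noncomputable def rest : ℕ → G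
  | 0 => 1
  | m + 1 => rest m * D.Ti ((m + 1 : ℕ) : Fin (k + 3))

omit [Finite F] in
theorem wk_succ (m : ℕ) : D.wk (m + 1) = D.T * D.rest m := by
  induction m with
  | zero =>
    show 1 * D.Ti ((0 : ℕ) : Fin (k + 3)) = D.T * 1
    rw [Nat.cast_zero, Ti, Bi_zero, one_mul, mul_one, T]
  | succ m ih =>
    show D.wk (m + 1) * D.Ti _ = D.T * (D.rest m * D.Ti _)
    rw [ih, mul_assoc]

omit [Finite F] in
theorem commute_wk {x : G} {m : ℕ} (h : ∀ l < m, Commute x (D.Ti (l : Fin (k + 3)))) : Commute x (D.wk m) := by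
  induction m with
  | zero => exact Commute.one_right x
  | succ m ih => exact (ih fun l hl => h l (by omega)).mul_right (h m (by omega))

omit [Finite F] in
theorem ne_cast {i : Fin (k + 3)} {l : ℕ} (hl : l < (i : ℕ)) : (l : Fin (k + 3)) ≠ i := fun e => by
  have := congrArg Fin.val e
  rw [val_cast (hl.trans i.2)] at this
  omega

omit [Finite F] in
theorem Bi_wk {i : Fin (k + 3)} {m : ℕ} (hm : m ≤ (i : ℕ)) (y : Matrix.SpecialLinearGroup (Fin 2) F) :
    Commute (D.Bi i y) (D.wk m) :=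
  D.commute_wk fun l hl => (D.Bi_commute (ne_cast (hl.trans_le hm)) T' y).symm

omit [Finite F] in
theorem wk_succ' {m : ℕ} (hm : m < k + 3) : D.wk (m + 1) = D.Ti (m : Fin (k + 3)) * D.wk m :=
  ((D.Bi_wk (le_of_eq (val_cast hm).symm) T').symm).eq

theorem wk_states : ∀ m ≤ k + 3,
    (∀ (a b : Fin (k + 3)) (h : a ≠ b) (t : F), (b : ℕ) < m → m ≤ (a : ℕ) →
      D.wk m * D.Yp a b t * (D.wk m)⁻¹ = D.al (tr h t)) ∧
    (∀ (a b : Fin (k + 3)) (h : a ≠ b) (t : F), (b : ℕ) < m → m ≤ (a : ℕ) →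
      D.wk m * D.al (tr h t) * (D.wk m)⁻¹ = D.Yp a b (-t)) ∧
    ∀ (a b : Fin (k + 3)) (h : a ≠ b) (t : F), (a : ℕ) < m → (b : ℕ) < m →
      D.wk m * D.al (tr h t) * (D.wk m)⁻¹ = D.al (tr h.symm (-t)) := by
  intro m
  induction m with
  | zero => intro _; exact ⟨fun a b _ _ h => by omega, fun a b _ _ h => by omega, fun a b _ _ h => by omega⟩
  | succ m ih =>
    intro hm
    obtain ⟨ihY, ihF, ihT⟩ := ih (by omega)
    have hmv := val_cast (k := k) (m := m) (by omega)
    have hstep : ∀ x, D.wk (m + 1) * x * (D.wk (m + 1))⁻¹ =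
        D.Ti (m : Fin (k + 3)) * (D.wk m * x * (D.wk m)⁻¹) * (D.Ti (m : Fin (k + 3)))⁻¹ := fun x => by
      rw [D.wk_succ' (by omega)]; group
    have fixed : ∀ {x : G}, Commute x (D.wk m) → D.wk m * x * (D.wk m)⁻¹ = x := fun {x} h => by
      rw [← h.eq]; group
    have fixT : ∀ {x : G}, Commute x (D.Ti (m : Fin (k + 3))) →
        D.Ti (m : Fin (k + 3)) * x * (D.Ti (m : Fin (k + 3)))⁻¹ = x := fun {x} h => by rw [← h.eq]; group
    refine ⟨fun a b h t hb ha => ?_, fun a b h t hb ha => ?_, fun a b h t ha hb => ?_⟩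
    · by_cases hbm : (b : ℕ) = m
      · have eb : b = (m : Fin (k + 3)) := Fin.ext (hbm.trans hmv.symm)
        subst eb
        rw [hstep, fixed (D.commute_wk fun l hl => D.Yp_Bi_commute
          (ne_cast (by omega : l < (a : ℕ))) (ne_cast (by omega : l < _)) t T'), Yp, D.Yd_symm]
        exact D.Ti_Yp h.symm t
      · rw [hstep, ihY a b h t (by omega) (by omega)]
        exact fixT (D.tr_Bi_commute h (ne_cast (by omega : m < _))
          (fun e => hbm (by rw [← e, hmv])) t T')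
    · by_cases hbm : (b : ℕ) = m
      · have eb : b = (m : Fin (k + 3)) := Fin.ext (hbm.trans hmv.symm)
        subst eb
        rw [hstep, fixed (D.commute_wk fun l hl => D.tr_Bi_commute h
          (ne_cast (by omega : l < (a : ℕ))) (ne_cast (by omega : l < _)) t T')]
        rw [D.Ti_tr h.symm t, Yp, D.Yd_symm]
        rfl
      · rw [hstep, ihF a b h t (by omega) (by omega)]
        exact fixT (D.Yp_Bi_commute (ne_cast (by omega : m < _)) (fun e => hbm (by rw [← e, hmv])) _ T')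
    · by_cases ham : (a : ℕ) = m
      · have ea : a = (m : Fin (k + 3)) := Fin.ext (ham.trans hmv.symm)
        subst ea
        rw [hstep, ihF _ b h t (by omega) (by omega)]
        exact D.Ti_Yp h (-t)
      · by_cases hbm : (b : ℕ) = m
        · have eb : b = (m : Fin (k + 3)) := Fin.ext (hbm.trans hmv.symm)
          subst eb
          show D.wk m * D.Ti _ * D.al (tr h t) * (D.wk m * D.Ti _)⁻¹ = _
          rw [show D.wk m * D.Ti (m : Fin (k + 3)) * D.al (tr h t) * (D.wk m * D.Ti (m : Fin (k + 3)))⁻¹ =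
            D.wk m * (D.Ti (m : Fin (k + 3)) * D.al (tr h t) * (D.Ti (m : Fin (k + 3)))⁻¹) * (D.wk m)⁻¹ by group,
            D.Ti_tr h.symm t]
          exact ihY _ a h.symm (-t) (by omega) (by omega)
        · rw [hstep, ihT a b h t (by omega) (by omega)]
          exact fixT (D.tr_Bi_commute h.symm (fun e => hbm (by rw [← e, hmv])) (fun e => ham (by rw [← e, hmv])) _ T')

/-- The Siegel parabolic. -/
noncomputable def P : Subgroup G where
  carrier := {x | ∃ g : SL F k, ∃ s : Fˣ, ∃ r ∈ D.R, x = D.al g * D.H s * r}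
  one_mem' := ⟨1, 1, 1, one_mem _, by rw [map_one, H_one]; group⟩
  mul_mem' := by
    rintro x x' ⟨g, s, r, hr, rfl⟩ ⟨g', s', r', hr', rfl⟩
    refine ⟨g * dc s g', s * s', (D.H s'⁻¹ * (D.al g'⁻¹ * r * (D.al g'⁻¹)⁻¹) * (D.H s'⁻¹)⁻¹) * r',
      mul_mem (D.H_stable _ _ (D.al_stable _ _ hr)) hr', ?_⟩
    rw [map_mul, ← D.H_al, D.H_mul, ← D.H_inv s', map_inv D.al]
    group
  inv_mem' := by
    rintro x ⟨g, s, r, hr, rfl⟩
    refine ⟨dc s⁻¹ g⁻¹, s⁻¹, D.al g * (D.H s * r⁻¹ * (D.H s)⁻¹) * (D.al g)⁻¹,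
      D.al_stable _ _ (D.H_stable _ _ (inv_mem hr)), ?_⟩
    rw [← D.H_al, map_inv D.al, ← D.H_inv s]
    group

theorem al_mem (g : SL F k) : D.al g ∈ D.P := ⟨g, 1, 1, one_mem _, by rw [H_one]; group⟩

theorem H_mem (s : Fˣ) : D.H s ∈ D.P := ⟨1, s, 1, one_mem _, by rw [map_one]; group⟩

theorem R_mem {r : G} (hr : r ∈ D.R) : r ∈ D.P := ⟨1, 1, r, hr, by rw [map_one, H_one]; group⟩

theorem z0_mem (a : F) : D.z0 a ∈ D.P := by
  have := D.R_mem (D.Z_mem (E 0) a)
  rwa [D.Z_E0] at this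

/-- Elements of the radical pass the Weyl element up to the basic long root. -/
theorem R_pass {r : G} (hr : r ∈ D.R) : ∃ a : F, ∃ p ∈ D.P, r * D.T = D.z0 a * D.T * p := by
  let M : Submonoid G :=
    { carrier := {r | r ∈ D.R ∧ ∃ a : F, ∃ p ∈ D.P, r * D.T = D.z0 a * D.T * p}
      one_mem' := ⟨one_mem _, 0, 1, one_mem _, by rw [z0, X'_zero, map_one]; group⟩
      mul_mem' := fun {r r'} ⟨hr, a, p, hp, e⟩ ⟨hr', a', p', hp', e'⟩ => ⟨mul_mem hr hr', a' + a, p * p',
        mul_mem hp hp', by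
          have hc : Commute r (D.z0 a') := D.R_commute hr (D.Z_E0 a' ▸ D.Z_mem (E 0) a')
          rw [mul_assoc r r', e', ← mul_assoc, ← mul_assoc, hc.eq, mul_assoc (D.z0 a') r, e, D.z0_add]
          group⟩ }
  suffices h : ∀ p t, D.piece p t ∈ M by
    have hR : D.R = ⨆ p, (D.piece p).range := MonoidHom.noncommPiCoprod_range (ϕ := D.piece)
    rw [hR] at hr
    suffices hM : r ∈ M from hM.2
    induction hr using Subgroup.iSup_induction' with
    | hp i x hx => obtain ⟨t, rfl⟩ := hx; exact h i t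
    | h1 => exact one_mem M
    | hmul x y _ _ hx hy => exact mul_mem hx hy
  rintro ⟨i, j⟩ t
  refine ⟨D.piece_mem _ _, ?_⟩
  have hT : ∀ {x : G}, x ∈ D.P → Commute x D.T → ∃ a : F, ∃ p ∈ D.P, x * D.T = D.z0 a * D.T * p :=
    fun {x} hx hc => ⟨0, x, hx, by rw [z0, X'_zero, map_one, one_mul, hc.eq]⟩
  rw [piece_apply]
  dsimp only
  split_ifs with e l
  · rcases eq_or_ne i 0 with rfl | hi
    · exact ⟨t.toAdd, 1, one_mem _, by rw [D.Z_E0, mul_one]⟩
    · exact hT (D.R_mem (D.Z_mem _ _)) (D.Z_Blk_commute (by simp [E, hi.symm]) _ _)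
  · have hj : j ≠ 0 := fun e' => by simp [e'] at l
    rcases eq_or_ne i 0 with rfl | hi
    · refine ⟨0, D.al (tr hj (-t.toAdd)), D.al_mem _, ?_⟩
      have := D.Ti_tr hj.symm (-t.toAdd)
      rw [neg_neg, Ti, Bi_zero] at this
      rw [← this, z0, X'_zero, map_one, one_mul, T]
      group
    · exact hT (D.R_mem (D.Yp_mem l.ne _)) (by
        have := D.Yp_Bi_commute hi.symm hj.symm t.toAdd T'
        rwa [Bi_zero] at this)
  · exact hT (one_mem _) (Commute.one_left _)

/-- Elements passing the product of a long root element and the Weyl element. -/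
noncomputable def Pass : Submonoid (SL F k) where
  carrier := {r | ∀ a, ∃ a', ∃ p ∈ D.P, D.al r * D.z0 a * D.T = D.z0 a' * D.T * p}
  one_mem' := fun a => ⟨a, 1, one_mem _, by rw [map_one]; group⟩
  mul_mem' := fun {r r'} hr hr' a => by
    obtain ⟨a', p', hp', e'⟩ := hr' a
    obtain ⟨a'', p, hp, e⟩ := hr a'
    refine ⟨a'', p * p', mul_mem hp hp', ?_⟩
    rw [map_mul, mul_assoc (D.al r), mul_assoc (D.al r), e', ← mul_assoc, ← mul_assoc, e]
    group

theorem pass_blk {g : SL F k} (hg : g ∈ Blk F k) : g ∈ D.Pass := fun a => ⟨a, D.al g, D.al_mem g, by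
  rw [(D.fix_z0 (mem_blk.1 hg).1 a).eq, mul_assoc, (D.T_blk hg).eq, mul_assoc]⟩

theorem pass_tr {j : Fin (k + 3)} (hj : j ≠ 0) (t : F) : tr hj t ∈ D.Pass := by
  intro a
  have h1 : D.al (tr hj t) * D.z0 a * (D.al (tr hj t))⁻¹ = D.Z (E 0 + t • E j) a := by
    rw [← D.Z_E0, D.equiv, tr_mulVec, show (E 0 : Fin (k + 3) → F) 0 = 1 by simp [E], mul_one]
  obtain ⟨b, p, hp, e⟩ := D.R_pass (D.Z_mem (E 0 + t • E j) a)
  have h2 : D.T⁻¹ * D.al (tr hj t) * D.T ∈ D.P := by
    have h3 := D.Ti_Yp hj.symm t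
    rw [Ti, Bi_zero] at h3
    rw [← h3, T]
    have : D.Yp 0 j t ∈ D.P := D.R_mem (D.Yp_mem hj.symm t)
    simpa [mul_assoc] using this
  refine ⟨b, p * (D.T⁻¹ * D.al (tr hj t) * D.T), mul_mem hp h2, ?_⟩
  calc D.al (tr hj t) * D.z0 a * D.T =
      (D.al (tr hj t) * D.z0 a * (D.al (tr hj t))⁻¹) * D.T * (D.T⁻¹ * D.al (tr hj t) * D.T) := by group
    _ = _ := by rw [h1, e]; group

/-- A diagonal element with two nontrivial entries. -/
def dg (s : Fˣ) : SL F k := dc s D.w * D.w⁻¹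

omit [Finite F] in
theorem dg_col (s : Fˣ) : mat (D.dg s) *ᵥ E 0 = (s : F) • E 0 := by
  have h1 : mat (D.w⁻¹) *ᵥ E 0 = E 1 := inv_mulVec_eq D.w1
  rw [dg, mul_mulVec', h1, mat_dc, ← mulVec_mulVec, ← mulVec_mulVec, diag_E,
    show dlt (k := k) ((s⁻¹ : Fˣ) : F) 1 = 1 by simp [dlt], one_smul, D.w1, diag_E,
    show dlt (k := k) (s : F) 0 = s by simp [dlt]]

omit [Finite F] in
theorem dg_row (s : Fˣ) : E 0 ᵥ* mat (D.dg s) = (s : F) • E 0 := by
  have hd : ∀ (c : F) (i : Fin (k + 3)), (E i : Fin (k + 3) → F) ᵥ* Matrix.diagonal (dlt (k := k) c) = dlt (k := k) c i • E i := fun c i => by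
    funext a
    rw [vecMul_diagonal]
    rcases eq_or_ne a i with rfl | h
    · simp [E]
    · simp [E, h]
  rw [dg, vecMul_mul', mat_dc, ← vecMul_vecMul, ← vecMul_vecMul, hd, smul_vecMul, D.w1', smul_vecMul, hd,
    smul_smul, smul_vecMul, inv_vecMul_eq D.w1']
  simp [dlt]

theorem al_dg (s : Fˣ) : D.al (D.dg s) = D.H s * D.Bi 1 (H' s⁻¹) := by
  rw [dg, map_mul, map_inv, ← D.H_al, D.Bi_apply D.w0 D.w0', show D.be (H' s⁻¹) = D.H s⁻¹ from rfl, ← D.H_inv]
  group

theorem pass_dg (s : Fˣ) : D.dg s ∈ D.Pass := by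
  intro a
  have h1 : D.al (D.dg s) * D.z0 a * (D.al (D.dg s))⁻¹ = D.z0 ((s : F) ^ 2 * a) := by
    rw [← D.Z_E0, D.equiv, D.dg_col, D.scal, D.Z_E0]
  have h2 : D.T⁻¹ * D.al (D.dg s) * D.T ∈ D.P := by
    have hc : Commute (D.Bi 1 (H' s⁻¹)) D.T := by
      have := D.Bi_commute (one_ne_zero' (k := k)) (H' s⁻¹) T'
      rwa [Bi_zero] at this
    have hH : D.T⁻¹ * D.H s = D.H s⁻¹ * D.T⁻¹ := by
      rw [inv_mul_eq_iff_eq_mul, ← mul_assoc, D.T_H, inv_inv]; group
    have hB : D.Bi 1 (H' s⁻¹) = (D.H s)⁻¹ * D.al (D.dg s) := by rw [D.al_dg]; group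
    rw [D.al_dg, show D.T⁻¹ * (D.H s * D.Bi 1 (H' s⁻¹)) * D.T = (D.T⁻¹ * D.H s) * (D.Bi 1 (H' s⁻¹) * D.T) by group,
      hH, hc.eq, hB]
    have := mul_mem (D.H_mem s⁻¹) (mul_mem (inv_mem (D.H_mem s)) (D.al_mem (D.dg s)))
    simpa [mul_assoc] using this
  refine ⟨(s : F) ^ 2 * a, D.T⁻¹ * D.al (D.dg s) * D.T, h2, ?_⟩
  calc D.al (D.dg s) * D.z0 a * D.T =
      (D.al (D.dg s) * D.z0 a * (D.al (D.dg s))⁻¹) * D.T * (D.T⁻¹ * D.al (D.dg s) * D.T) := by group
    _ = _ := by rw [h1]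

theorem pass_row {r : SL F k} {c : F} (hr : E 0 ᵥ* mat r = c • E 0) : r ∈ D.Pass := by
  have hc : c ≠ 0 := fun e => by
    rw [e, zero_smul] at hr
    have := inv_vecMul_eq hr
    rw [zero_vecMul] at this
    exact E_ne (F := F) 0 this.symm
  have key : ∀ (S : Finset (Fin (k + 3))), 0 ∉ S → ∀ g : SL F k, E 0 ᵥ* mat g = E 0 →
      (∀ j, j ∉ S → (mat g *ᵥ E 0) j = E 0 j) → g ∈ D.Pass := by
    intro S
    induction S using Finset.induction with
    | empty =>
      intro _ g hg hcol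
      exact D.pass_blk ⟨funext fun j => hcol j (by simp), hg⟩
    | insert b S hbS ih =>
      intro h0S g hg hcol
      simp only [Finset.mem_insert, not_or] at h0S
      have hb0 : b ≠ (0 : Fin (k + 3)) := Ne.symm h0S.1
      have h00 : (mat g *ᵥ E 0) 0 = 1 := by
        rw [hcol 0 (by simp [hb0.symm, h0S.2])]; simp [E]
      set t := (mat g *ᵥ E 0) b
      have hmem : tr hb0 (-t) * g ∈ D.Pass := by
        refine ih h0S.2 _ ?_ fun j hj => ?_
        · rw [vecMul_mul', vecMul_tr, show (E 0 : Fin (k + 3) → F) b = 0 by simp [E, hb0], zero_mul, zero_smul,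
            add_zero, hg]
        · rw [mul_mulVec', tr_mulVec, Pi.add_apply, Pi.smul_apply, h00, smul_eq_mul, mul_one]
          rcases eq_or_ne j b with rfl | hjb
          · simp [E, hb0, t]
          · rw [hcol j (by simp [hj, hjb])]
            simp [E, hjb]
      have e : g = tr hb0 t * (tr hb0 (-t) * g) := by
        rw [← mul_assoc, ← tr_add, add_neg_cancel, tr_zero, one_mul]
      rw [e]
      exact mul_mem (D.pass_tr hb0 t) hmem
  set s := Units.mk0 c hc
  have hrow : E 0 ᵥ* mat ((D.dg s)⁻¹ * r) = E 0 := by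
    have := inv_vecMul_eq (D.dg_row s)
    rw [smul_vecMul] at this
    rw [vecMul_mul', show E 0 ᵥ* mat (D.dg s)⁻¹ = ((s⁻¹ : Fˣ) : F) • E 0 by
      conv_rhs => rw [← this]
      rw [smul_smul, Units.inv_mul, one_smul], smul_vecMul, hr, smul_smul]
    simp [s, hc]
  have h := key (Finset.univ.erase 0) (by simp) _ hrow (fun j hj => by
    simp at hj
    subst hj
    rw [mulVec_E]
    have := congrFun hrow 0
    rw [E_vecMul] at this
    exact this)
  rw [show r = D.dg s * ((D.dg s)⁻¹ * r) by group]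
  exact mul_mem (D.pass_dg s) h

/-- The union of the double cosets. -/
def InA (x : G) : Prop := ∃ m ≤ k + 3, ∃ p ∈ D.P, ∃ q ∈ D.P, x = p * D.wk m * q

theorem InA_mul {x p q : G} (hx : D.InA x) (hp : p ∈ D.P) (hq : q ∈ D.P) : D.InA (p * x * q) := by
  obtain ⟨m, hm, a, ha, b, hb, rfl⟩ := hx
  exact ⟨m, hm, p * a, mul_mem hp ha, b * q, mul_mem hb hq, by group⟩

theorem wk_good {m : ℕ} (hm : m ≤ k + 3) {a b : Fin (k + 3)} (h : a ≠ b) (hab : ¬ ((a : ℕ) < m ∧ m ≤ (b : ℕ)))
    (t : F) : D.wk m * D.al (tr h t) * (D.wk m)⁻¹ ∈ D.P := by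
  obtain ⟨-, hF, hT⟩ := D.wk_states m hm
  rcases Nat.lt_or_ge (a : ℕ) m with ha | ha
  · rw [hT a b h t ha (by omega)]; exact D.al_mem _
  · rcases Nat.lt_or_ge (b : ℕ) m with hb | hb
    · rw [hF a b h t hb ha]; exact D.R_mem (D.Yp_mem h _)
    · rw [← (D.commute_wk fun l hl => D.tr_Bi_commute h (ne_cast (by omega : l < _)) (ne_cast (by omega : l < _)) t
        T').eq, mul_inv_cancel_right]
      exact D.al_mem _

theorem rest_InA {m : ℕ} (hm : m < k + 3) : D.InA (D.rest m) := by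
  obtain ⟨g, c, -, hg, -⟩ := exists_mono (F := F) (finRotate (k + 3)) (Fin.last (k + 2)) (fun _ => (1 : F))
    (fun _ => one_ne_zero)
  have key : ∀ l ≤ m, D.al g * D.wk l * (D.al g)⁻¹ = D.rest l := by
    intro l
    induction l with
    | zero => intro _; show D.al g * 1 * (D.al g)⁻¹ = 1; group
    | succ l ih =>
      intro hl
      have hne : (l : Fin (k + 3)) ≠ Fin.last (k + 2) := ne_cast (by rw [Fin.val_last]; omega)
      obtain ⟨e1, e2⟩ := hg _ hne
      rw [one_smul, finRotate_succ_apply, ← Nat.cast_succ] at e1 e2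
      show D.al g * (D.wk l * D.Ti _) * (D.al g)⁻¹ = D.rest l * D.Ti _
      rw [Ti, Ti, ← D.Bi_move e1 e2, ← ih (by omega)]
      group
  exact ⟨m, hm.le, D.al g, D.al_mem g, (D.al g)⁻¹, inv_mem (D.al_mem g), (key m le_rfl).symm⟩

theorem caseA {m : ℕ} (hm : m ≤ k + 3) (hm0 : 1 ≤ m) (a : F) : D.InA (D.wk m * D.z0 a * D.T) := by
  obtain ⟨m, rfl⟩ : ∃ m', m = m' + 1 := ⟨m - 1, by omega⟩
  have hc : ∀ y, Commute (D.rest m) (D.be y) := by
    intro y
    suffices h : ∀ l ≤ m, Commute (D.rest l) (D.be y) from h m le_rfl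
    intro l
    induction l with
    | zero => intro _; exact Commute.one_left _
    | succ l ih =>
      intro hl
      have h0 : ((l + 1 : ℕ) : Fin (k + 3)) ≠ 0 := fun e => by
        have := congrArg Fin.val e
        rw [val_cast (by omega), Fin.val_zero] at this
        omega
      have := D.Bi_commute h0 T' y
      rw [Bi_zero] at this
      exact (ih (by omega)).mul_left this
  rw [D.wk_succ, show D.T * D.rest m = D.rest m * D.T from ((hc T').symm).eq]
  rcases eq_or_ne a 0 with rfl | ha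
  · rw [z0, X'_zero, map_one, mul_one, mul_assoc, D.T_sq]
    simpa using D.InA_mul (D.rest_InA (by omega)) (one_mem _) (D.H_mem (-1))
  · set s := Units.mk0 (-a) (neg_ne_zero.2 ha)
    have e : (T' : Matrix.SpecialLinearGroup (Fin 2) F) * X' a * T' =
        X' (-a⁻¹) * T' * (H' s * X' (-a⁻¹)) := by
      refine Matrix.SpecialLinearGroup.ext _ _ fun i j => ?_
      simp only [Matrix.SpecialLinearGroup.coe_mul]
      fin_cases i <;> fin_cases j <;>
        simp [T', X', H', s, Matrix.mul_apply, Fin.sum_univ_two, ha]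
    have e' := congrArg D.be e
    simp only [map_mul] at e'
    rw [show D.rest m * D.T * D.z0 a * D.T = D.rest m * (D.be T' * D.be (X' a) * D.be T') by
      rw [T, z0]; group, e', show D.rest m * (D.be (X' (-a⁻¹)) * D.be T' * (D.be (H' s) * D.be (X' (-a⁻¹)))) =
        D.rest m * D.be (X' (-a⁻¹)) * D.be T' * (D.be (H' s) * D.be (X' (-a⁻¹))) by group, (hc _).eq,
      mul_assoc (D.be (X' (-a⁻¹))) (D.rest m), (hc T').eq]
    have hin : D.InA (D.T * D.rest m) := ⟨m + 1, hm, 1, one_mem _, 1, one_mem _, by rw [D.wk_succ]; group⟩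
    exact D.InA_mul hin (D.z0_mem _) (mul_mem (D.H_mem s) (D.z0_mem _))

theorem caseB {m : ℕ} (hm : m < k + 3) {b : Fin (k + 3)} (hb : m ≤ (b : ℕ)) {W : SL F k}
    (h1 : mat W *ᵥ E 0 = E b) (h2 : E b ᵥ* mat W = E 0) (a : F) :
    D.InA (D.wk m * D.al W * D.z0 a * D.T) := by
  have hT : D.Ti b = D.al W * D.T * (D.al W)⁻¹ := D.Bi_apply h1 h2 T'
  have hz : D.al W * D.z0 a * (D.al W)⁻¹ = D.Z (E b) a := by rw [← D.Z_E0, D.equiv, h1]
  have hc : Commute (D.Z (E b) a) (D.wk m) := D.commute_wk fun l hl =>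
    D.Z_Bi_commute (by simp [E, ne_cast (hl.trans_le hb)]) a T'
  have hwT : D.InA (D.wk m * D.Ti b) := by
    by_cases hbm : (b : ℕ) = m
    · have eb : b = (m : Fin (k + 3)) := Fin.ext (hbm.trans (val_cast hm).symm)
      subst eb
      exact ⟨m + 1, hm, 1, one_mem _, 1, one_mem _, by rw [one_mul, mul_one]; rfl⟩
    · obtain ⟨g, c, -, hg, -⟩ := exists_mono (F := F) (swap (m : Fin (k + 3)) b) b (fun _ => (1 : F))
        (fun _ => one_ne_zero)
      have hmb : (m : Fin (k + 3)) ≠ b := ne_cast (by omega)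
      obtain ⟨e1, e2⟩ := hg _ hmb
      rw [one_smul, swap_apply_left] at e1 e2
      have hgw : Commute (D.al g) (D.wk m) := D.commute_wk fun l hl => by
        have hlm : (l : Fin (k + 3)) ≠ (m : Fin (k + 3)) := ne_cast (by rw [val_cast hm]; exact hl)
        have hlb : (l : Fin (k + 3)) ≠ b := ne_cast (by omega)
        obtain ⟨f1, f2⟩ := hg _ hlb
        rw [one_smul, swap_apply_of_ne_of_ne hlm hlb] at f1 f2
        exact D.Bi_commute_al f1 f2 T'
      refine ⟨m + 1, hm, D.al g, D.al_mem g, (D.al g)⁻¹, inv_mem (D.al_mem g), ?_⟩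
      rw [Ti, ← D.Bi_move e1 e2 T']
      show D.wk m * _ = D.al g * (D.wk m * D.Ti _) * (D.al g)⁻¹
      rw [Ti, ← mul_assoc, ← mul_assoc, ← mul_assoc, ← hgw.eq]
  rw [show D.wk m * D.al W * D.z0 a * D.T =
    D.wk m * (D.al W * D.z0 a * (D.al W)⁻¹) * (D.al W * D.T * (D.al W)⁻¹) * D.al W by group, hz, ← hT, ← hc.eq,
    mul_assoc (D.Z (E b) a)]
  exact D.InA_mul hwT (D.R_mem (D.Z_mem _ _)) (D.al_mem W)

theorem key_good {m : ℕ} (hm : m ≤ k + 3) (g : SL F k) (a : F) : D.InA (D.wk m * D.al g * D.z0 a * D.T) := by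
  -- moving by good transvections on the left
  have move : ∀ {i j : Fin (k + 3)} (h : i ≠ j), ¬ ((i : ℕ) < m ∧ m ≤ (j : ℕ)) → ∀ (t : F) (g : SL F k),
      D.InA (D.wk m * D.al (tr h t * g) * D.z0 a * D.T) → D.InA (D.wk m * D.al g * D.z0 a * D.T) := by
    intro i j h hij t g hin
    have := D.InA_mul hin (D.wk_good hm h hij (-t)) (one_mem _)
    rw [mul_one, map_mul] at this
    rw [show D.wk m * D.al g * D.z0 a * D.T = D.wk m * D.al (tr h (-t)) * (D.wk m)⁻¹ *
      (D.wk m * (D.al (tr h t) * D.al g) * D.z0 a * D.T) by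
        have e : D.al (tr h (-t)) * D.al (tr h t) = 1 := by rw [← map_mul, ← tr_add, neg_add_cancel, tr_zero, map_one]
        rw [show D.wk m * D.al (tr h (-t)) * (D.wk m)⁻¹ * (D.wk m * (D.al (tr h t) * D.al g) * D.z0 a * D.T) =
          D.wk m * (D.al (tr h (-t)) * D.al (tr h t)) * D.al g * D.z0 a * D.T by group, e, mul_one]]
    exact this
  have hφ : ∀ {i j : Fin (k + 3)} (h : i ≠ j) (t : F) (g : SL F k),
      E 0 ᵥ* mat (tr h t * g)⁻¹ = E 0 ᵥ* mat g⁻¹ + ((E 0 ᵥ* mat g⁻¹) i * (-t)) • E j := by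
    intro i j h t g
    rw [_root_.mul_inv_rev, vecMul_mul', show (tr h t : SL F k)⁻¹ = tr h (-t) from
      inv_eq_of_mul_eq_one_right (by rw [← tr_add, add_neg_cancel, tr_zero]), vecMul_tr]
  -- clear all coordinates but one
  have clear : ∀ (b : Fin (k + 3)) (S : Finset (Fin (k + 3))), b ∉ S →
      (∀ j ∈ S, ¬ ((b : ℕ) < m ∧ m ≤ (j : ℕ))) → ∀ g : SL F k, (E 0 ᵥ* mat g⁻¹) b ≠ 0 →
      (∀ j, j ∉ S → j ≠ b → (E 0 ᵥ* mat g⁻¹) j = 0) → D.InA (D.wk m * D.al g * D.z0 a * D.T) := by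
    intro b S
    induction S using Finset.induction with
    | empty =>
      intro _ _ g hgb hz
      set c := (E 0 ᵥ* mat g⁻¹) b
      have hrow : E 0 ᵥ* mat g⁻¹ = c • E b := funext fun j => by
        rcases eq_or_ne j b with rfl | hj
        · simp [E, c]
        · rw [hz j (by simp) hj]; simp [E, hj]
      have hb' : E b ᵥ* mat g = c⁻¹ • E 0 := by
        have := inv_vecMul_eq hrow
        rw [inv_inv, smul_vecMul] at this
        conv_rhs => rw [← this]
        rw [smul_smul, inv_mul_cancel₀ hgb, one_smul]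
      by_cases hbm : m ≤ (b : ℕ)
      · obtain ⟨W, h1, h2⟩ := exists_W (F := F) b
        have hp : W⁻¹ * g ∈ D.Pass := D.pass_row (c := c⁻¹) (by rw [vecMul_mul', inv_vecMul_eq h2, hb'])
        obtain ⟨a', p, hp, e⟩ := hp a
        rw [show D.wk m * D.al g * D.z0 a * D.T = D.wk m * D.al W * (D.al (W⁻¹ * g) * D.z0 a * D.T) by
          rw [map_mul, map_inv]; group, e, show D.wk m * D.al W * (D.z0 a' * D.T * p) =
            1 * (D.wk m * D.al W * D.z0 a' * D.T) * p by group]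
        exact D.InA_mul (D.caseB (hbm.trans_lt b.2) hbm h1 h2 a') (one_mem _) hp
      · rcases eq_or_ne b 0 with rfl | hb0
        · obtain ⟨a', p, hp, e⟩ := D.pass_row hb' a
          rw [mul_assoc (D.wk m), mul_assoc (D.wk m), e, show D.wk m * (D.z0 a' * D.T * p) =
            1 * (D.wk m * D.z0 a' * D.T) * p by group]
          exact D.InA_mul (D.caseA hm (by rw [Fin.val_zero] at hbm; omega) a') (one_mem _) hp
        · -- first make the zeroth coordinate nonzero, then clear this one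
          have h0 : ¬ ((b : ℕ) < m ∧ m ≤ ((0 : Fin (k + 3)) : ℕ)) := fun h => by rw [Fin.val_zero] at h; omega
          refine move hb0 h0 (-1) g ?_
          have hb2 : ¬ (((0 : Fin (k + 3)) : ℕ) < m ∧ m ≤ (b : ℕ)) := fun h => hbm h.2
          refine move hb0.symm hb2 1 _ ?_
          have e1 := hφ hb0 (-1) g
          rw [neg_neg, mul_one, hrow, Pi.smul_apply, show (E b : Fin (k + 3) → F) b = 1 by simp [E], smul_eq_mul,
            mul_one] at e1
          have e2 := hφ hb0.symm 1 (tr hb0 (-1) * g)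
          rw [e1, show (c • E b + c • E 0 : Fin (k + 3) → F) 0 = c by simp [E, hb0.symm]] at e2
          set g2 : SL F k := tr hb0.symm 1 * (tr hb0 (-1) * g)
          have hrow2 : E 0 ᵥ* mat g2⁻¹ = c • E 0 := by rw [e2]; module
          have hb2' : E 0 ᵥ* mat g2 = c⁻¹ • E 0 := by
            have := inv_vecMul_eq hrow2
            rw [inv_inv, smul_vecMul] at this
            conv_rhs => rw [← this]
            rw [smul_smul, inv_mul_cancel₀ hgb, one_smul]
          obtain ⟨a', p, hp, e⟩ := D.pass_row hb2' a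
          rw [mul_assoc (D.wk m), mul_assoc (D.wk m), e, show D.wk m * (D.z0 a' * D.T * p) =
            1 * (D.wk m * D.z0 a' * D.T) * p by group]
          exact D.InA_mul (D.caseA hm (by omega) a') (one_mem _) hp
    | insert j S hjS ih =>
      intro hb hok g hgb hz
      simp only [Finset.mem_insert, not_or] at hb
      set φ := E 0 ᵥ* mat g⁻¹
      refine move (i := b) (j := j) hb.1 (hok j (Finset.mem_insert_self j S)) (φ j / φ b) g ?_
      refine ih hb.2 (fun l hl => hok l (Finset.mem_insert_of_mem hl)) _ ?_ ?_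
      · rw [hφ, Pi.add_apply, Pi.smul_apply, show (E j : Fin (k + 3) → F) b = 0 by simp [E, hb.1], smul_zero,
          add_zero]
        exact hgb
      · intro l hl hlb
        rw [hφ, Pi.add_apply, Pi.smul_apply]
        rcases eq_or_ne l j with rfl | hlj
        · rw [show (E l : Fin (k + 3) → F) l = 1 by simp [E], smul_eq_mul, mul_one,
            show (E 0 ᵥ* mat g⁻¹) l = φ l from rfl, show (E 0 ᵥ* mat g⁻¹) b = φ b from rfl, mul_neg,
            mul_div_cancel₀ _ (show φ b ≠ 0 from hgb), add_neg_cancel]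
        · rw [show (E 0 ᵥ* mat g⁻¹) l = 0 from hz l (by simp [hlj, hl]) hlb]; simp [E, hlj]
  have hne : E 0 ᵥ* mat g⁻¹ ≠ 0 := fun e => by
    have := inv_vecMul_eq e
    rw [zero_vecMul] at this
    exact E_ne (F := F) 0 this.symm
  by_cases hhi : ∃ b : Fin (k + 3), m ≤ (b : ℕ) ∧ (E 0 ᵥ* mat g⁻¹) b ≠ 0
  · obtain ⟨b, hb, hgb⟩ := hhi
    exact clear b (Finset.univ.erase b) (by simp) (fun j _ h => by omega) g hgb (fun j h1 h2 => by simp [h2] at h1)
  · push_neg at hhi
    obtain ⟨b, hb⟩ := Function.ne_iff.1 hne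
    exact clear b ((Finset.univ.filter fun j : Fin (k + 3) => (j : ℕ) < m).erase b) (by simp)
      (fun j hj h => by simp at hj; omega) g hb (fun j h1 h2 => hhi j (by simpa [h2] using h1))

theorem InA_T {x : G} (hx : D.InA x) : D.InA (x * D.T) := by
  obtain ⟨m, hm, p, hp, q, ⟨g, s, r, hr, rfl⟩, rfl⟩ := hx
  obtain ⟨a, q', hq', e⟩ := D.R_pass hr
  have hz : D.H s * D.z0 a = D.z0 ((s : F) ^ 2 * a) * D.H s := by
    rw [← mul_inv_eq_iff_eq_mul, H, z0, z0, ← map_inv, ← map_mul, ← map_mul, H'_conj]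
  have h := D.InA_mul (D.key_good hm g ((s : F) ^ 2 * a)) hp (mul_mem (D.H_mem s⁻¹) hq')
  rw [show p * D.wk m * (D.al g * D.H s * r) * D.T = p * D.wk m * D.al g * D.H s * (r * D.T) by group, e,
    show p * D.wk m * D.al g * D.H s * (D.z0 a * D.T * q') = p * D.wk m * D.al g * (D.H s * D.z0 a) * D.T * q' by
      group, hz, show p * D.wk m * D.al g * (D.z0 ((s : F) ^ 2 * a) * D.H s) * D.T * q' =
        p * D.wk m * D.al g * D.z0 ((s : F) ^ 2 * a) * (D.H s * D.T) * q' by group,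
    show D.H s * D.T = D.T * D.H s⁻¹ by rw [D.T_H, inv_inv]]
  convert h using 1
  group

/-- The double cosets cover the subgroup generated by the two factors. -/
theorem cover {x : G} (hx : x ∈ D.al.range ⊔ D.be.range) : D.InA x := by
  have hle : D.al.range ⊔ D.be.range ≤ Subgroup.closure ((D.P : Set G) ∪ {D.T}) := by
    refine sup_le ?_ ?_
    · rintro _ ⟨g, rfl⟩; exact Subgroup.subset_closure (Or.inl (D.al_mem g))
    · rintro _ ⟨y, rfl⟩
      have hX : ∀ c : F, D.be (X' c) ∈ Subgroup.closure ((D.P : Set G) ∪ {D.T}) :=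
        fun c => Subgroup.subset_closure (Or.inl (D.z0_mem c))
      have hT : D.be T' ∈ Subgroup.closure ((D.P : Set G) ∪ {D.T}) := Subgroup.subset_closure (Or.inr rfl)
      have hY : ∀ c : F, D.be (Y' c) ∈ Subgroup.closure ((D.P : Set G) ∪ {D.T}) := fun c => by
        rw [show c = -(-c) from (neg_neg c).symm, ← T'_conj, map_mul, map_mul, map_inv]
        exact mul_mem (mul_mem hT (hX _)) (inv_mem hT)
      induction y using Cfsg.Agent.Lib.Classical.SL_transvection_induction with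
      | h1 => rw [map_one]; exact one_mem _
      | hmul a b ha hb => rw [map_mul]; exact mul_mem ha hb
      | htransvec i j hij t =>
        fin_cases i <;> fin_cases j <;> first | exact absurd rfl hij | skip
        · convert hX t using 2
          exact Subtype.ext (Matrix.ext fun p q => by
            fin_cases p <;> fin_cases q <;> simp [X', Matrix.transvection, SpecialLinearGroup.transvection])
        · convert hY t using 2
          exact Subtype.ext (Matrix.ext fun p q => by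
            fin_cases p <;> fin_cases q <;> simp [Y', Matrix.transvection, SpecialLinearGroup.transvection])
  have h1 : D.InA 1 := ⟨0, by omega, 1, one_mem _, 1, one_mem _, by simp [wk]⟩
  have hTi : D.T⁻¹ = D.T * D.H (-1) := by
    rw [inv_eq_iff_mul_eq_one, ← mul_assoc, D.T_sq, ← D.H_mul]
    simp [H_one]
  have hx' := hle hx
  clear hx
  induction hx' using Subgroup.closure_induction_right with
  | one => exact h1
  | mul_right x hx y hy ih =>
    rcases hy with hy | rfl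
    · simpa using D.InA_mul ih (one_mem _) hy
    · exact D.InA_T ih
  | mul_inv_cancel x hx y hy ih =>
    rcases hy with hy | rfl
    · simpa using D.InA_mul ih (one_mem _) (inv_mem hy)
    · rw [hTi, ← mul_assoc]
      simpa using D.InA_mul (D.InA_T ih) (one_mem _) (D.H_mem (-1))

end Data

end Cfsg.Agent.Lib.BoundedPres.Sp
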