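import Cfsg.Agent.Lib.GLn.UnipGen
import Cfsg.Agent.Lib.Classical.Simple

/-!
# Monomial matrices, shears and the stabilizer of the first coordinate in `SL_n`
-/

set_option autoImplicit false

namespace Cfsg.Agent.Lib.BoundedPres.Sp

open Equiv Matrix Cfsg.Agent.Lib.GLn

universe u

variable {F : Type u} [Field F] {k : ℕ}

/-- The Levi factor. -/
abbrev SL (F : Type u) [Field F] (k : ℕ) := Matrix.SpecialLinearGroup (Fin (k + 3)) F

/-- The underlying matrix. -/
abbrev mat (g : SL F k) : Matrix (Fin (k + 3)) (Fin (k + 3)) F := (g : Matrix (Fin (k + 3)) (Fin (k + 3)) F)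

/-- A coordinate vector. -/
def E (i : Fin (k + 3)) : Fin (k + 3) → F := Pi.single i 1

theorem E_ne (i : Fin (k + 3)) : (E i : Fin (k + 3) → F) ≠ 0 := fun e => by
  have := congrFun e i
  simp [E] at this

theorem E_dot (i : Fin (k + 3)) (v : Fin (k + 3) → F) : E i ⬝ᵥ v = v i := by simp [E]

theorem dot_E (i : Fin (k + 3)) (v : Fin (k + 3) → F) : v ⬝ᵥ E i = v i := by simp [E]

theorem mulVec_E (A : Matrix (Fin (k + 3)) (Fin (k + 3)) F) (j : Fin (k + 3)) : A *ᵥ E j = fun i => A i j := by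
  funext i; simp [E, Matrix.mulVec, dotProduct, Pi.single_apply]

theorem E_vecMul (A : Matrix (Fin (k + 3)) (Fin (k + 3)) F) (i : Fin (k + 3)) : E i ᵥ* A = fun j => A i j := by
  funext j; simp [E, Matrix.vecMul, dotProduct, Pi.single_apply]

theorem mul_mulVec' (g g' : SL F k) (v : Fin (k + 3) → F) : mat (g * g') *ᵥ v = mat g *ᵥ (mat g' *ᵥ v) := by
  rw [mat, Matrix.SpecialLinearGroup.coe_mul, mulVec_mulVec]

theorem vecMul_mul' (g g' : SL F k) (v : Fin (k + 3) → F) : v ᵥ* mat (g * g') = (v ᵥ* mat g) ᵥ* mat g' := by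
  rw [mat, Matrix.SpecialLinearGroup.coe_mul, vecMul_vecMul]

theorem one_mulVec'' (v : Fin (k + 3) → F) : mat (1 : SL F k) *ᵥ v = v := by
  rw [mat, Matrix.SpecialLinearGroup.coe_one, one_mulVec]

theorem one_vecMul'' (v : Fin (k + 3) → F) : v ᵥ* mat (1 : SL F k) = v := by
  rw [mat, Matrix.SpecialLinearGroup.coe_one, vecMul_one]

theorem inv_mulVec_eq {g : SL F k} {v w : Fin (k + 3) → F} (h : mat g *ᵥ v = w) : mat g⁻¹ *ᵥ w = v := by
  rw [← h, ← mul_mulVec', inv_mul_cancel, one_mulVec'']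

theorem inv_vecMul_eq {g : SL F k} {v w : Fin (k + 3) → F} (h : v ᵥ* mat g = w) : w ᵥ* mat g⁻¹ = v := by
  rw [← h, ← vecMul_mul', mul_inv_cancel, one_vecMul'']

theorem mulVec_inj (g : SL F k) {v w : Fin (k + 3) → F} (h : mat g *ᵥ v = mat g *ᵥ w) : v = w := by
  rw [← inv_mulVec_eq (g := g) (v := v) rfl, h, inv_mulVec_eq rfl]

theorem mulVec_ne (g : SL F k) {v : Fin (k + 3) → F} (hv : v ≠ 0) : mat g *ᵥ v ≠ 0 :=
  fun e => hv (mulVec_inj g (e.trans (mulVec_zero _).symm))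

/-- A transvection. -/
abbrev tr {i j : Fin (k + 3)} (h : i ≠ j) (t : F) : SL F k := SpecialLinearGroup.transvection h t

theorem tr_add {i j : Fin (k + 3)} (h : i ≠ j) (s t : F) : (tr h (s + t) : SL F k) = tr h s * tr h t := Subtype.ext (by
  change Matrix.transvection i j (s + t) = Matrix.transvection i j s * Matrix.transvection i j t
  rw [Matrix.transvection_mul_transvection_same _ _ h])

theorem tr_zero {i j : Fin (k + 3)} (h : i ≠ j) : (tr h (0 : F) : SL F k) = 1 := Subtype.ext (by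
  change Matrix.transvection i j (0 : F) = 1
  simp)

theorem tr_mulVec {i j : Fin (k + 3)} (h : i ≠ j) (t : F) (v : Fin (k + 3) → F) :
    mat (tr h t) *ᵥ v = v + (t * v j) • E i := by
  change Matrix.transvection i j t *ᵥ v = _
  funext a
  simp [Matrix.transvection, Matrix.add_mulVec, E, Pi.single_apply, Matrix.single_mulVec, Function.update_apply]

theorem vecMul_tr {i j : Fin (k + 3)} (h : i ≠ j) (t : F) (v : Fin (k + 3) → F) :
    v ᵥ* mat (tr h t) = v + (v i * t) • E j := by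
  change v ᵥ* Matrix.transvection i j t = _
  funext a
  simp only [Matrix.vecMul, dotProduct, Matrix.transvection, Matrix.add_apply, Matrix.one_apply, Matrix.single_apply,
    mul_add, Finset.sum_add_distrib, Pi.add_apply, Pi.smul_apply, E, Pi.single_apply, smul_eq_mul]
  rcases eq_or_ne a j with rfl | ha
  · simp
  · simp [ha, ha.symm]

theorem tr_eq_tv {i j : Fin (k + 3)} (h : i ≠ j) (t : F) :
    (tr h t : SL F k) = tv (t • E i) (E j) (by rw [E_dot]; simp [E, h.symm]) := Subtype.ext (by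
  change Matrix.transvection i j t = 1 + vecMulVec (t • E i) (E j)
  ext a b
  simp only [Matrix.transvection, Matrix.add_apply, Matrix.single_apply, vecMulVec_apply, Pi.smul_apply, E,
    Pi.single_apply, smul_eq_mul]
  by_cases ha : i = a <;> by_cases hb : j = b <;> simp [ha, hb, eq_comm])

/-- A monomial matrix. -/
def mono (σ : Perm (Fin (k + 3))) (d : Fin (k + 3) → F) (h : (Perm.sign σ : F) * ∏ i, d i = 1) : SL F k :=
  ⟨Equiv.Perm.permMatrix F σ.symm * Matrix.diagonal d, by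
    rw [det_mul, det_permutation, Perm.sign_symm, det_diagonal, h]⟩

theorem mono_mulVec (σ : Perm (Fin (k + 3))) (d : Fin (k + 3) → F) (h : (Perm.sign σ : F) * ∏ i, d i = 1)
    (j : Fin (k + 3)) : mat (mono σ d h) *ᵥ E j = d j • E (σ j) := by
  rw [mulVec_E]
  funext i
  change (Equiv.Perm.permMatrix F σ.symm * Matrix.diagonal d : Matrix (Fin (k + 3)) (Fin (k + 3)) F) i j = _
  rw [Matrix.mul_diagonal]
  simp only [Equiv.toPEquiv_apply, PEquiv.toMatrix_apply, Option.mem_def, Option.some.injEq, Pi.smul_apply, E,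
    Pi.single_apply, smul_eq_mul, Equiv.symm_apply_eq]
  split_ifs <;> simp

theorem vecMul_mono (σ : Perm (Fin (k + 3))) (d : Fin (k + 3) → F) (h : (Perm.sign σ : F) * ∏ i, d i = 1)
    (j : Fin (k + 3)) : E (σ j) ᵥ* mat (mono σ d h) = d j • E j := by
  rw [E_vecMul]
  funext i
  change (Equiv.Perm.permMatrix F σ.symm * Matrix.diagonal d : Matrix (Fin (k + 3)) (Fin (k + 3)) F) (σ j) i = _
  rw [Matrix.mul_diagonal]
  simp only [Equiv.toPEquiv_apply, PEquiv.toMatrix_apply, Option.mem_def, Option.some.injEq, Pi.smul_apply, E,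
    Pi.single_apply, smul_eq_mul, Equiv.symm_apply_apply]
  rcases eq_or_ne j i with rfl | e
  · simp
  · simp [e, e.symm]

theorem conj_tr (g : SL F k) {i j a b : Fin (k + 3)} (h : i ≠ j) (h' : a ≠ b) (t c c' : F)
    (hi : mat g *ᵥ E i = c • E a) (hj : E b ᵥ* mat g = c' • E j) (hc' : c' ≠ 0) :
    g * tr h t * g⁻¹ = tr h' (c * t * c'⁻¹) := by
  rw [tr_eq_tv h, tr_eq_tv h', conj_tv]
  refine Subtype.ext ?_
  rw [coe_tv, coe_tv]
  congr 1
  have e1 : mat g *ᵥ (t • E i) = (c * t) • E a := by rw [mulVec_smul, hi, smul_smul, mul_comm]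
  have e2 : E j ᵥ* mat g⁻¹ = c'⁻¹ • E b := by
    have := inv_vecMul_eq hj
    rw [smul_vecMul] at this
    rw [← this, smul_smul, inv_mul_cancel₀ hc', one_smul]
  rw [show (g : Matrix (Fin (k + 3)) (Fin (k + 3)) F) *ᵥ (t • E i) = (c * t) • E a from e1,
    show E j ᵥ* ((g⁻¹ : SL F k) : Matrix (Fin (k + 3)) (Fin (k + 3)) F) = c'⁻¹ • E b from e2]
  ext x y
  simp only [vecMulVec_apply, Pi.smul_apply, smul_eq_mul]
  ring

/-- A monomial matrix with sign and determinant gathered in one coordinate. -/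
theorem exists_mono (σ : Perm (Fin (k + 3))) (z : Fin (k + 3)) (d : Fin (k + 3) → F) (hd : ∀ i, d i ≠ 0) :
    ∃ g : SL F k, ∃ c : F, c ≠ 0 ∧ (∀ j, j ≠ z → mat g *ᵥ E j = d j • E (σ j) ∧ E (σ j) ᵥ* mat g = d j • E j) ∧
      mat g *ᵥ E z = c • E (σ z) ∧ E (σ z) ᵥ* mat g = c • E z := by
  let P : F := ∏ i ∈ Finset.univ.erase z, d i
  have hP : P ≠ 0 := Finset.prod_ne_zero_iff.2 fun i _ => hd i
  let s : F := (Perm.sign σ : F)
  have hs : s * s = 1 := by
    rcases Int.units_eq_one_or (Perm.sign σ) with e | e <;> simp [s, e]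
  have hs0 : s ≠ 0 := fun e => by rw [e, zero_mul] at hs; exact zero_ne_one hs
  let d' := Function.update d z (s * P⁻¹)
  have hdet : (Perm.sign σ : F) * ∏ i, d' i = 1 := by
    rw [← Finset.mul_prod_erase _ _ (Finset.mem_univ z),
      Finset.prod_congr rfl (fun i hi => Function.update_of_ne (Finset.ne_of_mem_erase hi) _ _)]
    simp only [d', Function.update_self]
    show s * (s * P⁻¹ * P) = 1
    rw [inv_mul_cancel_right₀ hP, hs]
  refine ⟨mono σ d' hdet, s * P⁻¹, mul_ne_zero hs0 (inv_ne_zero hP), fun j hj => ?_, ?_, ?_⟩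
  · rw [mono_mulVec, vecMul_mono]
    simp [d', Function.update_of_ne hj]
  · rw [mono_mulVec]; simp [d']
  · rw [vecMul_mono]; simp [d']

theorem exists_third (a b : Fin (k + 3)) : ∃ z, z ≠ a ∧ z ≠ b := by
  have : ¬ (Finset.univ : Finset (Fin (k + 3))) ⊆ {a, b} := fun h => by
    have h1 := (Finset.card_le_card h).trans Finset.card_le_two
    simp at h1
  obtain ⟨z, -, hz⟩ := Finset.not_subset.1 this
  exact ⟨z, fun e => hz (by simp [e]), fun e => hz (by simp [e])⟩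

/-- An element moving one pair of coordinates to another, exactly. -/
theorem exists_pair {i j : Fin (k + 3)} (hij : i ≠ j) (a b : Fin (k + 3)) (hab : a ≠ b) :
    ∃ g : SL F k, mat g *ᵥ E a = E i ∧ E i ᵥ* mat g = E a ∧ mat g *ᵥ E b = E j ∧ E j ᵥ* mat g = E b := by
  let σ1 : Perm (Fin (k + 3)) := swap a i
  let σ : Perm (Fin (k + 3)) := swap (σ1 b) j * σ1
  have ha : σ a = i := by
    have e1 : σ1 a = i := swap_apply_left _ _
    rw [Perm.mul_apply, e1, swap_apply_of_ne_of_ne (fun e => hab (σ1.injective (e1.trans e))) hij]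
  have hb : σ b = j := by rw [Perm.mul_apply, swap_apply_left]
  obtain ⟨z, hza, hzb⟩ := exists_third a b
  obtain ⟨g, c, -, hg, -⟩ := exists_mono σ z (fun _ => (1 : F)) (fun _ => one_ne_zero)
  obtain ⟨a1, a2⟩ := hg a hza.symm
  obtain ⟨b1, b2⟩ := hg b hzb.symm
  rw [one_smul, ha] at a1 a2
  rw [one_smul, hb] at b1 b2
  exact ⟨g, a1, a2, b1, b2⟩

theorem exists_row_col {a j : Fin (k + 3)} (v : Fin (k + 3) → F) (hj : v j ≠ 0) :
    ∃ g : SL F k, mat g *ᵥ E a = v ∧
      ∀ b, b ≠ a → b ≠ j → v b = 0 → ∀ z, z ≠ a → z ≠ b → z ≠ j → ∃ g' : SL F k, mat g' *ᵥ E a = v ∧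
        mat g' *ᵥ E b = E b ∧ E b ᵥ* mat g' = E b := by
  have main : ∀ z, z ≠ a → ∃ g : SL F k, mat g *ᵥ E a = v ∧
      ∀ b, b ≠ a → b ≠ j → b ≠ z → v b = 0 → mat g *ᵥ E b = E b ∧ E b ᵥ* mat g = E b := by
    intro z hz
    obtain ⟨M, c, -, hM, -⟩ := exists_mono (swap a j) z (Function.update (fun _ => (1 : F)) a (v j)) (fun i => by
      rcases eq_or_ne i a with rfl | h
      · simpa using hj
      · simp [Function.update_of_ne h])
    let u : Fin (k + 3) → F := v - v j • E j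
    let φ : Fin (k + 3) → F := (v j)⁻¹ • E j
    have hφ : φ ⬝ᵥ u = 0 := by simp [φ, u, smul_dotProduct, E_dot, E, mul_comm]
    refine ⟨tv u φ hφ * M, ?_, fun b hb hbj hbz hvb => ⟨?_, ?_⟩⟩
    · obtain ⟨e, -⟩ := hM a hz.symm
      rw [Function.update_self, swap_apply_left] at e
      rw [mul_mulVec', e, mat, coe_tv, add_mulVec, one_mulVec, vecMulVec_mulVec]
      funext x
      simp [φ, u, E, smul_dotProduct, Pi.single_apply, hj]
    · obtain ⟨e, -⟩ := hM b hbz
      rw [Function.update_of_ne hb, swap_apply_of_ne_of_ne hb hbj, one_smul] at e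
      rw [mul_mulVec', e, mat, coe_tv, add_mulVec, one_mulVec, vecMulVec_mulVec]
      funext x
      simp [φ, E, smul_dotProduct, Pi.single_apply, hbj, hbj.symm]
    · obtain ⟨-, e⟩ := hM b hbz
      rw [Function.update_of_ne hb, swap_apply_of_ne_of_ne hb hbj, one_smul] at e
      rw [vecMul_mul', mat, coe_tv, vecMul_add, vecMul_one, vecMul_vecMulVec]
      rw [show E b ⬝ᵥ u = 0 by simp [u, E_dot, E, hbj, hvb], zero_smul, add_zero, e]
  obtain ⟨z0, hz0, -⟩ := exists_third a j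
  obtain ⟨g, hg, -⟩ := main z0 hz0
  refine ⟨g, hg, fun b hb hbj hvb z hz hzb _ => ?_⟩
  obtain ⟨g', h1, h2⟩ := main z hz
  exact ⟨g', h1, (h2 b hb hbj hzb.symm hvb).1, (h2 b hb hbj hzb.symm hvb).2⟩

theorem exists_col (v : Fin (k + 3) → F) (hv : v ≠ 0) : ∃ g : SL F k, mat g *ᵥ E 0 = v := by
  obtain ⟨j, hj⟩ := Function.ne_iff.1 hv
  obtain ⟨g, hg, -⟩ := exists_row_col (a := 0) v hj
  exact ⟨g, hg⟩

theorem zero_ne_one' : (0 : Fin (k + 3)) ≠ 1 := by simp
theorem one_ne_zero' : (1 : Fin (k + 3)) ≠ 0 := by simp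

/-- The stabilizer of the first coordinate and of its dual. -/
def Blk (F : Type u) [Field F] (k : ℕ) : Subgroup (SL F k) where
  carrier := {g | mat g *ᵥ E 0 = E 0 ∧ E 0 ᵥ* mat g = E 0}
  one_mem' := ⟨one_mulVec'' _, one_vecMul'' _⟩
  mul_mem' := fun {a b} ha hb => ⟨by rw [mul_mulVec', hb.1, ha.1], by rw [vecMul_mul', ha.2, hb.2]⟩
  inv_mem' := fun {a} ha => ⟨inv_mulVec_eq ha.1, inv_vecMul_eq ha.2⟩

theorem mem_blk {g : SL F k} : g ∈ Blk F k ↔ mat g *ᵥ E 0 = E 0 ∧ E 0 ᵥ* mat g = E 0 := Iff.rfl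

theorem tr_mem_blk {i j : Fin (k + 3)} (h : i ≠ j) (hi : i ≠ 0) (hj : j ≠ 0) (t : F) : tr h t ∈ Blk F k := by
  refine ⟨?_, ?_⟩
  · rw [tr_mulVec]; simp [E, hj]
  · rw [vecMul_tr]; simp [E, hi]

/-- An element of the block moving the second coordinate to a given vector. -/
theorem exists_blk_col (v : Fin (k + 3) → F) (hv : v ≠ 0) (h0 : v 0 = 0) :
    ∃ g ∈ Blk F k, mat g *ᵥ E 1 = v := by
  obtain ⟨j, hj⟩ := Function.ne_iff.1 hv
  rw [Pi.zero_apply] at hj
  have hj0 : j ≠ 0 := fun e => hj (by rw [e, h0])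
  obtain ⟨-, -, h⟩ := exists_row_col (a := 1) v hj
  obtain ⟨z, hz1, hz0⟩ : ∃ z : Fin (k + 3), (z ≠ 1 ∧ z ≠ 0) ∧ (z ≠ j ∨ j = 1 ∨ True) := by
    obtain ⟨z, a, b⟩ := exists_third (1 : Fin (k + 3)) 0
    exact ⟨z, ⟨a, b⟩, Or.inr (Or.inr trivial)⟩
  by_cases hz : z = j
  · -- use the vector through an intermediate point
    subst hz
    obtain ⟨M, c, hc, hM, hMz, -⟩ := exists_mono (swap (1 : Fin (k + 3)) z) z
      (Function.update (fun _ => (1 : F)) 1 (v z)) (fun i => by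
        rcases eq_or_ne i 1 with rfl | h
        · simpa using hj
        · simp [Function.update_of_ne h])
    let u : Fin (k + 3) → F := v - v z • E z
    let φ : Fin (k + 3) → F := (v z)⁻¹ • E z
    have hφ : φ ⬝ᵥ u = 0 := by simp [φ, u, smul_dotProduct, E_dot, E, mul_comm]
    obtain ⟨e0, e0'⟩ := hM 0 hj0.symm
    rw [Function.update_of_ne (zero_ne_one' (k := k)), swap_apply_of_ne_of_ne (zero_ne_one' (k := k)) hj0.symm,
      one_smul] at e0 e0'
    obtain ⟨e1, -⟩ := hM 1 hz1.1.symm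
    rw [Function.update_self, swap_apply_left] at e1
    refine ⟨tv u φ hφ * M, ⟨?_, ?_⟩, ?_⟩
    · rw [mul_mulVec', e0, mat, coe_tv, add_mulVec, one_mulVec, vecMulVec_mulVec]
      funext x
      simp [φ, E, smul_dotProduct, hj0.symm]
    · rw [vecMul_mul', mat, coe_tv, vecMul_add, vecMul_one, vecMul_vecMulVec]
      rw [show E 0 ⬝ᵥ u = 0 by simp [u, E_dot, E, hj0.symm, h0], zero_smul, add_zero, e0']
    · rw [mul_mulVec', e1, mat, coe_tv, add_mulVec, one_mulVec, vecMulVec_mulVec]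
      funext x
      simp [φ, u, E, smul_dotProduct, Pi.single_apply, hj]
  · obtain ⟨g, a1, a2, a3⟩ := h 0 (zero_ne_one' (k := k)) hj0.symm h0 z hz1.1 hz1.2 hz
    exact ⟨g, ⟨a2, a3⟩, a1⟩

end Cfsg.Agent.Lib.BoundedPres.Sp
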