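import Cfsg.Agent.Lib.BoundedPres.SpRels
import Cfsg.Agent.Lib.BoundedPres.SLnFew
import Cfsg.Agent.Lib.BoundedPres.AltFew
import Cfsg.Prelude.Def_Classical

/-!
# Presentations of `Sp_{2n}` and `PSp_{2n}` with few generators and relations
-/

set_option autoImplicit false

namespace Cfsg.Agent.Lib.BoundedPres.Sp

open Equiv Matrix Cfsg.Agent.Lib.GLn Cfsg.Agent.Lib.SLTwoPres.Core Cfsg.Agent.Lib.Classical Cfsg.Agent.Lib.Forms

universe u v

/-- One further relation presents the quotient on the same generators. -/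
theorem quotientD {G : Type u} [Group G] {Q : Type v} [Group Q] {d m : ℕ} (h : HasPresD G d m) (π : G →* Q)
    (hπ : Function.Surjective π) (z : G) (hker : π.ker = Subgroup.normalClosure {z}) : HasPresD Q d (m + 1) := by
  classical
  obtain ⟨R, hR, ⟨e⟩⟩ := h
  obtain ⟨W, hW⟩ := PresentedGroup.mk_surjective (↑R : Set (FreeGroup (Fin d))) (e.symm z)
  let f : Fin d → Q := fun i => π (e (PresentedGroup.of i))
  have key : FreeGroup.lift f = π.comp (e.toMonoidHom.comp (PresentedGroup.mk _)) :=
    FreeGroup.ext_hom _ _ fun a => by simp [f, PresentedGroup.of]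
  have hz : z ∈ π.ker := hker ▸ Subgroup.subset_normalClosure rfl
  have hrels : ∀ r ∈ (↑(insert W R) : Set (FreeGroup (Fin d))), FreeGroup.lift f r = 1 := by
    intro r hr
    rw [key]
    rcases Finset.mem_insert.1 (Finset.mem_coe.1 hr) with rfl | hr
    · simp [hW, MonoidHom.mem_ker.1 hz]
    · simp [PresentedGroup.one_of_mem (Finset.mem_coe.2 hr)]
  let φ := PresentedGroup.toGroup hrels
  let n : PresentedGroup (↑R : Set (FreeGroup (Fin d))) →* PresentedGroup (↑(insert W R) : Set (FreeGroup (Fin d))) :=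
    QuotientGroup.map _ _ (MonoidHom.id _) (Subgroup.normalClosure_mono (by rw [Finset.coe_insert]; exact Set.subset_insert _ _))
  have hn : ∀ x, n (PresentedGroup.mk _ x) = PresentedGroup.mk _ x := fun x => rfl
  have hφn : ∀ y, φ (n y) = π (e y) := fun y => by
    obtain ⟨x, rfl⟩ := PresentedGroup.mk_surjective _ y
    rw [hn]
    exact DFunLike.congr_fun key x
  have hker' : π.ker ≤ (n.comp e.symm.toMonoidHom).ker := by
    rw [hker]
    refine Subgroup.normalClosure_le_normal (Set.singleton_subset_iff.2 ?_)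
    show n (e.symm z) = 1
    rw [← hW, hn]
    exact PresentedGroup.one_of_mem (Finset.mem_coe.2 (Finset.mem_insert_self _ _))
  refine ⟨insert W R, (Finset.card_insert_le _ _).trans (Nat.succ_le_succ hR), ⟨MulEquiv.ofBijective φ ⟨?_, ?_⟩⟩⟩
  · rw [← MonoidHom.ker_eq_bot_iff, eq_bot_iff]
    intro x hx
    obtain ⟨x, rfl⟩ := PresentedGroup.mk_surjective _ x
    rw [← hn, MonoidHom.mem_ker, hφn] at hx
    rw [Subgroup.mem_bot, ← hn]
    have := hker' hx
    rwa [MonoidHom.mem_ker, MonoidHom.comp_apply, MulEquiv.coe_toMonoidHom, MulEquiv.symm_apply_apply] at this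
  · intro q
    obtain ⟨g, rfl⟩ := hπ q
    exact ⟨n (e.symm g), by rw [hφn, MulEquiv.apply_symm_apply]⟩

/-- One further generator, killed by one further relation. -/
theorem padD {G : Type u} [Group G] {d m : ℕ} (h : HasPresD G d m) : HasPresD G (d + 1) (m + 1) := by
  obtain ⟨R, hR, ⟨e⟩⟩ := h
  obtain ⟨R', hR', e', -⟩ := exists_pad R e
  exact ⟨R', hR'.trans (Nat.succ_le_succ hR), ⟨e'⟩⟩

theorem monoD {G : Type u} [Group G] {d m m' : ℕ} (h : HasPresD G d m) (hm : m ≤ m') : HasPresD G d m' := by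
  obtain ⟨R, hR, e⟩ := h
  exact ⟨R, hR.trans hm, e⟩

theorem congrD {G : Type u} [Group G] {H : Type v} [Group H] {d m : ℕ} (h : HasPresD G d m) (e : G ≃* H) :
    HasPresD H d m := by
  obtain ⟨R, hR, ⟨f⟩⟩ := h
  exact ⟨R, hR, ⟨f.trans e⟩⟩

variable {F : Type u} [Field F] [Fintype F]

/-- `Sp_{2n}` from the Levi factor and the long root `SL₂`. -/
theorem sp_presD {k d m : ℕ} (hS : HasPresD (SL F k) d m) : HasPresD (Sp F k) (d + 3) (m + 21) := by
  classical
  obtain ⟨R, hR, ⟨eS⟩⟩ := hS
  obtain ⟨⟨Q, hQ, ⟨eL⟩⟩, -⟩ := Cfsg.Agent.Lib.SLTwoPres.Final.main F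
  obtain ⟨ω, hωo⟩ := Cfsg.Agent.Lib.SLTwoPres.Final.exists_generator F
  have hω : ∀ s : Fˣ, ∃ n : ℕ, ω ^ n = s := Cfsg.Agent.Lib.SLTwoPres.Main.card_eq ω hωo
  obtain ⟨b1, b2, hb⟩ := GLn.CycleTwoGen.exists_two_gen (F := F) (k + 1) (by omega)
  obtain ⟨y1, y2, hy⟩ := GLn.CycleTwoGen.exists_two_gen (F := F) 1 le_rfl
  let gB : Fin 2 → SL F k := ![blkHom b1, blkHom b2]
  let yB : Fin 2 → Matrix.SpecialLinearGroup (Fin 2) F := ![y1, y2]
  have hyB : Subgroup.closure (Set.range yB) = ⊤ := by
    rw [show Set.range yB = {y1, y2} by simp [yB, Set.pair_comm]]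
    exact hy
  have hgB : Blk F k ≤ Subgroup.closure (Set.range gB) := by
    refine blk_le.trans ?_
    rw [MonoidHom.range_eq_map, ← hb, MonoidHom.map_closure, Set.image_pair]
    exact Subgroup.closure_mono (by simp [gB, Set.pair_comm])
  have hgBmem : ∀ l, gB l ∈ Blk F k := fun l => by fin_cases l <;> exact blkHom_mem _
  choose preS hpreS using fun g => PresentedGroup.mk_surjective (↑R : Set (FreeGroup (Fin d))) (eS.symm g)
  choose preL hpreL using fun g => PresentedGroup.mk_surjective (↑Q : Set (FreeGroup (Fin 3))) (eL.symm g)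
  let f : Fin (d + 3) → Sp F k :=
    Fin.addCases (fun j => emS (eS (PresentedGroup.of j))) (fun j => emL (eL (PresentedGroup.of j)))
  let wS : SL F k → FreeGroup (Fin (d + 3)) := fun g => FreeGroup.map (Fin.castAdd 3) (preS g)
  let wL : Matrix.SpecialLinearGroup (Fin 2) F → FreeGroup (Fin (d + 3)) := fun g => FreeGroup.map (Fin.natAdd d) (preL g)
  have liftS : ∀ x, FreeGroup.lift f (FreeGroup.map (Fin.castAdd 3) x) = emS (eS (PresentedGroup.mk _ x)) := fun x => by
    rw [lift_map']
    exact DFunLike.congr_fun (FreeGroup.ext_hom (FreeGroup.lift (f ∘ Fin.castAdd 3))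
      (emS.comp (eS.toMonoidHom.comp (PresentedGroup.mk _))) fun a => by simp [f, PresentedGroup.of]) x
  have liftL : ∀ x, FreeGroup.lift f (FreeGroup.map (Fin.natAdd d) x) = emL (eL (PresentedGroup.mk _ x)) := fun x => by
    rw [lift_map']
    exact DFunLike.congr_fun (FreeGroup.ext_hom (FreeGroup.lift (f ∘ Fin.natAdd d))
      (emL.comp (eL.toMonoidHom.comp (PresentedGroup.mk _))) fun a => by simp [f, PresentedGroup.of]) x
  have hwS : ∀ g, FreeGroup.lift f (wS g) = emS g := fun g => by rw [liftS, hpreS, MulEquiv.apply_symm_apply]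
  have hwL : ∀ g, FreeGroup.lift f (wL g) = emL g := fun g => by rw [liftL, hpreL, MulEquiv.apply_symm_apply]
  let rels : Finset (FreeGroup (Fin (d + 3))) :=
    R.image (FreeGroup.map (Fin.castAdd 3)) ∪ Q.image (FreeGroup.map (Fin.natAdd d)) ∪
      Finset.univ.image (eqs gB yB ω wS wL)
  have hcard : rels.card ≤ m + 21 := by
    refine (Finset.card_union_le _ _).trans ?_
    refine (Nat.add_le_add ((Finset.card_union_le _ _).trans (Nat.add_le_add (Finset.card_image_le.trans hR)
      (Finset.card_image_le.trans hQ))) Finset.card_image_le).trans ?_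
    simp
  have hrels : ∀ r ∈ (↑rels : Set (FreeGroup (Fin (d + 3)))), FreeGroup.lift f r = 1 := by
    intro r hr
    rcases Finset.mem_union.1 (Finset.mem_coe.1 hr) with hr | hr
    · rcases Finset.mem_union.1 hr with hr | hr <;> obtain ⟨x, hx, rfl⟩ := Finset.mem_image.1 hr
      · rw [liftS, PresentedGroup.one_of_mem (Finset.mem_coe.2 hx), map_one, map_one]
      · rw [liftL, PresentedGroup.one_of_mem (Finset.mem_coe.2 hx), map_one, map_one]
    · obtain ⟨i, -, rfl⟩ := Finset.mem_image.1 hr
      rw [map_eqs]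
      simp only [hwS, hwL]
      exact em_eqs gB yB ω hgBmem i
  let π := PresentedGroup.toGroup hrels
  have hπ : ∀ x, π (PresentedGroup.mk _ x) = FreeGroup.lift f x := fun x => rfl
  have ha : ∀ r ∈ (↑R : Set (FreeGroup (Fin d))),
      FreeGroup.lift (PresentedGroup.of (rels := (↑rels : Set (FreeGroup (Fin (d + 3))))) ∘ Fin.castAdd 3) r = 1 := by
    intro r hr
    rw [← lift_map', lift_mk]
    exact PresentedGroup.one_of_mem (Finset.mem_coe.2
      (Finset.mem_union_left _ (Finset.mem_union_left _ (Finset.mem_image_of_mem _ (Finset.mem_coe.1 hr)))))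
  have hb' : ∀ r ∈ (↑Q : Set (FreeGroup (Fin 3))),
      FreeGroup.lift (PresentedGroup.of (rels := (↑rels : Set (FreeGroup (Fin (d + 3))))) ∘ Fin.natAdd d) r = 1 := by
    intro r hr
    rw [← lift_map', lift_mk]
    exact PresentedGroup.one_of_mem (Finset.mem_coe.2
      (Finset.mem_union_left _ (Finset.mem_union_right _ (Finset.mem_image_of_mem _ (Finset.mem_coe.1 hr)))))
  let A := (PresentedGroup.toGroup ha).comp eS.symm.toMonoidHom
  let B := (PresentedGroup.toGroup hb').comp eL.symm.toMonoidHom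
  have hA : ∀ g, A g = PresentedGroup.mk _ (wS g) := fun g => by
    show PresentedGroup.toGroup ha (eS.symm g) = _
    rw [← hpreS g]
    show FreeGroup.lift _ (preS g) = _
    rw [← lift_map', lift_mk]
  have hB : ∀ g, B g = PresentedGroup.mk _ (wL g) := fun g => by
    show PresentedGroup.toGroup hb' (eL.symm g) = _
    rw [← hpreL g]
    show FreeGroup.lift _ (preL g) = _
    rw [← lift_map', lift_mk]
  have hdata : ∀ i, eqs gB yB ω (⇑A) (⇑B) i = 1 := fun i => by
    rw [show (⇑A : _ → _) = fun g => PresentedGroup.mk (↑rels : Set (FreeGroup (Fin (d + 3)))) (wS g) from funext hA,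
      show (⇑B : _ → _) = fun g => PresentedGroup.mk (↑rels : Set (FreeGroup (Fin (d + 3)))) (wL g) from funext hB,
      ← map_eqs]
    exact PresentedGroup.one_of_mem (Finset.mem_coe.2
      (Finset.mem_union_right _ (Finset.mem_image_of_mem _ (Finset.mem_univ i))))
  let D := dataOf gB yB ω A B hω hgB hyB hdata
  have hρa : ∀ g, π (D.al g) = emS g := fun g => by
    show π (A g) = _
    rw [hA, hπ, hwS]
  have hρb : ∀ g, π (D.be g) = emL g := fun g => by
    show π (B g) = _
    rw [hB, hπ, hwL]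
  have hgen : A.range ⊔ B.range = ⊤ := by
    rw [eq_top_iff, ← PresentedGroup.closure_range_of, Subgroup.closure_le]
    rintro _ ⟨i, rfl⟩
    induction i using Fin.addCases with
    | left j =>
      refine Subgroup.mem_sup_left ⟨eS (PresentedGroup.of j), ?_⟩
      show PresentedGroup.toGroup ha (eS.symm (eS _)) = _
      rw [MulEquiv.symm_apply_apply]
      exact PresentedGroup.toGroup.of ha
    | right j =>
      refine Subgroup.mem_sup_right ⟨eL (PresentedGroup.of j), ?_⟩
      show PresentedGroup.toGroup hb' (eL.symm (eL _)) = _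
      rw [MulEquiv.symm_apply_apply]
      exact PresentedGroup.toGroup.of hb'
  refine ⟨rels, hcard, ⟨MulEquiv.ofBijective π ⟨?_, ?_⟩⟩⟩
  · rw [← MonoidHom.ker_eq_bot_iff, eq_bot_iff]
    intro x hx
    exact D.inj hρa hρb (show x ∈ A.range ⊔ B.range from hgen ▸ Subgroup.mem_top x) hx
  · rw [← MonoidHom.range_eq_top, eq_top_iff, ← range_sup_eq_top, sup_le_iff]
    constructor <;> rintro _ ⟨g, rfl⟩
    · exact ⟨_, hρa g⟩
    · exact ⟨_, hρb g⟩

/-- The negative of the identity. -/
def negOne (F : Type u) [Field F] (n : ℕ) : Matrix.symplecticGroup (Fin n) F :=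
  ⟨-1, SymplecticGroup.neg_mem (one_mem _)⟩

theorem center_eq (n : ℕ) (hn : 1 ≤ n) :
    Subgroup.center (Matrix.symplecticGroup (Fin n) F) = Subgroup.normalClosure {negOne F n} := by
  refine le_antisymm (fun g hg => ?_) (Subgroup.normalClosure_le_normal (Set.singleton_subset_iff.2 ?_))
  · obtain ⟨a, ha, hga⟩ := exists_scalar_of_mem_center n hn hg
    rcases mul_self_eq_one_iff.1 ha with rfl | rfl
    · rw [show g = 1 from sp_ext fun x => by rw [hga, one_smul]; simp]
      exact one_mem _
    · rw [show g = negOne F n from sp_ext fun x => by rw [hga]; simp [negOne, neg_mulVec]]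
      exact Subgroup.subset_normalClosure rfl
  · exact mem_center_of_fixes_lines n _ fun x => ⟨-1, by simp [negOne, neg_mulVec]⟩

/-- The projective quotient costs one relation. -/
theorem psp_presD {n d m : ℕ} (hn : 1 ≤ n) (h : HasPresD (Matrix.symplecticGroup (Fin n) F) d m) :
    HasPresD (Cfsg.PSp n F) d (m + 1) :=
  quotientD h (QuotientGroup.mk' _) (QuotientGroup.mk'_surjective _) (negOne F n)
    ((QuotientGroup.ker_mk' _).trans (center_eq n hn))

theorem sp_six (n : ℕ) (hn : 6 ≤ n) : HasPresD (Matrix.symplecticGroup (Fin n) F) 10 58 := by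
  obtain ⟨k, rfl⟩ : ∃ k, n = k + 3 := ⟨n - 3, by omega⟩
  have hA := alt_pres_six (k + 3) hn
  have h := SLn.sl_few (F := F) (k - 1) (κ := Fin (k + 3)) (by simp; omega) (d := 3) hA
  rw [if_pos (by omega)] at h
  exact monoD (sp_presD (congrD h (SLn.slCongr (Fintype.equivFinOfCardEq (by simp; omega))))) (by norm_num)

theorem sp_five : HasPresD (Matrix.symplecticGroup (Fin 5) F) 9 49 := by
  have hA := smallFew 3 (by norm_num) (by norm_num)
  have h := SLn.sl_few (F := F) 1 (κ := Fin 5) (by simp) (d := 2) hA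
  rw [if_neg (by omega)] at h
  exact monoD (sp_presD (k := 2) (congrD h (SLn.slCongr (Fintype.equivFinOfCardEq (by simp))))) (by decide)

theorem sp_four : HasPresD (Matrix.symplecticGroup (Fin 4) F) 9 47 := by
  have hA := smallFew 2 (by norm_num) (by norm_num)
  have h := SLn.sl_few (F := F) 0 (κ := Fin 4) (by simp) (d := 1) hA
  rw [if_neg (by omega)] at h
  exact monoD (padD (sp_presD (k := 1) (congrD h (SLn.slCongr (Fintype.equivFinOfCardEq (by simp)))))) (by decide)

theorem sp_three : HasPresD (Matrix.symplecticGroup (Fin 3) F) 8 36 := by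
  obtain ⟨R, hR, he⟩ := Cfsg.Agent.Lib.SLThreePres.Main.main F
  exact padD (sp_presD (k := 0) (d := 4) (m := 14) ⟨R, hR, he⟩)

theorem sp_ten (n : ℕ) (hn : 4 ≤ n) : HasPresD (Matrix.symplecticGroup (Fin n) F) 10 58 := by
  rcases Nat.lt_or_ge n 6 with h | h
  · interval_cases n
    · exact monoD (padD sp_four) (by norm_num)
    · exact monoD (padD sp_five) (by norm_num)
  · exact sp_six n h

end Cfsg.Agent.Lib.BoundedPres.Sp
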