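import Cfsg.Agent.Lib.BoundedPres.SpCells
import Cfsg.Agent.Lib.Classical.Symplectic

/-!
# The Levi factor and the long root `SL₂` in the symplectic group
-/

set_option autoImplicit false

namespace Cfsg.Agent.Lib.BoundedPres.Sp

open Equiv Matrix Cfsg.Agent.Lib.GLn Cfsg.Agent.Lib.SLTwoPres.Core Cfsg.Agent.Lib.Classical Cfsg.Agent.Lib.Forms

universe u v

variable {F : Type u} [Field F] {k : ℕ}

/-- The symplectic group. -/
abbrev Sp (F : Type u) [Field F] (k : ℕ) := Matrix.symplecticGroup (Fin (k + 3)) F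

/-- Square matrices of twice the size. -/
abbrev MM (F : Type u) [Field F] (k : ℕ) := Matrix (Fin (k + 3) ⊕ Fin (k + 3)) (Fin (k + 3) ⊕ Fin (k + 3)) F

/-- The underlying matrix. -/
abbrev smat (g : Sp F k) : MM F k := (g : MM F k)

theorem smat_mul (g h : Sp F k) : smat (g * h) = smat g * smat h := rfl

theorem mat_mul' (g h : SL F k) : mat (g * h) = mat g * mat h := Matrix.SpecialLinearGroup.coe_mul g h

theorem mat_one' : mat (1 : SL F k) = 1 := Matrix.SpecialLinearGroup.coe_one

theorem inv_mul_mat (g : SL F k) : mat g⁻¹ * mat g = 1 := by rw [← mat_mul', inv_mul_cancel, mat_one']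

theorem mul_inv_mat (g : SL F k) : mat g * mat g⁻¹ = 1 := by rw [← mat_mul', mul_inv_cancel, mat_one']

/-- The matrix of an element of the Levi factor. -/
def levi (g : SL F k) : MM F k := fromBlocks (mat g) 0 0 (mat g⁻¹)ᵀ

theorem levi_mem (g : SL F k) : levi g ∈ Matrix.symplecticGroup (Fin (k + 3)) F := by
  rw [SymplecticGroup.mem_iff, levi, Matrix.J, fromBlocks_transpose, fromBlocks_multiply, fromBlocks_multiply,
    transpose_transpose, fromBlocks_inj]
  simp [mul_inv_mat, ← transpose_mul, -Matrix.SpecialLinearGroup.coe_inv]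

/-- The Levi factor. -/
def emS : SL F k →* Sp F k where
  toFun g := ⟨levi g, levi_mem g⟩
  map_one' := Subtype.ext (by show levi 1 = 1; simp [levi, inv_one, mat_one', fromBlocks_one])
  map_mul' g h := Subtype.ext (by
    show levi (g * h) = levi g * levi h
    simp only [levi, fromBlocks_multiply, _root_.mul_inv_rev, mat_mul', transpose_mul]
    simp)

theorem emS_mulVec (g : SL F k) (x y : Fin (k + 3) → F) :
    smat (emS g) *ᵥ Sum.elim x y = Sum.elim (mat g *ᵥ x) (y ᵥ* mat g⁻¹) := by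
  show levi g *ᵥ _ = _
  rw [levi, fromBlocks_mulVec]
  simp [mulVec_transpose, -Matrix.SpecialLinearGroup.coe_inv]

/-- Four diagonal blocks. -/
def dblk (a b c d : Fin (k + 3) → F) : MM F k :=
  fromBlocks (diagonal a) (diagonal b) (diagonal c) (diagonal d)

theorem dblk_mul (a b c d a' b' c' d' : Fin (k + 3) → F) :
    dblk a b c d * dblk a' b' c' d' =
      dblk (fun i => a i * a' i + b i * c' i) (fun i => a i * b' i + b i * d' i)
        (fun i => c i * a' i + d i * c' i) (fun i => c i * b' i + d i * d' i) := by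
  simp [dblk, fromBlocks_multiply, diagonal_mul_diagonal, diagonal_add]

/-- The function with a given value at the first coordinate. -/
def at0 (s a : F) : Fin (k + 3) → F := Function.update (fun _ => s) 0 a

theorem at0_zero (s a : F) : at0 (k := k) s a 0 = a := Function.update_self _ _ _

theorem at0_ne (s a : F) {i : Fin (k + 3)} (h : i ≠ 0) : at0 (k := k) s a i = s := Function.update_of_ne h _ _

/-- The matrix of an element of the long root rank one group. -/
def longm (y : Matrix.SpecialLinearGroup (Fin 2) F) : MM F k :=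
  dblk (at0 1 (y.1 0 0)) (at0 0 (y.1 0 1)) (at0 0 (y.1 1 0)) (at0 1 (y.1 1 1))

theorem longm_mem (y : Matrix.SpecialLinearGroup (Fin 2) F) : longm y ∈ Matrix.symplecticGroup (Fin (k + 3)) F := by
  have hdet : y.1 0 0 * y.1 1 1 - y.1 0 1 * y.1 1 0 = 1 := by rw [← Matrix.det_fin_two]; exact y.2
  have hJ : (Matrix.J (Fin (k + 3)) F : MM F k) = dblk (fun _ => 0) (fun _ => -1) (fun _ => 1) (fun _ => 0) := by
    rw [Matrix.J, dblk, diagonal_zero, diagonal_one, ← diagonal_neg, diagonal_one]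
  rw [SymplecticGroup.mem_iff, hJ, longm, dblk_mul]
  rw [show (dblk (at0 1 (y.1 0 0)) (at0 0 (y.1 0 1)) (at0 0 (y.1 1 0)) (at0 1 (y.1 1 1)) : MM F k)ᵀ =
    dblk (at0 1 (y.1 0 0)) (at0 0 (y.1 1 0)) (at0 0 (y.1 0 1)) (at0 1 (y.1 1 1)) by
      simp [dblk, fromBlocks_transpose, diagonal_transpose], dblk_mul]
  congr 1 <;> funext i <;> simp only [at0, Function.update_apply] <;> split_ifs <;>
    first | ring1 | linear_combination hdet | linear_combination -hdet

/-- The long root rank one group. -/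
def emL : Matrix.SpecialLinearGroup (Fin 2) F →* Sp F k where
  toFun y := ⟨longm y, longm_mem y⟩
  map_one' := Subtype.ext (by
    show longm 1 = 1
    rw [longm, dblk, ← fromBlocks_one, fromBlocks_inj]
    refine ⟨?_, ?_, ?_, ?_⟩ <;> simp [at0, Matrix.SpecialLinearGroup.coe_one])
  map_mul' y z := Subtype.ext (by
    show longm (y * z) = longm y * longm z
    rw [longm, longm, longm, dblk_mul]
    simp only [Matrix.SpecialLinearGroup.coe_mul, Matrix.mul_apply, Fin.sum_univ_two]
    congr 1 <;> funext i <;> simp only [at0, Function.update_apply] <;> split_ifs <;> ring)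

theorem emL_mulVec (y : Matrix.SpecialLinearGroup (Fin 2) F) (p q : Fin (k + 3) → F) :
    smat (emL y) *ᵥ Sum.elim p q =
      Sum.elim (Function.update p 0 (y.1 0 0 * p 0 + y.1 0 1 * q 0))
        (Function.update q 0 (y.1 1 0 * p 0 + y.1 1 1 * q 0)) := by
  show longm y *ᵥ _ = _
  rw [longm, dblk, fromBlocks_mulVec]
  funext i
  rcases i with i | i <;> simp only [Sum.elim_inl, Sum.elim_inr, Sum.elim_comp_inl, Sum.elim_comp_inr, Pi.add_apply,
    mulVec_diagonal, at0, Function.update_apply] <;> split_ifs with h <;> (try subst h) <;> ring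

/-- An upper unitriangular block matrix. -/
def upB : Multiplicative (Matrix (Fin (k + 3)) (Fin (k + 3)) F) →* MM F k where
  toFun S := fromBlocks 1 S.toAdd 0 1
  map_one' := by simp [fromBlocks_one]
  map_mul' S S' := by simp [fromBlocks_multiply, add_comm]

theorem emL_X (a : F) : smat (emL (k := k) (X' a)) = upB (Multiplicative.ofAdd (a • vecMulVec (E 0) (E 0))) := by
  show longm (X' a) = fromBlocks 1 (a • vecMulVec (E 0) (E 0)) 0 1
  rw [longm, dblk, fromBlocks_inj]
  refine ⟨?_, ?_, ?_, ?_⟩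
  · simp [X', at0]
  · ext i j
    simp only [diagonal_apply, Matrix.smul_apply, vecMulVec_apply, E, X', at0, Function.update_apply,
      Pi.single_apply, smul_eq_mul]
    by_cases h : i = j <;> by_cases h0 : i = 0 <;> by_cases h1 : j = 0 <;> simp_all
  · simp [X', at0]
  · simp [X', at0]

theorem conj_up (g : SL F k) (S : Matrix (Fin (k + 3)) (Fin (k + 3)) F) :
    levi g * fromBlocks 1 S 0 1 * levi g⁻¹ = fromBlocks 1 (mat g * S * (mat g)ᵀ) 0 1 := by
  simp [levi, fromBlocks_multiply, inv_inv, mul_inv_mat, ← transpose_mul, -Matrix.SpecialLinearGroup.coe_inv]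

variable {G : Type v} [Group G] (D : Data F G k)

theorem coe_H' (s : Fˣ) : (H' s).1 0 0 = (s : F) ∧ (H' s).1 0 1 = 0 ∧ (H' s).1 1 0 = 0 ∧
    (H' s).1 1 1 = ((s⁻¹ : Fˣ) : F) := by simp [H']

theorem coe_T' : (T' : Matrix.SpecialLinearGroup (Fin 2) F).1 0 0 = 0 ∧
    (T' : Matrix.SpecialLinearGroup (Fin 2) F).1 0 1 = 1 ∧ (T' : Matrix.SpecialLinearGroup (Fin 2) F).1 1 0 = -1 ∧
    (T' : Matrix.SpecialLinearGroup (Fin 2) F).1 1 1 = 0 := by simp [T']

namespace Data

variable [Finite F]

/-- The symmetric matrix of an upper triangle. -/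
def sym (S : Fin (k + 3) × Fin (k + 3) → Multiplicative F) : Matrix (Fin (k + 3)) (Fin (k + 3)) F :=
  Matrix.of fun i j => if i ≤ j then (S (i, j)).toAdd else (S (j, i)).toAdd

/-- The symmetric matrix of an upper triangle, as a homomorphism. -/
def symHom : (Fin (k + 3) × Fin (k + 3) → Multiplicative F) →* Multiplicative (Matrix (Fin (k + 3)) (Fin (k + 3)) F) where
  toFun S := Multiplicative.ofAdd (sym S)
  map_one' := by
    rw [ofAdd_eq_one]; ext i j; simp [sym]
  map_mul' S S' := by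
    rw [← ofAdd_add]; congr 1; ext i j; simp only [sym, Matrix.of_apply, Matrix.add_apply, Pi.mul_apply, toAdd_mul]
    split_ifs <;> rfl

variable {ρ : G →* Sp F k} (hρa : ∀ g, ρ (D.al g) = emS g) (hρb : ∀ y, ρ (D.be y) = emL y)

include hρa hρb

theorem rho_Z (v : Fin (k + 3) → F) (a : F) :
    smat (ρ (D.Z v a)) = upB (Multiplicative.ofAdd (a • vecMulVec v v)) := by
  rcases eq_or_ne v 0 with rfl | hv
  · rw [D.Z_zero, map_one]
    show (1 : MM F k) = fromBlocks 1 (a • vecMulVec (0 : Fin (k + 3) → F) 0) 0 1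
    simp [fromBlocks_one]
  obtain ⟨g, hg⟩ := exists_col v hv
  rw [D.Z_eq hg, map_mul, map_mul, map_inv, hρa, ← map_inv, z0, hρb, smat_mul, smat_mul, emL_X]
  show levi g * fromBlocks 1 (a • vecMulVec (E 0) (E 0)) 0 1 * levi g⁻¹ = fromBlocks 1 (a • vecMulVec v v) 0 1
  rw [conj_up, Matrix.mul_smul, Matrix.smul_mul, mul_vecMulVec, vecMulVec_mul, vecMul_transpose, hg]

theorem rho_piece (p : Fin (k + 3) × Fin (k + 3)) (t : Multiplicative F) :
    smat (ρ (D.piece p t)) = upB (symHom (Pi.mulSingle p t)) := by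
  obtain ⟨i, j⟩ := p
  rw [piece_apply]
  dsimp only
  have hz := D.rho_Z hρa hρb
  split_ifs with e l
  · subst e
    rw [hz]
    congr 1
    show Multiplicative.ofAdd _ = Multiplicative.ofAdd _
    congr 1
    ext a b
    simp only [sym, Matrix.of_apply, Matrix.smul_apply, vecMulVec_apply, E, Pi.single_apply, Pi.mulSingle_apply,
      Prod.mk.injEq, smul_eq_mul]
    by_cases ha : a = i <;> by_cases hb : b = i <;> simp [ha, hb] <;> intro h <;> simp [ha, hb] at h ⊢
  · have hinv : ∀ v a, smat (ρ (D.Z v a)⁻¹) = upB (Multiplicative.ofAdd (-(a • vecMulVec v v))) := by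
      intro v a
      have hneg : (D.Z v a)⁻¹ = D.Z v (-a) :=
        inv_eq_of_mul_eq_one_right (by rw [← D.Z_add, add_neg_cancel, D.Z_at_zero])
      rw [hneg, hz, neg_smul]
    rw [Yp, Yd, map_mul, map_mul, smat_mul, smat_mul, hinv, hinv, hz, ← map_mul, ← map_mul]
    congr 1
    rw [← ofAdd_add, ← ofAdd_add]
    show Multiplicative.ofAdd _ = Multiplicative.ofAdd _
    congr 1
    ext a b
    simp only [sym, Matrix.of_apply, Matrix.add_apply, Matrix.neg_apply, Matrix.smul_apply, vecMulVec_apply, E,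
      Pi.add_apply, Pi.single_apply, Pi.mulSingle_apply, Prod.mk.injEq, smul_eq_mul]
    have n1 : i ≠ j := l.ne
    have n2 : j ≠ i := l.ne'
    have n3 : i ≤ j := l.le
    have n4 : ¬ j ≤ i := not_le.2 l
    by_cases ha : a = i <;> by_cases hb : b = i <;> by_cases ha' : a = j <;> by_cases hb' : b = j <;>
      simp_all
  · rw [map_one]
    show (1 : MM F k) = fromBlocks 1 (sym (Pi.mulSingle (i, j) t)) 0 1
    rw [show sym (Pi.mulSingle (i, j) t) = 0 from ?_, fromBlocks_one]
    ext a b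
    simp only [sym, Matrix.of_apply, Pi.mulSingle_apply, Prod.mk.injEq]
    by_cases ha : a = i <;> by_cases hb : b = i <;> by_cases ha' : a = j <;> by_cases hb' : b = j <;>
      simp_all [le_of_lt] <;> intro h <;> exact absurd (le_antisymm h ‹_›) (by simp_all)

theorem rho_Φ (S : Fin (k + 3) × Fin (k + 3) → Multiplicative F) : smat (ρ (D.Φ S)) = upB (symHom S) := by
  have : ((Submonoid.subtype _).comp ρ).comp D.Φ = upB.comp symHom := by
    refine MonoidHom.pi_ext fun p t => ?_
    simp only [MonoidHom.comp_apply]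
    rw [show D.Φ (Pi.mulSingle p t) = D.piece p t from MonoidHom.noncommPiCoprod_mulSingle _ _ _]
    exact D.rho_piece hρa hρb p t
  exact DFunLike.congr_fun this S

omit hρa hρb in
theorem Φ_one_of_sym {S : Fin (k + 3) × Fin (k + 3) → Multiplicative F} (h : sym S = 0) : D.Φ S = 1 := by
  let mask : (Fin (k + 3) × Fin (k + 3) → Multiplicative F) →* (Fin (k + 3) × Fin (k + 3) → Multiplicative F) :=
    { toFun := fun S p => if p.1 ≤ p.2 then S p else 1
      map_one' := by funext p; simp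
      map_mul' := fun S S' => by funext p; simp only [Pi.mul_apply]; split_ifs <;> simp }
  have e : D.Φ = D.Φ.comp mask := by
    refine MonoidHom.pi_ext fun p t => ?_
    by_cases hp : p.1 ≤ p.2
    · rw [MonoidHom.comp_apply]
      congr 1
      funext q
      by_cases hq : q = p
      · subst hq; simp [mask, hp]
      · simp [mask, hq]
    · rw [show D.Φ (Pi.mulSingle p t) = D.piece p t from MonoidHom.noncommPiCoprod_mulSingle _ _ _, piece_apply,
        if_neg (fun e => hp e.le), if_neg (fun e => hp e.le), MonoidHom.comp_apply,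
        show mask (Pi.mulSingle p t) = 1 from ?_, map_one]
      funext q
      by_cases hq : q = p
      · subst hq; simp [mask, hp]
      · simp [mask, hq]
  rw [e, MonoidHom.comp_apply, show mask S = 1 from ?_, map_one]
  funext p
  obtain ⟨i, j⟩ := p
  by_cases hij : i ≤ j
  · have := congrFun (congrFun h i) j
    simp only [sym, Matrix.of_apply, if_pos hij, Matrix.zero_apply] at this
    simp [mask, hij, toAdd_eq_zero.1 this]
  · simp [mask, hij]

theorem inj_P {x : G} (hx : x ∈ D.P) (h : ρ x = 1) : x = 1 := by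
  obtain ⟨g, s, r, ⟨S, rfl⟩, rfl⟩ := hx
  have e := congrArg smat h
  rw [map_mul, map_mul, hρa, H, hρb, smat_mul, smat_mul, D.rho_Φ hρa hρb] at e
  change levi g * longm (H' s) * fromBlocks 1 (sym S) 0 1 = 1 at e
  obtain ⟨c00, c01, c10, c11⟩ := coe_H' s
  rw [longm, c00, c01, c10, c11, dblk, levi, fromBlocks_multiply, fromBlocks_multiply, ← fromBlocks_one,
    fromBlocks_inj] at e
  obtain ⟨eA, eB, -, -⟩ := e
  have z : (diagonal (at0 (k := k) (0 : F) 0)) = 0 := by simp [at0]
  simp only [z, Matrix.mul_zero, Matrix.zero_mul, add_zero, zero_add, Matrix.mul_one] at eA eB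
  rw [eA, Matrix.one_mul] at eB
  have hs : (s : F) = 1 := by
    have := congrArg Matrix.det eA
    rw [det_mul, det_one, g.2, one_mul, det_diagonal, Fintype.prod_eq_single 0 (fun j hj => at0_ne _ _ hj),
      at0_zero] at this
    exact this
  have hg : g = 1 := Subtype.ext (by
    rw [Matrix.SpecialLinearGroup.coe_one, ← eA, hs]
    simp [at0])
  rw [D.Φ_one_of_sym eB, hg, map_one, show s = 1 from Units.ext hs, H_one]
  simp

theorem rho_P_low {x : G} (hx : x ∈ D.P) (p : Fin (k + 3) → F) :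
    ∃ p' : Fin (k + 3) → F, smat (ρ x) *ᵥ Sum.elim p (0 : Fin (k + 3) → F) = Sum.elim p' (0 : Fin (k + 3) → F) := by
  obtain ⟨g, s, r, ⟨S, rfl⟩, rfl⟩ := hx
  obtain ⟨c00, c01, c10, c11⟩ := coe_H' s
  refine ⟨mat g *ᵥ Function.update p 0 ((H' s).1 0 0 * p 0 + (H' s).1 0 1 * 0), ?_⟩
  rw [map_mul, map_mul, hρa, H, hρb, smat_mul, smat_mul, D.rho_Φ hρa hρb, ← mulVec_mulVec, ← mulVec_mulVec]
  rw [show upB (symHom S) *ᵥ Sum.elim p 0 = Sum.elim p 0 by
    show fromBlocks 1 _ 0 1 *ᵥ _ = _
    rw [fromBlocks_mulVec]; simp]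
  rw [emL_mulVec]
  simp only [c10, c01, Pi.zero_apply, zero_mul, mul_zero, add_zero, Function.update_zero]
  rw [emS_mulVec, zero_vecMul]

theorem rho_rest_fix (m : ℕ) (hm : m < k + 3) :
    smat (ρ (D.rest m)) *ᵥ Sum.elim (E 0) 0 = Sum.elim (E 0) 0 := by
  induction m with
  | zero =>
    show smat (ρ 1) *ᵥ _ = _
    rw [map_one]; exact one_mulVec _
  | succ m ih =>
    set i : Fin (k + 3) := Fin.ofNat (k + 3) (m + 1)
    show smat (ρ (D.rest m * D.Ti i)) *ᵥ _ = _
    have hi : i ≠ 0 := fun e => by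
      have := congrArg Fin.val e
      simp [i, Nat.mod_eq_of_lt hm] at this
    obtain ⟨W, a1, a2⟩ := exists_W (F := F) i
    have e0 : (mat W⁻¹ *ᵥ E 0) 0 = 0 := by
      rw [← E_dot 0 (mat W⁻¹ *ᵥ E 0), dotProduct_mulVec, inv_vecMul_eq a2, E_dot]
      simp [E, hi]
    obtain ⟨c00, c01, c10, c11⟩ := coe_T' (F := F)
    rw [map_mul, smat_mul, ← mulVec_mulVec, Ti, D.Bi_apply a1 a2, map_mul, map_mul,
      map_inv, hρa, hρb, ← map_inv, smat_mul, smat_mul, ← mulVec_mulVec, ← mulVec_mulVec, emS_mulVec, zero_vecMul,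
      emL_mulVec, Pi.zero_apply, e0, mul_zero, mul_zero, add_zero, mul_zero, mul_zero, add_zero,
      Function.update_eq_self_iff.2 e0.symm, Function.update_zero, emS_mulVec, zero_vecMul, ← mul_mulVec',
      mul_inv_cancel, one_mulVec'', ih (by omega)]

theorem inj {x : G} (hx : x ∈ D.al.range ⊔ D.be.range) (h : ρ x = 1) : x = 1 := by
  obtain ⟨m, hm, p, hp, q, hq, rfl⟩ := D.cover hx
  rcases m with _ | m
  · exact D.inj_P hρa hρb (by rw [show D.wk 0 = 1 from rfl, mul_one]; exact mul_mem hp hq) h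
  · exfalso
    have e : ρ (D.wk (m + 1)) = ρ (p⁻¹ * q⁻¹) := by
      simp only [map_mul, map_inv] at h ⊢
      calc ρ (D.wk (m + 1)) = (ρ p)⁻¹ * (ρ p * ρ (D.wk (m + 1)) * ρ q) * (ρ q)⁻¹ := by group
        _ = _ := by rw [h]; group
    obtain ⟨p', e'⟩ := D.rho_P_low hρa hρb (mul_mem (inv_mem hp) (inv_mem hq)) (E 0)
    obtain ⟨c00, c01, c10, c11⟩ := coe_T' (F := F)
    rw [← e, D.wk_succ, map_mul, smat_mul, ← mulVec_mulVec, D.rho_rest_fix hρa hρb m (by omega), T, hρb,
      emL_mulVec] at e'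
    have := congrFun e' (Sum.inr 0)
    simp [c10, c11, E] at this

end Data

/-- The two factors generate the symplectic group. -/
theorem range_sup_eq_top [Finite F] : (emS (F := F) (k := k)).range ⊔ emL.range = ⊤ := by
  set H := (emS (F := F) (k := k)).range ⊔ emL.range
  have mS : ∀ g, emS g ∈ H := fun g => Subgroup.mem_sup_left ⟨g, rfl⟩
  have mL : ∀ g, emL g ∈ H := fun g => Subgroup.mem_sup_right ⟨g, rfl⟩
  let O : (Fin (k + 3) ⊕ Fin (k + 3) → F) → Prop := fun v => ∃ h ∈ H, smat h *ᵥ v = Sum.elim (E 0) 0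
  have back : ∀ h ∈ H, ∀ v, O (smat h *ᵥ v) → O v := by
    rintro h hh v ⟨l, hl, hlv⟩
    exact ⟨l * h, mul_mem hl hh, by rw [smat_mul, ← mulVec_mulVec, hlv]⟩
  have h0 : ∀ x : Fin (k + 3) → F, x ≠ 0 → O (Sum.elim x 0) := fun x hx => by
    obtain ⟨g, hg⟩ := exists_col x hx
    exact ⟨emS g⁻¹, mS _, by rw [emS_mulVec, zero_vecMul, inv_mulVec_eq hg]⟩
  have h1 : ∀ x : Fin (k + 3) → F, O (Sum.elim x (E 0)) := fun x => by
    rcases eq_or_ne (x 0) 0 with hx | hx
    · refine back _ (mL T') _ ?_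
      rw [emL_mulVec]
      obtain ⟨c00, c01, c10, c11⟩ := coe_T' (F := F)
      simp only [c00, c01, c10, c11, hx, mul_zero, zero_mul, add_zero, zero_add, one_mul]
      rw [show Function.update (E 0 : Fin (k + 3) → F) 0 0 = 0 by
          funext i; rcases eq_or_ne i 0 with rfl | h <;> simp [E, *]]
      refine h0 _ fun e => ?_
      have := congrFun e 0
      simp [E] at this
    · refine back _ (mL (Y' (-(x 0)⁻¹))) _ ?_
      rw [emL_mulVec,
        show Function.update (E 0 : Fin (k + 3) → F) 0 ((Y' (-(x 0)⁻¹)).1 1 0 * x 0 + (Y' (-(x 0)⁻¹)).1 1 1 * E 0 0) = 0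
          by funext i; rcases eq_or_ne i 0 with rfl | h <;> simp [E, Y', *]]
      refine h0 _ fun e => ?_
      have := congrFun e 0
      simp [Y', E, hx] at this
  have hall : ∀ v, v ≠ 0 → O v := by
    intro v hv
    obtain ⟨x, y, rfl⟩ : ∃ x y, v = Sum.elim x y := ⟨v ∘ Sum.inl, v ∘ Sum.inr, (Sum.elim_comp_inl_inr v).symm⟩
    rcases eq_or_ne y 0 with rfl | hy
    · refine h0 x fun e => hv ?_
      subst e
      funext i; rcases i with i | i <;> rfl
    · obtain ⟨h, hh⟩ := exists_col y hy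
      have hrow : E 0 ᵥ* mat h.transpose = y := by
        show E 0 ᵥ* (mat h)ᵀ = y
        rw [vecMul_transpose, hh]
      refine back _ (mS h.transpose) _ ?_
      rw [emS_mulVec, inv_vecMul_eq hrow]
      exact h1 _
  refine sp_eq_top_of_spT _ H fun v c => ?_
  rcases eq_or_ne v 0 with rfl | hv
  · rw [show spT (k + 3) (0 : Fin (k + 3) ⊕ Fin (k + 3) → F) c = 1 from sp_ext fun x => by simp [spT_mulVec]]
    exact one_mem _
  obtain ⟨h, hh, hhv⟩ := hall v hv
  have hx : spT (k + 3) (Sum.elim (E 0 : Fin (k + 3) → F) 0) c = emL (X' c) := by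
    refine sp_ext fun v => ?_
    obtain ⟨x, y, rfl⟩ : ∃ x y, v = Sum.elim x y := ⟨v ∘ Sum.inl, v ∘ Sum.inr, (Sum.elim_comp_inl_inr v).symm⟩
    rw [spT_mulVec, emL_mulVec, stdB, Matrix.toBilin'_apply', Matrix.J, fromBlocks_mulVec, sumElim_dotProduct_sumElim]
    simp only [Sum.elim_comp_inl, Sum.elim_comp_inr, Matrix.zero_mulVec, Matrix.neg_mulVec, Matrix.mulVec_zero,
      Matrix.one_mulVec, dotProduct_zero, neg_zero, add_zero, zero_add, dot_E]
    funext i
    rcases i with i | i <;> rcases eq_or_ne i 0 with rfl | hi <;> simp [X', E, *]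
  have key := spT_conj (k + 3) h v c
  rw [show (h : MM F k) *ᵥ v = Sum.elim (E 0) 0 from hhv, hx] at key
  rw [show spT (k + 3) v c = h⁻¹ * (h * spT (k + 3) v c * h⁻¹) * h by group, key]
  exact mul_mem (mul_mem (inv_mem hh) (mL _)) hh

end Cfsg.Agent.Lib.BoundedPres.Sp
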