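import Cfsg.Agent.Lib.BoundedPres.SpRoots

/-!
# The abelian radical generated by the long root elements
-/

set_option autoImplicit false

namespace Cfsg.Agent.Lib.BoundedPres.Sp

open Equiv Matrix Cfsg.Agent.Lib.GLn Cfsg.Agent.Lib.SLTwoPres.Core

universe u v

variable {F : Type u} [Field F] {G : Type v} [Group G] {k : ℕ}

theorem diag_E (s : F) (i : Fin (k + 3)) :
    Matrix.diagonal (dlt (k := k) s) *ᵥ E i = dlt (k := k) s i • (E i : Fin (k + 3) → F) := by
  funext a
  rw [mulVec_diagonal]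
  rcases eq_or_ne a i with rfl | h
  · simp [E]
  · simp [E, h]

theorem two_ne_zero'' : (2 : Fin (k + 3)) ≠ 0 := by
  simp [Fin.ext_iff, Fin.val_ofNat, Nat.mod_eq_of_lt (show 2 < k + 3 by omega)]

theorem two_ne_one'' : (2 : Fin (k + 3)) ≠ 1 := by
  simp [Fin.ext_iff, Fin.val_ofNat, Nat.mod_eq_of_lt (show 2 < k + 3 by omega)]

theorem dc_one (g : SL F k) : dc 1 g = g := Subtype.ext (by
  show mat (dc 1 g) = mat g
  rw [mat_dc]; simp [dlt_one])

theorem dc_dc (s t : Fˣ) (g : SL F k) : dc s (dc t g) = dc (s * t) g := Subtype.ext (by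
  show mat (dc s (dc t g)) = mat (dc (s * t) g)
  rw [mat_dc, mat_dc, mat_dc, Units.val_mul, _root_.mul_inv_rev, Units.val_mul, ← dlt_mul, ← dlt_mul]
  simp only [Matrix.mul_assoc])

namespace Data

variable (D : Data F G k)

/-- The one parameter torus. -/
def H (s : Fˣ) : G := D.be (H' s)

theorem H_mul (s t : Fˣ) : D.H (s * t) = D.H s * D.H t := by rw [H, H, H, H'_mul, map_mul]

theorem H_one : D.H 1 = 1 := by rw [H, H'_one, map_one]

theorem H_inv (s : Fˣ) : (D.H s)⁻¹ = D.H s⁻¹ :=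
  inv_eq_of_mul_eq_one_right (by rw [← H_mul, mul_inv_cancel, H_one])

theorem H_pow (n : ℕ) : D.H (D.ω ^ n) = D.h ^ n := by rw [H, ← H'_pow, map_pow, h]

theorem H_al (s : Fˣ) (g : SL F k) : D.H s * D.al g * (D.H s)⁻¹ = D.al (dc s g) := by
  obtain ⟨n, rfl⟩ := D.hω s
  rw [D.H_pow]
  induction n generalizing g with
  | zero => simp [dc_one]
  | succ n ih =>
    rw [pow_succ D.h, _root_.mul_inv_rev, show D.h ^ n * D.h * D.al g * (D.h⁻¹ * (D.h ^ n)⁻¹) =
      D.h ^ n * (D.h * D.al g * D.h⁻¹) * (D.h ^ n)⁻¹ by group, D.h_al, ih, dc_dc, ← pow_succ]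

/-- The Weyl element of the rank one group. -/
def T : G := D.be T'

theorem T_H (s : Fˣ) : D.T * D.H s = D.H s⁻¹ * D.T := by
  have e := congrArg D.be (T'_H' s)
  rw [map_mul, map_mul, map_mul, map_inv, map_one] at e
  rw [← D.H_inv, T, H]
  rw [eq_inv_mul_iff_mul_eq]
  calc D.be (H' s) * (D.be T' * D.be (H' s)) =
      D.be (H' s) * (D.be T' * D.be (H' s) * (D.be T')⁻¹ * D.be (H' s)) * (D.be (H' s))⁻¹ * D.be T' := by group
    _ = D.be T' := by rw [e]; group

theorem T_sq : D.T * D.T = D.H (-1) := by rw [T, H, ← map_mul, ← pow_two, T'_sq]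

variable [Finite F]

theorem H_Z (s : Fˣ) (v : Fin (k + 3) → F) (a : F) :
    D.H s * D.Z v a * (D.H s)⁻¹ = D.Z (Matrix.diagonal (dlt (s : F)) *ᵥ v) a := by
  obtain ⟨n, rfl⟩ := D.hω s
  rw [D.H_pow, D.hpow_Z]

theorem Z_at_zero (v : Fin (k + 3) → F) : D.Z v 0 = 1 := eq_zero_of_hom (D.Z_add v)

/-- The cross term of two vectors. -/
noncomputable def Yd (u v : Fin (k + 3) → F) (a : F) : G := D.Z (u + v) a * (D.Z u a)⁻¹ * (D.Z v a)⁻¹

theorem Z_pair (u v : Fin (k + 3) → F) (a : F) : D.Z (u + v) a = D.Yd u v a * D.Z v a * D.Z u a := by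
  rw [Yd]; group

theorem Yd_symm (u v : Fin (k + 3) → F) (a : F) : D.Yd u v a = D.Yd v u a := by
  rw [Yd, Yd, add_comm v u, mul_assoc, mul_assoc, ((D.Z_commute u v a a).inv_inv).eq]

theorem Yd_add (u v : Fin (k + 3) → F) (a b : F) : D.Yd u v (a + b) = D.Yd u v a * D.Yd u v b := by
  simp only [Yd, D.Z_add, _root_.mul_inv_rev]
  set A := D.Z (u + v) a
  set A' := D.Z (u + v) b
  set B := (D.Z u a)⁻¹ with hB
  set B' := (D.Z u b)⁻¹ with hB'
  set C := (D.Z v a)⁻¹ with hC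
  set C' := (D.Z v b)⁻¹ with hC'
  have k1 : Commute B A' := (D.Z_commute _ _ _ _).inv_left
  have k2 : Commute C A' := (D.Z_commute _ _ _ _).inv_left
  have k3 : Commute C B' := (D.Z_commute _ _ _ _).inv_inv
  have k4 : Commute B' B := (D.Z_commute _ _ _ _).inv_inv
  have k5 : Commute C' C := (D.Z_commute _ _ _ _).inv_inv
  calc A * A' * (B' * B) * (C' * C) = A * A' * (B * B') * (C * C') := by rw [k4.eq, k5.eq]
    _ = A * (A' * B) * (B' * C) * C' := by group
    _ = A * (B * A') * (C * B') * C' := by rw [k1.eq, k3.eq]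
    _ = A * B * (A' * C) * B' * C' := by group
    _ = A * B * (C * A') * B' * C' := by rw [k2.eq]
    _ = _ := by group

theorem equiv_Yd (g : SL F k) (u v : Fin (k + 3) → F) (a : F) :
    D.al g * D.Yd u v a * (D.al g)⁻¹ = D.Yd (mat g *ᵥ u) (mat g *ᵥ v) a := by
  rw [Yd, Yd, ← mulVec_add, ← D.equiv, ← D.equiv, ← D.equiv]
  group

theorem H_Yd (s : Fˣ) (u v : Fin (k + 3) → F) (a : F) :
    D.H s * D.Yd u v a * (D.H s)⁻¹ =
      D.Yd (Matrix.diagonal (dlt (s : F)) *ᵥ u) (Matrix.diagonal (dlt (s : F)) *ᵥ v) a := by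
  rw [Yd, Yd, ← mulVec_add, ← D.H_Z, ← D.H_Z, ← D.H_Z]
  group

theorem Yd_scal (c : F) (u v : Fin (k + 3) → F) (a : F) : D.Yd (c • u) (c • v) a = D.Yd u v (c ^ 2 * a) := by
  rw [Yd, Yd, ← smul_add, D.scal, D.scal, D.scal]

theorem Yd_zero_left (v : Fin (k + 3) → F) (a : F) : D.Yd 0 v a = 1 := by
  rw [Yd, zero_add, D.Z_zero]; group

theorem Yd_zero_right (v : Fin (k + 3) → F) (a : F) : D.Yd v 0 a = 1 := by
  rw [Yd, add_zero, D.Z_zero]; group

/-- The image of a root subgroup of the Levi factor. -/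
def y (t : F) : G := D.T⁻¹ * D.al (tr one_ne_zero' t) * D.T

omit [Finite F] in
theorem y_add (s t : F) : D.y (s + t) = D.y s * D.y t := by
  simp only [y, tr_add, map_mul]; group

omit [Finite F] in
theorem y_zero : D.y 0 = 1 := by rw [y, tr_zero, map_one]; group

omit [Finite F] in
theorem T_blk {g : SL F k} (hg : g ∈ Blk F k) : Commute (D.al g) D.T := D.stab g hg _

theorem Yd_base : D.Yd (E 0) (E 1) 1 = D.y 1 := by
  have e := D.trule
  have hx : mat (tr (zero_ne_one' (k := k)) (1 : F)) *ᵥ E 1 = E 0 + E 1 := by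
    rw [tr_mulVec, show (E 1 : Fin (k + 3) → F) 1 = 1 by simp [E], one_mul, one_smul]
    exact add_comm _ _
  have e1 : D.al D.w * D.be (X' 1) * (D.al D.w)⁻¹ = D.Z (E 1) 1 := (D.Z_E1 1).symm
  have e0 : D.be (X' 1) = D.Z (E 0) 1 := (D.Z_E0 1).symm
  rw [e1, D.equiv, hx, e0, show D.be T' = D.T from rfl] at e
  rw [y, ← e, Yd, mul_assoc _ (D.Z (E 0) 1)⁻¹, ((D.Z_commute (E 0) (E 1) 1 1).inv_inv).eq]
  group

theorem Yd01_units (c d : Fˣ) : D.Yd ((c : F) • E 0) ((d : F) • E 1) 1 = D.y ((c : F) * d) := by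
  have hc : D.Yd ((c : F) • E 0) (E 1) 1 = D.y c := by
    have e := D.H_Yd c (E 0) (E 1) 1
    rw [diag_E, diag_E, show dlt (k := k) (c : F) 0 = c by simp [dlt],
      show dlt (k := k) (c : F) 1 = 1 by simp [dlt], one_smul, D.Yd_base] at e
    rw [← e, y, y]
    have h1 : D.H c * D.T⁻¹ = D.T⁻¹ * D.H c⁻¹ := by
      rw [eq_inv_mul_iff_mul_eq, ← mul_assoc, D.T_H]; group
    have h2 : D.T * (D.H c)⁻¹ = D.H c * D.T := by rw [D.H_inv, D.T_H, inv_inv]
    have h3 := D.H_al c⁻¹ (tr one_ne_zero' (1 : F))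
    rw [D.H_inv c⁻¹, inv_inv, dc_tr, show dlt (k := k) ((c⁻¹ : Fˣ) : F) 1 = 1 by simp [dlt],
      show dlt (k := k) (((c⁻¹ : Fˣ)⁻¹ : Fˣ) : F) 0 = (c : F) by simp [dlt], one_mul, one_mul] at h3
    calc D.H c * (D.T⁻¹ * D.al (tr one_ne_zero' 1) * D.T) * (D.H c)⁻¹ =
        (D.H c * D.T⁻¹) * D.al (tr one_ne_zero' 1) * (D.T * (D.H c)⁻¹) := by group
      _ = D.T⁻¹ * (D.H c⁻¹ * D.al (tr one_ne_zero' 1) * D.H c) * D.T := by rw [h1, h2]; group
      _ = _ := by rw [h3]
  obtain ⟨g, hg, -, hg1, hgE1⟩ := exists_scale (k := k) d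
  have hb : g⁻¹ ∈ Blk F k := inv_mem hg
  have a1 : mat g⁻¹ *ᵥ E 1 = (d : F) • E 1 := by
    have := inv_mulVec_eq hgE1
    rw [mulVec_smul] at this
    conv_rhs => rw [← this]
    rw [smul_smul, Units.mul_inv, one_smul]
  have a0 : mat g⁻¹ *ᵥ ((c : F) • E 0) = (c : F) • E 0 := by rw [mulVec_smul, (mem_blk.1 hb).1]
  have hcT := D.T_blk hb
  rw [← a1, ← a0, ← D.equiv_Yd, hc, y, y]
  calc D.al g⁻¹ * (D.T⁻¹ * D.al (tr one_ne_zero' (c : F)) * D.T) * (D.al g⁻¹)⁻¹ =
      (D.al g⁻¹ * D.T⁻¹) * D.al (tr one_ne_zero' (c : F)) * (D.al g⁻¹ * D.T⁻¹)⁻¹ := by group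
    _ = D.T⁻¹ * (D.al g⁻¹ * D.al (tr one_ne_zero' (c : F)) * (D.al g⁻¹)⁻¹) * D.T := by
        rw [hcT.inv_right.eq]; group
    _ = _ := by rw [map_inv D.al, inv_inv, ← map_inv, ← map_mul, ← map_mul, hg1, mul_comm (d : F)]

theorem Yd01 (c d a : F) : D.Yd (c • E 0) (d • E 1) a = D.y (a * c * d) := by
  rcases eq_or_ne c 0 with rfl | hc
  · rw [zero_smul, D.Yd_zero_left, mul_zero, zero_mul, D.y_zero]
  rcases eq_or_ne d 0 with rfl | hd
  · rw [zero_smul, D.Yd_zero_right, mul_zero, D.y_zero]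
  refine SpFourPres.eq_of_squares (fun a => D.Yd (c • E 0) (d • E 1) a) (fun a => D.y (a * c * d))
    (D.Yd_add _ _) (fun a b => by rw [add_mul, add_mul, D.y_add]) (fun s => ?_) a
  rcases eq_or_ne s 0 with rfl | hs
  · show D.Yd _ _ ((0 : F) ^ 2) = D.y ((0 : F) ^ 2 * c * d)
    rw [zero_pow two_ne_zero, zero_mul, zero_mul, D.y_zero, eq_zero_of_hom (D.Yd_add _ _)]
  have := D.Yd01_units (Units.mk0 (s * c) (mul_ne_zero hs hc)) (Units.mk0 (s * d) (mul_ne_zero hs hd))
  simp only [Units.val_mk0] at this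
  rw [mul_smul, mul_smul, D.Yd_scal, mul_one] at this
  show D.Yd (c • E 0) (d • E 1) (s ^ 2) = _
  rw [this]
  congr 1
  ring

/-- The short root elements of the radical. -/
noncomputable def Yp (i j : Fin (k + 3)) (t : F) : G := D.Yd (E i) (E j) t

theorem Yd_E {i j : Fin (k + 3)} (hij : i ≠ j) (c d a : F) :
    D.Yd (c • E i) (d • E j) a = D.Yp i j (a * c * d) := by
  obtain ⟨g, g0, -, g1, -⟩ := exists_pair (F := F) hij 0 1 zero_ne_one'
  have e1 := D.Yd01 1 1 (a * c * d)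
  rw [one_smul, one_smul, mul_one, mul_one, ← D.Yd01 c d a] at e1
  have := congrArg (fun x => D.al g * x * (D.al g)⁻¹) e1
  simp only [D.equiv_Yd, mulVec_smul, g0, g1] at this
  exact this.symm

/-- The coordinate maps of the radical. -/
noncomputable def piece (p : Fin (k + 3) × Fin (k + 3)) : Multiplicative F →* G where
  toFun t := if p.1 = p.2 then D.Z (E p.1) t.toAdd else if p.1 < p.2 then D.Yp p.1 p.2 t.toAdd else 1
  map_one' := by
    split_ifs
    · exact D.Z_at_zero _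
    · exact eq_zero_of_hom (D.Yd_add _ _)
    · rfl
  map_mul' s t := by
    split_ifs
    · exact D.Z_add _ _ _
    · exact D.Yd_add _ _ _ _
    · exact (mul_one 1).symm

theorem piece_apply (p : Fin (k + 3) × Fin (k + 3)) (t : Multiplicative F) : D.piece p t =
    if p.1 = p.2 then D.Z (E p.1) t.toAdd else if p.1 < p.2 then D.Yp p.1 p.2 t.toAdd else 1 := rfl

theorem Yd_commute_Z (u v w : Fin (k + 3) → F) (a b : F) : Commute (D.Yd u v a) (D.Z w b) := by
  rw [Yd]
  exact ((D.Z_commute _ _ _ _).mul_left (D.Z_commute _ _ _ _).inv_left).mul_left (D.Z_commute _ _ _ _).inv_left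

theorem piece_commute (p q : Fin (k + 3) × Fin (k + 3)) (s t : Multiplicative F) :
    Commute (D.piece p s) (D.piece q t) := by
  rw [piece_apply, piece_apply]
  have hYY : ∀ (u v u' v' : Fin (k + 3) → F) (a b : F), Commute (D.Yd u v a) (D.Yd u' v' b) := fun u v u' v' a b =>
    (((D.Yd_commute_Z u v _ a b).mul_right (D.Yd_commute_Z u v _ a b).inv_right).mul_right
      (D.Yd_commute_Z u v _ a b).inv_right)
  split_ifs <;> first
    | exact Commute.one_left _
    | exact Commute.one_right _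
    | exact D.Z_commute _ _ _ _
    | exact D.Yd_commute_Z _ _ _ _ _
    | exact (D.Yd_commute_Z _ _ _ _ _).symm
    | exact hYY _ _ _ _ _ _

/-- The parametrisation of the radical by upper triangles. -/
noncomputable def Φ : (Fin (k + 3) × Fin (k + 3) → Multiplicative F) →* G :=
  MonoidHom.noncommPiCoprod D.piece fun p q _ s t => D.piece_commute p q s t

/-- The radical. -/
noncomputable def R : Subgroup G := D.Φ.range

theorem piece_mem (p : Fin (k + 3) × Fin (k + 3)) (t : Multiplicative F) : D.piece p t ∈ D.R :=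
  ⟨Pi.mulSingle p t, MonoidHom.noncommPiCoprod_mulSingle _ _ _⟩

theorem Z_E_mem (i : Fin (k + 3)) (a : F) : D.Z (E i) a ∈ D.R := by
  have := D.piece_mem (i, i) (Multiplicative.ofAdd a)
  rw [piece_apply, if_pos rfl] at this
  exact this

theorem Z_smulE_mem (c : F) (i : Fin (k + 3)) (a : F) : D.Z (c • E i) a ∈ D.R := by
  rw [D.scal]; exact D.Z_E_mem _ _

theorem Yp_mem {i j : Fin (k + 3)} (h : i ≠ j) (t : F) : D.Yp i j t ∈ D.R := by
  rcases lt_or_gt_of_ne h with hl | hl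
  · have := D.piece_mem (i, j) (Multiplicative.ofAdd t)
    rw [piece_apply, if_neg (ne_of_lt hl), if_pos hl] at this
    exact this
  · rw [Yp, D.Yd_symm]
    have := D.piece_mem (j, i) (Multiplicative.ofAdd t)
    rw [piece_apply, if_neg (ne_of_lt hl), if_pos hl] at this
    exact this

theorem Z_pair_mem {i j : Fin (k + 3)} (h : i ≠ j) (c d a : F) : D.Z (c • E i + d • E j) a ∈ D.R := by
  rw [D.Z_pair, D.Yd_E h]
  exact mul_mem (mul_mem (D.Yp_mem h _) (D.Z_smulE_mem _ _ _)) (D.Z_smulE_mem _ _ _)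

/-- A sufficient condition for the radical to be stable under an endomorphism. -/
theorem stable_of_gens (φ : G →* G) (h1 : ∀ i a, φ (D.Z (E i) a) ∈ D.R)
    (h2 : ∀ i j, i < j → ∀ a, φ (D.Yp i j a) ∈ D.R) : ∀ x ∈ D.R, φ x ∈ D.R := by
  intro x hx
  have hR : D.R = ⨆ p, (D.piece p).range := MonoidHom.noncommPiCoprod_range (ϕ := D.piece)
  have hle : D.R ≤ D.R.comap φ := by
    conv_lhs => rw [hR]
    rw [iSup_le_iff]
    rintro ⟨i, j⟩ z ⟨t, rfl⟩
    rw [Subgroup.mem_comap, piece_apply]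
    dsimp only
    split_ifs with e l
    · exact h1 i t.toAdd
    · exact h2 i j l t.toAdd
    · rw [map_one]; exact one_mem _
  exact hle hx

theorem mono_stable (g : SL F k) (σ : Perm (Fin (k + 3))) (c : Fin (k + 3) → F)
    (hg : ∀ m, mat g *ᵥ E m = c m • E (σ m)) : ∀ x ∈ D.R, D.al g * x * (D.al g)⁻¹ ∈ D.R :=
  D.stable_of_gens (MulAut.conj (D.al g)).toMonoidHom
    (fun i a => by
      simp only [MulEquiv.coe_toMonoidHom, MulAut.conj_apply]
      rw [D.equiv, hg]; exact D.Z_smulE_mem _ _ _)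
    (fun i j h a => by
      simp only [MulEquiv.coe_toMonoidHom, MulAut.conj_apply]
      rw [Yp, D.equiv_Yd, hg, hg, D.Yd_E (σ.injective.ne h.ne)]
      exact D.Yp_mem (σ.injective.ne h.ne) _)

theorem H_stable (s : Fˣ) : ∀ x ∈ D.R, D.H s * x * (D.H s)⁻¹ ∈ D.R :=
  D.stable_of_gens (MulAut.conj (D.H s)).toMonoidHom
    (fun i a => by
      simp only [MulEquiv.coe_toMonoidHom, MulAut.conj_apply]
      rw [D.H_Z, diag_E]; exact D.Z_smulE_mem _ _ _)
    (fun i j h a => by
      simp only [MulEquiv.coe_toMonoidHom, MulAut.conj_apply]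
      rw [Yp, D.H_Yd, diag_E, diag_E, D.Yd_E h.ne]
      exact D.Yp_mem h.ne _)

theorem triple_base : D.Z (E 0 + E 1 + E 2) 1 ∈ D.R := by
  have n1 : (E 0 + E 1 + E 2 : Fin (k + 3) → F) ≠ 0 := fun e => by
    have := congrFun e 0
    simp [E, two_ne_zero''.symm] at this
  have n2 : (E 0 + E 1 : Fin (k + 3) → F) ≠ 0 := fun e => by
    have := congrFun e 0
    simp [E] at this
  have n3 : (E 0 + E 2 : Fin (k + 3) → F) ≠ 0 := fun e => by
    have := congrFun e 0
    simp [E, two_ne_zero''.symm] at this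
  have n4 : (E 1 + E 2 : Fin (k + 3) → F) ≠ 0 := fun e => by
    have := congrFun e 1
    simp [E, two_ne_one''.symm] at this
  obtain ⟨g1, h1⟩ := exists_col (F := F) (k := k) _ n1
  obtain ⟨g2, h2⟩ := exists_col (F := F) (k := k) _ n2
  obtain ⟨g3, h3⟩ := exists_col (F := F) (k := k) _ n3
  obtain ⟨g4, h4⟩ := exists_col (F := F) (k := k) _ n4
  obtain ⟨g5, h5⟩ := exists_col (F := F) (k := k) _ (E_ne 2)
  have e := D.radd g1 g2 g3 g4 g5 h1 h2 h3 h4 h5 (fun g g' hgg => by
    have a1 := D.Z_eq (g := g) rfl 1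
    have a2 := D.Z_eq (g := g') hgg.symm 1
    exact a1.symm.trans a2)
  have c : ∀ {g : SL F k} {v : Fin (k + 3) → F}, mat g *ᵥ E 0 = v →
      D.al g * D.be (X' 1) * (D.al g)⁻¹ = D.Z v 1 := fun hg => (D.Z_eq hg 1).symm
  rw [c h1, c h2, c h3, c h4, c h5, c D.w0, show D.be (X' 1) = D.Z (E 0) 1 from (D.Z_E0 1).symm] at e
  have hm : D.Z (E 0) 1 * D.Z (E 1) 1 * D.Z (E 2) 1 ∈ D.R :=
    mul_mem (mul_mem (D.Z_E_mem _ _) (D.Z_E_mem _ _)) (D.Z_E_mem _ _)
  have hr : D.Z (E 0 + E 1) 1 * D.Z (E 0 + E 2) 1 * D.Z (E 1 + E 2) 1 ∈ D.R := by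
    have p : ∀ {i j : Fin (k + 3)}, i ≠ j → D.Z (E i + E j) 1 ∈ D.R := fun h => by
      simpa using D.Z_pair_mem h 1 1 1
    exact mul_mem (mul_mem (p zero_ne_one') (p two_ne_zero''.symm)) (p two_ne_one''.symm)
  rw [← e] at hr
  have := mul_mem hr (inv_mem hm)
  simpa [mul_assoc] using this

theorem triple_mem {i j l : Fin (k + 3)} (hij : i ≠ j) (hil : i ≠ l) (hjl : j ≠ l) (c d e a : F) :
    D.Z (c • E i + d • E j + e • E l) a ∈ D.R := by
  rcases eq_or_ne c 0 with rfl | hc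
  · rw [zero_smul, zero_add]; exact D.Z_pair_mem hjl _ _ _
  rcases eq_or_ne d 0 with rfl | hd
  · rw [zero_smul, add_zero]; exact D.Z_pair_mem hil _ _ _
  rcases eq_or_ne e 0 with rfl | he
  · rw [zero_smul, add_zero]; exact D.Z_pair_mem hij _ _ _
  -- scaled copies of the base vector
  have hbase : ∀ c d e : F, c ≠ 0 → d ≠ 0 → e ≠ 0 → D.Z (c • E 0 + d • E 1 + e • E 2) 1 ∈ D.R := by
    intro c d e hc hd he
    let f : Fin (k + 3) → F := Function.update (Function.update (fun _ => (1 : F)) 1 d) 2 e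
    obtain ⟨g, c', hc', hg, hgz, -⟩ := exists_mono (1 : Perm (Fin (k + 3))) 0 f (fun m => by
      rcases eq_or_ne m 2 with rfl | h
      · simpa [f] using he
      rcases eq_or_ne m 1 with rfl | h'
      · simpa [f, Function.update_of_ne h] using hd
      · simp [f, Function.update_of_ne h, Function.update_of_ne h'])
    have hall : ∀ m, mat g *ᵥ E m = (if m = 0 then c' else f m) • E ((1 : Perm (Fin (k + 3))) m) := fun m => by
      split_ifs with h
      · rw [h]; exact hgz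
      · exact (hg m h).1
    have m1 := D.mono_stable g 1 _ hall _ D.triple_base
    rw [D.equiv, mulVec_add, mulVec_add, hgz, (hg 1 one_ne_zero').1, (hg 2 two_ne_zero'').1,
      Perm.one_apply, Perm.one_apply, Perm.one_apply,
      show f 2 = e from Function.update_self _ _ _,
      show f 1 = d by simp [f, Function.update_of_ne two_ne_one''.symm]] at m1
    have m2 := D.H_stable (Units.mk0 c hc * (Units.mk0 c' hc')⁻¹) _ m1
    rw [D.H_Z, mulVec_add, mulVec_add, mulVec_smul, mulVec_smul, mulVec_smul, diag_E, diag_E, diag_E,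
      smul_smul, smul_smul, smul_smul] at m2
    simp [dlt, Function.update_of_ne two_ne_zero''] at m2
    rwa [mul_comm c, ← mul_assoc, mul_inv_cancel₀ hc', one_mul] at m2
  let σ0 : Perm (Fin (k + 3)) := swap 0 i
  let σ1 : Perm (Fin (k + 3)) := swap (σ0 1) j * σ0
  let σ : Perm (Fin (k + 3)) := swap (σ1 2) l * σ1
  have s10 : σ1 0 = i := by
    have e1 : σ0 0 = i := swap_apply_left _ _
    rw [Perm.mul_apply, e1, swap_apply_of_ne_of_ne (fun h => zero_ne_one' (σ0.injective (e1.trans h))) hij]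
  have s11 : σ1 1 = j := by rw [Perm.mul_apply, swap_apply_left]
  have s0 : σ 0 = i := by
    rw [Perm.mul_apply, s10, swap_apply_of_ne_of_ne (fun h => two_ne_zero''.symm (σ1.injective (s10.trans h))) hil]
  have s1 : σ 1 = j := by
    rw [Perm.mul_apply, s11, swap_apply_of_ne_of_ne (fun h => two_ne_one''.symm (σ1.injective (s11.trans h))) hjl]
  have s2 : σ 2 = l := by rw [Perm.mul_apply, swap_apply_left]
  obtain ⟨g, c', hc', hg, hgz, -⟩ := exists_mono σ 0 (fun _ => (1 : F)) (fun _ => one_ne_zero)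
  have hall : ∀ m, mat g *ᵥ E m = (if m = 0 then c' else (1 : F)) • E (σ m) := fun m => by
    split_ifs with h
    · rw [h]; exact hgz
    · exact (hg m h).1
  let M : AddSubgroup F :=
    { carrier := {a | D.Z (c • E i + d • E j + e • E l) a ∈ D.R}
      add_mem' := fun {a b} ha hb => by
        show D.Z _ (a + b) ∈ D.R
        rw [D.Z_add]; exact mul_mem ha hb
      zero_mem' := by show D.Z _ 0 ∈ D.R; rw [D.Z_at_zero]; exact one_mem _
      neg_mem' := fun {a} ha => by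
        show D.Z _ (-a) ∈ D.R
        have := D.Z_add (c • E i + d • E j + e • E l) (-a) a
        rw [neg_add_cancel, D.Z_at_zero] at this
        rw [eq_inv_of_mul_eq_one_left this.symm]
        exact inv_mem ha }
  have : a ∈ M := by
    rw [SpFourPres.squares_span M (fun s => ?_)]; · trivial
    show D.Z _ (s ^ 2) ∈ D.R
    rcases eq_or_ne s 0 with rfl | hs
    · rw [zero_pow two_ne_zero, D.Z_at_zero]; exact one_mem _
    have h1 := D.mono_stable g σ _ hall _
      (hbase (c'⁻¹ * (s * c)) (s * d) (s * e) (mul_ne_zero (inv_ne_zero hc') (mul_ne_zero hs hc))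
        (mul_ne_zero hs hd) (mul_ne_zero hs he))
    rw [D.equiv, mulVec_add, mulVec_add, mulVec_smul, mulVec_smul, mulVec_smul, hall, hall, hall, if_pos rfl,
      if_neg one_ne_zero', if_neg two_ne_zero'', s0, s1, s2, smul_smul, smul_smul, smul_smul, mul_one, mul_one,
      mul_right_comm, inv_mul_cancel₀ hc', one_mul, mul_smul, mul_smul, mul_smul, ← smul_add, ← smul_add, D.scal,
      mul_one] at h1
    exact h1
  exact this

theorem tr_stable {i j : Fin (k + 3)} (hij : i ≠ j) (t : F) :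
    ∀ x ∈ D.R, D.al (tr hij t) * x * (D.al (tr hij t))⁻¹ ∈ D.R := by
  have hE : ∀ m, mat (tr hij t) *ᵥ (E m : Fin (k + 3) → F) = if m = j then E j + t • E i else E m := fun m => by
    rw [tr_mulVec]
    split_ifs with h
    · subst h; simp [E]
    · simp [E, Ne.symm h]
  refine D.stable_of_gens (MulAut.conj (D.al (tr hij t))).toMonoidHom (fun m a => ?_) (fun m n hmn a => ?_)
  · simp only [MulEquiv.coe_toMonoidHom, MulAut.conj_apply]
    rw [D.equiv, hE]
    split_ifs
    · have := D.Z_pair_mem hij.symm 1 t a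
      rwa [one_smul] at this
    · exact D.Z_E_mem _ _
  · simp only [MulEquiv.coe_toMonoidHom, MulAut.conj_apply]
    have key : ∀ n, j ≠ n → ∀ a, D.Yd (E j + t • E i) (E n) a ∈ D.R := by
      intro n hn a
      have h1 : D.Z (E j + t • E i + E n) a ∈ D.R := by
        rcases eq_or_ne i n with rfl | hin
        · have := D.Z_pair_mem hij.symm 1 (t + 1) a
          rwa [one_smul, add_smul, one_smul, ← add_assoc] at this
        · have := D.triple_mem hij.symm hn hin 1 t 1 a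
          rwa [one_smul, one_smul] at this
      have h2 : D.Z (E j + t • E i) a ∈ D.R := by
        have := D.Z_pair_mem hij.symm 1 t a
        rwa [one_smul] at this
      exact mul_mem (mul_mem h1 (inv_mem h2)) (inv_mem (D.Z_E_mem _ _))
    rw [Yp, D.equiv_Yd, hE, hE]
    by_cases hm : m = j <;> by_cases hn : n = j
    · exact absurd (hm.trans hn.symm) hmn.ne
    · rw [if_pos hm, if_neg hn]; exact key n (Ne.symm hn) a
    · rw [if_neg hm, if_pos hn, D.Yd_symm]; exact key m (Ne.symm hm) a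
    · rw [if_neg hm, if_neg hn]; exact D.Yp_mem hmn.ne a

theorem al_stable (g : SL F k) : ∀ x ∈ D.R, D.al g * x * (D.al g)⁻¹ ∈ D.R := by
  induction g using Cfsg.Agent.Lib.Classical.SL_transvection_induction with
  | h1 => intro x hx; simpa using hx
  | hmul a b ha hb =>
    intro x hx
    have := ha _ (hb x hx)
    rw [map_mul, _root_.mul_inv_rev]
    simpa [mul_assoc] using this
  | htransvec i j hij t => exact D.tr_stable hij t

theorem Z_mem (v : Fin (k + 3) → F) (a : F) : D.Z v a ∈ D.R := by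
  rcases eq_or_ne v 0 with rfl | hv
  · rw [D.Z_zero]; exact one_mem _
  obtain ⟨g, hg⟩ := exists_col v hv
  have := D.al_stable g _ (D.Z_E_mem 0 a)
  rwa [D.equiv, hg] at this

theorem Yd_mem (u v : Fin (k + 3) → F) (a : F) : D.Yd u v a ∈ D.R :=
  mul_mem (mul_mem (D.Z_mem _ _) (inv_mem (D.Z_mem _ _))) (inv_mem (D.Z_mem _ _))

theorem R_commute {x x' : G} (h : x ∈ D.R) (h' : x' ∈ D.R) : Commute x x' := by
  obtain ⟨s, rfl⟩ := h
  obtain ⟨s', rfl⟩ := h'
  exact (Commute.all s s').map D.Φ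

end Data

end Cfsg.Agent.Lib.BoundedPres.Sp
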