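import Cfsg.Agent.Lib.BoundedPres.SpMatrix
import Cfsg.Agent.Lib.BoundedPres.SLnMatrix
import Cfsg.Agent.Lib.GLn.CycleTwoGen

/-!
# The twelve relations joining the Levi factor and the long root `SL₂`
-/

set_option autoImplicit false

namespace Cfsg.Agent.Lib.BoundedPres.Sp

open Equiv Matrix Cfsg.Agent.Lib.GLn Cfsg.Agent.Lib.SLTwoPres.Core Cfsg.Agent.Lib.Classical Cfsg.Agent.Lib.Forms
open scoped commutatorElement

universe u v

variable {F : Type u} [Field F] {k : ℕ}

/-- The indices of the block. -/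
def blkEquiv (k : ℕ) : Fin 1 ⊕ Fin (k + 2) ≃ Fin (k + 3) := finSumFinEquiv.trans (finCongr (by omega))

theorem blkEquiv_inl (i : Fin 1) : blkEquiv k (Sum.inl i) = 0 := by
  fin_cases i; rfl

/-- The block as a special linear group. -/
def blkHom : Matrix.SpecialLinearGroup (Fin (k + 2)) F →* SL F k where
  toFun g := SLn.slCongr (blkEquiv k) ⟨fromBlocks 1 0 0 (g : Matrix (Fin (k + 2)) (Fin (k + 2)) F), by
    rw [det_fromBlocks_zero₂₁, det_one, one_mul, g.2]⟩
  map_one' := (congrArg (SLn.slCongr (F := F) (blkEquiv k)) (Subtype.ext (by simp [fromBlocks_one]))).trans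
    (map_one (SLn.slCongr (F := F) (blkEquiv k)))
  map_mul' g h := (congrArg (SLn.slCongr (F := F) (blkEquiv k)) (Subtype.ext (show fromBlocks 1 0 0 (_ : Matrix _ _ F) = fromBlocks 1 0 0 _ * fromBlocks 1 0 0 _ by
    simp [fromBlocks_multiply]))).trans
    (map_mul (SLn.slCongr (F := F) (blkEquiv k)) _ _)

theorem blk_le : Blk F k ≤ (blkHom (F := F) (k := k)).range := by
  intro g hg
  obtain ⟨h1, h2⟩ := mem_blk.1 hg
  rw [mulVec_E] at h1
  rw [E_vecMul] at h2
  have hinr : ∀ i, blkEquiv k (Sum.inr i) ≠ 0 := fun i e => by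
    rw [← blkEquiv_inl (k := k) 0] at e
    exact Sum.inr_ne_inl ((blkEquiv k).injective e)
  let N := (mat g).submatrix (fun i => blkEquiv k (Sum.inr i)) (fun i => blkEquiv k (Sum.inr i))
  have hM : Matrix.reindex (blkEquiv k).symm (blkEquiv k).symm (mat g) = fromBlocks 1 0 0 N := by
    ext a b
    rcases a with a | a <;> rcases b with b | b <;>
      simp only [reindex_apply, submatrix_apply, Equiv.symm_symm, fromBlocks_apply₁₁, fromBlocks_apply₁₂,
        fromBlocks_apply₂₁, fromBlocks_apply₂₂, N, blkEquiv_inl]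
    · fin_cases a; fin_cases b
      simpa [E] using congrFun h1 0
    · have := congrFun h2 (blkEquiv k (Sum.inr b))
      simpa [E, hinr] using this
    · have := congrFun h1 (blkEquiv k (Sum.inr a))
      simpa [E, hinr] using this
  have hdet : N.det = 1 := by
    have := congrArg Matrix.det hM
    rw [det_reindex_self, det_fromBlocks_zero₂₁, det_one, one_mul, g.2] at this
    exact this.symm
  refine ⟨⟨N, hdet⟩, ?_⟩
  show SLn.slCongr (blkEquiv k) _ = g
  refine Subtype.ext ?_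
  show Matrix.reindex (blkEquiv k) (blkEquiv k) (fromBlocks 1 0 0 N) = mat g
  rw [← hM]
  ext a b
  simp

theorem blkHom_mem (g : Matrix.SpecialLinearGroup (Fin (k + 2)) F) : blkHom g ∈ Blk F k := by
  have e : ∀ a b, mat (blkHom (k := k) g) a b =
      fromBlocks 1 0 0 (g : Matrix (Fin (k + 2)) (Fin (k + 2)) F) ((blkEquiv k).symm a) ((blkEquiv k).symm b) :=
    fun a b => rfl
  have e0 : (blkEquiv k).symm 0 = Sum.inl 0 := (Equiv.symm_apply_eq _).2 (blkEquiv_inl 0).symm
  refine ⟨?_, ?_⟩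
  · rw [mulVec_E]
    funext a
    obtain ⟨a, rfl⟩ := (blkEquiv k).surjective a
    rw [e, e0, Equiv.symm_apply_apply]
    rcases a with a | a
    · fin_cases a; simp [E, blkEquiv_inl]
    · have : blkEquiv k (Sum.inr a) ≠ 0 := fun h => Sum.inr_ne_inl ((blkEquiv k).injective (h.trans (blkEquiv_inl 0).symm))
      simp [E, this]
  · rw [E_vecMul]
    funext a
    obtain ⟨a, rfl⟩ := (blkEquiv k).surjective a
    rw [e, e0, Equiv.symm_apply_apply]
    rcases a with a | a
    · fin_cases a; simp [E, blkEquiv_inl]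
    · have : blkEquiv k (Sum.inr a) ≠ 0 := fun h => Sum.inr_ne_inl ((blkEquiv k).injective (h.trans (blkEquiv_inl 0).symm))
      simp [E, this]

variable (F k) in
theorem exists_w : ∃ w : SL F k, mat w *ᵥ E 0 = E 1 ∧ E 1 ᵥ* mat w = E 0 ∧ mat w *ᵥ E 1 = E 0 ∧
    E 0 ᵥ* mat w = E 1 ∧ w * w = 1 := by
  let d : Fin (k + 3) → F := Function.update (fun _ => 1) 2 (-1)
  have hdet : (Perm.sign (swap (0 : Fin (k + 3)) 1) : F) * ∏ i, d i = 1 := by
    rw [Perm.sign_swap zero_ne_one', Fintype.prod_eq_single 2 (fun i hi => Function.update_of_ne hi _ _)]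
    simp [d]
  have d0 : d 0 = 1 := Function.update_of_ne two_ne_zero''.symm _ _
  have d1 : d 1 = 1 := Function.update_of_ne two_ne_one''.symm _ _
  have c := mono_mulVec (swap (0 : Fin (k + 3)) 1) d hdet
  have r := vecMul_mono (swap (0 : Fin (k + 3)) 1) d hdet
  set w := mono (swap (0 : Fin (k + 3)) 1) d hdet
  refine ⟨w, ?_, ?_, ?_, ?_, ?_⟩
  · rw [c, d0, swap_apply_left, one_smul]
  · have := r 0; rwa [d0, swap_apply_left, one_smul] at this
  · rw [c, d1, swap_apply_right, one_smul]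
  · have := r 1; rwa [d1, swap_apply_right, one_smul] at this
  · refine Subtype.ext ?_
    show mat (w * w) = 1
    rw [mat_mul']
    ext i j
    have h1 : ((mat w * mat w) *ᵥ E j) i = (E j : Fin (k + 3) → F) i := by
      rw [← mulVec_mulVec, c, mulVec_smul, c, smul_smul, swap_apply_self]
      rcases eq_or_ne j 0 with rfl | hj0
      · rw [swap_apply_left, d0, d1, mul_one, one_smul]
      rcases eq_or_ne j 1 with rfl | hj1
      · rw [swap_apply_right, d0, d1, mul_one, one_smul]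
      rw [swap_apply_of_ne_of_ne hj0 hj1]
      rcases eq_or_ne j 2 with rfl | hj2
      · simp [d]
      · simp [d, Function.update_of_ne hj2]
    rw [mulVec_E] at h1
    simp only at h1
    rw [h1]
    simp [E, Matrix.one_apply, Pi.single_apply]

variable (F k) in
/-- The chosen involution swapping the first two coordinates. -/
noncomputable def wsw : SL F k := (exists_w F k).choose

theorem wsw_spec : mat (wsw F k) *ᵥ E 0 = E 1 ∧ E 1 ᵥ* mat (wsw F k) = E 0 ∧ mat (wsw F k) *ᵥ E 1 = E 0 ∧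
    E 0 ᵥ* mat (wsw F k) = E 1 ∧ wsw F k * wsw F k = 1 := (exists_w F k).choose_spec

theorem sum012_ne : (E 0 + E 1 + E 2 : Fin (k + 3) → F) ≠ 0 := fun e => by
  have := congrFun e 0
  simp [E, two_ne_zero''.symm] at this

theorem sum01_ne : (E 0 + E 1 : Fin (k + 3) → F) ≠ 0 := fun e => by
  have := congrFun e 0
  simp [E] at this

theorem sum02_ne : (E 0 + E 2 : Fin (k + 3) → F) ≠ 0 := fun e => by
  have := congrFun e 0
  simp [E, two_ne_zero''.symm] at this

theorem sum12_ne : (E 1 + E 2 : Fin (k + 3) → F) ≠ 0 := fun e => by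
  have := congrFun e 1
  simp [E, two_ne_one''.symm] at this

/-- The vectors of the additivity relation. -/
def tvec : Fin 5 → Fin (k + 3) → F := ![E 0 + E 1 + E 2, E 0 + E 1, E 0 + E 2, E 1 + E 2, E 2]

theorem tvec_ne (l : Fin 5) : (tvec l : Fin (k + 3) → F) ≠ 0 := by
  fin_cases l
  exacts [sum012_ne, sum01_ne, sum02_ne, sum12_ne, E_ne 2]

/-- Elements with the vectors of the additivity relation as first columns. -/
noncomputable def tg (l : Fin 5) : SL F k := (exists_col (tvec l) (tvec_ne l)).choose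

theorem tg_spec (l : Fin 5) : mat (tg (F := F) (k := k) l) *ᵥ E 0 = tvec l :=
  (exists_col (tvec l) (tvec_ne l)).choose_spec

variable (gB : Fin 2 → SL F k) (yB : Fin 2 → Matrix.SpecialLinearGroup (Fin 2) F) (ω : Fˣ)

section eqs

variable {K : Type*} [Group K]

/-- The relations. -/
noncomputable def eqs (a : SL F k → K) (b : Matrix.SpecialLinearGroup (Fin 2) F → K) : Fin 12 → K :=
  ![⁅a (gB 0), b (yB 0)⁆, ⁅a (gB 0), b (yB 1)⁆, ⁅a (gB 1), b (yB 0)⁆, ⁅a (gB 1), b (yB 1)⁆,
    b (H' ω) * a (tr zero_ne_one' 1) * (b (H' ω))⁻¹ * (a (tr zero_ne_one' (ω : F)))⁻¹,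
    b (H' ω) * a (tr one_ne_zero' 1) * (b (H' ω))⁻¹ * (a (tr one_ne_zero' ((ω⁻¹ : Fˣ) : F)))⁻¹,
    ⁅b (X' 1), a (tr zero_ne_one' 1)⁆,
    ⁅b (yB 0), a (wsw F k) * b (yB 0) * (a (wsw F k))⁻¹⁆,
    ⁅b (yB 0), a (wsw F k) * b (yB 1) * (a (wsw F k))⁻¹⁆,
    ⁅b (yB 1), a (wsw F k) * b (yB 1) * (a (wsw F k))⁻¹⁆,
    a (tg 0) * b (X' 1) * (a (tg 0))⁻¹ * b (X' 1) * (a (wsw F k) * b (X' 1) * (a (wsw F k))⁻¹) *
      (a (tg 4) * b (X' 1) * (a (tg 4))⁻¹) *
      (a (tg 1) * b (X' 1) * (a (tg 1))⁻¹ * (a (tg 2) * b (X' 1) * (a (tg 2))⁻¹) *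
        (a (tg 3) * b (X' 1) * (a (tg 3))⁻¹))⁻¹,
    b T' * (a (tr zero_ne_one' 1) * (a (wsw F k) * b (X' 1) * (a (wsw F k))⁻¹) * (a (tr zero_ne_one' 1))⁻¹ *
      (a (wsw F k) * b (X' 1) * (a (wsw F k))⁻¹)⁻¹ * (b (X' 1))⁻¹) * (b T')⁻¹ * (a (tr one_ne_zero' 1))⁻¹]

theorem map_eqs {K' : Type*} [Group K'] (φ : K →* K') (a : SL F k → K) (b : Matrix.SpecialLinearGroup (Fin 2) F → K)
    (i : Fin 12) : φ (eqs gB yB ω a b i) = eqs gB yB ω (fun g => φ (a g)) (fun y => φ (b y)) i := by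
  fin_cases i <;> simp [eqs, commutatorElement_def]

theorem commute_closure (b : Matrix.SpecialLinearGroup (Fin 2) F →* K) (hyB : Subgroup.closure (Set.range yB) = ⊤)
    {x : K} (h : ∀ l, Commute x (b (yB l))) (y : Matrix.SpecialLinearGroup (Fin 2) F) : Commute x (b y) := by
  have hle : Subgroup.closure (Set.range yB) ≤ (Subgroup.centralizer {x}).comap b := by
    rw [Subgroup.closure_le]
    rintro _ ⟨l, rfl⟩
    exact Subgroup.mem_centralizer_singleton_iff.2 (h l).eq.symm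
  exact (Subgroup.mem_centralizer_singleton_iff.1 (hle (hyB ▸ Subgroup.mem_top y))).symm

/-- The relations imply all the hypotheses. -/
noncomputable def dataOf (a : SL F k →* K) (b : Matrix.SpecialLinearGroup (Fin 2) F →* K)
    (hω : ∀ s : Fˣ, ∃ n : ℕ, ω ^ n = s) (hgB : Blk F k ≤ Subgroup.closure (Set.range gB))
    (hyB : Subgroup.closure (Set.range yB) = ⊤) (h : ∀ i, eqs gB yB ω a b i = 1) : Data F K k where
  al := a
  be := b
  ω := ω
  hω := hω
  w := wsw F k
  w0 := wsw_spec.1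
  w0' := wsw_spec.2.1
  w1 := wsw_spec.2.2.1
  w1' := wsw_spec.2.2.2.1
  stab := by
    intro g hg y
    refine commute_closure yB b hyB (fun l => ?_) y
    have hle : Subgroup.closure (Set.range gB) ≤ (Subgroup.centralizer {b (yB l)}).comap a := by
      rw [Subgroup.closure_le]
      rintro _ ⟨m, rfl⟩
      refine Subgroup.mem_centralizer_singleton_iff.2 ?_
      have h0 := h 0
      have h1 := h 1
      have h2 := h 2
      have h3 := h 3
      simp only [eqs, Matrix.cons_val, commutatorElement_eq_one_iff_mul_comm] at h0 h1 h2 h3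
      fin_cases l <;> fin_cases m <;> assumption
    exact Subgroup.mem_centralizer_singleton_iff.1 (hle (hgB hg))
  sc01 := by
    have := h 4
    simpa [eqs, mul_inv_eq_one] using this
  sc10 := by
    have := h 5
    simpa [eqs, mul_inv_eq_one] using this
  zc := by
    have := h 6
    simp only [eqs, Matrix.cons_val, commutatorElement_eq_one_iff_mul_comm] at this
    exact this
  ll := by
    intro y y'
    have h7 := h 7
    have h8 := h 8
    have h9 := h 9
    simp only [eqs, Matrix.cons_val, commutatorElement_eq_one_iff_mul_comm] at h7 h8 h9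
    have hww : a (wsw F k) * a (wsw F k) = 1 := by rw [← map_mul, wsw_spec.2.2.2.2, map_one]
    have hw' : (a (wsw F k))⁻¹ = a (wsw F k) := inv_eq_of_mul_eq_one_right hww
    have hconj : ∀ x : K, a (wsw F k) * (a (wsw F k) * x * (a (wsw F k))⁻¹) * (a (wsw F k))⁻¹ = x := fun x => by
      calc a (wsw F k) * (a (wsw F k) * x * (a (wsw F k))⁻¹) * (a (wsw F k))⁻¹ =
          (a (wsw F k) * a (wsw F k)) * x * (a (wsw F k) * a (wsw F k))⁻¹ := by group
        _ = x := by rw [hww]; group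
    have h8' : Commute (b (yB 1)) (a (wsw F k) * b (yB 0) * (a (wsw F k))⁻¹) := by
      have := SpFourPres.commute_conj (a (wsw F k)) (show Commute _ _ from h8)
      rw [hconj] at this
      exact this.symm
    refine (commute_closure yB b hyB (x := a (wsw F k) * b y' * (a (wsw F k))⁻¹) (fun l => ?_) y).symm
    have h2 := commute_closure yB ((MulAut.conj (a (wsw F k))).toMonoidHom.comp b) hyB (x := b (yB l)) (fun m => ?_) y'
    · exact h2.symm
    · fin_cases l <;> fin_cases m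
      exacts [h7, h8, h8', h9]
  radd := by
    intro g012 g01 g02 g12 g2 e1 e2 e3 e4 e5 hwd
    rw [hwd g012 (tg 0) (e1.trans ((tg_spec (F := F) (k := k) 0).symm)), hwd g01 (tg 1) (e2.trans ((tg_spec (F := F) (k := k) 1).symm)),
      hwd g02 (tg 2) (e3.trans ((tg_spec (F := F) (k := k) 2).symm)), hwd g12 (tg 3) (e4.trans ((tg_spec (F := F) (k := k) 3).symm)),
      hwd g2 (tg 4) (e5.trans ((tg_spec (F := F) (k := k) 4).symm))]
    exact mul_inv_eq_one.1 (h 10)
  trule := mul_inv_eq_one.1 (h 11)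

end eqs

theorem update_zero_eq (p : Fin (k + 3) → F) (c : F) :
    Function.update p 0 c = p + (c - p 0) • E 0 := by
  funext i
  rcases eq_or_ne i 0 with rfl | h <;> simp [E, *]

theorem diag_dlt (s : F) (p : Fin (k + 3) → F) :
    Matrix.diagonal (dlt (k := k) s) *ᵥ p = Function.update p 0 (s * p 0) := by
  funext i
  rw [mulVec_diagonal]
  rcases eq_or_ne i 0 with rfl | h <;> simp [dlt, *]

theorem vecMul_dlt (s : F) (p : Fin (k + 3) → F) :
    p ᵥ* Matrix.diagonal (dlt (k := k) s) = Function.update p 0 (s * p 0) := by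
  funext i
  rw [vecMul_diagonal]
  rcases eq_or_ne i 0 with rfl | h <;> simp [dlt, mul_comm, *]

theorem sp_eq {g h : Sp F k} (e : ∀ p q : Fin (k + 3) → F, smat g *ᵥ Sum.elim p q = smat h *ᵥ Sum.elim p q) :
    g = h :=
  sp_ext fun v => by rw [← Sum.elim_comp_inl_inr v]; exact e _ _

theorem em_stab {g : SL F k} (hg : g ∈ Blk F k) (y : Matrix.SpecialLinearGroup (Fin 2) F) :
    Commute (emS g) (emL y) := by
  obtain ⟨h1, h2⟩ := mem_blk.1 hg
  have h3 := inv_mulVec_eq h1
  have h4 := inv_vecMul_eq h2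
  refine sp_eq fun p q => ?_
  have a0 : (mat g *ᵥ p) 0 = p 0 := by rw [← E_dot 0 (mat g *ᵥ p), dotProduct_mulVec, h2, E_dot]
  have b0 : (q ᵥ* mat g⁻¹) 0 = q 0 := by rw [← dot_E 0 (q ᵥ* mat g⁻¹), ← dotProduct_mulVec, h3, dot_E]
  rw [smat_mul, smat_mul, ← mulVec_mulVec, ← mulVec_mulVec, emL_mulVec, emS_mulVec, emS_mulVec, emL_mulVec, a0, b0]
  simp only [update_zero_eq, mulVec_add, mulVec_smul, add_vecMul, smul_vecMul, h1, h4, a0, b0]

theorem dlt_comm (s : F) (p : Fin (k + 3) → F) :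
    Matrix.diagonal (dlt (k := k) s) *ᵥ p = p ᵥ* Matrix.diagonal (dlt s) := by rw [diag_dlt, vecMul_dlt]

theorem em_scale (s : Fˣ) (g : SL F k) : emL (H' s) * emS g * (emL (H' s))⁻¹ = emS (dc s g) := by
  rw [mul_inv_eq_iff_eq_mul]
  refine sp_eq fun p q => ?_
  obtain ⟨c00, c01, c10, c11⟩ := coe_H' s
  rw [smat_mul, smat_mul, ← mulVec_mulVec, ← mulVec_mulVec, emL_mulVec, emS_mulVec, emS_mulVec, emL_mulVec,
    ← map_inv, mat_dc, mat_dc]
  simp only [c00, c01, c10, c11, zero_mul, zero_add, add_zero, ← diag_dlt]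
  congr 1
  · simp only [mulVec_mulVec, Matrix.mul_assoc, dlt_mul, ← Units.val_mul, inv_mul_cancel, Units.val_one, dlt_one,
      Matrix.mul_one]
  · simp only [dlt_comm, vecMul_vecMul, ← Matrix.mul_assoc, dlt_mul, ← Units.val_mul, inv_mul_cancel, Units.val_one,
      dlt_one, Matrix.one_mul]

theorem em_long (g : SL F k) (a : F) : smat (emS g * emL (X' a) * (emS g)⁻¹) =
    upB (Multiplicative.ofAdd (a • vecMulVec (mat g *ᵥ E 0) (mat g *ᵥ E 0))) := by
  rw [← map_inv, smat_mul, smat_mul, emL_X]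
  show levi g * fromBlocks 1 (a • vecMulVec (E 0) (E 0)) 0 1 * levi g⁻¹ = fromBlocks 1 (a • vecMulVec _ _) 0 1
  rw [conj_up, Matrix.mul_smul, Matrix.smul_mul, mul_vecMulVec, vecMulVec_mul, vecMul_transpose]

theorem em_long_eq {g g' : SL F k} (h : mat g *ᵥ E 0 = mat g' *ᵥ E 0) (a : F) :
    emS g * emL (X' a) * (emS g)⁻¹ = emS g' * emL (X' a) * (emS g')⁻¹ :=
  Subtype.ext (by
    show smat _ = smat _
    rw [em_long, em_long, h])

theorem em_w (y : Matrix.SpecialLinearGroup (Fin 2) F) (p q : Fin (k + 3) → F) :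
    smat (emS (wsw F k) * emL y * (emS (wsw F k))⁻¹) *ᵥ Sum.elim p q =
      Sum.elim (p + (y.1 0 0 * p 1 + y.1 0 1 * q 1 - p 1) • E 1)
        (q + (y.1 1 0 * p 1 + y.1 1 1 * q 1 - q 1) • E 1) := by
  obtain ⟨a1, a2, a3, a4, a5⟩ := wsw_spec (F := F) (k := k)
  have hwi : (wsw F k)⁻¹ = wsw F k := inv_eq_of_mul_eq_one_right a5
  have p0 : (mat (wsw F k) *ᵥ p) 0 = p 1 := by rw [← E_dot 0 (mat (wsw F k) *ᵥ p), dotProduct_mulVec, a4, E_dot]
  have q0 : (q ᵥ* mat (wsw F k)) 0 = q 1 := by rw [← dot_E 0 (q ᵥ* mat (wsw F k)), ← dotProduct_mulVec, a1, dot_E]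
  rw [← map_inv, smat_mul, smat_mul, hwi, ← mulVec_mulVec, ← mulVec_mulVec, emS_mulVec, hwi, emL_mulVec, p0, q0,
    emS_mulVec, hwi, update_zero_eq, update_zero_eq, p0, q0, mulVec_add, mulVec_smul, a1, add_vecMul, smul_vecMul, a4,
    ← mul_mulVec', a5, one_mulVec'', ← vecMul_mul', a5, one_vecMul'']

theorem em_ll (y y' : Matrix.SpecialLinearGroup (Fin 2) F) :
    Commute (emL y) (emS (wsw F k) * emL y' * (emS (wsw F k))⁻¹) := by
  refine sp_eq fun p q => ?_
  rw [smat_mul (emL y), smat_mul _ (emL y), ← mulVec_mulVec, ← mulVec_mulVec, em_w, emL_mulVec, emL_mulVec, em_w]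
  simp only [update_zero_eq]
  simp [E, one_ne_zero']
  congr 1 <;> module

theorem em_eqs (hgB : ∀ l, gB l ∈ Blk F k) (i : Fin 12) : eqs gB yB ω (⇑(emS (F := F) (k := k))) (⇑emL) i = 1 := by
  fin_cases i
  · exact commutatorElement_eq_one_iff_mul_comm.2 (em_stab (hgB 0) _).eq
  · exact commutatorElement_eq_one_iff_mul_comm.2 (em_stab (hgB 0) _).eq
  · exact commutatorElement_eq_one_iff_mul_comm.2 (em_stab (hgB 1) _).eq
  · exact commutatorElement_eq_one_iff_mul_comm.2 (em_stab (hgB 1) _).eq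
  · show _ * _ * _ * _ = (1 : Sp F k)
    rw [em_scale, dc_tr, mul_inv_eq_one]
    congr 2
    simp [dlt]
  · show _ * _ * _ * _ = (1 : Sp F k)
    rw [em_scale, dc_tr, mul_inv_eq_one]
    congr 2
    simp [dlt]
  · refine commutatorElement_eq_one_iff_mul_comm.2 ?_
    have h := em_long_eq (F := F) (k := k) (g := tr zero_ne_one' 1) (g' := 1)
      (by rw [tr_mulVec, one_mulVec'']; simp [E]) 1
    rw [map_one, one_mul, inv_one, mul_one, mul_inv_eq_iff_eq_mul] at h
    exact h.symm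
  · exact commutatorElement_eq_one_iff_mul_comm.2 (em_ll _ _).eq
  · exact commutatorElement_eq_one_iff_mul_comm.2 (em_ll _ _).eq
  · exact commutatorElement_eq_one_iff_mul_comm.2 (em_ll _ _).eq
  · show _ * _⁻¹ = (1 : Sp F k)
    rw [mul_inv_eq_one]
    refine Subtype.ext ?_
    show smat _ = smat _
    simp only [smat_mul]
    rw [← smat_mul, ← smat_mul]
    simp only [smat_mul]
    have e : ∀ g : SL F k, smat (emS g) * smat (emL (X' 1)) * smat (emS g)⁻¹ =
        upB (Multiplicative.ofAdd ((1 : F) • vecMulVec (mat g *ᵥ E 0) (mat g *ᵥ E 0))) := fun g => by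
      rw [← em_long, smat_mul, smat_mul]
    simp only [e]
    simp only [tg_spec, wsw_spec.1, emL_X, ← map_mul, ← ofAdd_add, one_smul]
    congr 2
    simp only [tvec, Matrix.cons_val, add_vecMulVec, vecMulVec_add]
    abel
  · show _ * _⁻¹ = (1 : Sp F k)
    rw [mul_inv_eq_one, mul_inv_eq_iff_eq_mul]
    have h01 : mat (tr (zero_ne_one' (k := k)) (1 : F)) *ᵥ E 1 = E 0 + E 1 := by
      rw [tr_mulVec, show (E 1 : Fin (k + 3) → F) 1 = 1 by simp [E], one_mul, one_smul]
      exact add_comm _ _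
    have hx : emS (tr zero_ne_one' 1) * (emS (wsw F k) * emL (X' 1) * (emS (wsw F k))⁻¹) *
        (emS (tr zero_ne_one' 1))⁻¹ = emS (tr zero_ne_one' 1 * wsw F k) * emL (X' 1) *
          (emS (tr (zero_ne_one' (k := k)) (1 : F) * wsw F k))⁻¹ := by
      rw [map_mul]; group
    have hneg : ∀ g : SL F k, smat (emS g * emL (X' (1 : F)) * (emS g)⁻¹)⁻¹ =
        upB (Multiplicative.ofAdd (-(vecMulVec (mat g *ᵥ E 0) (mat g *ᵥ E 0)))) := fun g => by
      rw [show (emS g * emL (X' (1 : F)) * (emS g)⁻¹)⁻¹ = emS g * emL (X' (1 : F))⁻¹ * (emS g)⁻¹ by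
        rw [map_inv]; group,
        show (X' (1 : F))⁻¹ = X' (-1) from inv_eq_of_mul_eq_one_right (by rw [← X'_add, add_neg_cancel, X'_zero]),
        em_long, neg_smul, one_smul]
    have hneg1 : smat (emL (k := k) (X' (1 : F)))⁻¹ =
        upB (Multiplicative.ofAdd (-(vecMulVec (E 0) (E 0) : Matrix (Fin (k + 3)) (Fin (k + 3)) F))) := by
      rw [← map_inv,
        show (X' (1 : F))⁻¹ = X' (-1) from inv_eq_of_mul_eq_one_right (by rw [← X'_add, add_neg_cancel, X'_zero]),
        emL_X, neg_smul, one_smul]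
    rw [hx]
    refine Subtype.ext ?_
    show smat (emL T' * (_ * _ * _)) = smat (_ * _)
    rw [smat_mul, smat_mul _ (emL T'), smat_mul, smat_mul _ (_ * _ * _)⁻¹, em_long, hneg, hneg1, mul_mulVec',
      wsw_spec.1, h01, ← map_mul, ← map_mul, ← ofAdd_add, ← ofAdd_add, one_smul]
    rw [show (vecMulVec (E 0 + E 1) (E 0 + E 1) + -vecMulVec (E 1) (E 1) + -vecMulVec (E 0) (E 0) :
        Matrix (Fin (k + 3)) (Fin (k + 3)) F) = vecMulVec (E 0) (E 1) + vecMulVec (E 1) (E 0) by
      simp only [add_vecMulVec, vecMulVec_add]; abel]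
    refine Matrix.ext_of_mulVec_single fun c => ?_
    rw [← Sum.elim_comp_inl_inr (Pi.single c (1 : F))]
    generalize (Pi.single c (1 : F) ∘ Sum.inl : Fin (k + 3) → F) = p
    generalize (Pi.single c (1 : F) ∘ Sum.inr : Fin (k + 3) → F) = q
    obtain ⟨c00, c01, c10, c11⟩ := coe_T' (F := F)
    have hup : upB (Multiplicative.ofAdd (vecMulVec (E 0) (E 1) + vecMulVec (E 1) (E 0) :
        Matrix (Fin (k + 3)) (Fin (k + 3)) F)) *ᵥ Sum.elim p q = Sum.elim (p + (q 1 • E 0 + q 0 • E 1)) q := by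
      show fromBlocks 1 _ 0 1 *ᵥ _ = _
      rw [fromBlocks_mulVec]
      simp [add_mulVec, vecMulVec_mulVec, E_dot]
    have hinv : (tr (one_ne_zero' (k := k)) (1 : F))⁻¹ = tr one_ne_zero' (-1) :=
      inv_eq_of_mul_eq_one_right (by rw [← tr_add, add_neg_cancel, tr_zero])
    rw [← mulVec_mulVec, ← mulVec_mulVec, hup, emL_mulVec, emL_mulVec, emS_mulVec, hinv, tr_mulVec, vecMul_tr]
    simp only [c00, c01, c10, c11, update_zero_eq]
    funext i
    rcases i with i | i <;> by_cases h0 : i = 0 <;> by_cases h1 : i = 1 <;>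
      simp_all [E, one_ne_zero', zero_ne_one'] <;> ring

end Cfsg.Agent.Lib.BoundedPres.Sp
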