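import Cfsg.Agent.Lib.BoundedPres.SpGeom
import Cfsg.Agent.Lib.SpFourPres.Bruhat

/-!
# Long root elements and the abelian radical from a Levi factor and one rank one group
-/

set_option autoImplicit false

namespace Cfsg.Agent.Lib.BoundedPres.Sp

open Equiv Matrix Cfsg.Agent.Lib.GLn Cfsg.Agent.Lib.SLTwoPres.Core

universe u v

/-- The finitely many relations. -/
structure Data (F : Type u) [Field F] (G : Type v) [Group G] (k : ℕ) where
  al : SL F k →* G
  be : Matrix.SpecialLinearGroup (Fin 2) F →* G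
  ω : Fˣ
  hω : ∀ s : Fˣ, ∃ n : ℕ, ω ^ n = s
  w : SL F k
  w0 : mat w *ᵥ E 0 = E 1
  w0' : E 1 ᵥ* mat w = E 0
  w1 : mat w *ᵥ E 1 = E 0
  w1' : E 0 ᵥ* mat w = E 1
  stab : ∀ g ∈ Blk F k, ∀ y, Commute (al g) (be y)
  sc01 : be (H' ω) * al (tr zero_ne_one' 1) * (be (H' ω))⁻¹ = al (tr zero_ne_one' (ω : F))
  sc10 : be (H' ω) * al (tr one_ne_zero' 1) * (be (H' ω))⁻¹ = al (tr one_ne_zero' ((ω⁻¹ : Fˣ) : F))
  zc : Commute (be (X' 1)) (al (tr zero_ne_one' 1))
  ll : ∀ y y', Commute (be y) (al w * be y' * (al w)⁻¹)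
  radd : ∀ g012 g01 g02 g12 g2 : SL F k, mat g012 *ᵥ E 0 = E 0 + E 1 + E 2 → mat g01 *ᵥ E 0 = E 0 + E 1 →
    mat g02 *ᵥ E 0 = E 0 + E 2 → mat g12 *ᵥ E 0 = E 1 + E 2 → mat g2 *ᵥ E 0 = E 2 →
    (∀ g g' : SL F k, mat g *ᵥ E 0 = mat g' *ᵥ E 0 →
      al g * be (X' 1) * (al g)⁻¹ = al g' * be (X' 1) * (al g')⁻¹) →
    al g012 * be (X' 1) * (al g012)⁻¹ * be (X' 1) * (al w * be (X' 1) * (al w)⁻¹) * (al g2 * be (X' 1) * (al g2)⁻¹) =
      al g01 * be (X' 1) * (al g01)⁻¹ * (al g02 * be (X' 1) * (al g02)⁻¹) * (al g12 * be (X' 1) * (al g12)⁻¹)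
  trule : be T' * (al (tr zero_ne_one' 1) * (al w * be (X' 1) * (al w)⁻¹) * (al (tr zero_ne_one' 1))⁻¹ *
    (al w * be (X' 1) * (al w)⁻¹)⁻¹ * (be (X' 1))⁻¹) * (be T')⁻¹ = al (tr one_ne_zero' 1)

variable {F : Type u} [Field F] {G : Type v} [Group G] {k : ℕ}

/-- Scaling the first coordinate. -/
def dlt (s : F) : Fin (k + 3) → F := Function.update (fun _ => 1) 0 s

theorem dlt_mul (s t : F) : (Matrix.diagonal (dlt (k := k) s) * Matrix.diagonal (dlt t) : Matrix _ _ F) = Matrix.diagonal (dlt (s * t)) := by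
  rw [diagonal_mul_diagonal]
  congr 1
  funext i
  rcases eq_or_ne i 0 with rfl | h
  · simp [dlt]
  · simp [dlt, Function.update_of_ne h]

theorem dlt_one : Matrix.diagonal (dlt (k := k) (1 : F)) = 1 := by
  rw [← diagonal_one]; congr 1; funext i
  rcases eq_or_ne i 0 with rfl | h
  · simp [dlt]
  · simp [dlt, Function.update_of_ne h]

/-- Conjugation by the scaling of the first coordinate. -/
def dc (s : Fˣ) : SL F k →* SL F k where
  toFun g := ⟨Matrix.diagonal (dlt (s : F)) * mat g * Matrix.diagonal (dlt ((s⁻¹ : Fˣ) : F)), by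
    rw [det_mul, det_mul, mul_right_comm, ← det_mul, dlt_mul, Units.mul_inv, dlt_one, det_one, one_mul]
    exact g.2⟩
  map_one' := Subtype.ext (by
    show Matrix.diagonal (dlt (s : F)) * mat (1 : SL F k) * Matrix.diagonal (dlt ((s⁻¹ : Fˣ) : F)) = _
    rw [mat, Matrix.SpecialLinearGroup.coe_one, mul_one, dlt_mul, Units.mul_inv, dlt_one])
  map_mul' g g' := Subtype.ext (by
    refine Eq.trans ?_ (Matrix.SpecialLinearGroup.coe_mul _ _).symm
    show Matrix.diagonal (dlt (s : F)) * mat (g * g') * Matrix.diagonal (dlt ((s⁻¹ : Fˣ) : F)) =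
      Matrix.diagonal (dlt (s : F)) * mat g * Matrix.diagonal (dlt ((s⁻¹ : Fˣ) : F)) *
        (Matrix.diagonal (dlt (s : F)) * mat g' * Matrix.diagonal (dlt ((s⁻¹ : Fˣ) : F)))
    rw [mat, Matrix.SpecialLinearGroup.coe_mul]
    simp only [← Matrix.mul_assoc]
    rw [Matrix.mul_assoc (Matrix.diagonal (dlt (s : F)) * mat g) (Matrix.diagonal (dlt ((s⁻¹ : Fˣ) : F))),
      dlt_mul, Units.inv_mul, dlt_one, Matrix.mul_one])

theorem mat_dc (s : Fˣ) (g : SL F k) :
    mat (dc s g) = Matrix.diagonal (dlt (s : F)) * mat g * Matrix.diagonal (dlt ((s⁻¹ : Fˣ) : F)) := rfl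

theorem dc_tr (s : Fˣ) {i j : Fin (k + 3)} (h : i ≠ j) (t : F) :
    dc s (tr h t) = tr h (dlt (s : F) i * t * dlt ((s⁻¹ : Fˣ) : F) j) := by
  refine Subtype.ext ?_
  show mat (dc s (tr h t)) = Matrix.transvection i j _
  rw [mat_dc]
  show Matrix.diagonal (dlt (s : F)) * Matrix.transvection i j t * Matrix.diagonal (dlt ((s⁻¹ : Fˣ) : F)) = _
  ext a b
  simp only [Matrix.mul_diagonal, Matrix.diagonal_mul, Matrix.transvection, Matrix.add_apply, Matrix.one_apply,
    Matrix.single_apply]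
  by_cases hab : a = b
  · subst hab
    have : ¬ (i = a ∧ j = a) := fun e => h (e.1.trans e.2.symm)
    rcases eq_or_ne a 0 with rfl | ha
    · simp [this, dlt]
    · simp [this, dlt, Function.update_of_ne ha]
  · by_cases e : i = a ∧ j = b
    · obtain ⟨rfl, rfl⟩ := e
      simp [hab]
    · simp [hab, e]

theorem dc_blk (s : Fˣ) {g : SL F k} (hg : g ∈ Blk F k) : dc s g = g := by
  obtain ⟨h1, h2⟩ := mem_blk.1 hg
  rw [mulVec_E] at h1
  rw [E_vecMul] at h2
  refine Subtype.ext ?_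
  show mat (dc s g) = mat g
  rw [mat_dc]
  ext a b
  simp only [Matrix.mul_diagonal, Matrix.diagonal_mul]
  rcases eq_or_ne a 0 with rfl | ha <;> rcases eq_or_ne b 0 with rfl | hb
  · simp [dlt]
    rw [mul_right_comm, mul_inv_cancel₀ s.ne_zero, one_mul]
  · have : mat g 0 b = 0 := by simpa [E, hb] using congrFun h2 b
    simp [this]
  · have : mat g a 0 = 0 := by simpa [E, ha] using congrFun h1 a
    simp [this]
  · simp [dlt, Function.update_of_ne ha, Function.update_of_ne hb]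

theorem dc_mulVec (s : Fˣ) (g : SL F k) :
    mat (dc s g) *ᵥ E 0 = ((s⁻¹ : Fˣ) : F) • (Matrix.diagonal (dlt (s : F)) *ᵥ (mat g *ᵥ E 0)) := by
  rw [mat_dc, ← mulVec_mulVec, ← mulVec_mulVec]
  have : Matrix.diagonal (dlt (k := k) ((s⁻¹ : Fˣ) : F)) *ᵥ E 0 = ((s⁻¹ : Fˣ) : F) • E 0 := by
    funext a
    rw [mulVec_diagonal]
    rcases eq_or_ne a 0 with rfl | ha <;> simp [dlt, E, *]
  rw [this, mulVec_smul, mulVec_smul]

/-- A block element scaling the transvections of the first two coordinates. -/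
theorem exists_scale (t : Fˣ) : ∃ d ∈ Blk F k, (∀ c, d * tr zero_ne_one' c * d⁻¹ = tr zero_ne_one' ((t : F) * c)) ∧
    (∀ c, d⁻¹ * tr one_ne_zero' c * d = tr one_ne_zero' ((t : F) * c)) ∧ mat d *ᵥ E 1 = ((t⁻¹ : Fˣ) : F) • E 1 := by
  obtain ⟨z, hz1, hz0⟩ := exists_third (1 : Fin (k + 3)) 0
  obtain ⟨g, c, -, hg, -⟩ := exists_mono (1 : Perm (Fin (k + 3))) z
    (Function.update (fun _ => (1 : F)) 1 ((t⁻¹ : Fˣ) : F)) (fun i => by
      rcases eq_or_ne i 1 with rfl | h
      · simp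
      · simp [Function.update_of_ne h])
  obtain ⟨a0, a0'⟩ := hg 0 hz0.symm
  obtain ⟨a1, a1'⟩ := hg 1 hz1.symm
  rw [Function.update_of_ne (zero_ne_one' (k := k)), Perm.one_apply, one_smul] at a0 a0'
  rw [Function.update_self, Perm.one_apply] at a1 a1'
  have e1 : ∀ c, g * tr zero_ne_one' c * g⁻¹ = tr zero_ne_one' ((t : F) * c) := fun c => by
    rw [conj_tr g zero_ne_one' zero_ne_one' c 1 _ (by rw [a0, one_smul]) a1' (Units.ne_zero _), one_mul,
      Units.val_inv_eq_inv_val, inv_inv, mul_comm]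
  have b0' := inv_vecMul_eq a0'
  have b1 : mat g⁻¹ *ᵥ E 1 = (t : F) • E 1 := by
    have := inv_mulVec_eq a1
    rw [mulVec_smul] at this
    conv_rhs => rw [← this]
    rw [smul_smul, Units.mul_inv, one_smul]
  refine ⟨g, ⟨a0, a0'⟩, e1, fun c => ?_, a1⟩
  have := conj_tr g⁻¹ one_ne_zero' one_ne_zero' c (t : F) 1 b1 (by rw [b0', one_smul]) one_ne_zero
  rw [inv_inv] at this
  rw [this, inv_one, mul_one]

namespace Data

variable (D : Data F G k)

/-- The torus element. -/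
def h : G := D.be (H' D.ω)

/-- The basic long root subgroup. -/
def z0 (a : F) : G := D.be (X' a)

theorem z0_add (a b : F) : D.z0 (a + b) = D.z0 a * D.z0 b := by rw [z0, z0, z0, X'_add, map_mul]

theorem h_z0 (a : F) : D.h * D.z0 a * D.h⁻¹ = D.z0 ((D.ω : F) ^ 2 * a) := by
  rw [h, z0, z0, ← map_inv, ← map_mul, ← map_mul, H'_conj]

theorem h_blk {g : SL F k} (hg : g ∈ Blk F k) : Commute (D.al g) D.h := D.stab g hg _

theorem h_al (g : SL F k) : D.h * D.al g * D.h⁻¹ = D.al (dc D.ω g) := by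
  have key : ((MulAut.conj D.h).toMonoidHom.comp D.al).eqLocus (D.al.comp (dc D.ω)) = ⊤ := by
    set K := ((MulAut.conj D.h).toMonoidHom.comp D.al).eqLocus (D.al.comp (dc D.ω))
    have hmem : ∀ g, D.h * D.al g * D.h⁻¹ = D.al (dc D.ω g) → g ∈ K := fun g e => e
    have hb : ∀ g ∈ Blk F k, g ∈ K := fun g hg => hmem g (by
      rw [dc_blk D.ω hg, ← (D.h_blk hg).eq, mul_inv_cancel_right])
    have h01 : ∀ t : F, tr (zero_ne_one' (k := k)) t ∈ K := by
      intro t
      rcases eq_or_ne t 0 with rfl | ht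
      · rw [tr_zero]; exact one_mem K
      obtain ⟨d, hd, hd1, -⟩ := exists_scale (k := k) (Units.mk0 t ht)
      refine hmem _ ?_
      have e : tr (zero_ne_one' (k := k)) t = d * tr zero_ne_one' 1 * d⁻¹ := by rw [hd1]; simp
      rw [dc_tr, show dlt (D.ω : F) (0 : Fin (k + 3)) = D.ω by simp [dlt],
        show dlt ((D.ω⁻¹ : Fˣ) : F) (1 : Fin (k + 3)) = 1 by simp [dlt], mul_one, e]
      have hc := D.h_blk hd
      rw [map_mul, map_mul, map_inv,
        show D.h * (D.al d * D.al (tr zero_ne_one' 1) * (D.al d)⁻¹) * D.h⁻¹ =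
          (D.h * D.al d) * D.al (tr zero_ne_one' 1) * (D.h * D.al d)⁻¹ by group, ← hc.eq,
        show D.al d * D.h * D.al (tr zero_ne_one' 1) * (D.al d * D.h)⁻¹ =
          D.al d * (D.h * D.al (tr zero_ne_one' 1) * D.h⁻¹) * (D.al d)⁻¹ by group, h, D.sc01,
        ← map_inv, ← map_mul, ← map_mul, hd1]
      rw [Units.val_mk0, mul_comm]
    have h10 : ∀ t : F, tr (one_ne_zero' (k := k)) t ∈ K := by
      intro t
      rcases eq_or_ne t 0 with rfl | ht
      · rw [tr_zero]; exact one_mem K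
      obtain ⟨d, hd, -, hd1, -⟩ := exists_scale (k := k) (Units.mk0 t ht)
      refine hmem _ ?_
      have e : tr (one_ne_zero' (k := k)) t = d⁻¹ * tr one_ne_zero' 1 * d := by rw [hd1]; simp
      rw [dc_tr, show dlt (D.ω : F) (1 : Fin (k + 3)) = 1 by simp [dlt],
        show dlt ((D.ω⁻¹ : Fˣ) : F) (0 : Fin (k + 3)) = ((D.ω⁻¹ : Fˣ) : F) by simp [dlt], one_mul, e]
      have hc := (D.h_blk hd).inv_left
      rw [map_mul, map_mul, map_inv,
        show D.h * ((D.al d)⁻¹ * D.al (tr one_ne_zero' 1) * D.al d) * D.h⁻¹ =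
          (D.h * (D.al d)⁻¹) * D.al (tr one_ne_zero' 1) * (D.h * (D.al d)⁻¹)⁻¹ by group, ← hc.eq,
        show (D.al d)⁻¹ * D.h * D.al (tr one_ne_zero' 1) * ((D.al d)⁻¹ * D.h)⁻¹ =
          (D.al d)⁻¹ * (D.h * D.al (tr one_ne_zero' 1) * D.h⁻¹) * D.al d by group, h, D.sc10,
        ← map_inv, ← map_mul, ← map_mul, hd1]
      rw [Units.val_mk0]
    refine eq_top_iff.2 fun g hg => ?_
    clear hg
    induction g using Cfsg.Agent.Lib.Classical.SL_transvection_induction with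
    | h1 => exact one_mem K
    | hmul a b ha hb' => exact mul_mem ha hb'
    | htransvec i j hij t =>
      rcases eq_or_ne i 0 with rfl | hi
      · rcases eq_or_ne j 1 with rfl | hj
        · exact h01 t
        · have hb1 := hb _ (tr_mem_blk hj.symm one_ne_zero' hij.symm 1)
          have := mul_mem (mul_mem (mul_mem (h01 t) hb1) (inv_mem (h01 t))) (inv_mem hb1)
          rwa [← commutatorElement_def, Cfsg.Agent.Lib.Classical.transvection_commutator zero_ne_one' hj.symm hij t 1,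
            mul_one] at this
      · rcases eq_or_ne j 0 with rfl | hj
        · rcases eq_or_ne i 1 with rfl | hi1
          · exact h10 t
          · have hb1 := hb _ (tr_mem_blk hi1 hi one_ne_zero' t)
            have := mul_mem (mul_mem (mul_mem hb1 (h10 1)) (inv_mem hb1)) (inv_mem (h10 1))
            rwa [← commutatorElement_def, Cfsg.Agent.Lib.Classical.transvection_commutator hi1 one_ne_zero' hij t 1,
              mul_one] at this
        · exact hb _ (tr_mem_blk hij hi hj t)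
  exact (key ▸ Subgroup.mem_top g : g ∈ ((MulAut.conj D.h).toMonoidHom.comp D.al).eqLocus (D.al.comp (dc D.ω)))

theorem hpow_z0 (a : F) (n : ℕ) : D.h ^ n * D.z0 a * (D.h ^ n)⁻¹ = D.z0 ((((D.ω ^ n : Fˣ)) : F) ^ 2 * a) := by
  induction n generalizing a with
  | zero => simp
  | succ n ih =>
    rw [pow_succ, _root_.mul_inv_rev, show D.h ^ n * D.h * D.z0 a * (D.h⁻¹ * (D.h ^ n)⁻¹) =
      D.h ^ n * (D.h * D.z0 a * D.h⁻¹) * (D.h ^ n)⁻¹ by group, D.h_z0, ih]
    congr 1
    push_cast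
    ring

theorem hpow_tr01 (n : ℕ) (t : F) : D.h ^ n * D.al (tr zero_ne_one' t) * (D.h ^ n)⁻¹ =
    D.al (tr zero_ne_one' ((((D.ω ^ n : Fˣ)) : F) * t)) := by
  induction n generalizing t with
  | zero => simp
  | succ n ih =>
    rw [pow_succ, _root_.mul_inv_rev, show D.h ^ n * D.h * D.al (tr zero_ne_one' t) * (D.h⁻¹ * (D.h ^ n)⁻¹) =
      D.h ^ n * (D.h * D.al (tr zero_ne_one' t) * D.h⁻¹) * (D.h ^ n)⁻¹ by group, D.h_al, dc_tr, ih]
    congr 2
    simp [dlt]
    ring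

variable [Finite F]

theorem eq_zero_of_hom {f : F → G} (hf : ∀ a b, f (a + b) = f a * f b) : f 0 = 1 := by
  have := hf 0 0
  rw [add_zero] at this
  exact left_eq_mul.1 this

theorem comm_tr01 (a t : F) : Commute (D.z0 a) (D.al (tr zero_ne_one' t)) := by
  rcases eq_or_ne t 0 with rfl | ht
  · rw [tr_zero, map_one]; exact Commute.one_right _
  have hall : ∀ s : F, D.al (tr zero_ne_one' t) * D.z0 (s ^ 2) * (D.al (tr zero_ne_one' t))⁻¹ = D.z0 (s ^ 2) := by
    intro s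
    rcases eq_or_ne s 0 with rfl | hs
    · rw [zero_pow two_ne_zero, eq_zero_of_hom D.z0_add, mul_one, mul_inv_cancel]
    obtain ⟨n, hn⟩ := D.hω (Units.mk0 s hs)
    have hc : Commute (D.z0 1) (D.al (tr zero_ne_one' (t / s))) := by
      obtain ⟨d, hd, hd1, -⟩ := exists_scale (k := k) (Units.mk0 (t / s) (div_ne_zero ht hs))
      have := hd1 1
      rw [mul_one, Units.val_mk0] at this
      rw [← this, map_mul, map_mul, map_inv]
      have hz := (D.stab d hd (X' 1)).symm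
      exact (hz.mul_right D.zc).mul_right hz.inv_right
    have h2 := SpFourPres.commute_conj (D.h ^ n) hc
    rw [D.hpow_z0, D.hpow_tr01, hn, Units.val_mk0, mul_one, mul_div_cancel₀ _ hs] at h2
    rw [← h2.eq, mul_inv_cancel_right]
  have := SpFourPres.eq_of_squares (fun c => D.al (tr zero_ne_one' t) * D.z0 c * (D.al (tr zero_ne_one' t))⁻¹) D.z0
    (fun x y => by simp only [D.z0_add]; group) D.z0_add hall a
  exact (mul_inv_eq_iff_eq_mul.1 this).symm

theorem fix_z0 {g : SL F k} (hg : mat g *ᵥ E 0 = E 0) (a : F) : Commute (D.al g) (D.z0 a) := by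
  let K : Subgroup (SL F k) := (Subgroup.centralizer {D.z0 a}).comap D.al
  have hmem : ∀ g, Commute (D.al g) (D.z0 a) → g ∈ K := fun g e => Subgroup.mem_centralizer_singleton_iff.2 e.eq
  have hb : ∀ g ∈ Blk F k, g ∈ K := fun g hg => hmem g (D.stab g hg _)
  have h0 : ∀ (j : Fin (k + 3)) (hj : 0 ≠ j) (t : F), tr hj t ∈ K := by
    intro j hj t
    rcases eq_or_ne j 1 with rfl | hj1
    · exact hmem _ (D.comm_tr01 a t).symm
    · have h01 := hmem _ (D.comm_tr01 a t).symm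
      have hb1 := hb _ (tr_mem_blk hj1.symm one_ne_zero' hj.symm 1)
      have := mul_mem (mul_mem (mul_mem h01 hb1) (inv_mem h01)) (inv_mem hb1)
      rwa [← commutatorElement_def, Cfsg.Agent.Lib.Classical.transvection_commutator zero_ne_one' hj1.symm hj t 1,
        mul_one] at this
  -- clear the first row
  have key : ∀ (S : Finset (Fin (k + 3))), 0 ∉ S → ∀ g : SL F k, mat g *ᵥ E 0 = E 0 →
      (∀ j, j ∉ S → (E 0 ᵥ* mat g) j = E 0 j) → g ∈ K := by
    intro S
    induction S using Finset.induction with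
    | empty =>
      intro _ g hg hr
      exact hb g ⟨hg, funext fun j => hr j (by simp)⟩
    | insert b S hbS ih =>
      intro h0S g hg hr
      simp only [Finset.mem_insert, not_or] at h0S
      have hb0 : (0 : Fin (k + 3)) ≠ b := h0S.1
      have hg00 : (E 0 ᵥ* mat g) 0 = 1 := by
        rw [hr 0 (by simp [hb0, h0S.2])]; simp [E]
      set c := (E 0 ᵥ* mat g) b
      have hmem' : g * tr hb0 (-c) ∈ K := by
        refine ih h0S.2 _ ?_ fun j hj => ?_
        · rw [mul_mulVec', tr_mulVec, show (E 0 : Fin (k + 3) → F) b = 0 by simp [E, hb0.symm], mul_zero, zero_smul,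
            add_zero, hg]
        · rw [vecMul_mul', vecMul_tr, Pi.add_apply, Pi.smul_apply, hg00, smul_eq_mul, one_mul]
          rcases eq_or_ne j b with rfl | hjb
          · simp [E, hb0.symm, c]
          · rw [hr j (by simp [hj, hjb])]
            simp [E, hjb]
      have := mul_mem hmem' (inv_mem (h0 b hb0 (-c)))
      rwa [mul_inv_cancel_right] at this
  have := key (Finset.univ.erase 0) (by simp) g hg (fun j hj => by
    simp at hj
    subst hj
    have h1 := congrFun hg 0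
    rw [mulVec_E] at h1
    rw [E_vecMul]
    exact h1)
  exact Subgroup.mem_centralizer_singleton_iff.1 this

/-- The long root element of a vector. -/
noncomputable def Z (v : Fin (k + 3) → F) (a : F) : G :=
  haveI := Classical.dec (v ≠ 0)
  if hv : v ≠ 0 then D.al (Classical.choose (exists_col v hv)) * D.z0 a * (D.al (Classical.choose (exists_col v hv)))⁻¹
  else 1

theorem Z_eq {g : SL F k} {v : Fin (k + 3) → F} (hg : mat g *ᵥ E 0 = v) (a : F) :
    D.Z v a = D.al g * D.z0 a * (D.al g)⁻¹ := by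
  have hv : v ≠ 0 := hg ▸ mulVec_ne g (E_ne 0)
  rw [Z, dif_pos hv]
  set g' := Classical.choose (exists_col v hv) with hg'def
  have hg' : mat g' *ᵥ E 0 = v := Classical.choose_spec (exists_col v hv)
  have h := D.fix_z0 (g := g⁻¹ * g') (by rw [mul_mulVec', hg', inv_mulVec_eq hg]) a
  rw [map_mul, map_inv] at h
  calc D.al g' * D.z0 a * (D.al g')⁻¹ = D.al g * (((D.al g)⁻¹ * D.al g') * D.z0 a) * (D.al g')⁻¹ := by group
    _ = D.al g * (D.z0 a * ((D.al g)⁻¹ * D.al g')) * (D.al g')⁻¹ := by rw [h.eq]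
    _ = _ := by group

theorem Z_zero (a : F) : D.Z 0 a = 1 := by simp [Z]

theorem Z_E0 (a : F) : D.Z (E 0) a = D.z0 a := by
  rw [D.Z_eq (g := 1) (one_mulVec'' _), map_one]; simp

theorem Z_E1 (a : F) : D.Z (E 1) a = D.al D.w * D.z0 a * (D.al D.w)⁻¹ := D.Z_eq D.w0 a

theorem Z_add (v : Fin (k + 3) → F) (a b : F) : D.Z v (a + b) = D.Z v a * D.Z v b := by
  rcases eq_or_ne v 0 with rfl | hv
  · simp [D.Z_zero]
  obtain ⟨g, hg⟩ := exists_col v hv
  simp only [D.Z_eq hg, D.z0_add]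
  group

theorem equiv (g : SL F k) (v : Fin (k + 3) → F) (a : F) :
    D.al g * D.Z v a * (D.al g)⁻¹ = D.Z (mat g *ᵥ v) a := by
  rcases eq_or_ne v 0 with rfl | hv
  · simp [mulVec_zero, D.Z_zero]
  obtain ⟨g', hg'⟩ := exists_col v hv
  rw [D.Z_eq hg', D.Z_eq (g := g * g') (by rw [mul_mulVec', hg']), map_mul]
  group

/-- The two forms of the action of the torus. -/
theorem h_Z' (v : Fin (k + 3) → F) (a : F) :
    D.h * D.Z v a * D.h⁻¹ =
      D.Z (((D.ω⁻¹ : Fˣ) : F) • (Matrix.diagonal (dlt (D.ω : F)) *ᵥ v)) ((D.ω : F) ^ 2 * a) := by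
  rcases eq_or_ne v 0 with rfl | hv
  · simp [mulVec_zero, D.Z_zero]
  obtain ⟨g, hg⟩ := exists_col v hv
  have e := dc_mulVec D.ω g
  rw [hg] at e
  rw [D.Z_eq hg, D.Z_eq e, ← D.h_al, ← D.h_z0]
  group

theorem scal_ω (u : Fin (k + 3) → F) (a : F) : D.Z ((D.ω : F) • u) a = D.Z u ((D.ω : F) ^ 2 * a) := by
  rcases eq_or_ne u 0 with rfl | hu
  · simp [D.Z_zero]
  -- the base vector
  have hx : mat (tr (zero_ne_one' (k := k)) (1 : F)) *ᵥ E 1 = E 0 + E 1 := by
    rw [tr_mulVec, show (E 1 : Fin (k + 3) → F) 1 = 1 by simp [E], one_mul, one_smul]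
    exact add_comm _ _
  have hg : mat (tr zero_ne_one' 1 * D.w) *ᵥ E 0 = E 0 + E 1 := by rw [mul_mulVec', D.w0, hx]
  have h1 := D.h_Z' (E 0 + E 1) a
  have hcomm : Commute D.h (D.Z (E 1) a) := by rw [D.Z_E1]; exact D.ll _ _
  have h2 : D.h * D.Z (E 0 + E 1) a * D.h⁻¹ = D.Z (Matrix.diagonal (dlt (D.ω : F)) *ᵥ (E 0 + E 1)) a := by
    rw [← hx, ← D.equiv, show D.h * (D.al (tr zero_ne_one' 1) * D.Z (E 1) a * (D.al (tr zero_ne_one' 1))⁻¹) * D.h⁻¹ =
      (D.h * D.al (tr zero_ne_one' 1) * D.h⁻¹) * (D.h * D.Z (E 1) a * D.h⁻¹) * (D.h * D.al (tr zero_ne_one' 1) * D.h⁻¹)⁻¹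
        by group, hcomm.eq, mul_inv_cancel_right, D.h_al, dc_tr, D.equiv]
    congr 1
    rw [tr_mulVec, tr_mulVec]
    funext i
    rw [mulVec_diagonal]
    rcases eq_or_ne i 0 with rfl | hi
    · simp [dlt, E]
    · simp [dlt, E, Function.update_of_ne hi, hi]
  set v' := ((D.ω⁻¹ : Fˣ) : F) • (Matrix.diagonal (dlt (D.ω : F)) *ᵥ (E 0 + E 1 : Fin (k + 3) → F)) with hv'
  have e1 : Matrix.diagonal (dlt (D.ω : F)) *ᵥ (E 0 + E 1 : Fin (k + 3) → F) = (D.ω : F) • v' := by
    rw [hv', smul_smul, Units.mul_inv, one_smul]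
  rw [h2, e1] at h1
  have hv0 : v' ≠ 0 := by
    intro e
    have h3 := congrFun e 1
    rw [hv', Pi.smul_apply, mulVec_diagonal] at h3
    simp [dlt, E] at h3
  obtain ⟨g1, hg1⟩ := exists_col v' hv0
  obtain ⟨g2, hg2⟩ := exists_col u hu
  have hgu : mat (g2 * g1⁻¹) *ᵥ v' = u := by rw [mul_mulVec', inv_mulVec_eq hg1, hg2]
  rw [← hgu, ← mulVec_smul, ← D.equiv, ← D.equiv, h1]

theorem scal (c : F) (u : Fin (k + 3) → F) (a : F) : D.Z (c • u) a = D.Z u (c ^ 2 * a) := by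
  rcases eq_or_ne c 0 with rfl | hc
  · rw [zero_smul, D.Z_zero, zero_pow two_ne_zero, zero_mul, eq_zero_of_hom (D.Z_add u)]
  obtain ⟨n, hn⟩ := D.hω (Units.mk0 c hc)
  have e : ∀ (n : ℕ) a, D.Z ((((D.ω ^ n : Fˣ)) : F) • u) a = D.Z u ((((D.ω ^ n : Fˣ)) : F) ^ 2 * a) := by
    intro n
    induction n with
    | zero => intro a; simp
    | succ n ih =>
      intro a
      rw [pow_succ', Units.val_mul, mul_smul, D.scal_ω, ih]
      congr 1
      ring
  have := e n a
  rwa [hn, Units.val_mk0] at this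

theorem h_Z (v : Fin (k + 3) → F) (a : F) :
    D.h * D.Z v a * D.h⁻¹ = D.Z (Matrix.diagonal (dlt (D.ω : F)) *ᵥ v) a := by
  rw [D.h_Z', D.scal]
  congr 1
  rw [← mul_assoc, ← mul_pow, Units.inv_mul, one_pow, one_mul]

theorem hpow_Z (n : ℕ) (v : Fin (k + 3) → F) (a : F) :
    D.h ^ n * D.Z v a * (D.h ^ n)⁻¹ = D.Z (Matrix.diagonal (dlt (((D.ω ^ n : Fˣ)) : F)) *ᵥ v) a := by
  induction n generalizing v with
  | zero => simp [dlt_one]
  | succ n ih =>
    rw [pow_succ D.h, _root_.mul_inv_rev, show D.h ^ n * D.h * D.Z v a * (D.h⁻¹ * (D.h ^ n)⁻¹) =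
      D.h ^ n * (D.h * D.Z v a * D.h⁻¹) * (D.h ^ n)⁻¹ by group, D.h_Z, ih, mulVec_mulVec, dlt_mul,
      ← Units.val_mul, ← pow_succ]

theorem Z_commute (u v : Fin (k + 3) → F) (a b : F) : Commute (D.Z u a) (D.Z v b) := by
  rcases eq_or_ne u 0 with rfl | hu
  · rw [D.Z_zero]; exact Commute.one_left _
  obtain ⟨g, hg⟩ := exists_col u hu
  set v' := mat g⁻¹ *ᵥ v
  have hv' : mat g *ᵥ v' = v := by rw [← mul_mulVec', mul_inv_cancel, one_mulVec'']
  suffices h : Commute (D.Z (E 0) a) (D.Z v' b) by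
    have := SpFourPres.commute_conj (D.al g) h
    rwa [D.equiv, D.equiv, hg, hv'] at this
  by_cases hr : ∀ j, j ≠ 0 → v' j = 0
  · have e : v' = v' 0 • E 0 := by
      funext j
      rcases eq_or_ne j 0 with rfl | hj
      · simp [E]
      · simp [E, hj, hr j hj]
    rw [e, D.scal, D.Z_E0, D.Z_E0, z0, z0]
    refine Commute.map ?_ D.be
    show X' a * X' _ = X' _ * X' a
    rw [← X'_add, ← X'_add, add_comm]
  · push_neg at hr
    obtain ⟨j, hj0, hj⟩ := hr
    set t : Fin (k + 3) → F := Function.update v' 0 0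
    obtain ⟨g1, hb1, hg1⟩ := exists_blk_col t (fun e => hj (by
      have := congrFun e j
      simp only [t, Function.update_of_ne hj0] at this
      exact this)) (Function.update_self ..)
    have hx : mat (g1 * tr zero_ne_one' (v' 0)) *ᵥ E 1 = v' := by
      rw [mul_mulVec', tr_mulVec, show (E 1 : Fin (k + 3) → F) 1 = 1 by simp [E], mul_one, mulVec_add, mulVec_smul,
        hg1, (mem_blk.1 hb1).1]
      funext i
      rcases eq_or_ne i 0 with rfl | hi
      · simp [t, E]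
      · simp [t, E, Function.update_of_ne hi, hi]
    have hfix : mat (g1 * tr zero_ne_one' (v' 0)) *ᵥ E 0 = E 0 := by
      rw [mul_mulVec', tr_mulVec, show (E 0 : Fin (k + 3) → F) 1 = 0 by simp [E], mul_zero, zero_smul, add_zero,
        (mem_blk.1 hb1).1]
    have h01 : Commute (D.Z (E 0) a) (D.Z (E 1) b) := by rw [D.Z_E0, D.Z_E1]; exact D.ll _ _
    have := SpFourPres.commute_conj (D.al (g1 * tr zero_ne_one' (v' 0))) h01
    rwa [D.equiv, D.equiv, hx, hfix] at this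

end Data

end Cfsg.Agent.Lib.BoundedPres.Sp
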