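import Cfsg.Agent.Lib.BoundedPres.SpMain
import Cfsg.Agent.Lib.GLn.CycleGen
import Cfsg.Agent.Lib.SpFourPres.Main

/-!
# Two generators of the symplectic groups
-/

set_option autoImplicit false

namespace Cfsg.Agent.Lib.BoundedPres.Sp

open Equiv Matrix Cfsg.Agent.Lib.GLn Cfsg.Agent.Lib.SLTwoPres.Core Cfsg.Agent.Lib.Classical Cfsg.Agent.Lib.Forms

universe u v

section common

variable {F : Type u} [Field F] [Finite F] {G : Type v} [Group G]

/-- Commuting elements of coprime order are powers of their product. -/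
theorem mem_of_product {H : Subgroup G} {t z : G} (hc : Commute t z) {A : ℕ} (ht : t ^ A = 1) (hz : z ^ (A + 1) = 1)
    (h : t * z ∈ H) : t ∈ H ∧ z ∈ H := by
  have ht' : t ∈ H := by
    have := pow_mem h (A + 1)
    rwa [hc.mul_pow, hz, mul_one, pow_succ, ht, one_mul] at this
  exact ⟨ht', by simpa [mul_assoc] using mul_mem (inv_mem ht') h⟩

theorem natCard_cast : ((Nat.card F : ℕ) : F) = 0 := by
  haveI : Fintype F := Fintype.ofFinite F
  rw [Nat.card_eq_fintype_card]
  exact FiniteField.cast_card_eq_zero F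

theorem unit_pow (s : Fˣ) : s ^ (Nat.card F - 1) = 1 := by
  rw [← Nat.card_units]
  exact pow_card_eq_one'

theorem card_sub_one_add : Nat.card F - 1 + 1 = Nat.card F := Nat.sub_add_cancel Finite.card_pos

/-- An additive family scaled by all units is inside once one nonzero member is. -/
theorem all_of_scaled {H : Subgroup G} (f : F → G) (h0 : f 0 = 1) (hs : ∀ (s : Fˣ) (c : F), f c ∈ H → f ((s : F) * c) ∈ H)
    {d : F} (hd : d ≠ 0) (h : f d ∈ H) (c : F) : f c ∈ H := by
  rcases eq_or_ne c 0 with rfl | hc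
  · rw [h0]; exact one_mem H
  have := hs (Units.mk0 (c / d) (div_ne_zero hc hd)) d h
  rwa [Units.val_mk0, div_mul_cancel₀ _ hd] at this

/-- An additive family containing the squares is inside. -/
theorem all_of_squares {H : Subgroup G} (f : F → G) (hf : ∀ a b, f (a + b) = f a * f b) (h : ∀ s : F, s ≠ 0 → f (s ^ 2) ∈ H)
    (c : F) : f c ∈ H := by
  have h0 : f 0 = 1 := by
    have := hf 0 0
    rw [add_zero] at this
    exact left_eq_mul.1 this
  let M : AddSubgroup F :=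
    { carrier := {c | f c ∈ H}
      add_mem' := fun {a b} ha hb => by show f (a + b) ∈ H; rw [hf]; exact mul_mem ha hb
      zero_mem' := by show f 0 ∈ H; rw [h0]; exact one_mem H
      neg_mem' := fun {a} ha => by
        show f (-a) ∈ H
        rw [show f (-a) = (f a)⁻¹ from eq_inv_of_mul_eq_one_left (by rw [← hf, neg_add_cancel, h0])]
        exact inv_mem ha }
  have : c ∈ M := by
    rw [SpFourPres.squares_span M fun s => ?_]
    · trivial
    · show f (s ^ 2) ∈ H
      rcases eq_or_ne s 0 with rfl | hs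
      · rw [zero_pow two_ne_zero, h0]; exact one_mem H
      · exact h s hs
  exact this

/-- The two unipotent families give the whole of `SL₂`. -/
theorem sl2_le {H : Subgroup G} (φ : Matrix.SpecialLinearGroup (Fin 2) F →* G) (hX : ∀ c, φ (X' c) ∈ H)
    (hY : ∀ c, φ (Y' c) ∈ H) (y : Matrix.SpecialLinearGroup (Fin 2) F) : φ y ∈ H := by
  induction y using Cfsg.Agent.Lib.Classical.SL_transvection_induction with
  | h1 => rw [map_one]; exact one_mem _
  | hmul a b ha hb => rw [map_mul]; exact mul_mem ha hb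
  | htransvec i j hij t =>
    fin_cases i <;> fin_cases j <;> first | exact absurd rfl hij | skip
    · convert hX t using 2
      exact Subtype.ext (Matrix.ext fun p q => by
        fin_cases p <;> fin_cases q <;> simp [X', Matrix.transvection, SpecialLinearGroup.transvection])
    · convert hY t using 2
      exact Subtype.ext (Matrix.ext fun p q => by
        fin_cases p <;> fin_cases q <;> simp [Y', Matrix.transvection, SpecialLinearGroup.transvection])

end common

variable {F : Type u} [Field F] {G : Type v} [Group G] {k : ℕ}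

theorem exists_cycle : ∃ c : SL F k, ∃ γ : F, γ ≠ 0 ∧ (∀ i, i ≠ Fin.last (k + 2) →
    mat c *ᵥ E i = E (i + 1) ∧ E (i + 1) ᵥ* mat c = E i) ∧
    mat c *ᵥ E (Fin.last (k + 2)) = γ • E 0 ∧ E 0 ᵥ* mat c = γ • E (Fin.last (k + 2)) := by
  obtain ⟨c, γ, hγ, hc, h1, h2⟩ := exists_mono (F := F) (finRotate (k + 3)) (Fin.last (k + 2)) (fun _ => (1 : F))
    (fun _ => one_ne_zero)
  refine ⟨c, γ, hγ, fun i hi => ?_, ?_, ?_⟩
  · obtain ⟨a, b⟩ := hc i hi
    rw [one_smul, finRotate_succ_apply] at a b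
    exact ⟨a, b⟩
  · rwa [finRotate_succ_apply, Fin.last_add_one] at h1
  · rwa [finRotate_succ_apply, Fin.last_add_one] at h2

namespace Data

variable [Finite F] (D : Data F G k) {c : SL F k} {γ : F}
  (hγ : γ ≠ 0) (hc : ∀ i, i ≠ Fin.last (k + 2) → mat c *ᵥ E i = E (i + 1) ∧ E (i + 1) ᵥ* mat c = E i)
  (hl : mat c *ᵥ E (Fin.last (k + 2)) = γ • E 0) (hl' : E 0 ᵥ* mat c = γ • E (Fin.last (k + 2)))

/-- The long cycle. -/
def cw (c : SL F k) : G := D.T * D.al c

omit [Finite F] in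
theorem add_one_ne_zero {i : Fin (k + 3)} (hi : i ≠ Fin.last (k + 2)) : i + 1 ≠ 0 := fun e => hi (by
  rw [← add_left_inj (1 : Fin (k + 3)), e, Fin.last_add_one])

omit [Finite F] in
theorem zero_ne_last : (0 : Fin (k + 3)) ≠ Fin.last (k + 2) := fun e => by
  have := congrArg Fin.val e
  simp at this

include hc in
omit [Finite F] in
theorem cw_Bi {i : Fin (k + 3)} (hi : i ≠ Fin.last (k + 2)) (y : Matrix.SpecialLinearGroup (Fin 2) F) :
    D.cw c * D.Bi i y * (D.cw c)⁻¹ = D.Bi (i + 1) y := by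
  obtain ⟨a, b⟩ := hc i hi
  have hT : Commute D.T (D.Bi (i + 1) y) := by
    have := D.Bi_commute (add_one_ne_zero hi).symm T' y
    rwa [Bi_zero] at this
  rw [cw, show D.T * D.al c * D.Bi i y * (D.T * D.al c)⁻¹ = D.T * (D.al c * D.Bi i y * (D.al c)⁻¹) * D.T⁻¹ by group,
    D.Bi_move a b, hT.eq, mul_inv_cancel_right]

omit [Finite F] in
theorem H_tr01 (s : Fˣ) (t : F) : D.H s * D.al (tr zero_ne_one' t) * (D.H s)⁻¹ = D.al (tr zero_ne_one' ((s : F) * t)) := by
  rw [D.H_al, dc_tr]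
  congr 2
  simp [dlt]

omit [Finite F] in
theorem Bi1_tr01 (s : Fˣ) (t : F) : D.Bi 1 (H' s) * D.al (tr zero_ne_one' t) * (D.Bi 1 (H' s))⁻¹ =
    D.al (tr zero_ne_one' (((s⁻¹ : Fˣ) : F) * t)) := by
  have ei := inv_mulVec_eq D.w0
  have e1 : ∀ r : F, D.al D.w * D.al (tr one_ne_zero' r) * (D.al D.w)⁻¹ = D.al (tr zero_ne_one' r) := fun r => by
    rw [← map_inv, ← map_mul, ← map_mul, conj_tr D.w one_ne_zero' zero_ne_one' r 1 1 (by rw [D.w1, one_smul])
      (by rw [D.w0', one_smul]) one_ne_zero, inv_one, one_mul, mul_one]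
  rw [D.Bi_apply D.w0 D.w0', show D.be (H' s) = D.H s from rfl, ← e1 t,
    show D.al D.w * D.H s * (D.al D.w)⁻¹ * (D.al D.w * D.al (tr one_ne_zero' t) * (D.al D.w)⁻¹) *
      (D.al D.w * D.H s * (D.al D.w)⁻¹)⁻¹ = D.al D.w * (D.H s * D.al (tr one_ne_zero' t) * (D.H s)⁻¹) * (D.al D.w)⁻¹
      by group, D.H_al, dc_tr, e1]
  congr 2
  simp [dlt, mul_comm]

include hγ hc hl hl' in
/-- The long cycle, one short and one long root subgroup generate. -/
theorem finish (hgen : D.al.range ⊔ D.be.range = ⊤) (H : Subgroup G) (hw : D.cw c ∈ H)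
    (hx : ∀ t, D.al (tr zero_ne_one' t) ∈ H) (hz : ∀ t, D.z0 t ∈ H) : H = ⊤ := by
  have hzi : ∀ (n : ℕ), n < k + 3 → ∀ t, D.Bi (Fin.ofNat (k + 3) n) (X' t) ∈ H := by
    intro n
    induction n with
    | zero =>
      intro _ t
      rw [show Fin.ofNat (k + 3) 0 = 0 from rfl, Bi_zero]
      exact hz t
    | succ n ih =>
      intro hn t
      have hv : (Fin.ofNat (k + 3) n : Fin (k + 3)) ≠ Fin.last (k + 2) := fun e => by
        have := congrArg Fin.val e
        simp [Nat.mod_eq_of_lt (show n < k + 3 by omega)] at this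
        omega
      have hs : (Fin.ofNat (k + 3) n : Fin (k + 3)) + 1 = Fin.ofNat (k + 3) (n + 1) := by
        refine Fin.ext ?_
        simp [Fin.val_add, Nat.add_mod]
      rw [← hs, ← D.cw_Bi hc hv]
      exact mul_mem (mul_mem hw (ih (by omega) t)) (inv_mem hw)
  have hlast : ∀ t, D.Z (E (Fin.last (k + 2))) t ∈ H := fun t => by
    have := hzi (k + 2) (by omega) t
    obtain ⟨W, a1, a2⟩ := exists_W (F := F) (Fin.ofNat (k + 3) (k + 2))
    rw [D.Bi_apply a1 a2, show D.be (X' t) = D.z0 t from rfl, ← D.Z_E0, D.equiv, a1] at this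
    rwa [show (Fin.ofNat (k + 3) (k + 2) : Fin (k + 3)) = Fin.last (k + 2) from Fin.ext (by simp)] at this
  have hY : ∀ t, D.be (Y' t) ∈ H := by
    intro t
    have h := mul_mem (mul_mem hw (hlast (-t / γ ^ 2))) (inv_mem hw)
    rwa [cw, show D.T * D.al c * D.Z (E (Fin.last (k + 2))) (-t / γ ^ 2) * (D.T * D.al c)⁻¹ =
      D.T * (D.al c * D.Z (E (Fin.last (k + 2))) (-t / γ ^ 2) * (D.al c)⁻¹) * D.T⁻¹ by group, D.equiv, hl, D.scal,
      mul_div_cancel₀ _ (pow_ne_zero 2 hγ), D.Z_E0, z0, T, ← map_inv, ← map_mul, ← map_mul, T'_conj, neg_neg] at h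
  have hbe : ∀ y, D.be y ∈ H := sl2_le D.be hz hY
  have hcm : D.al c ∈ H := by
    have := mul_mem (inv_mem (hbe T')) hw
    rwa [cw, T, inv_mul_cancel_left] at this
  let K := H.comap D.al
  have hK : K = ⊤ := by
    refine GLn.CycleGen.eq_top_of_adjacent (n := k + 2) (by omega) K ?_
    have hstep : ∀ n, n < k + 3 → ∀ t : F,
        SpecialLinearGroup.transvection (GLn.CycleGen.succ_ne (n := k + 2) (by omega) (Fin.ofNat (k + 3) n)) t ∈ K := by
      intro n
      induction n with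
      | zero =>
        intro _ t
        have := hx t
        show D.al _ ∈ H
        convert this using 4 <;> first | rfl | exact zero_add 1
      | succ n ih =>
        intro hn t
        have hv : (Fin.ofNat (k + 3) n : Fin (k + 3)) ≠ Fin.last (k + 2) := fun e => by
          have := congrArg Fin.val e
          simp [Nat.mod_eq_of_lt (show n < k + 3 by omega)] at this
          omega
        have hs : (Fin.ofNat (k + 3) n : Fin (k + 3)) + 1 = Fin.ofNat (k + 3) (n + 1) := by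
          refine Fin.ext ?_
          simp [Fin.val_add, Nat.add_mod]
        obtain ⟨a, b⟩ := hc _ hv
        set i : Fin (k + 3) := Fin.ofNat (k + 3) n
        by_cases hv' : i + 1 = Fin.last (k + 2)
        · have e := conj_tr c (GLn.CycleGen.succ_ne (n := k + 2) (by omega) i)
            (GLn.CycleGen.succ_ne (n := k + 2) (by omega) (i + 1)) (γ * t) 1 γ (by rw [a, one_smul])
            (by rw [hv', Fin.last_add_one, hl']) hγ
          rw [one_mul, mul_comm γ t, mul_inv_cancel_right₀ hγ] at e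
          have := mul_mem (mul_mem hcm (ih (by omega) (γ * t))) (inv_mem hcm)
          show D.al _ ∈ H
          rw [← map_inv, ← map_mul, ← map_mul] at this
          rw [mul_comm γ t] at this
          rw [e] at this
          convert this using 4 <;> first | exact hs.symm | exact congrArg (fun z : Fin (k + 3) => z + 1) hs.symm
        · obtain ⟨a', b'⟩ := hc _ hv'
          have e := conj_tr c (GLn.CycleGen.succ_ne (n := k + 2) (by omega) i)
            (GLn.CycleGen.succ_ne (n := k + 2) (by omega) (i + 1)) t 1 1 (by rw [a, one_smul])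
            (by rw [b', one_smul]) one_ne_zero
          rw [one_mul, inv_one, mul_one] at e
          have := mul_mem (mul_mem hcm (ih (by omega) t)) (inv_mem hcm)
          show D.al _ ∈ H
          rw [← map_inv, ← map_mul, ← map_mul, e] at this
          convert this using 4 <;> first | exact hs.symm | exact congrArg (fun z : Fin (k + 3) => z + 1) hs.symm
    intro i t
    have := hstep i.val i.isLt t
    convert this using 3
    all_goals exact Fin.ext (by simp [Nat.mod_eq_of_lt i.isLt])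
  refine eq_top_iff.2 (hgen ▸ sup_le ?_ ?_)
  · rintro _ ⟨g, rfl⟩
    exact (show g ∈ K from hK ▸ Subgroup.mem_top g)
  · rintro _ ⟨y, rfl⟩
    exact hbe y

include hγ hc hl hl' in
theorem gen_large (hgen : D.al.range ⊔ D.be.range = ⊤) (hq : (D.ω : F) ≠ 1) :
    Subgroup.closure ({D.H D.ω * D.Bi 1 (X' 1), D.al (tr zero_ne_one' 1) * D.cw c} : Set G) = ⊤ := by
  set H := Subgroup.closure ({D.H D.ω * D.Bi 1 (X' 1), D.al (tr zero_ne_one' 1) * D.cw c} : Set G)
  have hcm : Commute (D.H D.ω) (D.Bi 1 (X' 1)) := by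
    have := D.Bi_commute (zero_ne_one' (k := k)) (H' D.ω) (X' 1)
    rwa [Bi_zero] at this
  obtain ⟨ht, hz⟩ := mem_of_product hcm (A := Nat.card F - 1)
    (by rw [Data.H, ← map_pow, H'_pow, unit_pow, H'_one, map_one])
    (by rw [card_sub_one_add, ← map_pow, X'_pow, mul_one, natCard_cast, X'_zero, map_one])
    (show D.H D.ω * D.Bi 1 (X' 1) ∈ H from Subgroup.subset_closure (Set.mem_insert _ _))
  have hb : D.al (tr zero_ne_one' 1) * D.cw c ∈ H := Subgroup.subset_closure (Set.mem_insert_of_mem _ rfl)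
  have hHs : ∀ s, D.H s ∈ H := fun s => by
    obtain ⟨n, rfl⟩ := D.hω s
    rw [D.H_pow]
    exact pow_mem ht n
  have e1 : D.cw c * D.H D.ω * (D.cw c)⁻¹ = D.Bi 1 (H' D.ω) := by
    have := D.cw_Bi hc (zero_ne_last (k := k)) (H' D.ω)
    rw [Bi_zero, zero_add] at this
    exact this
  set a : F := ((D.ω⁻¹ : Fˣ) : F)
  set ω := (D.ω : F)
  have ha : ω * a = 1 := Units.mul_inv _
  have hs : D.al (tr zero_ne_one' (1 - a)) * D.Bi 1 (H' D.ω) ∈ H := by
    have h := mul_mem (mul_mem hb ht) (inv_mem hb)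
    have e : D.al (tr zero_ne_one' 1) * D.cw c * D.H D.ω * (D.al (tr zero_ne_one' 1) * D.cw c)⁻¹ =
        D.al (tr zero_ne_one' (1 - a)) * D.Bi 1 (H' D.ω) := by
      rw [show D.al (tr zero_ne_one' 1) * D.cw c * D.H D.ω * (D.al (tr zero_ne_one' 1) * D.cw c)⁻¹ =
        D.al (tr zero_ne_one' 1) * (D.cw c * D.H D.ω * (D.cw c)⁻¹) * (D.al (tr zero_ne_one' 1))⁻¹ by group, e1,
        show (D.al (tr zero_ne_one' (1 : F)))⁻¹ = D.al (tr zero_ne_one' (-1)) from
          inv_eq_of_mul_eq_one_right (by rw [← map_mul, ← tr_add, add_neg_cancel, tr_zero, map_one]),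
        mul_assoc, show D.Bi 1 (H' D.ω) * D.al (tr zero_ne_one' (-1 : F)) = D.al (tr zero_ne_one' (a * -1)) * D.Bi 1 (H' D.ω)
          by rw [← D.Bi1_tr01]; group, ← mul_assoc, ← map_mul, ← tr_add, mul_neg_one, ← sub_eq_add_neg]
    rwa [e] at h
  have hd : D.al (tr zero_ne_one' ((ω - 1) * (1 - a))) ∈ H := by
    have h := mul_mem (mul_mem (mul_mem ht hs) (inv_mem ht)) (inv_mem hs)
    have hc' : Commute (D.H D.ω) (D.Bi 1 (H' D.ω)) := by
      have := D.Bi_commute (zero_ne_one' (k := k)) (H' D.ω) (H' D.ω)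
      rwa [Bi_zero] at this
    rwa [show D.H D.ω * (D.al (tr zero_ne_one' (1 - a)) * D.Bi 1 (H' D.ω)) * (D.H D.ω)⁻¹ =
      (D.H D.ω * D.al (tr zero_ne_one' (1 - a)) * (D.H D.ω)⁻¹) * (D.H D.ω * D.Bi 1 (H' D.ω) * (D.H D.ω)⁻¹) by group,
      D.H_tr01, hc'.eq, mul_inv_cancel_right, _root_.mul_inv_rev, mul_assoc, mul_inv_cancel_left, ← map_inv,
      ← map_mul, show (tr (zero_ne_one' (k := k)) (1 - a))⁻¹ = tr zero_ne_one' (-(1 - a)) from
        inv_eq_of_mul_eq_one_right (by rw [← tr_add, add_neg_cancel, tr_zero]), ← tr_add,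
      show ω * (1 - a) + -(1 - a) = (ω - 1) * (1 - a) by ring] at h
  have hd0 : (ω - 1) * (1 - a) ≠ 0 := by
    refine mul_ne_zero (sub_ne_zero.2 hq) (sub_ne_zero.2 fun e => hq ?_)
    rw [← e, mul_one] at ha
    exact ha
  have hx : ∀ t, D.al (tr zero_ne_one' t) ∈ H := all_of_scaled (fun t => D.al (tr zero_ne_one' t))
    (by rw [tr_zero, map_one]) (fun s t h => by
      have := mul_mem (mul_mem (hHs s) h) (inv_mem (hHs s))
      rwa [D.H_tr01] at this) hd0 hd
  have hw : D.cw c ∈ H := by simpa [mul_assoc] using mul_mem (inv_mem (hx 1)) hb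
  refine D.finish hγ hc hl hl' hgen H hw hx (all_of_squares D.z0 D.z0_add fun s hs' => ?_)
  have h1 : D.z0 1 ∈ H := by
    have e := D.cw_Bi hc (zero_ne_last (k := k)) (X' 1)
    rw [zero_add, Bi_zero] at e
    have := mul_mem (mul_mem (inv_mem hw) hz) hw
    rwa [← e, show (D.cw c)⁻¹ * (D.cw c * D.be (X' 1) * (D.cw c)⁻¹) * D.cw c = D.be (X' 1) by group] at this
  have := mul_mem (mul_mem (hHs (Units.mk0 s hs')) h1) (inv_mem (hHs (Units.mk0 s hs')))
  rwa [z0, Data.H, ← map_inv, ← map_mul, ← map_mul, H'_conj, Units.val_mk0, mul_one] at this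

include hγ hc hl hl' in
theorem gen_two (hgen : D.al.range ⊔ D.be.range = ⊤) (h2 : ∀ x : F, x = 0 ∨ x = 1) :
    Subgroup.closure ({D.al (tr zero_ne_one' 1 * tr one_ne_zero' 1) * D.Bi 2 (X' 1), D.cw c} : Set G) = ⊤ := by
  set H := Subgroup.closure ({D.al (tr zero_ne_one' 1 * tr one_ne_zero' 1) * D.Bi 2 (X' 1), D.cw c} : Set G)
  set g : SL F k := tr zero_ne_one' 1 * tr one_ne_zero' 1
  have two : (1 : F) + 1 = 0 := (h2 (1 + 1)).resolve_right fun e => one_ne_zero (add_eq_left.1 e)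
  have g0 : mat g *ᵥ E 0 = E 1 := by
    rw [mul_mulVec', tr_mulVec, tr_mulVec]
    funext i
    by_cases h0 : i = 0 <;> by_cases h1 : i = 1 <;> simp_all [E, zero_ne_one', one_ne_zero']
  have g1 : mat g *ᵥ E 1 = E 0 + E 1 := by
    rw [mul_mulVec', tr_mulVec, tr_mulVec]
    funext i
    by_cases h0 : i = 0 <;> by_cases h1 : i = 1 <;> simp_all [E, zero_ne_one', one_ne_zero']
  have gj : ∀ j, j ≠ 0 → j ≠ 1 → mat g *ᵥ E j = E j := fun j h0 h1 => by
    rw [mul_mulVec', tr_mulVec, tr_mulVec]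
    simp [E, h0.symm, h1.symm]
  have g3 : g ^ 3 = 1 := by
    refine Subtype.ext ?_
    show mat (g ^ 3) = 1
    ext i j
    have h : (mat (g ^ 3) *ᵥ E j) i = (E j : Fin (k + 3) → F) i := by
      rw [pow_succ, pow_two, mul_mulVec', mul_mulVec']
      rcases eq_or_ne j 0 with rfl | hj0
      · simp only [g0, g1, mulVec_add, Pi.add_apply]
        linear_combination (E 1 i : F) * two
      rcases eq_or_ne j 1 with rfl | hj1
      · simp only [g0, g1, mulVec_add, Pi.add_apply]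
        linear_combination (E 0 i + E 1 i : F) * two
      · rw [gj j hj0 hj1, gj j hj0 hj1, gj j hj0 hj1]
    rw [mulVec_E] at h
    simp only at h
    rw [h]
    simp [E, Matrix.one_apply, Pi.single_apply]
  have hcm : Commute (D.al g) (D.Bi 2 (X' 1)) := by
    refine D.Bi_commute_al (gj 2 two_ne_zero'' two_ne_one'') ?_ _
    rw [vecMul_mul', vecMul_tr, vecMul_tr]
    simp [E, two_ne_zero'', two_ne_one'', two_ne_zero''.symm, two_ne_one''.symm]
  obtain ⟨hg, hz2⟩ := mem_of_product hcm (A := 3) (by rw [← map_pow, g3, map_one])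
    (by rw [← map_pow, X'_pow, mul_one, show ((3 + 1 : ℕ) : F) = 0 by
      rw [show (3 + 1 : ℕ) = 2 * 2 from rfl, Nat.cast_mul, Nat.cast_ofNat, ← one_add_one_eq_two, two, zero_mul],
      X'_zero, map_one])
    (show D.al g * D.Bi 2 (X' 1) ∈ H from Subgroup.subset_closure (Set.mem_insert _ _))
  have hw : D.cw c ∈ H := Subgroup.subset_closure (Set.mem_insert_of_mem _ rfl)
  have h1l : (1 : Fin (k + 3)) ≠ Fin.last (k + 2) := fun e => by
    have := congrArg Fin.val e
    simp at this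
  have h1 : D.z0 1 ∈ H := by
    have e := D.cw_Bi hc h1l (X' 1)
    have e' := D.cw_Bi hc (zero_ne_last (k := k)) (X' 1)
    rw [show (1 : Fin (k + 3)) + 1 = 2 from Fin.ext (by simp [Fin.val_add, Fin.val_ofNat, Nat.mod_eq_of_lt (show 2 < k + 3 by omega)])] at e
    rw [zero_add, Bi_zero] at e'
    have h := mul_mem (mul_mem (inv_mem hw) hz2) hw
    rw [← e, show (D.cw c)⁻¹ * (D.cw c * D.Bi 1 (X' 1) * (D.cw c)⁻¹) * D.cw c = D.Bi 1 (X' 1) by group] at h
    have h' := mul_mem (mul_mem (inv_mem hw) h) hw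
    rwa [← e', show (D.cw c)⁻¹ * (D.cw c * D.be (X' 1) * (D.cw c)⁻¹) * D.cw c = D.be (X' 1) by group] at h'
  have hz : ∀ t, D.z0 t ∈ H := fun t => by
    rcases h2 t with rfl | rfl
    · rw [z0, X'_zero, map_one]; exact one_mem H
    · exact h1
  -- the lower long root element at the first coordinate, hence the Weyl element
  have hzi : ∀ (n : ℕ), n < k + 3 → D.Bi (Fin.ofNat (k + 3) n) (X' 1) ∈ H := by
    intro n
    induction n with
    | zero => intro _; rw [show Fin.ofNat (k + 3) 0 = 0 from rfl, Bi_zero]; exact h1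
    | succ n ih =>
      intro hn
      have hv : (Fin.ofNat (k + 3) n : Fin (k + 3)) ≠ Fin.last (k + 2) := fun e => by
        have := congrArg Fin.val e
        simp [Nat.mod_eq_of_lt (show n < k + 3 by omega)] at this
        omega
      have hs : (Fin.ofNat (k + 3) n : Fin (k + 3)) + 1 = Fin.ofNat (k + 3) (n + 1) := by
        refine Fin.ext ?_
        simp [Fin.val_add, Nat.add_mod]
      rw [← hs, ← D.cw_Bi hc hv]
      exact mul_mem (mul_mem hw (ih (by omega))) (inv_mem hw)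
  have hY : D.be (Y' 1) ∈ H := by
    obtain ⟨W, a1, a2⟩ := exists_W (F := F) (Fin.ofNat (k + 3) (k + 2))
    have h := hzi (k + 2) (by omega)
    rw [D.Bi_apply a1 a2, show D.be (X' (1 : F)) = D.z0 1 from rfl, ← D.Z_E0, D.equiv, a1,
      show (Fin.ofNat (k + 3) (k + 2) : Fin (k + 3)) = Fin.last (k + 2) from Fin.ext (by simp)] at h
    have h' := mul_mem (mul_mem hw h) (inv_mem hw)
    have hγ1 : γ = 1 := (h2 γ).resolve_left hγ
    rwa [cw, show D.T * D.al c * D.Z (E (Fin.last (k + 2))) 1 * (D.T * D.al c)⁻¹ =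
      D.T * (D.al c * D.Z (E (Fin.last (k + 2))) 1 * (D.al c)⁻¹) * D.T⁻¹ by group, D.equiv, hl, hγ1, one_smul,
      D.Z_E0, z0, T, ← map_inv, ← map_mul, ← map_mul, T'_conj,
      show (-1 : F) = 1 from (eq_neg_of_add_eq_zero_left two).symm] at h'
  have hT : D.T ∈ H := sl2_le D.be hz (fun t => by
    rcases h2 t with rfl | rfl
    · rw [show (Y' (0 : F)) = 1 from Subtype.ext (by ext i j; fin_cases i <;> fin_cases j <;> simp [Y']), map_one]
      exact one_mem H
    · exact hY) T'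
  have hy : D.al (tr one_ne_zero' 1) ∈ H := by
    have hg2 : D.al g * (D.al g * D.z0 1 * (D.al g)⁻¹) * (D.al g)⁻¹ ∈ H :=
      mul_mem (mul_mem hg (mul_mem (mul_mem hg h1) (inv_mem hg))) (inv_mem hg)
    have hg1 : D.al g * D.z0 1 * (D.al g)⁻¹ ∈ H := mul_mem (mul_mem hg h1) (inv_mem hg)
    rw [← D.Z_E0, D.equiv, g0] at hg1 hg2
    rw [D.equiv, g1] at hg2
    have hy' : D.Yd (E 0) (E 1) 1 ∈ H :=
      mul_mem (mul_mem hg2 (inv_mem (D.Z_E0 1 ▸ h1))) (inv_mem hg1)
    rw [D.Yd_base, y] at hy'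
    simpa [mul_assoc] using mul_mem (mul_mem hT hy') (inv_mem hT)
  have hx : ∀ t, D.al (tr zero_ne_one' t) ∈ H := fun t => by
    rcases h2 t with rfl | rfl
    · rw [tr_zero, map_one]; exact one_mem H
    · have := mul_mem hg (inv_mem hy)
      rwa [map_mul, mul_inv_cancel_right] at this
  exact D.finish hγ hc hl hl' hgen H hw hx hz

end Data

/-- Two generators of `Sp_{2n}` for `n ≥ 3`. -/
theorem two_gen_big {F : Type u} [Field F] [Fintype F] (k : ℕ) :
    ∃ a b : Sp F k, Subgroup.closure ({a, b} : Set (Sp F k)) = ⊤ := by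
  classical
  obtain ⟨ω, hωo⟩ := Cfsg.Agent.Lib.SLTwoPres.Final.exists_generator F
  have hω : ∀ s : Fˣ, ∃ n : ℕ, ω ^ n = s := Cfsg.Agent.Lib.SLTwoPres.Main.card_eq ω hωo
  obtain ⟨b1, b2, hb⟩ := GLn.CycleTwoGen.exists_two_gen (F := F) (k + 1) (by omega)
  obtain ⟨y1, y2, hy⟩ := GLn.CycleTwoGen.exists_two_gen (F := F) 1 le_rfl
  let gB : Fin 2 → SL F k := ![blkHom b1, blkHom b2]
  let yB : Fin 2 → Matrix.SpecialLinearGroup (Fin 2) F := ![y1, y2]
  have hyB : Subgroup.closure (Set.range yB) = ⊤ := by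
    rw [show Set.range yB = {y1, y2} by simp [yB, Set.pair_comm]]
    exact hy
  have hgB : Blk F k ≤ Subgroup.closure (Set.range gB) := by
    refine blk_le.trans ?_
    rw [MonoidHom.range_eq_map, ← hb, MonoidHom.map_closure, Set.image_pair]
    exact Subgroup.closure_mono (by simp [gB, Set.pair_comm])
  let D := dataOf gB yB ω emS emL hω hgB hyB
    (em_eqs gB yB ω fun l => by fin_cases l <;> exact blkHom_mem _)
  obtain ⟨c, γ, hγ, hc, hl, hl'⟩ := exists_cycle (F := F) (k := k)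
  by_cases hq : (ω : F) = 1
  · refine ⟨_, _, D.gen_two hγ hc hl hl' range_sup_eq_top fun x => ?_⟩
    rcases eq_or_ne x 0 with rfl | hx
    · exact Or.inl rfl
    · obtain ⟨n, hn⟩ := hω (Units.mk0 x hx)
      have := congrArg Units.val hn
      rw [Units.val_pow_eq_pow_val, hq, one_pow, Units.val_mk0] at this
      exact Or.inr this.symm
  · exact ⟨_, _, D.gen_large hγ hc hl hl' range_sup_eq_top hq⟩

/-- Two generators of `Sp₄` over more than two elements. -/
theorem two_gen_four {F : Type u} [Field F] [Fintype F] (hF : 2 < Fintype.card F) :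
    ∃ a b : Matrix.symplecticGroup (Fin 2) F, Subgroup.closure ({a, b} : Set (Matrix.symplecticGroup (Fin 2) F)) = ⊤ := by
  classical
  obtain ⟨ω, hωo⟩ := Cfsg.Agent.Lib.SLTwoPres.Final.exists_generator F
  have hω : ∀ s : Fˣ, ∃ n : ℕ, ω ^ n = s := Cfsg.Agent.Lib.SLTwoPres.Main.card_eq ω hωo
  have hq : (ω : F) ≠ 1 := fun e => by
    rw [show ω = 1 from Units.ext e, orderOf_one] at hωo
    omega
  let D := SpFourPres.spData ω hω
  refine ⟨D.hb ω * D.x1 1, D.xa 1 * (D.nb * D.na), ?_⟩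
  set H := Subgroup.closure ({D.hb ω * D.x1 1, D.xa 1 * (D.nb * D.na)} : Set (Matrix.symplecticGroup (Fin 2) F))
  have hcm : Commute (D.hb ω) (D.x1 1) := by
    have := D.s_hb_x1 ω 1
    rw [Units.val_one, one_mul] at this
    exact mul_inv_eq_iff_eq_mul.1 this
  obtain ⟨ht, hz⟩ := mem_of_product hcm (A := Nat.card F - 1)
    (by rw [← D.hb_pow, unit_pow, SpFourPres.Data.hb, H'_one, map_one])
    (by
      rw [card_sub_one_add, SpFourPres.Data.x1, conj_pow, SpFourPres.Data.xb, ← map_pow, X'_pow, mul_one,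
        natCard_cast, X'_zero, map_one, mul_one, mul_inv_cancel])
    (show D.hb ω * D.x1 1 ∈ H from Subgroup.subset_closure (Set.mem_insert _ _))
  have hb : D.xa 1 * (D.nb * D.na) ∈ H := Subgroup.subset_closure (Set.mem_insert_of_mem _ rfl)
  have hts : ∀ s, D.hb s ∈ H := fun s => by
    obtain ⟨n, rfl⟩ := hω s
    rw [D.hb_pow]; exact pow_mem ht n
  set a : F := ((ω⁻¹ : Fˣ) : F)
  have ha : (ω : F) * a = 1 := Units.mul_inv _
  set t0 := D.ha ω * D.hb ω
  have hw0 : D.nb * D.na * D.hb ω * (D.nb * D.na)⁻¹ = t0 := by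
    rw [show D.nb * D.na * D.hb ω * (D.nb * D.na)⁻¹ = D.nb * (D.na * D.hb ω * D.na⁻¹) * D.nb⁻¹ by group, D.na_hb,
      show D.nb * (D.ha ω * D.hb ω) * D.nb⁻¹ = (D.nb * D.ha ω * D.nb⁻¹) * (D.nb * D.hb ω * D.nb⁻¹) by group, D.nb_ha,
      D.nb_hb, mul_assoc, ← D.hb_mul, pow_two, mul_inv_cancel_right]
  have st0 : ∀ t, t0 * D.xa t * t0⁻¹ = D.xa ((ω : F) * t) := fun t => by
    have := ((D.s_ha ω).mul (D.s_hb_xa ω)) t
    rwa [pow_two, mul_inv_cancel_right] at this
  have xneg : ∀ t, (D.xa t)⁻¹ = D.xa (-t) := fun t =>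
    inv_eq_of_mul_eq_one_right (by rw [← D.xa_add, add_neg_cancel, D.xa_zero])
  have hs : D.xa (1 - ω) * t0 ∈ H := by
    have h := mul_mem (mul_mem hb ht) (inv_mem hb)
    rwa [show D.xa 1 * (D.nb * D.na) * D.hb ω * (D.xa 1 * (D.nb * D.na))⁻¹ =
      D.xa 1 * (D.nb * D.na * D.hb ω * (D.nb * D.na)⁻¹) * (D.xa 1)⁻¹ by group, hw0, xneg, mul_assoc,
      show t0 * D.xa (-1) = D.xa ((ω : F) * -1) * t0 by rw [← st0]; group, ← mul_assoc, ← D.xa_add, mul_neg_one,
      ← sub_eq_add_neg] at h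
  have hd : D.xa ((a - 1) * (1 - ω)) ∈ H := by
    have h := mul_mem (mul_mem (mul_mem ht hs) (inv_mem ht)) (inv_mem hs)
    have hc : Commute (D.hb ω) t0 := (D.comm_h ω ω).symm.mul_right (Commute.refl _)
    rwa [show D.hb ω * (D.xa (1 - ω) * t0) * (D.hb ω)⁻¹ =
      (D.hb ω * D.xa (1 - ω) * (D.hb ω)⁻¹) * (D.hb ω * t0 * (D.hb ω)⁻¹) by group, D.s_hb_xa ω, hc.eq,
      mul_inv_cancel_right, _root_.mul_inv_rev, mul_assoc, mul_inv_cancel_left, xneg, ← D.xa_add,
      show ((ω⁻¹ : Fˣ) : F) * (1 - ω) + -(1 - (ω : F)) = (a - 1) * (1 - ω) by ring] at h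
  have hd0 : (a - 1) * (1 - (ω : F)) ≠ 0 := by
    refine mul_ne_zero (sub_ne_zero.2 fun e => hq ?_) (sub_ne_zero.2 (Ne.symm hq))
    rw [e, mul_one] at ha
    exact ha
  have hxa : ∀ t, D.xa t ∈ H := all_of_scaled D.xa D.xa_zero (fun s t h => by
    have := mul_mem (mul_mem (hts s⁻¹) h) (inv_mem (hts s⁻¹))
    rwa [D.s_hb_xa s⁻¹, inv_inv] at this) hd0 hd
  have hw : D.nb * D.na ∈ H := by simpa [mul_assoc] using mul_mem (inv_mem (hxa 1)) hb
  have hxb1 : D.xb 1 ∈ H := by
    have h := mul_mem (mul_mem (inv_mem hw) hz) hw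
    rwa [show (D.nb * D.na)⁻¹ * D.x1 1 * (D.nb * D.na) = D.na⁻¹ * (D.nb⁻¹ * D.x1 1 * D.nb) * D.na by group,
      show D.nb⁻¹ * D.x1 1 * D.nb = D.x1 1 by
        conv_lhs => rw [← D.nb_x1]
        group,
      SpFourPres.Data.x1, show D.na⁻¹ * (D.na * D.xb 1 * D.na⁻¹) * D.na = D.xb 1 by group] at h
  have hxb : ∀ t, D.xb t ∈ H := all_of_squares D.xb D.xb_add fun s hs' => by
    have := mul_mem (mul_mem (hts (Units.mk0 s hs')) hxb1) (inv_mem (hts (Units.mk0 s hs')))
    rwa [D.s_hb (Units.mk0 s hs'), Units.val_pow_eq_pow_val, Units.val_mk0, mul_one] at this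
  have hx1 : ∀ t, D.x1 t ∈ H := fun t => by
    have h := mul_mem (mul_mem hw (hxb t)) (inv_mem hw)
    rwa [show D.nb * D.na * D.xb t * (D.nb * D.na)⁻¹ = D.nb * (D.na * D.xb t * D.na⁻¹) * D.nb⁻¹ by group,
      ← SpFourPres.Data.x1, D.nb_x1] at h
  have hY : ∀ t, D.B (Y' t) ∈ H := fun t => by
    have h := mul_mem (mul_mem hw (hx1 (-t))) (inv_mem hw)
    rwa [show D.nb * D.na * D.x1 (-t) * (D.nb * D.na)⁻¹ = D.nb * (D.na * D.x1 (-t) * D.na⁻¹) * D.nb⁻¹ by group,
      D.na_x1, SpFourPres.Data.nb, SpFourPres.Data.xb, ← map_inv, ← map_mul, ← map_mul, T'_conj, neg_neg] at h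
  have hB : ∀ y, D.B y ∈ H := sl2_le D.B hxb hY
  have hna : D.A T' ∈ H := by
    have := mul_mem (inv_mem (hB T')) hw
    rwa [SpFourPres.Data.nb, inv_mul_cancel_left] at this
  have hA : ∀ y, D.A y ∈ H := sl2_le D.A hxa fun t => by
    have := mul_mem (mul_mem hna (hxa (-t))) (inv_mem hna)
    rwa [SpFourPres.Data.xa, ← map_inv, ← map_mul, ← map_mul, T'_conj, neg_neg] at this
  rw [eq_top_iff, ← SpFourPres.range_sup_eq_top]
  refine sup_le ?_ ?_
  · rintro _ ⟨y, rfl⟩; exact hA y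
  · rintro _ ⟨y, rfl⟩; exact hB y

/-- Two generators of `Sp_{2m}`. -/
theorem two_gen_sp {F : Type u} [Field F] [Fintype F] (m : ℕ) (hm : 2 ≤ m) (hF : m = 2 → 2 < Fintype.card F) :
    ∃ a b : Matrix.symplecticGroup (Fin m) F, Subgroup.closure ({a, b} : Set (Matrix.symplecticGroup (Fin m) F)) = ⊤ := by
  rcases Nat.lt_or_ge m 3 with h | h
  · obtain rfl : m = 2 := by omega
    exact two_gen_four (hF rfl)
  · obtain ⟨k, rfl⟩ : ∃ k, m = k + 3 := ⟨m - 3, by omega⟩
    exact two_gen_big k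

/-- Two generators of `PSp_{2m}`. -/
theorem two_gen_psp {F : Type u} [Field F] [Fintype F] (m : ℕ) (hm : 2 ≤ m) (hF : m = 2 → 2 < Fintype.card F) :
    ∃ a b : Cfsg.PSp m F, Subgroup.closure ({a, b} : Set (Cfsg.PSp m F)) = ⊤ := by
  obtain ⟨a, b, hab⟩ := two_gen_sp (F := F) m hm hF
  let q := QuotientGroup.mk' (Subgroup.center (Matrix.symplecticGroup (Fin m) F))
  refine ⟨q a, q b, ?_⟩
  rw [← Set.image_pair, ← MonoidHom.map_closure, hab]
  exact Subgroup.map_top_of_surjective q (QuotientGroup.mk'_surjective _)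

end Cfsg.Agent.Lib.BoundedPres.Sp
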