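import Mathlib

/-!
# The presentation of an alternating group by three-cycles through two fixed points
-/

set_option autoImplicit false

namespace Cfsg.Agent.Lib.BoundedPres

section star

variable {G : Type*} [Group G] {ι : Type*} (x : ι → G)

/-- The relations of the three-cycles `(o₁ o₂ i)`. -/
structure StarRel : Prop where
  cube : ∀ i, x i ^ 3 = 1
  sq : ∀ i j, i ≠ j → (x i * x j) ^ 2 = 1

variable {x}

theorem StarRel.inv_eq (h : StarRel x) (i : ι) : (x i)⁻¹ = x i * x i :=
  inv_eq_of_mul_eq_one_right (by rw [← h.cube i, pow_succ', pow_two])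

theorem StarRel.swap (h : StarRel x) {i j : ι} (hij : i ≠ j) : x i * x j = (x j)⁻¹ * (x i)⁻¹ := by
  have h2 : (x i * x j)⁻¹ = x i * x j := inv_eq_of_mul_eq_one_right (by rw [← pow_two]; exact h.sq i j hij)
  rw [← _root_.mul_inv_rev, h2]

theorem StarRel.step [DecidableEq ι] (h : StarRel x) {S : Finset ι} {c : ι} (hc : c ∉ S) (T : Finset G)
    (hT : ∀ g ∈ Subgroup.closure (x '' ↑S), g ∈ T) :
    ∃ T' : Finset G, T'.card ≤ T.card * (S.card + 3) ∧ ∀ g ∈ Subgroup.closure (x '' ↑(insert c S)), g ∈ T' := by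
  classical
  set u := x c with hu
  set H := Subgroup.closure (x '' ↑S) with hH
  have hxH : ∀ a ∈ S, x a ∈ H := fun a ha => Subgroup.subset_closure ⟨a, Finset.mem_coe.2 ha, rfl⟩
  have hne : ∀ a ∈ S, c ≠ a := fun a ha e => hc (e ▸ ha)
  let R : Finset G := ({1, u, u * u} : Finset G) ∪ S.image fun a => u * u * x a
  have h1R : (1 : G) ∈ R := by simp [R]
  have huR : u ∈ R := by simp [R]
  have huuR : u * u ∈ R := by simp [R]
  have hrR : ∀ a ∈ S, u * u * x a ∈ R := fun a ha => Finset.mem_union_right _ (Finset.mem_image_of_mem _ ha)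
  have huinv : u⁻¹ = u * u := h.inv_eq c
  have hstep : ∀ j ∈ insert c S, ∀ r ∈ R, ∃ a ∈ H, ∃ r' ∈ R, r * x j = a * r' := by
    intro j hj r hr
    simp only [R, Finset.mem_union, Finset.mem_insert, Finset.mem_singleton, Finset.mem_image] at hr
    rcases Finset.mem_insert.1 hj with rfl | hjS
    · rcases hr with (rfl | rfl | rfl) | ⟨a, ha, rfl⟩
      · exact ⟨1, one_mem _, _, huR, by rw [one_mul]⟩
      · exact ⟨1, one_mem _, _, huuR, by rw [one_mul]⟩
      · exact ⟨1, one_mem _, _, h1R, by rw [one_mul, ← huinv, inv_mul_cancel]⟩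
      · refine ⟨(x a)⁻¹, inv_mem (hxH a ha), _, hrR a ha, ?_⟩
        have e1 : x a * u = u⁻¹ * (x a)⁻¹ := h.swap (hne a ha).symm
        have e2 : u * x a = (x a)⁻¹ * u⁻¹ := h.swap (hne a ha)
        calc u * u * x a * x j = u * u * (x a * u) := by rw [hu]; group
          _ = u * (x a)⁻¹ := by rw [e1]; group
          _ = u * x a * x a := by rw [h.inv_eq a]; group
          _ = _ := by rw [e2, huinv]; group
    · rcases hr with (rfl | rfl | rfl) | ⟨a, ha, rfl⟩
      · exact ⟨x j, hxH j hjS, _, h1R, by rw [one_mul, mul_one]⟩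
      · exact ⟨(x j)⁻¹, inv_mem (hxH j hjS), _, huuR, by rw [h.swap (hne j hjS), huinv]⟩
      · exact ⟨1, one_mem _, _, hrR j hjS, by rw [one_mul]⟩
      · rcases eq_or_ne a j with rfl | haj
        · refine ⟨x a, hxH a ha, _, huR, ?_⟩
          rw [h.swap (hne a ha).symm, h.inv_eq a, huinv]
          group
        · refine ⟨x j * (x a)⁻¹, mul_mem (hxH j hjS) (inv_mem (hxH a ha)), _, hrR a ha, ?_⟩
          have e1 : x a * x j = (x j)⁻¹ * (x a)⁻¹ := h.swap haj
          have e2 : u * x a = (x a)⁻¹ * u⁻¹ := h.swap (hne a ha)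
          have e3 : x j * u = u⁻¹ * (x j)⁻¹ := h.swap (hne j hjS).symm
          calc u * u * x a * x j = u⁻¹ * (x a * x j) := by rw [huinv]; group
            _ = (u⁻¹ * (x j)⁻¹) * (x a)⁻¹ := by rw [e1]; group
            _ = x j * (u * (x a)⁻¹) := by rw [← e3]; group
            _ = x j * ((u * x a) * x a) := by rw [h.inv_eq a]; group
            _ = _ := by rw [e2, huinv]; group
  have hclo : ∀ g ∈ Subgroup.closure (x '' ↑(insert c S)), ∃ a ∈ H, ∃ r ∈ R, g = a * r := by
    intro g hg
    induction hg using Subgroup.closure_induction_right with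
    | one => exact ⟨1, one_mem _, 1, h1R, (one_mul _).symm⟩
    | mul_right g _ y hy ih =>
      obtain ⟨a, ha, r, hr, rfl⟩ := ih
      obtain ⟨j, hj, rfl⟩ := hy
      obtain ⟨b, hb, r', hr', he⟩ := hstep j (Finset.mem_coe.1 hj) r hr
      exact ⟨a * b, mul_mem ha hb, r', hr', by rw [mul_assoc, he, mul_assoc]⟩
    | mul_inv_cancel g _ y hy ih =>
      obtain ⟨a, ha, r, hr, rfl⟩ := ih
      obtain ⟨j, hj, rfl⟩ := hy
      obtain ⟨b, hb, r', hr', he⟩ := hstep j (Finset.mem_coe.1 hj) r hr
      obtain ⟨b', hb', r'', hr'', he'⟩ := hstep j (Finset.mem_coe.1 hj) r' hr'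
      refine ⟨a * b * b', mul_mem (mul_mem ha hb) hb', r'', hr'', ?_⟩
      rw [h.inv_eq j, mul_assoc a r, ← mul_assoc r, he, mul_assoc b, he']
      group
  refine ⟨(T ×ˢ R).image fun p => p.1 * p.2, Finset.card_image_le.trans ?_, fun g hg => ?_⟩
  · rw [Finset.card_product]
    refine Nat.mul_le_mul_left _ ((Finset.card_union_le _ _).trans ?_)
    rw [add_comm]
    exact Nat.add_le_add Finset.card_image_le Finset.card_le_three
  · obtain ⟨a, ha, r, hr, rfl⟩ := hclo g hg
    exact Finset.mem_image.2 ⟨(a, r), Finset.mem_product.2 ⟨hT a ha, hr⟩, rfl⟩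

/-- A group generated by such elements is no bigger than the alternating group. -/
theorem StarRel.card_le [Fintype ι] (h : StarRel x) (hgen : Subgroup.closure (Set.range x) = ⊤) :
    Finite G ∧ 2 * Nat.card G ≤ (Fintype.card ι + 2).factorial := by
  classical
  have key : ∀ S : Finset ι, ∃ T : Finset G, 2 * T.card ≤ (S.card + 2).factorial ∧
      ∀ g ∈ Subgroup.closure (x '' ↑S), g ∈ T := by
    intro S
    induction S using Finset.induction with
    | empty =>
      refine ⟨{1}, by simp, fun g hg => ?_⟩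
      simpa using hg
    | insert c S hc ih =>
      obtain ⟨T, hT, hTm⟩ := ih
      obtain ⟨T', hT', hTm'⟩ := h.step hc T hTm
      refine ⟨T', ?_, hTm'⟩
      rw [Finset.card_insert_of_notMem hc, show S.card + 1 + 2 = (S.card + 2) + 1 by omega, Nat.factorial_succ]
      calc 2 * T'.card ≤ 2 * (T.card * (S.card + 3)) := Nat.mul_le_mul_left 2 hT'
        _ = (S.card + 2 + 1) * (2 * T.card) := by ring
        _ ≤ _ := Nat.mul_le_mul_left _ hT
  obtain ⟨T, hT, hTm⟩ := key Finset.univ
  have hall : ∀ g : G, g ∈ T := fun g => hTm g (by rw [Finset.coe_univ, Set.image_univ, hgen]; trivial)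
  haveI : Fintype G := ⟨T, hall⟩
  refine ⟨inferInstance, ?_⟩
  rw [Nat.card_eq_fintype_card, ← Finset.card_univ (α := G), ← Finset.card_univ (α := ι)]
  exact le_trans (le_of_eq (congrArg (fun t : Finset G => 2 * t.card) (Finset.eq_univ_of_forall hall).symm)) hT

end star

/-- A surjection from a group that is no bigger is an isomorphism. -/
theorem nonempty_equiv_of_card {G H : Type*} [Group G] [Group H] [Finite G] (φ : G →* H)
    (hφ : Function.Surjective φ) (hle : Nat.card G ≤ Nat.card H) : Nonempty (G ≃* H) := by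
  haveI : Finite H := Finite.of_surjective φ hφ
  exact ⟨MulEquiv.ofBijective φ
    (hφ.bijective_of_nat_card_le hle)⟩

end Cfsg.Agent.Lib.BoundedPres
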